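import Cfsg.Statements.S2775
import Cfsg.Agent.GS.R6
import Cfsg.Agent.GS.Gold

set_option autoImplicit false
universe u
open Cfsg

namespace Cfsg.Agent.S2775

/-- Goldschmidt's Theorem on strongly closed abelian 2-subgroups, structural form: let S be a Sylow 2-subgroup of a finite group G and A an abelian subgroup of S strongly closed in S with respect to G; put K = ⟨A^G⟩ and let bars denote images in K/O_{2'}(K). Then K̄ = O₂(K̄)·[K̄, K̄] with O₂(K̄) central in K̄; Ā = O₂(K̄)·Ω₁(T̄) for some Sylow 2-subgroup T̄ of K̄ containing Ā (Ω₁ the subgroup generated by involutions); and [K̄, K̄] modulo its centre is a direct product of non-abelian simple Goldschmidt groups. -/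
theorem result {G : Type u} [Group G] [Finite G] (S : Sylow 2 G) (A : Subgroup G) (hA : IsMulCommutative ↥A) (hsc : Cfsg.IsStronglyClosed A (S : Subgroup G)) (K : Subgroup G) (hK : K = Subgroup.normalClosure (A : Set G)) (Q : Type u) [Group Q] (π : ↥K →* Q) (hπ : Function.Surjective π) (hker : π.ker = Cfsg.pPrimeCore 2 ↥K) : Cfsg.pCore 2 Q ⊔ commutator Q = ⊤ ∧ Cfsg.pCore 2 Q ≤ Subgroup.center Q ∧ (∃ T : Sylow 2 Q, (A.subgroupOf K).map π ≤ (T : Subgroup Q) ∧ (A.subgroupOf K).map π = Cfsg.pCore 2 Q ⊔ Cfsg.omegaOne 2 (T : Subgroup Q)) ∧ ∃ (ι : Type) (_ : Fintype ι) (L : ι → Type u) (_ : ∀ i, Group (L i)), (∀ i, IsSimpleGroup (L i) ∧ ¬ IsMulCommutative (L i) ∧ Cfsg.IsGoldschmidtGroup (L i)) ∧ Nonempty (↥(commutator Q) ⧸ Subgroup.center ↥(commutator Q) ≃* ((i : ι) → L i)) := by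
  exact Cfsg.GS.reduction (Cfsg.GS.goldSimple.goldIn G) S A hA hsc K hK Q π hπ hker

end Cfsg.Agent.S2775
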