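import Cfsg.Statements.S0767
import Cfsg.Agent.H2.Symp

set_option autoImplicit false
open Cfsg

namespace Cfsg.Agent.S0767

/-- The root group of a point: T_v(c) T_v(d) = T_v(c + d), and for A in the symplectic group with A v = a v, the conjugate A T_v(c) A⁻¹ is again some T_v(d). -/
theorem result {F : Type*} [Field F] (m : ℕ) (v : Fin m ⊕ Fin m → F) : (∀ c d : F, Cfsg.sympTransvection m v c * Cfsg.sympTransvection m v d = Cfsg.sympTransvection m v (c + d)) ∧ ∀ (A : Matrix (Fin m ⊕ Fin m) (Fin m ⊕ Fin m) F) (a : F), A ∈ Matrix.symplecticGroup (Fin m) F → A.mulVec v = a • v → ∀ c : F, ∃ d : F, A * Cfsg.sympTransvection m v c * A⁻¹ = Cfsg.sympTransvection m v d := by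
  have hA := Cfsg.H2.sympBilin_isAlt m F
  constructor
  · intro c d
    apply Matrix.toLin'.injective
    apply LinearMap.ext
    intro x
    simp only [Matrix.toLin'_apply, ← Matrix.mulVec_mulVec, Cfsg.H2.sympTransvection_mulVec,
      ← Cfsg.H2.sympBilin_apply, map_add, map_smul, LinearMap.add_apply, LinearMap.smul_apply, hA v]
    module
  · intro A a hA' hAv c
    refine ⟨a ^ 2 * c, ?_⟩
    apply Matrix.toLin'.injective
    apply LinearMap.ext
    intro x
    have hdet := SymplecticGroup.symplectic_det hA'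
    have h1 : A.mulVec (A⁻¹.mulVec x) = x := by
      rw [Matrix.mulVec_mulVec, Matrix.mul_nonsing_inv _ hdet, Matrix.one_mulVec]
    have h2 := (Cfsg.H2.mem_symplecticGroup_iff A).1 hA' (A⁻¹.mulVec x) v
    rw [h1, hAv] at h2
    simp only [Matrix.toLin'_apply, ← Matrix.mulVec_mulVec, Cfsg.H2.sympTransvection_mulVec,
      Matrix.mulVec_add, Matrix.mulVec_smul, h1, hAv, ← h2]
    simp only [← Cfsg.H2.sympBilin_apply, map_smul, smul_eq_mul]
    module

end Cfsg.Agent.S0767
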