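import Cfsg.Statements.S0822
import Cfsg.Agent.H3.Small2
import Cfsg.Agent.H2.Symp
import Cfsg.Agent.S0782
import Cfsg.Agent.S0767

set_option autoImplicit false
open Cfsg

namespace Cfsg.Agent.S0822

open Cfsg.H3 Matrix

abbrev V1 : Type := Fin 2 ⊕ Fin 2 → ZMod 3
abbrev V2 : Type := Fin 4 → F4
def t1 : ℕ := 83074297412396862455140474969850845728515953178374150397898866614180200022242497100351129372903600579667489773024368681279364175439960387668202304
def t2 : ℕ := 3160648208989943540311905216777879838567591194130572565361894997142580059678268036735206269032847059902829972233814041212736656273222315471142230636347431858773416715417911222013515980086284817842263728539801248999933597597711937760457095174613337142389327094435442960546564776885431208390778857274332297565513265462388334261379291607837682871931278390472913534175168877495055917152723000348041310697076672869169331620642080356530217609290892649780694757568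
def r1 : ℕ := 660850281063526200803406652991858283860006596631489333280972633869264213162510681155946431121691
def r2 : ℕ := 950715413700001383603784368294200351467839488710207093896718607273999361875685183354939363299392
def cls1 (x : V1) : Fin 40 := Fin.ofNat 40 ((t1 >>> (6 * ((x (.inl 0)).val + 3 * (x (.inl 1)).val +
  9 * (x (.inr 0)).val + 27 * (x (.inr 1)).val))) % 64)
def rep1 (i : Fin 40) : V1 := Sum.elim (fun j => (((r1 >>> (8 * i.val)) % 256 / 3 ^ j.val : ℕ) : ZMod 3))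
  (fun j => (((r1 >>> (8 * i.val)) % 256 / 3 ^ (j.val + 2) : ℕ) : ZMod 3))
def cd (a : F4) : ℕ := a.re.val + 2 * a.im.val
def cls2 (x : V2) : Fin 40 := Fin.ofNat 40 ((t2 >>> (6 * (cd (x 0) + 4 * cd (x 1) + 16 * cd (x 2) +
  64 * cd (x 3)))) % 64)
def rep2 (i : Fin 40) : V2 := fun k => ⟨((r2 >>> (8 * i.val + 2 * k.val) : ℕ) : ZMod 2),
  ((r2 >>> (8 * i.val + 2 * k.val + 1) : ℕ) : ZMod 2)⟩
def sf (u v : V1) : ZMod 3 := u (.inr 0) * v (.inl 0) + u (.inr 1) * v (.inl 1) -
  u (.inl 0) * v (.inr 0) - u (.inl 1) * v (.inr 1)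
def hf (u v : V2) : F4 := u 0 * (v 0 * v 0) + u 1 * (v 1 * v 1) + u 2 * (v 2 * v 2) + u 3 * (v 3 * v 3)
def w2 : F4 := ⟨1, 1⟩
theorem a1 : ∀ i, rep1 i ≠ 0 ∧ cls1 (rep1 i) = i := by decide +kernel
theorem a2 : ∀ a b c d : ZMod 3, (Sum.elim ![a, b] ![c, d] : V1) ≠ 0 → (∃ e : ZMod 3, e ≠ 0 ∧
  rep1 (cls1 (Sum.elim ![a, b] ![c, d])) = e • (Sum.elim ![a, b] ![c, d] : V1)) ∧
  ∀ e : ZMod 3, e ≠ 0 → cls1 (e • Sum.elim ![a, b] ![c, d]) = cls1 (Sum.elim ![a, b] ![c, d]) := by
  decide +kernel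
theorem b1 : ∀ i, hf (rep2 i) (rep2 i) = 1 ∧ cls2 (rep2 i) = i := by decide +kernel
theorem b2 : ∀ a b c d : F4, hf ![a, b, c, d] ![a, b, c, d] = 1 → (∃ e : F4, e ≠ 0 ∧
  rep2 (cls2 ![a, b, c, d]) = e • (![a, b, c, d] : V2)) ∧
  ∀ e : F4, e ≠ 0 → cls2 (e • ![a, b, c, d]) = cls2 ![a, b, c, d] := by
  decide +kernel
theorem key : ∀ i j, cls1 (rep1 j + sf (rep1 j) (rep1 i) • rep1 i) =
    cls2 (w2 • (rep2 j + (w2 * hf (rep2 j) (rep2 i)) • rep2 i)) := by decide +kernel
def sm (u : V2) : Matrix (Fin 4) (Fin 4) F4 := w2 • (1 + vecMulVec (w2 • u) (fun i => u i ^ 2))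
theorem c1 : ∀ i, (sm (rep2 i))ᵀ * (sm (rep2 i)).map (· ^ 2) = 1 := by decide +kernel

theorem hf_eq (u v : V2) : hermForm 4 F4 2 u v = hf u v := by
  simp [hermForm, hf, Fin.sum_univ_four, sq]

theorem sf_eq (u v : V1) : sympForm 2 (ZMod 3) u v = sf u v := by
  rw [H2.sympForm_eq, Fin.sum_univ_two, sf]; ring

theorem v1_eq (x : V1) : x = Sum.elim ![x (.inl 0), x (.inl 1)] ![x (.inr 0), x (.inr 1)] := by
  ext (i | i) <;> fin_cases i <;> rfl

theorem v2_eq (x : V2) : x = ![x 0, x 1, x 2, x 3] := by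
  ext1 i; fin_cases i <;> rfl

theorem sm_mulVec (u x : V2) : sm u *ᵥ x = w2 • (x + (w2 * hf x u) • u) := by
  rw [sm, smul_mulVec, add_mulVec, one_mulVec, vecMulVec_mulVec, ← hf_eq, dotProduct_comm,
    mul_comm, mul_smul, op_smul_eq_smul]
  rfl

theorem sm_det (u : V2) (hu : hf u u = 1) : (sm u).det = 1 := by
  rw [sm, det_smul, vecMulVec_eq Unit, det_one_add_replicateCol_mul_replicateRow, dotProduct_smul,
    dotProduct_comm, show u ⬝ᵥ (fun i => u i ^ 2) = hf u u from hf_eq u u, hu]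
  decide +kernel

/-- The chosen elements of order three. -/
def su (i : Fin 40) : SU 4 F4 2 := mkSU F4_add_sq (sm (rep2 i)) (sm_det _ (b1 i).1) (c1 i)

theorem card_su : Nat.card (SU 4 F4 2) = 25920 := by
  have := Cfsg.Agent.S0782.result (F := F4) (q := 2) card_F4 4 0 (by omega) (by omega) ⊥
    (finrank_bot _ _) (by simp [hermForm])
  rw [show (stabilizing (slToMat 4 F4) ((⊥ : Submodule F4 V2) : Set V2)) = ⊤ from by
    rw [H2.stabilizing_eq_comap, eq_top_iff]
    exact fun g _ => H2.mem_stabSub_of_forall (by simp), Subgroup.top_subgroupOf,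
    Subgroup.card_top] at this
  simp [Finset.prod_range_succ, Nat.even_iff] at this
  omega

theorem su_scalar (g : SU 4 F4 2) (h : ∀ x : V2, hf x x = 1 → ∃ c : F4, g • x = c • x) : g = 1 := by
  have e : ∀ x, g • x = suMat 4 F4 2 g *ᵥ x := fun _ => rfl
  obtain ⟨a, ha⟩ := h ![1, 0, 0, 0] (by decide +kernel)
  obtain ⟨b, hb⟩ := h ![0, 1, 0, 0] (by decide +kernel)
  obtain ⟨c, hc⟩ := h ![0, 0, 1, 0] (by decide +kernel)
  obtain ⟨d, hd⟩ := h ![0, 0, 0, 1] (by decide +kernel)
  obtain ⟨s, hs⟩ := h ![1, 1, 1, 0] (by decide +kernel)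
  obtain ⟨t, ht⟩ := h ![0, 1, 1, 1] (by decide +kernel)
  rw [show (![1, 1, 1, 0] : V2) = ![1, 0, 0, 0] + ![0, 1, 0, 0] + ![0, 0, 1, 0] by decide +kernel,
    smul_add, smul_add, ha, hb, hc] at hs
  rw [show (![0, 1, 1, 1] : V2) = ![0, 1, 0, 0] + ![0, 0, 1, 0] + ![0, 0, 0, 1] by decide +kernel,
    smul_add, smul_add, hb, hc, hd] at ht
  have h1 : a = s := by simpa using congrFun hs 0
  have h2 : b = s := by simpa using congrFun hs 1
  have h3 : c = s := by simpa using congrFun hs 2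
  have h4 : b = t := by simpa using congrFun ht 1
  have h5 : d = t := by simpa using congrFun ht 3
  have h6 : suMat 4 F4 2 g = s • (1 : Matrix _ _ F4) := by
    refine Matrix.ext_iff_mulVec.2 fun x => ?_
    have hx : x = x 0 • ![1, 0, 0, 0] + x 1 • ![0, 1, 0, 0] + x 2 • ![0, 0, 1, 0] +
        x 3 • ![0, 0, 0, 1] := by
      ext1 i; fin_cases i <;> simp
    rw [smul_mulVec, one_mulVec, hx, ← e]
    simp only [smul_comm g, ha, hb, hc, hd, smul_add, h1, h2, h3, h5, ← h4, smul_comm s]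
  have h7 : (suMat 4 F4 2 g).det = 1 := g.1.2
  rw [h6, det_smul, det_one, mul_one, Fintype.card_fin] at h7
  have h8 : ∀ s : F4, s ^ 4 = 1 → s = 1 := by decide +kernel
  apply suMat_injective
  rw [h6, h8 s h7, one_smul, map_one]

theorem center_su : Subgroup.center (SU 4 F4 2) = ⊥ := by
  refine (Subgroup.eq_bot_iff_forall _).2 fun g hg => su_scalar g fun x hx => ?_
  obtain ⟨e, he, h1⟩ := (b2 (x 0) (x 1) (x 2) (x 3) (by rwa [← v2_eq])).1
  rw [← v2_eq] at h1
  have h2 := congrArg (· • rep2 (cls2 x)) (Subgroup.mem_center_iff.1 hg (su (cls2 x)))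
  have e1 : ∀ y : V2, su (cls2 x) • y = sm (rep2 (cls2 x)) *ᵥ y := fun _ => rfl
  simp only [mul_smul, e1, sm_mulVec, (b1 _).1] at h2
  generalize hf (g • rep2 (cls2 x)) (rep2 (cls2 x)) = k at h2
  rw [smul_comm g, smul_right_inj (by decide +kernel), smul_add, add_right_inj, smul_comm g,
    smul_right_inj (by decide +kernel), one_smul, h1, smul_comm g, smul_comm,
    smul_right_inj he] at h2
  exact ⟨k, h2.symm⟩

abbrev Sp4 : Type := Matrix.symplecticGroup (Fin 2) (ZMod 3)

/-- Transvections. -/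
def tv (v : V1) (c : ZMod 3) : Sp4 := ⟨_, H2.sympTransvection_mem v c⟩

theorem tv_smul (v : V1) (c : ZMod 3) (x : V1) : tv v c • x = x + (c * sf x v) • v := by
  rw [← sf_eq]; exact H2.sympTransvection_mulVec v c x

theorem sp_ext {g h : Sp4} (e : ∀ x : V1, g • x = h • x) : g = h :=
  Subtype.ext (Matrix.ext_iff_mulVec.2 e)

theorem sp_scalar (g : Sp4) (h : ∀ x : V1, x ≠ 0 → ∃ c : ZMod 3, g • x = c • x) :
    ∃ c : ZMod 3, ∀ x : V1, g • x = c • x := by
  obtain ⟨a, ha⟩ := LinearMap.exists_eq_smul_id_of_forall_notLinearIndependent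
    (f := Matrix.toLin' g.1) fun v hv => by
      obtain ⟨c, hc⟩ := h v (hv.ne_zero 0)
      have := (LinearIndependent.pair_iff.1 hv) c (-1) (by
        rw [← hc, neg_smul, one_smul]; exact add_neg_cancel _)
      simp at this
  exact ⟨a, fun x => congrArg (fun f : V1 →ₗ[ZMod 3] V1 => f x) ha⟩

theorem main : Nonempty (Cfsg.PSU 4 F4 2 ≃* Cfsg.PSp 2 (ZMod 3)) := by
  obtain ⟨φ, hφ1, hφ2⟩ := exists_line_hom (F := ZMod 3) (G := Sp4) (fun x : V1 => x ≠ 0)
    (fun g x hx => (smul_ne_zero_iff_ne g).2 hx) cls1 rep1 a1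
    (fun x hx => by rw [v1_eq x] at hx ⊢; exact (a2 _ _ _ _ hx).1)
    (fun x hx => by rw [v1_eq x] at hx ⊢; exact (a2 _ _ _ _ hx).2)
  obtain ⟨ψ, hψ1, hψ2⟩ := exists_line_hom (F := F4) (G := SU 4 F4 2) (fun x : V2 => hf x x = 1)
    (fun g x hx => by rw [← hf_eq] at hx ⊢; exact (su_herm g x x).trans hx) cls2 rep2 b1
    (fun x hx => by rw [v2_eq x] at hx ⊢; exact (b2 _ _ _ _ hx).1)
    (fun x hx => by rw [v2_eq x] at hx ⊢; exact (b2 _ _ _ _ hx).2)
  have hψ : Function.Injective ψ := (injective_iff_map_eq_one ψ).2 fun g hg =>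
    su_scalar g ((hψ2 g).1 hg)
  have h1 : ∀ i, φ (tv (rep1 i) 1) = ψ (su i) := fun i => by
    ext1 j
    rw [hφ1, hψ1, tv_smul, one_mul, key, ← sm_mulVec]
    rfl
  have h2 : ∀ v c, φ (tv v c) ∈ ψ.range := fun v c => by
    by_cases hv : v = 0
    · rw [show tv v c = 1 from sp_ext fun x => by simp [tv_smul, hv], map_one]; exact one_mem _
    obtain ⟨e, he, h⟩ := (a2 _ _ _ _ (by rwa [← v1_eq])).1
    rw [← v1_eq] at h
    have h3 : ∀ e : ZMod 3, e ≠ 0 → e * e = 1 := by decide
    have h4 : tv (rep1 (cls1 v)) 1 = tv v 1 := sp_ext fun x => by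
      rw [tv_smul, tv_smul, h, smul_smul]
      congr 2
      simp only [sf, Pi.smul_apply, smul_eq_mul]
      linear_combination (x (.inr 0) * v (.inl 0) + x (.inr 1) * v (.inl 1) -
        x (.inl 0) * v (.inr 0) - x (.inl 1) * v (.inr 1)) * h3 e he
    have h5 : φ (tv v 1) ∈ ψ.range := ⟨_, (h1 _).symm.trans (by rw [h4])⟩
    have h6 : ∀ c : ZMod 3, c = 0 ∨ c = 1 ∨ c = 1 + 1 := by decide
    rcases h6 c with rfl | rfl | rfl
    · rw [show tv v 0 = 1 from sp_ext fun x => by simp [tv_smul], map_one]; exact one_mem _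
    · exact h5
    · rw [show tv v (1 + 1) = tv v 1 * tv v 1 from
        Subtype.ext ((Cfsg.Agent.S0767.result 2 v).1 1 1).symm, map_mul]
      exact mul_mem h5 h5
  have hle : φ.range ≤ ψ.range := by
    rw [MonoidHom.range_eq_map, ← H2.sp_closure_transvections, Subgroup.map_le_iff_le_comap,
      Subgroup.closure_le]
    rintro A ⟨w, c, h⟩
    rw [show A = tv w c from Subtype.ext h]
    exact h2 w c
  have hker : φ.ker = Subgroup.center Sp4 := by
    ext g
    rw [MonoidHom.mem_ker, hφ2, Subgroup.mem_center_iff]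
    constructor
    · intro h k
      obtain ⟨c, hc⟩ := sp_scalar g h
      exact sp_ext fun x => by rw [mul_smul, mul_smul, hc, hc, smul_comm]
    · intro h x hx
      obtain ⟨y, hy⟩ : ∃ y, sf y x ≠ 0 := by
        by_contra hcon
        push Not at hcon
        exact hx ((H2.sympBilin_nondegenerate 2 (ZMod 3)).2 x fun y => by
          rw [H2.sympBilin_apply, sf_eq, hcon])
      have h3 := congrArg (· • y) (h (tv x 1))
      simp only [mul_smul, tv_smul, smul_add, one_smul, add_right_inj, smul_comm g] at h3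
      exact ⟨(sf y x)⁻¹ * sf (g • y) x, by rw [mul_smul, h3, inv_smul_smul₀ hy]⟩
  have hk : Nat.card φ.ker ≤ 2 := by
    have h3 : ∀ g : φ.ker, ∃ c : (ZMod 3)ˣ, ∀ x : V1, g.1 • x = c.1 • x := fun g => by
      obtain ⟨c, hc⟩ := sp_scalar g ((hφ2 _).1 g.2)
      refine ⟨Units.mk0 c fun h => ?_, hc⟩
      have := hc (rep1 0)
      rw [h, zero_smul, smul_eq_zero_iff_eq] at this
      exact (a1 0).1 this
    choose f hf using h3
    refine (Nat.card_le_card_of_injective f fun a b h => Subtype.ext (sp_ext fun x => ?_)).trans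
      (by simp; decide)
    rw [hf, hf, h]
  have hc := H2.card_symplecticGroup 2 (ZMod 3)
  simp [Finset.prod_range_succ] at hc
  have hc2 := φ.ker.card_mul_index
  rw [Subgroup.index_ker] at hc2
  have hc3 : Nat.card ψ.range = 25920 := by
    rw [← card_su]; exact (Nat.card_congr (MonoidHom.ofInjective hψ).toEquiv).symm
  have heq : φ.range = ψ.range := Subgroup.eq_of_le_of_card_ge hle (by
    have : Nat.card Sp4 = 51840 := by simpa using hc
    rw [hc3]; nlinarith)
  exact ⟨((QuotientGroup.quotientMulEquivOfEq center_su).trans QuotientGroup.quotientBot).trans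
    ((MonoidHom.ofInjective hψ).trans ((MulEquiv.subgroupCongr heq.symm).trans
      ((QuotientGroup.quotientKerEquivRange φ).symm.trans
        (QuotientGroup.quotientMulEquivOfEq hker))))⟩


/-- PSU_4(2) ≅ PSp_4(3): with |F| = 4 and |K| = 3, the projective special unitary group of the standard Hermitian form on F^4 is isomorphic to PSp_4(K). -/
theorem result {F K : Type*} [Field F] [Fintype F] [Field K] [Fintype K] (hF : Fintype.card F = 4) (hK : Fintype.card K = 3) : Nonempty (Cfsg.PSU 4 F 2 ≃* Cfsg.PSp 2 K) := by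
  obtain ⟨σ⟩ := nonempty_equiv_F4 hF
  obtain ⟨τ⟩ := nonempty_equiv_zmod 3 hK
  obtain ⟨e⟩ := main
  exact ⟨(centerQuotCongr (suCongr σ 4 2)).trans (e.trans (centerQuotCongr (spCongr τ 2)).symm)⟩

end Cfsg.Agent.S0822
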