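import Cfsg.Statements.S1645
import Cfsg.Agent.H2.DC9

set_option autoImplicit false
open Cfsg

namespace Cfsg.Agent.S1645

open Subgroup Cfsg.L0 Cfsg.H8 Cfsg.FT Cfsg.BS Cfsg.BS.R Cfsg.H2.DC Equiv in
theorem aux {G : Type} {H : Type*} [Group G] [Finite G] [IsSimpleGroup G] [Group H] {n : ℕ} {z : G}
    (hz : orderOf z = 2) (ι : 𝒞₁ z ≃* H)
    (hcov : IsNonsplitDoubleCover H (alternatingGroup (Fin n))) : n = 8 ∨ n = 11 := by
  classical
  obtain ⟨h1, ⟨e⟩, h3⟩ := hcov
  have iz := ivo_of_orderOf hz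
  have : Finite H := Finite.of_equiv _ ι.toEquiv
  let z' : 𝒞₁ z := ⟨z, self_mem_cent1 z⟩
  have zz : ι z' * ι z' = 1 := by rw [← map_mul, ← map_one ι]; exact congrArg ι (Subtype.ext iz.2)
  have zc : zpowers (ι z') = center H := eq_of_card_le (zpowers_le.2 (mem_center_iff.2 fun g => by
    obtain ⟨a, rfl⟩ := ι.surjective g
    rw [← map_mul, ← map_mul]; exact congrArg ι (Subtype.ext (mem_cent1.1 a.2))))
    (by rw [h1, card_zpow, ι.orderOf_eq, ← orderOf_coe, hz])
  have mc : ∀ a : 𝒞₁ z, ι a ∈ center H ↔ a.1 = 1 ∨ a.1 = z := fun a => by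
    rw [← zc, ← MonoidHom.coe_coe, ← MonoidHom.map_zpowers, mem_map_iff_mem ι.injective]
    exact ⟨fun q => (mem_zp2 (Subtype.ext iz.2) q).imp (congrArg _) (congrArg _),
      fun q => q.elim (fun r => (Subtype.ext r : a = 1) ▸ one_mem _)
        fun r => (Subtype.ext r : a = z') ▸ mem_zpowers _⟩
  let φ : 𝒞₁ z →* alternatingGroup (Fin n) :=
    e.toMonoidHom.comp ((QuotientGroup.mk' (center H)).comp ι.toMonoidHom)
  have d0 : DC0 z fun g => if h : g ∈ 𝒞₁ z then (φ ⟨g, h⟩).1 else 1 :=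
    ⟨iz, fun a ha b hb => by
      rw [dif_pos ha, dif_pos hb, dif_pos (mul_mem ha hb)]
      exact congrArg Subtype.val (φ.map_mul ⟨a, ha⟩ ⟨b, hb⟩),
    fun a ha => by
      rw [dif_pos ha, ← mc ⟨a, ha⟩, OneMemClass.coe_eq_one, ← QuotientGroup.eq_one_iff]
      exact e.map_eq_one_iff,
    fun a ha => by rw [dif_pos ha]; exact (φ ⟨a, ha⟩).2,
    fun σ hσ => by
      obtain ⟨a, ha⟩ := (e.surjective.comp ((QuotientGroup.mk'_surjective _).comp ι.surjective)) ⟨σ, hσ⟩
      exact ⟨a, a.2, by rw [dif_pos a.2]; exact congrArg Subtype.val ha⟩⟩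
  have ns : ∀ K : Subgroup G, K ≤ 𝒞₁ z → z ∉ K → ¬ ∀ a ∈ 𝒞₁ z, a ∈ K ∨ a * z ∈ K := fun K _ k2 k3 =>
    h3 ((K.subgroupOf _).map ι.toMonoidHom) (isComplement'_of_disjoint_and_mul_eq_univ
      (disjoint_def.2 (by
        rintro _ hx ⟨a, ha, rfl⟩
        rcases (mc a).1 hx with q | q
        · exact (Subtype.ext q : a = 1) ▸ map_one _
        · exact absurd (q ▸ ha) k2))
      (Set.eq_univ_of_forall fun g => by
        obtain ⟨a, rfl⟩ := ι.surjective g
        rcases k3 a a.2 with q | q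
        · exact ⟨1, one_mem _, ι a, ⟨a, q, rfl⟩, one_mul _⟩
        · refine ⟨ι z', (mc z').2 (Or.inr rfl), ι (a * z'), ⟨a * z', q, rfl⟩, ?_⟩
          rw [map_mul, mem_center_iff.1 ((mc z').2 (Or.inr rfl))]
          simp only [← mul_assoc, zz, one_mul]))
  have d := d0.dcv ns
  obtain ⟨g, g1, g2⟩ := H5.exists_commute_conj_ne hz fun q => ns ⊥ bot_le iz.1 fun a _ => by
    have : (zpowers z).Normal := ⟨fun x hx g => by
      rwa [mem_center_iff.1 (zpowers_le.2 q hx), mul_inv_cancel_right]⟩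
    rcases mem_zp2 (x := a) iz.2 ((this.eq_bot_or_eq_top.resolve_left (zpowers_ne_bot.2 iz.1)).ge trivial)
      with rfl | rfl
    exacts [Or.inl rfl, Or.inr iz.2]
  have m : g * z * g⁻¹ ∈ 𝒞₁ z := mem_cent1.2 g1.symm
  have a1 := (d.supp8 m (iz.conj g) g2).trans (Finset.card_le_univ _)
  have a2 := d.le11 (d.cj g) m g2
  rw [Fintype.card_fin] at a1 a2
  by_contra q
  obtain ⟨k, rfl⟩ : ∃ k, n = k + 9 := ⟨n - 9, by omega⟩
  exact D9.false' ⟨d, by simp, by rw [Fintype.card_fin]; omega, g, m, g2⟩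

/-- If some involution of a finite simple group has centraliser a non-split double cover of the alternating group of degree n ≥ 5, then n is 8 or 11 (the McLaughlin and Lyons cases). -/
theorem result {G : Type*} [Group G] [Finite G] [IsSimpleGroup G] (n : ℕ) (hn : 5 ≤ n) (z : G) (hz : orderOf z = 2) (hcov : Cfsg.IsNonsplitDoubleCover (Subgroup.centralizer ({z} : Set G)) (alternatingGroup (Fin n))) : n = 8 ∨ n = 11 := by
  let e := (Shrink.mulEquiv.{0} (α := G)).symm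
  have := e.symm.isSimpleGroup
  have : Finite (Shrink.{0} G) := Finite.of_equiv _ e.toEquiv
  refine aux (z := e z) (by rw [e.orderOf_eq, hz]) ?_ hcov
  exact (MulEquiv.subgroupCongr (Subgroup.ext fun g => by
    obtain ⟨a, rfl⟩ := e.surjective g
    rw [← MonoidHom.coe_coe, Subgroup.mem_map_iff_mem e.injective, FT.mem_cent1, FT.mem_cent1, ← map_mul,
      ← map_mul]
    exact e.injective.eq_iff)).trans (e.subgroupMap _).symm

end Cfsg.Agent.S1645
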