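import Cfsg.Statements.S1710
import Cfsg.Agent.H6.Ly.Main
import Cfsg.Agent.H6.Ly.G2

set_option autoImplicit false
open Cfsg

namespace Cfsg.Agent.S1710

/-- In the presented Lyons group, the subgroup generated by the images of a, b, c, d is isomorphic to the adjoint Chevalley group of type G₂ over a field with five elements. -/
theorem result : ∃ (K : Type) (_ : Field K) (_ : Fintype K), Fintype.card K = 5 ∧ Nonempty ((((Subgroup.closure ({Cfsg.Spor.Ly.a, Cfsg.Spor.Ly.b, Cfsg.Spor.Ly.c, Cfsg.Spor.Ly.d} : Set (FreeGroup Cfsg.Spor.Ly.Gen))).map (PresentedGroup.mk (Cfsg.Spor.coxRelators Cfsg.Spor.Ly.edges ∪ {r | r ∈ Cfsg.Spor.Ly.extra})))) ≃* Cfsg.Lie.chevG2.group K) := by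
  rw [H6.map_closure_eq_gen H6.Ly.hP H6.Ly.hidx [Spor.Ly.a, Spor.Ly.b, Spor.Ly.c, Spor.Ly.d] (by ext; simp) (Ws := H6.Ly.Ws) (by decide +kernel)]
  have := H6.Ly.H.Q.simple
  obtain ⟨ψ, hψ⟩ := H6.Ly.H.lift H6.Ly.G2.good H6.Ly.G2.rels
  have h := H6.injective_of_simple ψ (x := H6.Ly.H.ev 1) (by rw [hψ]; exact H6.Ly.G2.ne1)
  exact ⟨ZMod 5, inferInstance, inferInstance, ZMod.card 5,
    ⟨(((MulEquiv.subgroupCongr H6.Ly.range_eq.symm).trans
      (MonoidHom.ofInjective H6.Ly.θ_inj).symm).trans (MonoidHom.ofInjective h)).trans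
      (MulEquiv.subgroupCongr (H6.Ly.G2.range_eq hψ H6.Ly.H.hX4))⟩⟩

end Cfsg.Agent.S1710
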