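import Cfsg.Statements.S2752
import Cfsg.Agent.H8.S4RL

set_option autoImplicit false
universe u
open Cfsg

namespace Cfsg.Agent.S2752

open Subgroup Cfsg.L0 Cfsg.H8
open scoped commutatorElement


/-- Let M be an elementary abelian 2-subgroup of a finite group L and G a subgroup of L acting faithfully on M by conjugation (G normalizes M and meets C(M) trivially). Assume O₂(G) = 1, the symmetric group of degree 3 is not involved in G, and every non-abelian composition factor of G is a Suzuki group Sz(2^(2n+1)) or a group PSL₂(3^(2n+1)). Then every elementary abelian 2-subgroup A of G satisfies |M / C_M(A)| ≥ |A|² and |[M, A]| ≥ |A|². -/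
theorem result {L : Type u} [Group L] [Finite L] (M G : Subgroup L) (hM : Cfsg.IsElementaryAbelian 2 M) (hGM : G ≤ Subgroup.normalizer (M : Set L)) (hf : G ⊓ Subgroup.centralizer (M : Set L) = ⊥) (ha : Cfsg.pCore 2 ↥G = ⊥) (hb : ¬ Cfsg.Involves (Equiv.Perm (Fin 3)) ↥G) (hc : Cfsg.IsCompositionKGroupWith Cfsg.IsSuzukiOrPSL2OddPowerThree ↥G) (A : Subgroup L) (hA : A ≤ G) (hAe : Cfsg.IsElementaryAbelian 2 A) : Nat.card A ^ 2 * Nat.card ↥(M ⊓ Subgroup.centralizer (A : Set L)) ≤ Nat.card M ∧ Nat.card A ^ 2 ≤ Nat.card ↥⁅M, A⁆ := by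
  obtain ⟨h1, h2⟩ := res_bound (R := A) (pp_of_comp (not_inv3_of_S3 hb) hc) hM hGM
    (fun D d1 d2 d3 => le_trans (H7.le_pCoreOf (isPGroup_iff_forall.2 fun x hx => (d3 x hx).imp
      fun k hk => mem_bot.1 (hf.le ⟨pow_mem (d1 hx) _, hk⟩)) d1 d2)
      ((H7.pCoreOf_eq_bot_iff.2 ha).le.trans bot_le)) hA
    (H7.commutator_le_of_le_centralizer (H7.ea_le_centralizer hAe))
    fun x hx => by rw [(H7.isElementaryAbelian_iff.1 hAe).2 x hx]; exact one_mem _
  have e : (centralizer (M : Set L)).relIndex A = Nat.card A := by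
    rw [← inf_relIndex_right, eq_bot_iff.2 (le_trans (le_inf (inf_le_right.trans hA) inf_le_left) hf.le),
      relIndex_bot_left]
  rw [e] at h1 h2
  refine ⟨?_, h2⟩
  rw [← card_inf_mul_relIndex (centralizer (A : Set L)) M, inf_comm, mul_comm]
  exact Nat.mul_le_mul_left _ h1

end Cfsg.Agent.S2752
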