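import Cfsg.Statements.S2753
import Cfsg.Agent.H8.S4Fac

set_option autoImplicit false
universe u
open Cfsg

namespace Cfsg.Agent.S2753

open Subgroup Cfsg.L0 Cfsg.H8
open scoped commutatorElement


/-- Glauberman's 2-factorization Theorem: let G be a finite group with C_G(O₂(G)) ≤ O₂(G) in which the symmetric group of degree 4 is not involved and every non-abelian composition factor is a Suzuki group Sz(2^(2n+1)) or a group PSL₂(3^(2n+1)). Then for a Sylow 2-subgroup S, G = C(Z(S)) N(J_e(S)) = C(Z(S)) N(Ĵ(S)) = C(Ω₁(Z(Ĵ(S)))) N(J_e(S)), where J_e(S) is the Thompson subgroup generated by the elementary abelian subgroups of largest order and Ĵ(S) the subgroup generated by the E-subgroups of S containing J_e(S); each product is written elementwise. -/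
theorem result {G : Type u} [Group G] [Finite G] (hchar : Subgroup.centralizer (Cfsg.pCore 2 G : Set G) ≤ Cfsg.pCore 2 G) (hfree : ¬ Cfsg.Involves (Equiv.Perm (Fin 4)) G) (hc : Cfsg.IsCompositionKGroupWith Cfsg.IsSuzukiOrPSL2OddPowerThree G) (S : Sylow 2 G) : (∀ g : G, ∃ c ∈ Subgroup.centralizer ((((S : Subgroup G) ⊓ Subgroup.centralizer ((S : Subgroup G) : Set G)) : Subgroup G) : Set G), ∃ n ∈ Subgroup.normalizer (((Cfsg.thompsonSubgroupOf 2 (S : Subgroup G)) : Subgroup G) : Set G), g = c * n) ∧ (∀ g : G, ∃ c ∈ Subgroup.centralizer ((((S : Subgroup G) ⊓ Subgroup.centralizer ((S : Subgroup G) : Set G)) : Subgroup G) : Set G), ∃ n ∈ Subgroup.normalizer ((((Cfsg.jHat ↥(S : Subgroup G)).map (S : Subgroup G).subtype) : Subgroup G) : Set G), g = c * n) ∧ (∀ g : G, ∃ c ∈ Subgroup.centralizer ((Cfsg.omegaOne 2 (((Cfsg.jHat ↥(S : Subgroup G)).map (S : Subgroup G).subtype) ⊓ Subgroup.centralizer (((Cfsg.jHat ↥(S : Subgroup G)).map (S : Subgroup G).subtype)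 : Set G))) : Set G), ∃ n ∈ Subgroup.normalizer (((Cfsg.thompsonSubgroupOf 2 (S : Subgroup G)) : Subgroup G) : Set G), g = c * n) := by
  have hG := pp_of_comp (not_inv3_of_S4 hchar hfree) hc
  have hS := isSyl_sylow S
  rw [map_jHat]
  generalize (S : Subgroup G) = S at *
  have q1 : pCore 2 G ≤ S := hS.le_of_normalizes (isPGroup_pCore 2 G) le_top (le_nn _ _)
  have z1 : S ⊓ centralizer (S : Set G) ≤ centralizer (pCore 2 G : Set G) :=
    inf_le_right.trans (centralizer_le q1)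
  have v1 := ncl_le z1 (le_nn ⊤ _)
  have v2 := v1.trans hchar
  have v3 := v1.trans (centralizer_le v2)
  have n1 := le_normalizer_ncl ⊤ (S ⊓ centralizer (S : Set G))
  have n2 := normal_of_top_le (n1.trans (H7.normalizer_le_normalizer_omegaOne 2 _))
  have c1 := fun (D : Subgroup G) (_ : D.Normal) (h : ∀ x ∈ D, ∃ k, x ^ 2 ^ k ∈ centralizer
      (omegaOne 2 (ncl ⊤ (S ⊓ centralizer (S : Set G))) : Set G)) =>
    red_ncl hS (le_centralizer_iff.1 inf_le_right) fun x hx => by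
      obtain ⟨k, hk⟩ := h x hx
      obtain ⟨j, hj⟩ := exists_pow_coprime 2 (x ^ 2 ^ k)
      exact ⟨k + j, by
        rw [pow_add, pow_mul]
        exact mem_cent_of_omega ((isPGroup_pCore 2 G).to_le v2) v3 (n1 (mem_top _)) hj (pow_mem hk _)⟩
  have c2 := (c1 _ inferInstance fun x hx => ⟨0, by simpa using hx⟩).trans (centralizer_le (le_ncl _ _))
  have e1 := H7.ea_omegaOne (p := 2) v3
  have p := p2_of_red hG e1 fun D a b => (c1 D a b).trans (centralizer_le (H7.omegaOne_le 2 _))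
  have o1 := (H7.omegaOne_le 2 _).trans (v2.trans q1)
  generalize omegaOne 2 (ncl ⊤ (S ⊓ centralizer (S : Set G))) = V at *
  have j1 : thompsonSubgroupOf 2 S ≤ centralizer (V : Set G) := H9.J_le_iff.2 fun A a =>
    (res_of_p2 (le_nn S V) fun R _ => p R).le_cent a o1 e1 a.le
  have j0 : ∀ {V : Subgroup G}, V ≤ S → IsElementaryAbelian 2 V → thompsonSubgroupOf 2 S ≤
      centralizer (V : Set G) → V ≤ thompsonSubgroupOf 2 S := fun a b c =>
    (H9.le_omegaOneCenter_J a (H7.isElementaryAbelian_iff.1 b).2 (le_centralizer_iff.1 c)).trans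
      (H7.omegaOneCenter_le _ _)
  have j2 : JH S ≤ centralizer (V : Set G) :=
    sSup_le fun U h => h.2.1 V ((j0 o1 e1 j1).trans h.2.2) (le_nn _ _) e1 fun R _ => p R
  have j3 := le_inf (H9.J_le 2 S) j1
  have s := hS.inf le_top (le_nn S (centralizer (V : Set G)))
  refine ⟨fun g => ?_, fun g => ?_, fun g => ?_⟩
  · obtain ⟨k, a, n, b, rfl⟩ := s.frattini (mem_nn g _)
    exact ⟨k, c2 a, n, H9.J_eq_of_le j3 inf_le_left ▸ H9.normalizer_le_normalizer_J 2 _ b, rfl⟩
  · obtain ⟨k, a, n, b, rfl⟩ := s.frattini (mem_nn g _)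
    exact ⟨k, c2 a, n, JH_eq_of_le j3 (le_inf JH_le j2) inf_le_left ▸ norm_JH b, rfl⟩
  have k1 := le_inf (H9.J_le 2 S) (le_ncl ⊤ (thompsonSubgroupOf 2 S))
  have k2 : S ⊓ ncl ⊤ (thompsonSubgroupOf 2 S) ≤ JH S := le_sSup ⟨inf_le_left, fun V a b c d =>
    inf_le_right.trans ((res_of_p2 b d).ncl_le_cent hG hchar hS c a), k1⟩
  have k3 := k2.trans (H7.le_centralizer_omegaOneCenter 2 _)
  have e2 := H7.ea_omegaOneCenter 2 (JH S)
  have n3 := le_normalizer_ncl ⊤ (thompsonSubgroupOf 2 S)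
  obtain ⟨k, a, n, b, rfl⟩ := (hS.inf le_top (le_top.trans n3)).frattini (n3 (mem_top g))
  have b' := H9.normalizer_le_normalizer_J 2 _ b
  rw [H9.J_eq_of_le k1 inf_le_left] at b'
  exact ⟨k, (res_of_le k3).ncl_le_cent hG hchar hS e2 ((j0 ((H7.omegaOneCenter_le _ _).trans JH_le) e2
    (k1.trans k3)).trans k1) a, n, b', rfl⟩

end Cfsg.Agent.S2753
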