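import Cfsg.Statements.S2754
import Cfsg.Agent.H8.Gold2
import Cfsg.Agent.GS.Gold

set_option autoImplicit false
open Cfsg

namespace Cfsg.Agent.S2754

/-- A finite non-abelian simple group in which the symmetric group of degree 4 is not involved is a Goldschmidt group (a group of Ree type in the involution-centralizer sense, PSL₂(2^n) with n ≥ 3, a Suzuki group, PSU₃(2^n) with n ≥ 2, PSL₂(q) with q ≥ 5 and q ≡ 3, 5 (mod 8), or the smallest Janko group), and conversely every finite non-abelian simple Goldschmidt group is S₄-free. -/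
theorem result {G : Type*} [Group G] [Finite G] [IsSimpleGroup G] (hna : ¬ IsMulCommutative G) : ¬ Cfsg.Involves (Equiv.Perm (Fin 4)) G ↔ Cfsg.IsGoldschmidtGroup G := by
  exact Cfsg.H8.s2754 Cfsg.FT.oddOrder Cfsg.GS.goldSimple hna

end Cfsg.Agent.S2754
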