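import Cfsg.Statements.S2757
import Cfsg.Agent.H8.Gold2
import Cfsg.Agent.GS.Gold

set_option autoImplicit false
universe u
open Cfsg

namespace Cfsg.Agent.S2757

/-- Let G be a finite group and T a Sylow 3-subgroup such that no nonidentity element of T is inverted by an element of the normalizer of Z(J(T)) (J(T) the Thompson subgroup generated by the abelian subgroups of largest order). Then the symmetric group of degree 3 is not involved in G, and every non-abelian composition factor of G is a Suzuki group Sz(2^(2n+1)) or PSL₂ over a field with 3^(2n+1) elements. -/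
theorem result {G : Type u} [Group G] [Finite G] (T : Sylow 3 G) (h : ∀ x ∈ (T : Subgroup G), x ≠ 1 → ∀ g ∈ Subgroup.normalizer (Cfsg.centerThompsonAOf (T : Subgroup G) : Set G), g * x * g⁻¹ ≠ x⁻¹) : ¬ Cfsg.Involves (Equiv.Perm (Fin 3)) G ∧ Cfsg.IsCompositionKGroupWith Cfsg.IsSuzukiOrPSL2OddPowerThree G := by
  exact Cfsg.H8.s2757 Cfsg.FT.oddOrder Cfsg.GS.goldSimple T h

end Cfsg.Agent.S2757
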