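import Cfsg.Statements.S2788
import Cfsg.Agent.H3.Bound

set_option autoImplicit false
open Cfsg

namespace Cfsg.Agent.S2788

/-- Let H act faithfully by conjugation on the elementary abelian p-subgroup V of a finite group with H ≅ SL₂(F), F a field with p^n elements, S a Sylow p-subgroup of H, and A ≤ S a subgroup of order at least 3 acting quadratically on V ([V, A, A] = 1). Then |V/C_V(a)| ≥ p^n for every nonidentity a ∈ A. -/
theorem result {G : Type*} [Group G] [Finite G] {p : ℕ} [Fact p.Prime] (V H : Subgroup G) (hV : Cfsg.IsElementaryAbelian p V) (hHV : H ≤ Subgroup.normalizer (V : Set G)) (hf : H ⊓ Subgroup.centralizer (V : Set G) = ⊥) {F : Type*} [Field F] [Fintype F] (n : ℕ) (hF : Fintype.card F = p ^ n) (hiso : Nonempty (↥H ≃* Matrix.SpecialLinearGroup (Fin 2) F)) (S : Sylow p ↥H) (T : Subgroup G) (hT : T = ((S : Subgroup ↥H).map H.subtype)) (A : Subgroup G) (hA : A ≤ T) (hA3 : 3 ≤ Nat.card A) (hquad : ⁅⁅V, A⁆, A⁆ = ⊥) : ∀ a ∈ A, a ≠ 1 → p ^ n ≤ ((V ⊓ Subgroup.centralizer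 ({a} : Set G))).relIndex V := by
  intro a ha h1
  have hTp : IsPGroup p T := hT ▸ S.isPGroup'.map _
  have hTH : T ≤ H := hT ▸ Subgroup.map_subtype_le _
  by_cases hn : n = 1
  · obtain ⟨k, hk⟩ := (H7.ea_isPGroup hV).index ((V ⊓ Subgroup.centralizer {a}).subgroupOf V)
    change _ ≤ Subgroup.index _
    rw [hk, hn]
    refine Nat.pow_le_pow_right (Fact.out : p.Prime).pos (Nat.pos_of_ne_zero fun h => h1 ?_)
    rw [h, pow_zero, Subgroup.index_eq_one, Subgroup.subgroupOf_eq_top] at hk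
    exact (eq_bot_iff.1 hf)
      ⟨hTH (hA ha), fun v hv => Subgroup.mem_centralizer_singleton_iff.1 (hk hv).2⟩
  obtain ⟨e⟩ := hiso
  have := charP_of_card_eq_prime_pow hF
  refine (H3.psl2_bound hF (fun h => absurd h hn) (H7.ea_isPGroup hV) hHV hf
    ((QuotientGroup.mk' _).comp e.toMonoidHom) ((QuotientGroup.mk'_surjective _).comp e.surjective)
    (fun s h2 h3 => e.injective ?_) hTp hTH (hA ha) h1).2
  rw [map_one]
  rcases H3.mk_eq_one_SL2.1 h3 with h | h
  · exact h
  have h4 := congrArg e h2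
  rw [map_pow, map_one, show e s = -1 from h] at h4
  rcases (Fact.out : p.Prime).eq_two_or_odd' with rfl | h5
  · exact h.trans (H3.neg_eq_self_SL2 CharTwo.two_eq_zero 1)
  · exact h.trans (h5.neg_one_pow.symm.trans h4)

end Cfsg.Agent.S2788
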