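import Cfsg.Statements.S2897
import Cfsg.Agent.H7.CharP

set_option autoImplicit false
open Cfsg

namespace Cfsg.Agent.S2897

open Subgroup Cfsg.H7
open Cfsg.L0 (SN)
open scoped commutatorElement

/-- Let p be a prime dividing the order of the finite group G, suppose G has parabolic characteristic p, let S be a Sylow p-subgroup of G and G₁ a normal subgroup of G. If Ω₁(Z(S ∩ G₁)) is nontrivial and contained in Ω₁(Z(S)), then G₁ has parabolic characteristic p. -/
theorem result {G : Type*} [Group G] [Finite G] {p : ℕ} [Fact p.Prime] (hdiv : p ∣ Nat.card G) (hG : Cfsg.IsOfParabolicCharacteristic p G) (S : Sylow p G) (G₁ : Subgroup G) [G₁.Normal] (hne : Cfsg.omegaOne p (((S : Subgroup G) ⊓ G₁) ⊓ Subgroup.centralizer (((S : Subgroup G) ⊓ G₁ : Subgroup G) : Set G)) ≠ ⊥) (hle : Cfsg.omegaOne p (((S : Subgroup G) ⊓ G₁) ⊓ Subgroup.centralizer (((S : Subgroup G) ⊓ G₁ : Subgroup G) : Set G)) ≤ Cfsg.omegaOne p ((S : Subgroup G) ⊓ Subgroup.centralizer ((S : Subgroup G) : Set G))) : Cfsg.IsOfParabolicCharacteristic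 p ↥G₁ := by
  rw [parabolicChar_subgroup_iff (isSylowIn_inf_normal S G₁)]
  intro z hz1 hz
  exact ((parabolicChar_iff S).mp hG z hz1 (hle hz)).of_normal inf_le_right
    (le_normalizer_inf le_normalizer_of_normal le_normalizer)

end Cfsg.Agent.S2897
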