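import Cfsg.Statements.S2898
import Cfsg.Agent.H7.CharP

set_option autoImplicit false
open Cfsg

namespace Cfsg.Agent.S2898

open Subgroup Cfsg.H7
open Cfsg.L0 (SN)
open scoped commutatorElement

/-- Let G be a finite group of even order with parabolic characteristic 2. If the centre of G ⧸ O(G) is trivial, then O(G) = 1. -/
theorem result {G : Type*} [Group G] [Finite G] (h2 : 2 ∣ Nat.card G) (hG : Cfsg.IsOfParabolicCharacteristic 2 G) [hN : (Cfsg.oddCore G).Normal] (hZ : Subgroup.center (G ⧸ Cfsg.oddCore G) = ⊥) : Cfsg.oddCore G = ⊥ := by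
  obtain ⟨S⟩ := (inferInstance : Nonempty (Sylow 2 G))
  have hpar := (parabolicChar_iff S).mp hG
  set O := oddCore G with hO
  have hOc : (Nat.card O).Coprime 2 := coprime_card_pPrimeCore 2 G
  have hfpf : ∀ z : G, z ≠ 1 → z ∈ omegaOneCenter 2 (S : Subgroup G) → O ⊓ centralizer {z} = ⊥ :=
    fun z hz1 hz => (hpar z hz1 hz).eq_bot_of_coprime inf_le_right
      (hOc.coprime_dvd_left (card_dvd_of_le inf_le_left))
      (le_normalizer_inf le_normalizer_of_normal (le_normalizer_of_le (pCoreOf_le 2 _)))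
  by_contra hne
  -- the centralizer of O has odd order
  have hC : centralizer (O : Set G) ≤ O := by
    refine le_pPrimeCore ?_
    have h1 := isSylowIn_inf_normal S (centralizer (O : Set G))
    by_contra hc
    have h2 := h1.ne_bot (by
      by_contra hd
      exact hc ((Nat.Prime.coprime_iff_not_dvd Nat.prime_two).mpr hd).symm)
    obtain ⟨z, hz, hz1, hzc, hzp⟩ := exists_central_elem h1.isPGroup S.isPGroup'
      (le_normalizer_inf le_normalizer le_normalizer_of_normal) h2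
    apply hne
    rw [← hfpf z hz1 (mem_omegaOneCenter_iff.mpr ⟨hz.1, hzc, hzp⟩)]
    exact (inf_of_le_left (le_centralizer_singleton_iff.mpr hz.2)).symm
  obtain ⟨z, hz, hz1⟩ := exists_ne_one_of_ne_bot
    (omegaOneCenter_ne_bot S.isPGroup' (S.ne_bot_of_dvd_card h2))
  have hz2 : z ^ 2 = 1 := (mem_omegaOneCenter_iff.mp hz).2.2
  have hzz : z * z = 1 := by rw [← pow_two, hz2]
  have hinv : ∀ y ∈ O, z * y * z⁻¹ = y⁻¹ := by
    let f : O → O := fun y => ⟨(y : G)⁻¹ * (z * y * z⁻¹),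
      O.mul_mem (O.inv_mem y.2) (hN.conj_mem _ y.2 z)⟩
    have hf : Function.Injective f := by
      intro a b hab
      have e : (a : G)⁻¹ * (z * a * z⁻¹) = (b : G)⁻¹ * (z * b * z⁻¹) := congrArg Subtype.val hab
      have : (b : G) * (a : G)⁻¹ ∈ O ⊓ centralizer {z} := by
        refine ⟨O.mul_mem b.2 (O.inv_mem a.2), mem_centralizer_singleton_iff.mpr ?_⟩
        calc (b : G) * (a : G)⁻¹ * z = b * ((a : G)⁻¹ * (z * a * z⁻¹)) * z * (a : G)⁻¹ := by group
          _ = z * ((b : G) * (a : G)⁻¹) := by rw [e]; group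
      rw [hfpf z hz1 hz, mem_bot, mul_inv_eq_one] at this
      exact Subtype.ext this.symm
    intro y hy
    obtain ⟨a, ha⟩ := (Finite.injective_iff_surjective.mp hf) ⟨y, hy⟩
    have e : (a : G)⁻¹ * (z * a * z⁻¹) = y := congrArg Subtype.val ha
    have hzi : z⁻¹ = z := inv_eq_of_mul_eq_one_right hzz
    rw [← e]
    calc z * ((a : G)⁻¹ * (z * a * z⁻¹)) * z⁻¹ = z * (a : G)⁻¹ * z * a * (z * z)⁻¹ := by group
      _ = z * (a : G)⁻¹ * z⁻¹ * a := by rw [hzz, hzi]; group
      _ = ((a : G)⁻¹ * (z * a * z⁻¹))⁻¹ := by group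
  have hcen : (z : G ⧸ O) ∈ center (G ⧸ O) := by
    rw [mem_center_iff]
    intro g
    obtain ⟨g, rfl⟩ := QuotientGroup.mk_surjective g
    rw [← QuotientGroup.mk_mul, ← QuotientGroup.mk_mul, QuotientGroup.eq]
    apply hC
    intro y hy
    have e1 := hinv _ (hN.conj_mem y hy g)
    have e2 := hinv _ (O.inv_mem hy)
    have hzi : z⁻¹ = z := inv_eq_of_mul_eq_one_right hzz
    have e3 : z⁻¹ * y⁻¹ * z = y := by rw [hzi] at e2 ⊢; simpa using e2
    calc y * ((g * z)⁻¹ * (z * g)) = z⁻¹ * y⁻¹ * z * ((g * z)⁻¹ * (z * g)) := by rw [e3]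
      _ = z⁻¹ * g⁻¹ * (g * y * g⁻¹)⁻¹ * z * g := by group
      _ = z⁻¹ * g⁻¹ * (z * (g * y * g⁻¹) * z⁻¹) * z * g := by rw [e1]
      _ = (g * z)⁻¹ * (z * g) * y := by group
  rw [hZ, mem_bot, QuotientGroup.eq_one_iff] at hcen
  exact hz1 (eq_one_of_coprime_of_pow (k := 1) (coprime_orderOf_of_mem hOc hcen) (by simpa using hz2))

end Cfsg.Agent.S2898
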