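import Cfsg.Statements.S2905
import Cfsg.Agent.H7.PMin

set_option autoImplicit false
open Cfsg

namespace Cfsg.Agent.S2905

open Subgroup Cfsg.H7
open Cfsg.L0 (SN)
open scoped commutatorElement

/-- Let P be a finite p-minimal group (a Sylow p-subgroup S is not normal and lies in a unique maximal subgroup M of P) and let F be the normal core of M. Then: every subnormal subgroup N of P contained in M satisfies N ∩ S ≤ O_p(P); if O^p(P) has a normal Sylow p-subgroup then the order of P has at most two prime divisors; every normal subgroup N of P either contains O^p(P) or is contained in F; and O^p(P)F ⧸ F is a minimal normal subgroup of P ⧸ F. -/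
theorem result {P : Type*} [Group P] [Finite P] {p : ℕ} [Fact p.Prime] (hP : Cfsg.IsPMinimal p P) (S : Sylow p P) (M : Subgroup P) (hM : IsCoatom M) (hSM : (S : Subgroup P) ≤ M) [hF : M.normalCore.Normal] : (∀ N : Subgroup P, N.IsSubnormal → N ≤ M → N ⊓ (S : Subgroup P) ≤ Cfsg.pCore p P) ∧ ((∀ T : Sylow p ↥(Cfsg.pResidual p P), (T : Subgroup ↥(Cfsg.pResidual p P)).Normal) → (Nat.card P).primeFactors.card ≤ 2) ∧ (∀ N : Subgroup P, N.Normal → Cfsg.pResidual p P ≤ N ∨ N ≤ M.normalCore) ∧ (∀ N : Subgroup P, N.Normal → M.normalCore ≤ N → N ≤ Cfsg.pResidual p P ⊔ M.normalCore → N = M.normalCore ∨ N = Cfsg.pResidual p P ⊔ M.normalCore) ∧ M.normalCore < Cfsg.pResidual p P ⊔ M.normalCore := by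
  have h := minOver_of_isPMinimal hP S hM hSM
  have hS := isSylowIn_top S
  have h1 : ∀ N : Subgroup P, N.Normal → pResidual p P ≤ N ∨ N ≤ M.normalCore := fun N hN => by
    rw [← pResidualOf_top, normal_le_normalCore]
    exact h.pResidualOf_le_or_le S.isPGroup' le_top le_normalizer_of_normal
  refine ⟨fun N hN hNM => ?_, fun hc => ?_, h1, fun N hN h2 h3 => ?_, right_lt_sup.mpr fun h2 =>
    h.not_pResidualOf_le hS (by rw [pResidualOf_top]; exact h2.trans (normalCore_le _))⟩
  · obtain ⟨D, h2, h3, h4⟩ := h.exists_normal_of_sn (L0.sn_top_iff.mpr hN) hNM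
    rw [← pCoreOf_top, inf_comm]
    exact (inf_le_inf_left _ h2).trans (h.inf_le_pCoreOf hS h3 h4)
  · let f := QuotientGroup.mk' (pCore p P)
    have hk : f.ker = pCore p P := QuotientGroup.ker_mk' _
    have hO : pCore p P ≤ M := (pCore_le_sylow S).trans hSM
    have h2 := h.toUniqMax.map f (inf_le_right.trans (hk.le.trans hO))
    have hc' : PClosed p (pResidualOf p (⊤ : Subgroup P)) := by
      rw [pResidualOf_top]; exact pClosed_iff.mpr hc
    obtain ⟨q, hq, h3⟩ := h2.exists_prime (hS.map f) (by
      rw [← map_pResidualOf]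
      refine (hc'.map f).coprime_of_pCoreOf_eq_bot (eq_bot_iff.mpr ?_)
      rw [← pCore_quotient_pCore p P, ← pCoreOf_top p (P ⧸ pCore p P), map_pResidualOf,
        map_top_of_surjective _ (QuotientGroup.mk'_surjective _)]
      exact pCoreOf_le_of_sn (sn_pResidualOf p _))
    refine le_trans (Finset.card_le_card (t := {p, q}) fun r hr => ?_) Finset.card_le_two
    have hr' := Nat.prime_of_mem_primeFactors hr
    have : Fact r.Prime := ⟨hr'⟩
    obtain ⟨x, hx⟩ := exists_prime_orderOf_dvd_card' r (Nat.dvd_of_mem_primeFactors hr)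
    by_contra h4
    simp only [Finset.mem_insert, Finset.mem_singleton, not_or] at h4
    have h5 : (orderOf x).Coprime p := hx ▸ (Nat.coprime_primes hr' Fact.out).mpr h4.1
    have h6 : (orderOf x).Coprime q := hx ▸ (Nat.coprime_primes hr' hq).mpr h4.2
    rw [← map_pResidualOf, isPGroup_map_iff, hk] at h3
    obtain ⟨k, h7⟩ := h3 x (mem_pResidualOf (mem_top x) h5)
    obtain ⟨j, h8⟩ := isPGroup_iff_mem.mp (isPGroup_pCore p P) x
      (mem_of_pow_mem_of_coprime (h6.pow_right k) h7)
    rw [eq_one_of_coprime_of_pow h5 h8, orderOf_one] at hx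
    exact hr'.one_lt.ne hx
  · rcases h1 N hN with h4 | h4
    · exact Or.inr (le_antisymm h3 (sup_le h4 h2))
    · exact Or.inl (le_antisymm h4 h2)

end Cfsg.Agent.S2905
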