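import Cfsg.Statements.S2906
import Cfsg.Agent.H7.PMin

set_option autoImplicit false
open Cfsg

namespace Cfsg.Agent.S2906

open Subgroup Cfsg.H7
open Cfsg.L0 (SN)
open scoped commutatorElement

/-- Let P be a finite p-minimal group with O_p(P) = 1, S a Sylow p-subgroup of P and K a component of P. Then O^p(P) = F*(P) = E(P) is generated by the S-conjugates of K, and the subgroup K·N_S(K) is again p-minimal. -/
theorem result {P : Type*} [Group P] [Finite P] {p : ℕ} [Fact p.Prime] (hP : Cfsg.IsPMinimal p P) (hOp : Cfsg.pCore p P = ⊥) (S : Sylow p P) (K : Subgroup P) (hK : Cfsg.IsComponent K) : Cfsg.pResidual p P = Cfsg.generalizedFittingSubgroup P ∧ Cfsg.generalizedFittingSubgroup P = Cfsg.layer P ∧ Cfsg.layer P = ⨆ s : ↥(S : Subgroup P), K.map (MulAut.conj (s : P)).toMonoidHom ∧ Cfsg.IsPMinimal p ↥(K ⊔ ((S : Subgroup P) ⊓ Subgroup.normalizer (K : Set P))) := by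
  obtain ⟨M, h⟩ := exists_minOver_of_isPMinimal hP S
  have hS := isSylowIn_top S
  have hO : pCoreOf p (⊤ : Subgroup P) = ⊥ := by rwa [pCoreOf_top]
  obtain ⟨hK1, hK2⟩ := L0.isComponent_iff.mp hK
  have hKM : ¬ K ≤ M := fun h1 => by
    obtain ⟨D, h2, h3, h4⟩ := h.exists_normal_of_sn hK1 h1
    have h5 : D ≤ frattini P := H1.le_frattini_of_forall_sup fun X hX => eq_top_iff.mpr
      (h.le_of_le_sup hS h3 h4 (hO ▸ bot_le) le_top hX.ge)
    have := H1.isNilpotent_of_le_fitting ((h2.trans h5).trans H1.frattini_le_fitting)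
    exact hK2.not_isSolvable inferInstance
  have key : ∀ U : Subgroup P, ¬ U ≤ M → pResidualOf p (⊤ : Subgroup P) ≤ U ⊔ ⁅(S : Subgroup P), U⁆ :=
    fun U hU => by
    have h1 : ⊤ ≤ (S : Subgroup P) ⊔ (U ⊔ ⁅(S : Subgroup P), U⁆) := h.le_of_not_le le_sup_left
      fun h1 => hU ((le_inf le_top (le_sup_of_le_right le_sup_left)).trans h1)
    exact (pResidualOf_mono h1).trans (pResidualOf_sup_le S.isPGroup' (le_normalizer_sup_commutator _ _))
  have h1 := key K hKM
  have h2 : K ⊔ ⁅(S : Subgroup P), K⁆ ≤ layer P :=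
    sup_commutator_le_of_normal (L0.component_le_layer hK) le_normalizer_of_normal
  have h3 : generalizedFittingSubgroup P ≤ pResidualOf p (⊤ : Subgroup P) := by
    rw [← fstarOf_top]; exact fstarOf_le_pResidualOf hO
  have hKR : K ≤ pResidualOf p (⊤ : Subgroup P) := (L0.component_le_layer hK).trans (L0.layer_le_fstar.trans h3)
  refine ⟨le_antisymm (pResidualOf_top p P ▸ (h1.trans h2).trans L0.layer_le_fstar)
    (pResidualOf_top p P ▸ h3), le_antisymm (h3.trans (h1.trans h2)) L0.layer_le_fstar, ?_, ?_⟩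
  · exact le_antisymm (((L0.layer_le_fstar.trans h3).trans h1).trans (iSup_cj_eq_sup_commutator _ _).ge)
      ((iSup_cj_eq_sup_commutator _ _).le.trans h2)
  set S₀ := (S : Subgroup P) ⊓ normalizer (K : Set P)
  have hSK := hS.inf_of_sn hK1
  have h4 : (S : Subgroup P) ⊓ K ≤ S₀ := inf_le_inf_left _ le_normalizer
  have hS₀ : IsSylowIn p S₀ (K ⊔ S₀) := by
    have := (isSylowIn_self (S.isPGroup'.to_inf_left : IsPGroup p S₀)).sup hSK inf_le_right
      (le_normalizer_inf (le_normalizer_of_le inf_le_left) inf_le_right)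
    rwa [sup_eq_left.mpr h4, sup_comm] at this
  refine (isPMinimal_iff hS₀).mpr ⟨(K ⊔ S₀) ⊓ M, UniqMax.minOver ⟨le_inf le_sup_right
    (inf_le_left.trans h.le), lt_of_le_not_ge inf_le_left fun h5 =>
      hKM (le_sup_left.trans (h5.trans inf_le_right)), fun X h5 h6 => le_inf h6.le ?_⟩ hS₀ fun h5 => ?_⟩
  · have h7 := dedekind_left h5 (inf_le_right : S₀ ≤ normalizer (K : Set P))
    rw [sup_comm S₀, inf_eq_right.mpr h6.le] at h7
    rw [h7]
    refine sup_le (inf_le_left.trans h.le) ?_
    by_contra h8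
    have h9 : K ≤ (K ⊓ X) ⊔ centralizer (K : Set P) := by
      refine (hKR.trans (key _ h8)).trans ?_
      rw [← iSup_cj_eq_sup_commutator]
      refine iSup_le fun s => ?_
      rcases L0.component_eq_or_comm hK (L0.isComponent_cj hK s) with e | e
      · have hs : (s : P) ∈ S₀ := ⟨s.2, mem_normalizer_iff_cj.mpr e.symm⟩
        exact le_sup_of_le_left (cj_le_of_le (le_normalizer_inf inf_le_right
          (le_normalizer_of_le h5) hs) le_rfl)
      · exact le_sup_of_le_right ((cj_mono inf_le_left).trans (commutator_eq_bot_iff'.mp e))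
    have h10 := le_inf h9 (le_refl K)
    rw [dedekind_left inf_le_left (le_normalizer_centralizer (le_normalizer_of_le inf_le_left))] at h10
    have h11 := L0.le_of_perfect_of_le_sup_central hK2.perfect h10
      (commutator_eq_bot_iff_le_centralizer.mpr (inf_le_left.trans
        (centralizer_anti (sup_le inf_le_left inf_le_right))))
    exact h6.not_ge (sup_le (h11.trans inf_le_right) h5)
  · have h6 : PClosed p K := (pClosed_of_le_normalizer hS₀ h5).mono le_sup_left
    have h7 := h6.coprime_of_pCoreOf_eq_bot (eq_bot_iff.mpr ((pCoreOf_le_of_sn hK1).trans hO.le))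
    have h8 : pResidualOf p (⊤ : Subgroup P) ≤ pPrimeCore p P := h1.trans
      (sup_commutator_le_of_normal (L0.le_pPrimeCore_of_isSubnormal hK.1 h7) le_normalizer_of_normal)
    obtain ⟨q, hq, h9⟩ := h.exists_prime hS
      ((coprime_card_pPrimeCore p P).coprime_dvd_left (card_dvd_of_le h8))
    have : Fact q.Prime := ⟨hq⟩
    exact hK2.not_isSolvable (H9.isSolvable_of_isPGroup (h9.to_le hKR))

end Cfsg.Agent.S2906
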