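import Cfsg.Statements.S2907
import Cfsg.Agent.L0.Components
import Cfsg.Agent.H1.Frattini
-- import your own Cfsg.Agent.* helpers here

set_option autoImplicit false
open Cfsg

namespace Cfsg.Agent.S2907

open Subgroup Cfsg.L0
open scoped commutatorElement

/-- In a group of class two, `y ↦ [x, y]` is a homomorphism. -/
def commHom {X : Type*} [Group X] (h : commutator X ≤ center X) (x : X) : X →* X where
  toFun y := ⁅x, y⁆
  map_one' := by simp
  map_mul' a b := by
    have h1 := mem_center_iff.1 (h (commutator_mem_commutator (mem_top x) (mem_top b)))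
    have : ⁅x, a * b⁆ = ⁅x, a⁆ * (a * ⁅x, b⁆ * a⁻¹) := by simp only [commutatorElement_def]; group
    rw [this, h1 a, mul_inv_cancel_right]


/-- Let X be a finite semi-extraspecial p-group and x an element of X outside the centre. Then the index of C_X(x) in X equals the order of Z(X), and the commutators [x, y], y ∈ X, form exactly the centre Z(X). -/
theorem result {X : Type*} [Group X] [Finite X] {p : ℕ} [Fact p.Prime] (hX : Cfsg.IsSemiExtraspecial p X) (x : X) (hx : x ∉ Subgroup.center X) : (Subgroup.centralizer ({x} : Set X)).index = Nat.card ↥(Subgroup.center X) ∧ {z : X | ∃ y : X, z = x * y * x⁻¹ * y⁻¹} = (Subgroup.center X : Set X) := by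
  have hc : commutator X = center X := hX.1.2.2
  set f := commHom hc.le x with hf
  have hker : f.ker = centralizer {x} := by
    ext y
    rw [MonoidHom.mem_ker, mem_centralizer_singleton_iff, eq_comm (a := y * x),
      ← commutatorElement_eq_one_iff_mul_comm]; rfl
  have hle : f.range ≤ center X := by
    rintro _ ⟨y, rfl⟩; exact hc.le (commutator_mem_commutator (mem_top x) (mem_top y))
  have hr : f.range = center X := by
    by_contra hne
    have h1 : f.range.subgroupOf (center X) ≠ ⊤ := fun e => hne (le_antisymm hle (subgroupOf_eq_top.1 e))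
    obtain ⟨M, hM, hM2⟩ := (eq_top_or_exists_le_coatom _).resolve_left h1
    have e : (M.map (center X).subtype).subgroupOf (center X) = M :=
      comap_map_eq_self_of_injective (center X).subtype_injective M
    obtain ⟨hn, hE⟩ := hX.2 (M.map (center X).subtype) (map_subtype_le _) (by rwa [e])
    set Y := M.map (center X).subtype with hY
    have h2 : f.range ≤ Y := by
      rw [← map_subgroupOf_eq_of_le hle]; exact map_mono hM2
    have h3 : (x : X ⧸ Y) ∈ center (X ⧸ Y) := by
      rw [mem_center_iff]
      intro y
      obtain ⟨y, rfl⟩ := QuotientGroup.mk_surjective y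
      rw [eq_comm, ← commutatorElement_eq_one_iff_mul_comm]
      exact (QuotientGroup.eq_one_iff ⁅x, y⁆).2 (h2 ⟨y, rfl⟩)
    have h4 : center (X ⧸ Y) = (center X).map (QuotientGroup.mk' Y) := by
      have h6 : (commutator X).map (QuotientGroup.mk' Y) = commutator (X ⧸ Y) := by
        rw [commutator_def, commutator_def, map_commutator,
          map_top_of_surjective _ (QuotientGroup.mk'_surjective Y)]
      rw [hc] at h6
      exact hE.1.2.2.symm.trans h6.symm
    rw [h4] at h3
    have h5 : x ∈ ((center X).map (QuotientGroup.mk' Y)).comap (QuotientGroup.mk' Y) := h3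
    rw [comap_map_eq, QuotientGroup.ker_mk', sup_eq_left.2 (map_subtype_le _)] at h5
    exact hx h5
  refine ⟨by rw [← hker, index_ker, hr], ?_⟩
  rw [← hr]
  ext z
  exact ⟨fun ⟨y, e⟩ => ⟨y, e.symm⟩, fun ⟨y, e⟩ => ⟨y, e.symm⟩⟩

end Cfsg.Agent.S2907
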