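import Cfsg.Statements.S2908
import Cfsg.Agent.H9.Coprime
import Cfsg.Agent.L0.Components
import Cfsg.Agent.H1.Fitting
-- import your own Cfsg.Agent.* helpers here

set_option autoImplicit false
open Cfsg

namespace Cfsg.Agent.S2908

open Subgroup Cfsg.L0
open scoped commutatorElement


/-- Let P be a p-subgroup of a finite group, normalized by a p-subgroup A and by a subgroup B of order prime to p that commutes elementwise with A. If [P, B] ≤ [P, A], then B centralizes P. -/
theorem result {G : Type*} [Group G] [Finite G] {p : ℕ} [Fact p.Prime] (P A B : Subgroup G) (hP : IsPGroup p ↥P) (hA : IsPGroup p ↥A) (hB : ¬ p ∣ Nat.card ↥B) (hnA : A ≤ Subgroup.normalizer (P : Set G)) (hnB : B ≤ Subgroup.normalizer (P : Set G)) (hAB : ⁅A, B⁆ = ⊥) (hcomm : ⁅P, B⁆ ≤ ⁅P, A⁆) : ⁅P, B⁆ = ⊥ := by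
  by_contra hne
  set Q := ⁅P, B⁆ with hQ
  have hc : H9.CoprimeAct B P := H9.CoprimeAct.of_isPGroup_right hB hP hnB
  have hQP : Q ≤ P := le_normalizer_iff_commutator_le_left.1 hnB
  have hAB' : A ≤ normalizer (B : Set G) := le_normalizer_of_commutator_eq_bot hAB
  have hPQ : P ≤ normalizer (Q : Set G) := normalizer_commutator_ge_left P B
  have hAQ : A ≤ normalizer (Q : Set G) := le_normalizer_commutator hnA hAB'
  have hBQ : B ≤ normalizer (Q : Set G) := normalizer_commutator_ge_right P B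
  have hS : IsPGroup p ↥(A ⊔ P) := hA.to_sup_of_normal_right' hP hnA
  have hSQ : A ⊔ P ≤ normalizer (Q : Set G) := sup_le hAQ hPQ
  set N := ⁅Q, A ⊔ P⁆ with hN
  have hlt : N < Q := H1.commutator_lt_of_isPGroup hS (hP.to_le hQP) hSQ hne
  have hSN : A ⊔ P ≤ normalizer (N : Set G) := normalizer_commutator_ge_right _ _
  have hBN : B ≤ normalizer (N : Set G) := le_normalizer_commutator hBQ
    (le_normalizer_sup (le_normalizer_of_commutator_eq_bot (comm_bot_symm hAB)) hnB)
  set C := P ⊓ centralizer (B : Set G) with hC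
  have hCN : C ≤ normalizer (N : Set G) := (inf_le_left.trans le_sup_right).trans hSN
  have hAC : A ≤ normalizer (C : Set G) := le_normalizer_inf hnA (le_normalizer_centralizer hAB')
  have h1 : ⁅P, A⁆ ≤ N ⊔ C := by
    rw [commutator_le]
    intro x hx a ha
    obtain ⟨n, hn, c, hc', rfl⟩ := hc.exists_commutator_mul_centralizer hx
    have e : ⁅n * c, a⁆ = ⁅n, ⁅c, a⁆⁆ * ⁅c, a⁆ * ⁅n, a⁆ := by
      simp only [commutatorElement_def]; group
    have h2 : ⁅c, a⁆ ∈ C := le_normalizer_iff_commutator_le_left.1 hAC (commutator_mem_commutator hc' ha)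
    rw [e]
    exact mul_mem (mul_mem_sup (commutator_mem_commutator hn (mem_sup_right h2.1)) h2)
      (mem_sup_left (commutator_mem_commutator hn (mem_sup_left ha)))
  have h2 : ⁅N ⊔ C, B⁆ ≤ N := by
    rw [commutator_le]
    intro x hx b hb
    obtain ⟨n, hn, c, hc', rfl⟩ := (mem_sup_of_le_normalizer' hCN).1 hx
    have e : ⁅n * c, b⁆ = n * ⁅c, b⁆ * n⁻¹ * ⁅n, b⁆ := by
      simp only [commutatorElement_def]; group
    have h3 : ⁅c, b⁆ = 1 := commutatorElement_eq_one_iff_mul_comm.2 (hc'.2 b hb).symm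
    rw [e, h3, mul_one, mul_inv_cancel, one_mul]
    exact le_normalizer_iff_commutator_le_left.1 hBN (commutator_mem_commutator hn hb)
  have h3 : Q ≤ N := hc.commutator_commutator.ge.trans
    ((commutator_mono (hcomm.trans h1) le_rfl).trans h2)
  exact hlt.not_ge h3

end Cfsg.Agent.S2908
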