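import Cfsg.Statements.S2909
import Cfsg.Agent.H9.Generation
import Cfsg.Agent.L0.Components
import Cfsg.Agent.L0.Invert
import Cfsg.Agent.S2908
-- import your own Cfsg.Agent.* helpers here

set_option autoImplicit false
open Cfsg

namespace Cfsg.Agent.S2909

open Subgroup Cfsg.L0
open scoped commutatorElement


/-- Let p be a prime, E a normal p-subgroup of the finite group G, and U a non-cyclic elementary abelian p-subgroup of G such that either C_E(U) = C_E(u) for every nontrivial u ∈ U, or [E, U] = [E, ⟨u⟩] for every nontrivial u ∈ U. If R is a subgroup of order prime to p normalized by U, then [R, U] centralizes E. -/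
theorem result {G : Type*} [Group G] [Finite G] {p : ℕ} [Fact p.Prime] (E : Subgroup G) [E.Normal] (hE : IsPGroup p ↥E) (U : Subgroup G) (hU : Cfsg.IsElementaryAbelian p U) (hnc : ¬ IsCyclic ↥U) (hcond : (∀ u ∈ U, u ≠ 1 → E ⊓ Subgroup.centralizer (U : Set G) = E ⊓ Subgroup.centralizer ({u} : Set G)) ∨ (∀ u ∈ U, u ≠ 1 → ⁅E, U⁆ = ⁅E, Subgroup.zpowers u⁆)) (R : Subgroup G) (hR : ¬ p ∣ Nat.card ↥R) (hRU : U ≤ Subgroup.normalizer (R : Set G)) : ⁅R, U⁆ ≤ Subgroup.centralizer (E : Set G) := by
  have := hU.1
  have hUp : IsPGroup p U := H9.isPGroup_of_forall_pow_eq_one hU.2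
  have hcomm : ∀ a ∈ U, ∀ b ∈ U, a * b = b * a := fun a ha b hb =>
    congrArg Subtype.val (mul_comm' (⟨a, ha⟩ : U) ⟨b, hb⟩)
  set π := QuotientGroup.mk' (centralizer (E : Set G)) with hπ
  have key : ∀ X : Subgroup G, ⁅X, U⁆ ≤ centralizer (E : Set G) ↔
      X ≤ (centralizer (U.map π : Set _)).comap π := by
    intro X
    rw [← map_le_iff_le_comap, ← commutator_eq_bot_iff_le_centralizer (H₁ := X.map π), ← map_commutator,
      Subgroup.map_eq_bot_iff, hπ, QuotientGroup.ker_mk']
  rw [key]
  refine H9.generation_noncyclic hRU (H9.coprime_of_isPGroup hUp hR) hnc fun u hu hu1 => ?_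
  rw [← key]
  set C := R ⊓ centralizer {u} with hC
  have hUu : U ≤ centralizer {u} := fun x hx => mem_centralizer_singleton_iff.2 (hcomm x hx u hu)
  have hUC : U ≤ normalizer (C : Set G) := le_normalizer_inf hRU (hUu.trans le_normalizer)
  set B := ⁅C, U⁆ with hB
  have hBC : B ≤ C := le_normalizer_iff_commutator_le_left.1 hUC
  have hBp : ¬ p ∣ Nat.card B := fun h => hR (h.trans (card_dvd_of_le (hBC.trans inf_le_left)))
  have hzp : IsPGroup p (zpowers u) := hUp.to_le (zpowers_le.2 hu)
  have hBu : B ≤ centralizer (zpowers u : Set G) := by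
    rw [centralizer_zpowers]; exact hBC.trans inf_le_right
  have hCu : C ≤ normalizer (zpowers u : Set G) := by
    refine le_trans ?_ (centralizer_le_normalizer _)
    rw [centralizer_zpowers]; exact inf_le_right
  rw [le_centralizer_iff]
  rcases hcond with h | h
  · refine H9.thompson_AxB hBp hE hzp le_normalizer_of_normal le_normalizer_of_normal hBu ?_
    rw [centralizer_zpowers, le_centralizer_iff]
    set X := E ⊓ centralizer {u} with hX
    have h1 : C ≤ normalizer (centralizer (X : Set G) : Set G) :=
      le_normalizer_centralizer (le_normalizer_inf le_normalizer_of_normal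
        (inf_le_right.trans le_normalizer))
    have h2 : U ≤ centralizer (X : Set G) := by
      rw [le_centralizer_iff, hX, ← h u hu hu1]; exact inf_le_right
    exact (commutator_mono le_rfl h2).trans (le_normalizer_iff_commutator_le_right.1 h1)
  · rw [← commutator_eq_bot_iff_le_centralizer]
    refine S2908.result E (zpowers u) B hE hzp hBp le_normalizer_of_normal le_normalizer_of_normal
      (commutator_eq_bot_iff_le_centralizer.2 (le_centralizer_iff.1 hBu)) ?_
    set Y := ⁅E, zpowers u⁆ with hY
    have hCY : C ≤ normalizer (Y : Set G) := le_normalizer_commutator le_normalizer_of_normal hCu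
    have hUY : U ≤ normalizer (Y : Set G) := by
      rw [hY, ← h u hu hu1]; exact normalizer_commutator_ge_right _ _
    have h1 : U ≤ H9.commStab E Y := fun x hx => ⟨hUY hx, fun e he => by
      rw [hY, ← h u hu hu1]; exact commutator_mem_commutator he hx⟩
    have h2 : C ≤ normalizer (H9.commStab E Y : Set G) := by
      intro c hc
      refine mem_normalizer_of_cj_le ?_
      rintro _ ⟨x, ⟨hx1, hx2⟩, rfl⟩
      refine ⟨mul_mem (mul_mem (hCY hc) hx1) (inv_mem (hCY hc)), fun e he => ?_⟩
      have h3 := (mem_normalizer_iff.1 (hCY hc) _).1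
        (hx2 (c⁻¹ * e * c) (Normal.conj_mem' inferInstance e he c))
      convert h3 using 1
      simp only [commutatorElement_def, MulEquiv.coe_toMonoidHom, MulAut.conj_apply]; group
    have h3 : B ≤ H9.commStab E Y :=
      (commutator_mono le_rfl h1).trans (le_normalizer_iff_commutator_le_right.1 h2)
    rw [commutator_le]
    intro e he b hb
    exact (h3 hb).2 e he

end Cfsg.Agent.S2909
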