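import Cfsg.Statements.S2910
import Cfsg.Agent.H8.Stab

set_option autoImplicit false
open Cfsg

namespace Cfsg.Agent.S2910

open Subgroup Cfsg.L0 Cfsg.H8
open scoped commutatorElement


/-- Let p be an odd prime dividing the order of the finite group G and P a Sylow p-subgroup of G. If Ω₁(P) (generated by the elements of order dividing p) is contained in the centre of G, then G has a normal p-complement. In particular, if G is quasisimple then Ω₁(P) is not central in G. -/
theorem result {G : Type*} [Group G] [Finite G] {p : ℕ} [Fact p.Prime] (hp : p ≠ 2) (hdiv : p ∣ Nat.card G) (P : Sylow p G) (hZ : Cfsg.omegaOne p (P : Subgroup G) ≤ Subgroup.center G) : Cfsg.HasNormalPComplement p G ∧ ¬ Cfsg.IsQuasisimple G := by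
  have h : HasNormalPComplement p G := by
    refine hasNormalPComplement_of_frobenius P fun U hU _ g hg hc => ?_
    refine mem_centralizer_of_omega hp (P.isPGroup'.to_le hU) hg hc fun x hx hxp => ?_
    exact (mem_center_iff.1 (hZ (H7.mem_omegaOne (hU hx) hxp)) g).symm
  refine ⟨h, fun hq => ?_⟩
  have := (npc_top_iff.2 h).not_dvd_of_perfect hq.1.commutator_eq_top
  rw [card_top] at this
  exact this hdiv

end Cfsg.Agent.S2910
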