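import Cfsg.Statements.S2911
import Cfsg.Agent.H4.TT

set_option autoImplicit false
open Cfsg

namespace Cfsg.Agent.S2911

/-- A finite group whose Sylow 2-subgroups are isomorphic to the direct product of a group of order 2 and a dihedral group of order 8 has a subgroup of index two. -/
theorem result {G : Type*} [Group G] [Finite G] (S : Sylow 2 G) (hS : Nonempty (↥(S : Subgroup G) ≃* Multiplicative (ZMod 2) × DihedralGroup 4)) : ∃ H : Subgroup G, H.index = 2 := by
  by_contra! hG
  obtain ⟨e⟩ := hS
  let f : Multiplicative (ZMod 2) × DihedralGroup 4 →* G :=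
    (S : Subgroup G).subtype.comp e.symm.toMonoidHom
  have hf : Function.Injective f := (Subgroup.subtype_injective _).comp e.symm.injective
  have hfS : ∀ x, f x ∈ (S : Subgroup G) := fun x => (e.symm x).2
  have hSf : ∀ x ∈ (S : Subgroup G), ∃ y, f y = x := fun x hx => ⟨e ⟨x, hx⟩, by simp [f]⟩
  let c : Multiplicative (ZMod 2) × DihedralGroup 4 := (Multiplicative.ofAdd 1, 1)
  let M : Subgroup (S : Subgroup G) := ((MonoidHom.fst _ _).comp e.toMonoidHom).ker
  have hi : M.index = 2 := by
    rw [Subgroup.index_ker, MonoidHom.range_eq_top.mpr, Subgroup.card_top]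
    · simp
    · exact Prod.fst_surjective.comp e.surjective
  have hc : ∀ y, y * c = c * y := by decide
  obtain ⟨g, hg, hgS⟩ := H4.exists_conj_mem_extremal hG (M := M.map (S : Subgroup G).subtype)
    (S := S) (T := S) (t := f c) (Subgroup.map_subtype_le M)
    (by rw [Subgroup.relIndex, Subgroup.subgroupOf,
      Subgroup.comap_map_eq_self_of_injective (Subgroup.subtype_injective _), hi])
    (Nat.not_even_iff_odd.mp (by rw [even_iff_two_dvd]; exact S.not_dvd_index))
    (by rw [← map_pow, show c ^ 2 = 1 by decide, map_one]) S.isPGroup'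
    (fun x hx => by obtain ⟨y, rfl⟩ := hSf x hx; rw [← map_mul, hc, map_mul])
  have hn : g ∈ Subgroup.normalizer ((S : Subgroup G) : Set G) := by
    rw [← Subgroup.inv_mem_iff]
    exact Subgroup.mem_normalizer_fintype fun x hx => by rw [inv_inv]; exact hgS x hx
  have hn' : ∀ x ∈ (S : Subgroup G), g * x * g⁻¹ ∈ (S : Subgroup G) := fun x hx =>
    (Subgroup.mem_normalizer_iff.mp hn x).mp hx
  obtain ⟨y, hy, hyg⟩ := hg
  obtain ⟨d, hd⟩ := hSf _ y.2
  have hd1 : d.1 = 1 := by
    have : e y = d := by rw [← MulEquiv.eq_symm_apply]; exact Subtype.ext hd.symm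
    rw [← this]; exact hy
  change y.1 = _ at hyg
  rw [← hd] at hyg
  have hdc : ∀ x, x * d = d * x := fun x => hf (by
    obtain ⟨w, hw⟩ := hSf _ (hn' _ (hfS x))
    have h1 : f x = g⁻¹ * f w * g := by rw [hw]; group
    rw [map_mul, map_mul, hyg, h1]
    calc _ = g⁻¹ * f (w * c) * g := by rw [map_mul]; group
      _ = _ := by rw [hc, map_mul]; group)
  have key : ∀ d : Multiplicative (ZMod 2) × DihedralGroup 4, d.1 = 1 → (∀ x, x * d = d * x) →
      ∃ w, w * w = d := by decide
  obtain ⟨w, rfl⟩ := key d hd1 hdc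
  obtain ⟨v, hv⟩ := hSf _ (hn' _ (hfS w))
  have key2 : ∀ v, v * v ≠ c := by decide
  apply key2 v (hf _)
  rw [map_mul, hv]
  calc _ = g * f (w * w) * g⁻¹ := by rw [map_mul]; group
    _ = _ := by rw [hyg]; group

end Cfsg.Agent.S2911
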