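import Cfsg.Statements.S2912
import Cfsg.Agent.H4.ESRep

set_option autoImplicit false
open Cfsg

namespace Cfsg.Agent.S2912

/-- Let p and r be distinct primes, let E be an extraspecial subgroup of order p^(2w+1) of a finite group, and let A be an elementary abelian r-subgroup normalized by E on which E acts faithfully (C_E(A) = 1). If n ≥ 1 is least with p dividing rⁿ − 1 (the smallest dimension of a faithful representation of a group of order p over the field with r elements), then the order of A is at least r^(n·p^w). -/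
theorem result {G : Type*} [Group G] [Finite G] {p r : ℕ} [Fact p.Prime] [hr : Fact r.Prime] (hpr : p ≠ r) (E A : Subgroup G) (w : ℕ) (hE : Cfsg.IsExtraspecial p ↥E) (hEcard : Nat.card ↥E = p ^ (2 * w + 1)) (hA : Cfsg.IsElementaryAbelian r A) (hnorm : E ≤ Subgroup.normalizer (A : Set G)) (hfaith : E ⊓ Subgroup.centralizer (A : Set G) = ⊥) (n : ℕ) (hn : 1 ≤ n) (hdiv : p ∣ r ^ n - 1) (hmin : ∀ k : ℕ, 1 ≤ k → p ∣ r ^ k - 1 → n ≤ k) : r ^ (n * p ^ w) ≤ Nat.card ↥A := by
  let : CommGroup A := { (inferInstance : Group A) with mul_comm := hA.1.is_comm.comm }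
  refine H4.card_ge_of_extraspecial hpr hE hEcard (fun a => Subtype.ext (hA.2 a a.2))
    (A.normalizerMonoidHom.comp (Subgroup.inclusion hnorm)) ((injective_iff_map_eq_one _).mpr
      fun x hx => Subtype.ext ?_) hmin
  have h1 : Subgroup.inclusion hnorm x ∈ A.normalizerMonoidHom.ker := hx
  rw [Subgroup.normalizerMonoidHom_ker] at h1
  exact Subgroup.mem_bot.mp (hfaith ▸ ⟨x.2, h1⟩)

end Cfsg.Agent.S2912
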