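import Cfsg.Statements.S2916
import Cfsg.Agent.H4.GL23Id

set_option autoImplicit false
open Cfsg

namespace Cfsg.Agent.S2916

/-- Let G be a finite group with O²(G) = G (no proper normal subgroup of 2-power index), and let t be an involution of G whose centralizer C_G(t) is isomorphic to GL₂(3). Then G is isomorphic to PSL₃(3) or to the Mathieu group M₁₁. -/
theorem result {G : Type*} [Group G] [Finite G] (hO : Cfsg.pResidual 2 G = ⊤) (t : G) (ht : orderOf t = 2) (hC : Nonempty (↥(Subgroup.centralizer ({t} : Set G)) ≃* GL (Fin 2) (ZMod 3))) : (∃ (F : Type) (_ : Field F) (_ : Fintype F), Fintype.card F = 3 ∧ Nonempty (G ≃* Matrix.ProjectiveSpecialLinearGroup (Fin 3) F)) ∨ Cfsg.Spor.IsoM11 G := by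
  have hG : ∀ N : Subgroup G, N.index ≠ 2 := fun N hN => by
    have := Subgroup.normal_of_index_eq_two hN
    have h4 := H7.pResidual_le_of_isPGroup_quotient (p := 2) (N := N)
      (IsPGroup.of_card (n := 1) hN)
    rw [hO, top_le_iff] at h4
    rw [h4, Subgroup.index_top] at hN
    exact absurd hN (by norm_num)
  obtain ⟨e⟩ := hC
  obtain ⟨f, h, -⟩ := H4.exists_glc ht e
  refine (h.classify hG).imp (fun ⟨e⟩ => ?_) id
  exact ⟨ZMod 3, inferInstance, inferInstance, rfl, ⟨e.trans H4.Low2.equivPSL⟩⟩

end Cfsg.Agent.S2916
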