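import Cfsg.Statements.S2918
import Cfsg.Agent.A8.Fin0
import Cfsg.Agent.A8.F6
import Cfsg.Agent.A8.FA
import Cfsg.Agent.A8.FG
import Cfsg.Agent.A8.E9
import Cfsg.Agent.A8.ES6
import Cfsg.Agent.A8.V2
import Cfsg.Agent.A8.W2

set_option autoImplicit false
open Cfsg

namespace Cfsg.Agent.S2918

/-- Let G be a finite group with O²(G) = G and O₂(G) = O(G) = 1 whose Sylow 2-subgroups are isomorphic to those of the alternating group of degree 8, and suppose that the centralizer in G of every involution in the centre of a Sylow 2-subgroup is solvable. Then G is isomorphic to A₈, A₉ or PSp₄(3). -/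
theorem result {G : Type*} [Group G] [Finite G] (hO2 : Cfsg.pResidual 2 G = ⊤) (hcore2 : Cfsg.pCore 2 G = ⊥) (hodd : Cfsg.oddCore G = ⊥) (S : Sylow 2 G) (hS : ∀ P : Sylow 2 ↥(alternatingGroup (Fin 8)), Nonempty (↥(S : Subgroup G) ≃* ↥(P : Subgroup ↥(alternatingGroup (Fin 8))))) (hsol : ∀ z : G, z ∈ (S : Subgroup G) → (∀ s ∈ (S : Subgroup G), s * z = z * s) → orderOf z = 2 → IsSolvable ↥(Subgroup.centralizer ({z} : Set G))) : Nonempty (G ≃* ↥(alternatingGroup (Fin 8))) ∨ Nonempty (G ≃* ↥(alternatingGroup (Fin 9))) ∨ (∃ (F : Type) (_ : Field F) (_ : Fintype F), Fintype.card F = 3 ∧ Nonempty (G ≃* Cfsg.PSp 2 F)) := by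
  obtain ⟨ι, H⟩ := A8.exists_hyp hO2 hcore2 hodd S hS hsol
  let e : G ≃* Shrink.{0} G := (Shrink.mulEquiv.{0} (α := G)).symm
  have : Finite (Shrink.{0} G) := Finite.of_equiv _ e.toEquiv
  rcases A8.F.taskF_of A8.F.taskGU A8.F.taskGA A8.F.taskAdj _ _ (H.equiv e) with
    ⟨κ, a, b, c, T⟩ | ⟨κ, a, b, c, T⟩
  · obtain ⟨h1, h2⟩ := A8.taskW8 _ κ a b c T
    rcases A8.taskE8 _ κ a b c T h1 h2 with ⟨⟨f⟩⟩ | ⟨⟨f⟩⟩
    exacts [.inl ⟨e.trans f⟩, .inr (.inl ⟨e.trans f⟩)]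
  · obtain ⟨h1, h2⟩ := A8.taskWS _ κ a b c T
    obtain ⟨f⟩ := A8.taskES _ κ a b c T h1 h2
    exact .inr (.inr ⟨ZMod 3, inferInstance, inferInstance, ZMod.card 3, ⟨e.trans f⟩⟩)

end Cfsg.Agent.S2918
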