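import Cfsg.Statements.S2924
import Cfsg.Agent.L0.Invert
import Cfsg.Agent.H7.Core
import Cfsg.Agent.H9.Generation

set_option autoImplicit false
open Cfsg

namespace Cfsg.Agent.S2924

open Subgroup Cfsg.L0

theorem result {X : Type*} [Group X] [Finite X] (Y : Subgroup X) (hY : Cfsg.IsElementaryAbelian 2 Y) (h8 : 8 ≤ Nat.card ↥Y) (hE : ∀ x ∈ Y, x ≠ 1 → Cfsg.layer ↥(Subgroup.centralizer ({x} : Set X)) = ⊥) (hz : ∃ z ∈ Y, z ≠ 1 ∧ Cfsg.generalizedFittingSubgroup ↥(Subgroup.centralizer ({z} : Set X)) = Cfsg.pCore 2 ↥(Subgroup.centralizer ({z} : Set X))) : Odd (Nat.card ↥(⨆ y : {y : X // y ∈ Y ∧ y ≠ 1}, (Cfsg.oddCore ↥(Subgroup.centralizer ({(y : X)} : Set X))).map (Subgroup.centralizer ({(y : X)} : Set X)).subtype)) ∧ Subgroup.normalizer (Y : Set X) ≤ Subgroup.normalizer ((⨆ y : {y : X // y ∈ Y ∧ y ≠ 1}, (Cfsg.oddCore ↥(Subgroup.centralizer ({(y : X)} : Set X))).map (Subgroup.centralizer ({(y : X)} : Set X)).subtype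 : Subgroup X) : Set X) := by
  obtain ⟨z, hzY, hz1, hz⟩ := hz
  let C : X → Subgroup X := fun x => centralizer ({x} : Set X)
  let θ : X → Subgroup X := fun x => H7.pPrimeCoreOf 2 (C x)
  let Q : X → Subgroup X := fun x => pCoreOf 2 (C x)
  have hcomm : ∀ a ∈ Y, ∀ b ∈ Y, a * b = b * a := fun a ha b hb => by
    have := hY.1
    exact congrArg Subtype.val (mul_comm' (⟨a, ha⟩ : Y) ⟨b, hb⟩)
  have hYC : ∀ x ∈ Y, Y ≤ C x := fun x hx y hy => mem_centralizer_singleton_iff.2 (hcomm _ hy _ hx)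
  have hθodd : ∀ x, Odd (Nat.card (θ x)) := fun x =>
    Nat.coprime_two_right.1 (H7.coprime_card_pPrimeCoreOf 2 (C x))
  have hθQ : ∀ x y, θ x ⊓ Q y = ⊥ := fun x y => inf_eq_bot_of_coprime'
    (coprime_card_of_isPGroup (H7.isPGroup_pCoreOf 2 _) (H7.coprime_card_pPrimeCoreOf 2 (C x)))
  have hP2 : ∀ x ∈ Y, IsPGroup 2 (zpowers x) := fun x hx =>
    (H9.isPGroup_of_forall_pow_eq_one hY.2).to_le (zpowers_le.2 hx)
  have stepA : ∀ x ∈ Y, ∀ y ∈ Y, Q y ≤ centralizer ((θ x ⊓ C y : Subgroup X) : Set X) := by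
    intro x hx y hy
    refine H9.thompson_AxB (p := 2) (B := zpowers x) ?_ (H7.isPGroup_pCoreOf 2 _) (hP2 x hx)
      (inf_le_right.trans (H7.le_normalizer_pCoreOf 2 _))
      (((zpowers_le.2 hx).trans (hYC y hy)).trans (H7.le_normalizer_pCoreOf 2 _)) ?_ ?_
    · exact fun h => (Nat.not_even_iff_odd.2 (Odd.of_dvd_nat (hθodd x)
        (card_dvd_of_le inf_le_left))) (even_iff_two_dvd.2 h)
    · rw [centralizer_zpowers]; exact inf_le_left.trans (H7.pPrimeCoreOf_le 2 _)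
    · rw [centralizer_zpowers, ← commutator_eq_bot_iff_le_centralizer, ← le_bot_iff, ← hθQ x y]
      refine le_inf ((commutator_mono inf_le_right inf_le_left).trans ?_)
        ((commutator_mono inf_le_left inf_le_right).trans ?_)
      · exact le_normalizer_iff_commutator_le_right.1 (H7.le_normalizer_pPrimeCoreOf 2 _)
      · exact le_normalizer_iff_commutator_le_left.1 (H7.le_normalizer_pCoreOf 2 _)
  have stepB : ∀ x ∈ Y, θ x ⊓ C z = ⊥ := by
    intro x hx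
    have h1 := H7.charP_iff.1 (fstar_eq_pCore_iff.1 hz)
    rw [← le_bot_iff, ← hθQ x z]
    exact le_inf inf_le_left ((le_inf inf_le_right (le_centralizer_iff.1 (stepA x hx z hzY))).trans h1)
  have stepC : ∀ x ∈ Y, ∀ u ∈ θ x, z * u * z⁻¹ = u⁻¹ := by
    intro x hx
    refine inverts_of_fpf (H7.le_normalizer_pPrimeCoreOf 2 _ (hYC x hx hzY)) (fun u _ => ?_)
      fun u hu h => ?_
    · rw [← pow_two, hY.2 z hzY, one_mul, mul_one]
    · have : u ∈ θ x ⊓ C z := ⟨hu, mem_centralizer_singleton_iff.2 h.symm⟩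
      rwa [stepB x hx] at this
  have stepD : ∀ x ∈ Y, ∀ y ∈ Y, y ≠ 1 → θ x ⊓ C y ≤ θ y := by
    intro x hx y hy hy1 u hu
    have hodd : Odd (orderOf u) := odd_orderOf_of_mem (hθodd x) hu.1
    have h1 : u ∈ centralizer (θ y : Set X) := by
      intro w hw
      have hw' : u * w * u⁻¹ ∈ θ y :=
        (mem_normalizer_iff.1 (H7.le_normalizer_pPrimeCoreOf 2 _ hu.2) w).1 hw
      have e1 := stepC y hy _ hw'
      rw [show z * (u * w * u⁻¹) * z⁻¹ = (z * u * z⁻¹) * (z * w * z⁻¹) * (z * u * z⁻¹)⁻¹ by group,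
        stepC x hx u hu.1, stepC y hy w hw] at e1
      refine (commute_of_commute_sq hodd ?_).eq
      have : w⁻¹ * u ^ 2 = u ^ 2 * w⁻¹ := by
        calc w⁻¹ * u ^ 2 = u * (u⁻¹ * w⁻¹ * u⁻¹⁻¹) * u := by rw [pow_two]; group
          _ = u ^ 2 * w⁻¹ := by rw [e1, pow_two]; group
      exact (Commute.inv_left_iff.1 this)
    have h2 : u ∈ centralizer (Q y : Set X) := le_centralizer_iff.1 (stepA x hx y hy) hu
    let u' : C y := ⟨u, hu.2⟩
    have h3 : u' ∈ fittingSubgroup (C y) := by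
      refine centralizer_fitting_le (hE y hy hy1) (centralizer_le (fitting_le_pCore_sup_pPrimeCore 2) ?_)
      rw [L0.centralizer_sup]
      exact ⟨fun w hw => Subtype.ext (h2 w ⟨w, hw, rfl⟩), fun w hw => Subtype.ext (h1 w ⟨w, hw, rfl⟩)⟩
    have h4 : zpowers u' ≤ pPrimeCore 2 (C y) := le_pPrimeCore_of_isSubnormal
      ((sn_of_isNilpotent (isNilpotent_fitting _) (zpowers_le.2 h3)).isSubnormal
        (fitting_normal _).isSubnormal) (by
        rw [Nat.card_zpowers, ← Subgroup.orderOf_coe]; exact Nat.coprime_two_right.2 hodd)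
    exact ⟨u', h4 (mem_zpowers _), rfl⟩
  have hnd : ∀ x, ¬ 2 ∣ Nat.card (θ x) := fun x h =>
    (Nat.not_even_iff_odd.2 (hθodd x)) (even_iff_two_dvd.2 h)
  have stepE : ∀ x ∈ Y, ∀ y ∈ Y, θ x ≤ centralizer (θ y : Set X) := by
    intro x hx y hy
    refine H9.generation_hyperplanes hY ((hYC x hx).trans (H7.le_normalizer_pPrimeCoreOf 2 _))
      (hnd x) fun B₁ hB₁ hi₁ => le_centralizer_iff.1 ?_
    refine H9.generation_hyperplanes hY ((hYC y hy).trans (H7.le_normalizer_pPrimeCoreOf 2 _))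
      (hnd y) fun B₂ hB₂ hi₂ => ?_
    have hne : B₁ ⊓ B₂ ≠ ⊥ := by
      intro e
      have h1 := relIndex_inf_le (H := B₁) (K := B₂) (L := Y)
      rw [e, relIndex_bot_left] at h1
      have h2 := Nat.le_of_dvd two_pos hi₁
      have h3 := Nat.le_of_dvd two_pos hi₂
      nlinarith
    obtain ⟨⟨w, hw⟩, hw1⟩ := ne_bot_iff_exists_ne_one.1 hne
    have hw1' : w ≠ 1 := fun e => hw1 (Subtype.ext e)
    have hwY : w ∈ Y := hB₁ hw.1
    intro a ha b hb
    exact comm_of_inverts (stepC w hwY) _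
      (stepD x hx w hwY hw1' ⟨hb.1, centralizer_le (Set.singleton_subset_iff.2 hw.1) hb.2⟩) _
      (stepD y hy w hwY hw1' ⟨ha.1, centralizer_le (Set.singleton_subset_iff.2 hw.2) ha.2⟩)
  change Odd (Nat.card ↥(sSup (Set.range fun y : {y : X // y ∈ Y ∧ y ≠ 1} => θ y))) ∧
    normalizer (Y : Set X) ≤
      normalizer ((sSup (Set.range fun y : {y : X // y ∈ Y ∧ y ≠ 1} => θ y) : Subgroup X) : Set X)
  constructor
  · refine Nat.coprime_two_right.1 ((radicalClass_coprime 2).sSup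
      (K := sSup (Set.range fun y : {y : X // y ∈ Y ∧ y ≠ 1} => θ y)) ?_).1
    rintro _ ⟨y, rfl⟩
    refine ⟨H7.coprime_card_pPrimeCoreOf 2 _, le_sSup ⟨y, rfl⟩, sSup_le ?_⟩
    rintro _ ⟨x, rfl⟩
    exact (stepE x x.2.1 y y.2.1).trans (centralizer_le_normalizer _)
  · refine le_normalizer_sSup ?_
    rintro g hg _ ⟨y, rfl⟩
    refine ⟨⟨g * y * g⁻¹, (mem_normalizer_iff.1 hg y).1 y.2.1, fun e => y.2.2 (by simpa using e)⟩, ?_⟩
    have := H7.cj_pPrimeCoreOf (p := 2) g (C y)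
    change H7.pPrimeCoreOf 2 (centralizer {g * y * g⁻¹}) = _
    rw [← cj_centralizer_singleton]
    exact this.symm

end Cfsg.Agent.S2924
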