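import Cfsg.Statements.S2925
import Cfsg.Agent.L0.Components
import Cfsg.Agent.H8.Syl
-- import your own Cfsg.Agent.* helpers here

set_option autoImplicit false
open Cfsg

namespace Cfsg.Agent.S2925

open Subgroup Cfsg.L0 Cfsg.H8
open scoped commutatorElement


/-- Let K be a component of the finite group X and T a Sylow 2-subgroup of X. If some abelian normal subgroup Y of T does not normalize K, then K ⧸ Z(K) has abelian Sylow 2-subgroups. -/
theorem result {X : Type*} [Group X] [Finite X] (K : Subgroup X) (hK : Cfsg.IsComponent K) (T : Sylow 2 X) (Y : Subgroup X) (hYT : Y ≤ (T : Subgroup X)) (hYn : (Y.subgroupOf (T : Subgroup X)).Normal) (hYab : IsMulCommutative ↥Y) (hnot : ¬ Y ≤ Subgroup.normalizer (K : Set X)) (P : Sylow 2 (↥K ⧸ Subgroup.center ↥K)) : IsMulCommutative ↥(P : Subgroup (↥K ⧸ Subgroup.center ↥K)) := by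
  have : Fact (Nat.Prime 2) := ⟨Nat.prime_two⟩
  obtain ⟨y, hy, hyn⟩ := SetLike.not_le_iff_exists.1 hnot
  have hc : ⁅K, cj y K⁆ = ⊥ := (component_eq_or_comm hK (isComponent_cj hK y)).resolve_left
    fun e => hyn (cj_eq_iff.1 e.symm)
  have hTY : (T : Subgroup X) ≤ normalizer (Y : Set X) := (normal_subgroupOf_iff_le_normalizer hYT).1 hYn
  have hcomm : ∀ a ∈ Y, ∀ b ∈ Y, a * b = b * a := fun a ha b hb =>
    congrArg Subtype.val (mul_comm' (⟨a, ha⟩ : Y) ⟨b, hb⟩)
  have hcc : ∀ a ∈ K, ∀ b ∈ K, Commute a (y * b * y⁻¹) := fun a ha b hb =>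
    commutatorElement_eq_one_iff_commute.1 (mem_bot.1 (hc ▸ commutator_mem_commutator ha (conj_mem_cj hb)))
  have hS : IsSyl 2 ((T : Subgroup X) ⊓ K) K := (isSyl_sylow T).inf_sn (sn_top_iff.2 hK.1)
  have key : ∀ s ∈ (T : Subgroup X) ⊓ K, ∀ t ∈ (T : Subgroup X) ⊓ K, ⁅s, t⁆ ∈ centralizer (K : Set X) := by
    intro s hs t ht
    have m : ∀ s ∈ (T : Subgroup X) ⊓ K, s * (y * s⁻¹ * y⁻¹) ∈ Y := fun s hs => by
      have := mul_mem ((mem_normalizer_iff.1 (hTY hs.1) y).1 hy) (inv_mem hy)
      convert this using 1; group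
    have h1 := hcomm _ (m s hs) _ (m t ht)
    have c1 := (hcc t ht.2 s⁻¹ (inv_mem hs.2)).eq
    have c2 := (hcc s hs.2 t⁻¹ (inv_mem ht.2)).eq
    set s' := y * s⁻¹ * y⁻¹ with hs'
    set t' := y * t⁻¹ * y⁻¹ with ht'
    have h2 : s * t * (s' * t') = t * s * (t' * s') := by
      calc s * t * (s' * t') = s * (t * s') * t' := by group
        _ = s * s' * (t * t') := by rw [c1]; group
        _ = t * t' * (s * s') := h1
        _ = t * (s * t') * s' := by rw [c2]; group
        _ = _ := by group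
    have h3 : (t * s)⁻¹ * (s * t) = (t' * s') * (s' * t')⁻¹ := by
      rw [inv_mul_eq_iff_eq_mul, ← mul_assoc, ← h2]; group
    have h4 : (t * s)⁻¹ * (s * t) ∈ centralizer (K : Set X) := by
      rw [h3]
      refine commutator_eq_bot_iff_le_centralizer.1 (comm_bot_symm hc) ?_
      have a1 : s' ∈ cj y K := conj_mem_cj (inv_mem hs.2)
      have a2 : t' ∈ cj y K := conj_mem_cj (inv_mem ht.2)
      exact mul_mem (mul_mem a2 a1) (inv_mem (mul_mem a1 a2))
    have h5 := (mem_normalizer_iff.1 (le_normalizer_centralizer (A := K) le_normalizer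
      (mul_mem ht.2 hs.2)) _).1 h4
    convert h5 using 1
    simp only [commutatorElement_def]; group
  have hS2 := (hS.subgroupOf_top).map (QuotientGroup.mk' (center K))
  rw [map_top_of_surjective _ (QuotientGroup.mk'_surjective _)] at hS2
  obtain ⟨g, -, e⟩ := hS2.exists_cj_eq (isSyl_sylow P)
  rw [← e]
  have h6 : IsMulCommutative ↥((((T : Subgroup X) ⊓ K).subgroupOf K).map (QuotientGroup.mk' (center K))) := by
    rw [← le_centralizer_iff_isMulCommutative, ← commutator_eq_bot_iff_le_centralizer,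
      ← map_commutator, Subgroup.map_eq_bot_iff, QuotientGroup.ker_mk', commutator_le]
    intro s hs t ht
    rw [mem_center_iff]
    intro k
    exact Subtype.ext (key s hs t ht k k.2)
  exact Subgroup.map_isMulCommutative _ _

end Cfsg.Agent.S2925
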