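import Cfsg.Statements.S2928
import Cfsg.Agent.L0.Alt3
-- import your own Cfsg.Agent.* helpers here

set_option autoImplicit false
open Cfsg

namespace Cfsg.Agent.S2928

section
set_option linter.unusedSectionVars false
open Subgroup Equiv Equiv.Perm Cfsg.L0

variable {α : Type*} [Fintype α] [DecidableEq α]

/-- Permutations moving each point at most to its `t`-partner. -/
def pairGrp (t : Perm α) (ht : ∀ x, t (t x) = x) : Subgroup (Perm α) where
  carrier := {σ | ∀ x, σ x = x ∨ σ x = t x}
  one_mem' _ := Or.inl rfl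
  mul_mem' {a b} ha hb x := by
    have h1 := hb x
    have h2 := ha (b x)
    have h3 := ht x
    simp only [coe_mul, Function.comp_apply]
    grind
  inv_mem' {a} ha x := by
    have h1 := ha (a⁻¹ x)
    have h2 := ht (a⁻¹ x)
    have h3 : a (a⁻¹ x) = x := by simp
    grind

theorem sq_of_mem_pairGrp {t : Perm α} {ht : ∀ x, t (t x) = x} {σ : Perm α}
    (h : σ ∈ pairGrp t ht) : σ * σ = 1 := by
  ext x
  have h1 := h x
  have h2 := h (t x)
  have h3 := ht x
  have h4 := σ.injective.eq_iff (a := x) (b := t x)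
  simp only [coe_mul, Function.comp_apply, coe_one, id]
  grind

theorem comm_of_mem_pairGrp {t : Perm α} {ht : ∀ x, t (t x) = x} {σ τ : Perm α}
    (h : σ ∈ pairGrp t ht) (h' : τ ∈ pairGrp t ht) : Commute σ τ := by
  have h1 := sq_of_mem_pairGrp h
  have h2 := sq_of_mem_pairGrp h'
  have h3 := sq_of_mem_pairGrp (mul_mem h h')
  have e1 : σ⁻¹ = σ := inv_eq_of_mul_eq_one_right h1
  have e2 : τ⁻¹ = τ := inv_eq_of_mul_eq_one_right h2
  have e3 := inv_eq_of_mul_eq_one_right h3
  rw [mul_inv_rev, e1, e2] at e3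
  exact e3.symm

theorem swap_mem_pairGrp {t : Perm α} (ht : ∀ x, t (t x) = x) (a : α) :
    swap a (t a) ∈ pairGrp t ht := by
  intro x
  have := ht a
  grind

/-- `t` is an involution with at most one fixed point, and `H` contains the products of two
transpositions of `t`. -/
structure Good (H : Subgroup (Perm α)) (t : Perm α) : Prop where
  inv : ∀ x, t (t x) = x
  fix : ∀ x y, t x = x → t y = y → x = y
  mem : ∀ a b, t a ≠ a → t b ≠ b → swap a (t a) * swap b (t b) ∈ H

theorem Good.conj {H : Subgroup (Perm α)} {t : Perm α} (h : Good H t) {g : Perm α}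
    {H' : Subgroup (Perm α)} (hg : ∀ x ∈ H, g * x * g⁻¹ ∈ H') : Good H' (g * t * g⁻¹) where
  inv x := by simp [h.inv]
  fix x y hx hy := by
    have h1 : t (g⁻¹ x) = g⁻¹ x := by
      apply g.injective; simpa using hx
    have h2 : t (g⁻¹ y) = g⁻¹ y := by
      apply g.injective; simpa using hy
    exact g⁻¹.injective (h.fix _ _ h1 h2)
  mem a b ha hb := by
    have h1 : t (g⁻¹ a) ≠ g⁻¹ a := fun e => ha (by simp only [mul_apply, e]; simp)
    have h2 : t (g⁻¹ b) ≠ g⁻¹ b := fun e => hb (by simp only [mul_apply, e]; simp)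
    have h3 := hg _ (h.mem _ _ h1 h2)
    have : g * (swap (g⁻¹ a) (t (g⁻¹ a)) * swap (g⁻¹ b) (t (g⁻¹ b))) * g⁻¹ =
        swap (g (g⁻¹ a)) (g (t (g⁻¹ a))) * swap (g (g⁻¹ b)) (g (t (g⁻¹ b))) := by
      rw [swap_apply_apply, swap_apply_apply]; group
    rw [this] at h3
    simpa using h3

theorem three_of_config {H : Subgroup (Perm α)} {a b c u u' v v' : α}
    (h1 : swap b a * swap u u' ∈ H) (h2 : swap b c * swap v v' ∈ H)
    (hd : [a, b, c, u, u', v, v'].Nodup) : ∃ z ∈ H, z.IsThreeCycle := by
  simp only [List.nodup_cons, List.mem_cons, List.not_mem_nil, or_false, not_or,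
    not_false_eq_true, List.nodup_nil, and_true] at hd
  refine ⟨swap b c * swap b a, ?_, isThreeCycle_swap_mul_swap_same (by grind) (by grind) (by grind)⟩
  have h3 := H.mul_mem h1 h2
  have : (swap b a * swap u u' * (swap b c * swap v v')) *
      (swap b a * swap u u' * (swap b c * swap v v')) = swap b c * swap b a := by
    ext x
    simp only [coe_mul, Function.comp_apply]
    by_cases e1 : x = a
    · subst e1; grind
    by_cases e2 : x = b
    · subst e2; grind
    by_cases e3 : x = c
    · subst e3; grind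
    by_cases e4 : x = u
    · subst e4; grind
    by_cases e5 : x = u'
    · subst e5; grind
    by_cases e6 : x = v
    · subst e6; grind
    by_cases e7 : x = v'
    · subst e7; grind
    simp [swap_apply_of_ne_of_ne, *]
  exact this ▸ H.mul_mem h3 h3

theorem exists_notMem (l : List α) (h : l.length < Fintype.card α) : ∃ x, x ∉ l := by
  obtain ⟨x, -, hx⟩ := Finset.exists_mem_notMem_of_card_lt_card (s := l.toFinset)
    (t := Finset.univ) ((List.toFinset_card_le l).trans_lt h)
  exact ⟨x, by simpa using hx⟩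

theorem Good.exists_fix {H : Subgroup (Perm α)} {t : Perm α} (h : Good H t) (x : α) :
    ∃ p, ∀ y, t y = y → y = p := by
  by_cases e : ∃ y, t y = y
  · obtain ⟨y, hy⟩ := e
    exact ⟨y, fun z hz => h.fix _ _ hz hy⟩
  · exact ⟨x, fun y hy => absurd ⟨y, hy⟩ e⟩

/-- No configuration giving a 3-cycle. -/
theorem Good.nc {H : Subgroup (Perm α)} {s t : Perm α} (hs : Good H s) (ht : Good H t)
    (hn : ¬ ∃ z ∈ H, z.IsThreeCycle) (b u v : α) :
    ¬ [t b, b, s b, u, t u, v, s v].Nodup := fun hd => by
  have hd' := hd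
  simp only [List.nodup_cons, List.mem_cons, List.not_mem_nil, or_false, not_or,
    not_false_eq_true, List.nodup_nil, and_true] at hd'
  exact hn (three_of_config (ht.mem b u (by grind) (by grind)) (hs.mem b v (by grind) (by grind)) hd)

theorem Good.eq_of_ten {H : Subgroup (Perm α)} {s t : Perm α} (hs : Good H s) (ht : Good H t)
    (hn : ¬ ∃ z ∈ H, z.IsThreeCycle) (h10 : 10 ≤ Fintype.card α) : s = t := by
  have key : ∀ b, t b ≠ b → s b ≠ b → s b = t b := by
    intro b h1 h2
    by_contra h3
    obtain ⟨p, hp⟩ := ht.exists_fix b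
    obtain ⟨q, hq⟩ := hs.exists_fix b
    obtain ⟨u, hu⟩ := exists_notMem [t b, b, s b, t (s b), p] (by simp; omega)
    obtain ⟨v, hv⟩ := exists_notMem [t b, b, s b, s (t b), q, u, t u, s u, s (t u)] (by simp; omega)
    refine hs.nc ht hn b u v ?_
    have := ht.inv
    have := hs.inv
    simp only [List.nodup_cons, List.mem_cons, List.not_mem_nil, or_false, not_or,
      not_false_eq_true, List.nodup_nil, and_true] at hu hv ⊢
    grind
  ext x
  have := ht.inv x
  have := hs.inv x
  have := ht.inv (s x)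
  have := hs.inv (t x)
  have := ht.fix x (s x)
  have := hs.fix x (t x)
  have k1 := key x
  have k2 := key (s x)
  have k3 := key (t x)
  clear key
  by_cases e1 : t x = x <;> by_cases e2 : s x = x <;> grind

theorem Good.aux {H : Subgroup (Perm α)} {s t : Perm α} (hs : Good H s) (ht : Good H t)
    (hn : ¬ ∃ z ∈ H, z.IsThreeCycle) (h8 : 8 ≤ Fintype.card α) (b : α) (h1 : t b ≠ b)
    (h2 : s b ≠ b) (h3 : s b ≠ t b) (h4 : t (s b) ≠ s b) : s (t b) = t (s b) := by
  by_contra h5
  have i1 := ht.inv
  have i2 := hs.inv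
  obtain ⟨p, hp⟩ := ht.exists_fix b
  by_cases e : s (t (s b)) = t (s b)
  · obtain ⟨x, hx⟩ := exists_notMem [t b, b, s b, t (s b), s (t b)] (by simp; omega)
    refine hs.nc ht hn (t b) (s b) x ?_
    have := hs.fix
    simp only [List.nodup_cons, List.mem_cons, List.not_mem_nil, or_false, not_or,
      not_false_eq_true, List.nodup_nil, and_true] at hx ⊢
    grind
  · obtain ⟨u, hu⟩ := exists_notMem
      [t b, b, s b, t (s b), p, s (t (s b)), t (s (t (s b)))] (by simp; omega)
    refine hs.nc ht hn b u (t (s b)) ?_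
    simp only [List.nodup_cons, List.mem_cons, List.not_mem_nil, or_false, not_or,
      not_false_eq_true, List.nodup_nil, and_true] at hu ⊢
    grind

theorem Good.comm {H : Subgroup (Perm α)} {s t : Perm α} (hs : Good H s) (ht : Good H t)
    (hn : ¬ ∃ z ∈ H, z.IsThreeCycle) (h8 : 8 ≤ Fintype.card α) : Commute s t := by
  have i1 := ht.inv
  have i2 := hs.inv
  have f1 := ht.fix
  have f2 := hs.fix
  have key : ∀ b, t b ≠ b → s b ≠ b → s b ≠ t b → s (t b) = t (s b) := by
    intro b h1 h2 h3
    by_cases e1 : t (s b) = s b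
    · by_cases e2 : s (t b) = t b
      · exfalso
        obtain ⟨v, hv⟩ := exists_notMem [t b, b, s b] (by simp; omega)
        obtain ⟨u, hu⟩ := exists_notMem [t b, b, s b, v, s v, t v, t (s v)] (by simp; omega)
        refine hs.nc ht hn b u v ?_
        simp only [List.nodup_cons, List.mem_cons, List.not_mem_nil, or_false, not_or,
          not_false_eq_true, List.nodup_nil, and_true] at hu hv ⊢
        grind
      · exact (ht.aux hs hn h8 b h2 h1 h3.symm e2).symm
    · exact hs.aux ht hn h8 b h1 h2 h3 e1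
  ext x
  simp only [coe_mul, Function.comp_apply]
  have k1 := key x
  have k2 := key (s x)
  have k3 := key (t x)
  have a1 := i1 x
  have a2 := i2 x
  have a3 := i1 (s x)
  have a4 := i2 (t x)
  have a5 := f1 x (s x)
  have a6 := f2 x (t x)
  have a7 := i2 (t (s x))
  have a8 := i1 (s (t x))
  clear key i1 i2 f1 f2
  by_cases e1 : t x = x <;> by_cases e2 : s x = x <;> by_cases e3 : s x = t x <;>
    by_cases e4 : x = t (s x) <;> by_cases e5 : x = s (t x) <;> grind

theorem false_of_commute {K H : Subgroup (Perm α)} (h : QSN K H) {u : Perm α} (hu : u ∈ H)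
    (h1 : u ≠ 1) (h2 : ∀ x, u (u x) = x) (h9 : u.support.card ≤ 9)
    (hc : ∀ g ∈ H, ∀ g' ∈ H, Commute (g * u * g⁻¹) (g' * u * g'⁻¹)) : False := by
  set A : Subgroup (Perm α) := closure {x | ∃ g ∈ H, x = g * u * g⁻¹} with hA
  have hAH : A ≤ H := (closure_le _).2 fun x ⟨g, hg, e⟩ =>
    e ▸ H.mul_mem (H.mul_mem hg hu) (H.inv_mem hg)
  have hn : H ≤ normalizer (A : Set (Perm α)) := fun g hg => by
    refine mem_normalizer_of_cj_le ?_
    rw [hA, cj, MonoidHom.map_closure, closure_le]
    rintro _ ⟨_, ⟨g', hg', rfl⟩, rfl⟩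
    exact subset_closure ⟨g * g', H.mul_mem hg hg', by simp [mul_assoc]⟩
  have hcomm : IsMulCommutative A := isMulCommutative_closure (by
    rintro _ ⟨g, hg, rfl⟩ _ ⟨g', hg', rfl⟩
    exact hc g hg g' hg')
  have hs : Group.IsSolvable A := Group.isSolvable_of_comm fun a b => hcomm.is_comm.comm a b
  have h3 := h.qs.comm_of_isSolvable h.sn (SN.of_normal hAH hn) hs
  have h4 : u ∈ centralizer (K : Set (Perm α)) :=
    commutator_eq_bot_iff_le_centralizer.1 h3 (subset_closure ⟨1, H.one_mem, by simp⟩)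
  have h5 : ∀ k ∈ K, ∀ x, k (u x) = u (k x) := fun k hk x => by
    rw [← mul_apply, mem_centralizer_iff.1 h4 k hk, mul_apply]
  obtain ⟨x, hx⟩ : u.support.Nonempty := by
    rw [Finset.nonempty_iff_ne_empty, Ne, support_eq_empty_iff]; exact h1
  -- the pairs
  open scoped Pointwise in
  have h6 := smul_eq_of_perfect (β := Finset α) h.qs.perfect
    ((u.support.image fun y => ({y, u y} : Finset α) : Finset (Finset α)) : Set (Finset α))
    (Finset.finite_toSet _) (by
      rw [Set.ncard_coe_finset]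
      have := Finset.mul_card_image_le_card u.support (f := fun y => ({y, u y} : Finset α)) 2 (by
        intro b hb
        obtain ⟨y, hy, rfl⟩ := Finset.mem_image.1 hb
        have hy' := mem_support.1 hy
        rw [← Finset.card_pair hy'.symm]
        refine Finset.card_le_card fun z hz => ?_
        simp only [Finset.mem_insert, Finset.mem_singleton] at hz
        rcases hz with rfl | rfl
        · exact Finset.mem_filter.2 ⟨hy, rfl⟩
        · exact Finset.mem_filter.2 ⟨apply_mem_support.2 hy, by rw [h2, Finset.pair_comm]⟩)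
      omega)
    (by
      intro k hk b hb
      obtain ⟨y, hy, rfl⟩ := Finset.mem_image.1 hb
      refine Finset.mem_image.2 ⟨k y,
        apply_mem_support_of_commute (mem_centralizer_iff.1 h4 k hk) hy, ?_⟩
      rw [Finset.smul_finset_insert, Finset.smul_finset_singleton, Perm.smul_def, Perm.smul_def,
        h5 k hk])
  have h7 := smul_eq_of_perfect h.qs.perfect (({x, u x} : Finset α) : Set α)
    (Finset.finite_toSet _) (by
      rw [Set.ncard_coe_finset]; exact Finset.card_le_two.trans (by decide))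
    (by
      intro k hk y hy
      have := h6 k hk {x, u x} (Finset.mem_image.2 ⟨x, hx, rfl⟩)
      rw [← this]
      exact Finset.smul_mem_smul_finset hy)
    u (h.cent u hu h4) x (by simp)
  exact mem_support.1 hx h7

theorem exists_three {K H : Subgroup (Perm α)} (h : QSN K H) {t : Perm α} (ht : Good H t)
    (h8 : 8 ≤ Fintype.card α) (htH : Fintype.card α ≤ 9 → t ∈ H) : ∃ z ∈ H, z.IsThreeCycle := by
  by_contra hn
  have hg : ∀ g ∈ H, Good H (g * t * g⁻¹) := fun g hg =>
    ht.conj fun x hx => H.mul_mem (H.mul_mem hg hx) (H.inv_mem hg)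
  have : Nonempty α := Fintype.card_pos_iff.1 (by omega)
  obtain ⟨p, hp⟩ := ht.exists_fix (Classical.arbitrary α)
  obtain ⟨a, ha⟩ := exists_notMem [p] (by simp; omega)
  obtain ⟨b, hb⟩ := exists_notMem [p, a, t a] (by simp; omega)
  simp only [List.mem_cons, List.not_mem_nil, or_false, not_or] at ha hb
  have ha' : t a ≠ a := fun e => ha (hp a e)
  have hb' : t b ≠ b := fun e => hb.1 (hp b e)
  by_cases h9 : Fintype.card α ≤ 9
  · refine false_of_commute h (htH h9) (fun e => ha' (by rw [e]; rfl)) ht.inv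
      ((Finset.card_le_univ _).trans h9) fun g h1 g' h2 => (hg g h1).comm (hg g' h2) hn h8
  · have hu := mul_mem (swap_mem_pairGrp ht.inv a) (swap_mem_pairGrp ht.inv b)
    have hi := ht.inv
    refine false_of_commute h (ht.mem a b ha' hb') (fun e => ?_) (fun x => ?_) ?_ ?_
    · have := congrArg (fun σ : Perm α => σ a) e
      simp only [coe_mul, Function.comp_apply, coe_one, id] at this
      grind
    · rw [← mul_apply, sq_of_mem_pairGrp hu]; rfl
    · refine (Finset.card_le_card (support_mul_le _ _)).trans ((Finset.card_union_le _ _).trans ?_)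
      rw [card_support_swap ha'.symm, card_support_swap hb'.symm]
      decide
    · have key : ∀ g ∈ H, g * (swap a (t a) * swap b (t b)) * g⁻¹ ∈ pairGrp t ht.inv := by
        intro g h1 x
        have e := (hg g h1).eq_of_ten ht hn (by omega)
        rcases hu (g⁻¹ x) with e' | e'
        · left; rw [mul_apply, mul_apply, e']; simp
        · right; rw [mul_apply, mul_apply, e', ← mul_apply, ← mul_apply, e]
      exact fun g h1 g' h2 => comm_of_mem_pairGrp (key g h1) (key g' h2)

/-- The standard pairing on `Fin n`. -/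
def pf (n : ℕ) (x : Fin n) : Fin n :=
  if h : x.1 % 2 = 0 then (if h' : x.1 + 1 < n then ⟨x.1 + 1, h'⟩ else x)
  else ⟨x.1 - 1, by omega⟩

theorem pf_pf (n : ℕ) (x : Fin n) : pf n (pf n x) = x := by
  have := x.2
  simp only [pf]
  split_ifs <;> first | rfl | omega | (ext; simp only [] ; omega) | (simp_all; omega)

/-- The standard pairing as a permutation. -/
def pt (n : ℕ) : Perm (Fin n) := ⟨pf n, pf n, pf_pf n, pf_pf n⟩

theorem pt_fix (n : ℕ) (x y : Fin n) (hx : pt n x = x) (hy : pt n y = y) : x = y := by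
  have h1 := x.2
  have h2 := y.2
  change pf n x = x at hx
  change pf n y = y at hy
  simp only [pf] at hx hy
  ext
  split_ifs at hx hy <;> simp only [Fin.ext_iff] at hx hy <;> omega

theorem sign_pt {n : ℕ} (h8 : 8 ≤ n) (h9 : n ≤ 9) : sign (pt n) = 1 := by
  obtain rfl | rfl : n = 8 ∨ n = 9 := by omega
  · decide +kernel
  · decide +kernel

theorem two_dvd {s : Finset α} (hs : 4 ≤ s.card) : 2 ∣ Nat.card (altOn s) := by
  have h := card_altOn (s := s) (by omega)
  have h2 : 24 ∣ 2 * Nat.card (altOn s) := h ▸ Nat.factorial_dvd_factorial (m := 4) hs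
  omega

end

/-- Let n ≥ 8 and let H be a subgroup of the symmetric group of degree n whose generalized Fitting subgroup F*(H) is quasisimple. If H contains a Sylow 2-subgroup of the alternating group of degree n, then F*(H) is isomorphic to an alternating group of degree m for some m ∈ {n − 3, n − 2, n − 1, n}. -/
theorem result (n : ℕ) (hn : 8 ≤ n) (H : Subgroup (Equiv.Perm (Fin n))) (hF : Cfsg.IsQuasisimple ↥(Cfsg.generalizedFittingSubgroup ↥H)) (hS : ∃ P : Sylow 2 ↥(alternatingGroup (Fin n)), ((P : Subgroup ↥(alternatingGroup (Fin n))).map (alternatingGroup (Fin n)).subtype) ≤ H) : ∃ m : ℕ, (m = n - 3 ∨ m = n - 2 ∨ m = n - 1 ∨ m = n) ∧ Nonempty (↥(Cfsg.generalizedFittingSubgroup ↥H) ≃* ↥(alternatingGroup (Fin m))) := by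
  open Cfsg.L0 in
  obtain ⟨P, hP⟩ := hS
  have hq := Cfsg.L0.qsn_fstar H hF
  have hS := Cfsg.H7.isSylowIn_map_subtype P
  have h2 : IsPGroup 2 (pairGrp (pt n) (pf_pf n) ⊓ alternatingGroup (Fin n) : Subgroup _) :=
    IsPGroup.to_inf_left (Cfsg.H7.isPGroup_iff_mem.2 fun x hx =>
      ⟨1, by rw [pow_one, sq, sq_of_mem_pairGrp hx]⟩)
  obtain ⟨g, hg, hg'⟩ := hS.exists_cj_le h2 inf_le_right
  have hgd : Good (pairGrp (pt n) (pf_pf n) ⊓ alternatingGroup (Fin n)) (pt n) :=
    ⟨pf_pf n, pt_fix n, fun a b ha hb => ⟨mul_mem (swap_mem_pairGrp (t := pt n) (pf_pf n) a)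
      (swap_mem_pairGrp (t := pt n) (pf_pf n) b), by
        simp [Equiv.Perm.mem_alternatingGroup, Equiv.Perm.sign_swap ha.symm,
          Equiv.Perm.sign_swap hb.symm]⟩⟩
  have hc : ∀ x ∈ pairGrp (pt n) (pf_pf n) ⊓ alternatingGroup (Fin n), g * x * g⁻¹ ∈ H :=
    fun x hx => hP (hg' (Cfsg.H7.conj_mem_cj hx))
  obtain ⟨c, hcH, hc3⟩ := exists_three hq (hgd.conj hc) (by simpa using hn) fun h9 =>
    hc _ ⟨fun x => Or.inr rfl, sign_pt hn (by simpa using h9)⟩
  obtain ⟨s, hs, e⟩ := hq.eq_altOn hc3 hcH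
  rw [e] at hq
  have h1 := hq.not_dvd_card_compl (by omega) hS hP (Cfsg.L0.altOn_le_alt _)
  have h2 : sᶜ.card < 4 := by
    by_contra h'
    exact h1 (two_dvd (by omega))
  have h3 := Finset.card_compl s
  have h4 := Finset.card_le_univ s
  rw [Fintype.card_fin] at h3 h4
  obtain ⟨f⟩ := Cfsg.L0.nonempty_altOn_equiv s
  exact ⟨s.card, by omega, ⟨((Subgroup.equivMapOfInjective _ _ H.subtype_injective).trans
    (MulEquiv.subgroupCongr e)).trans f⟩⟩

end Cfsg.Agent.S2928
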