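import Cfsg.Statements.S2929
import Cfsg.Agent.L0.Alt3
-- import your own Cfsg.Agent.* helpers here

set_option autoImplicit false
open Cfsg

namespace Cfsg.Agent.S2929

section
open Subgroup Equiv Equiv.Perm Cfsg.L0

theorem three_dvd {α : Type*} [Fintype α] [DecidableEq α] {s : Finset α} (hs : 3 ≤ s.card) :
    3 ∣ Nat.card (altOn s) := by
  have h := card_altOn (s := s) (by omega)
  have h2 : 3 ∣ 2 * Nat.card (altOn s) := h ▸ Nat.dvd_factorial (by decide) hs
  exact (Nat.Coprime.dvd_mul_left (by decide)).1 h2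

end

/-- Let n ≥ 5 and let H be a subgroup of the symmetric group of degree n whose generalized Fitting subgroup F*(H) is quasisimple. If H contains a Sylow 3-subgroup of the symmetric group, then F*(H) is isomorphic to an alternating group of degree m for some m ∈ {n − 2, n − 1, n}. -/
theorem result (n : ℕ) (hn : 5 ≤ n) (H : Subgroup (Equiv.Perm (Fin n))) (hF : Cfsg.IsQuasisimple ↥(Cfsg.generalizedFittingSubgroup ↥H)) (hS : ∃ P : Sylow 3 (Equiv.Perm (Fin n)), (P : Subgroup (Equiv.Perm (Fin n))) ≤ H) : ∃ m : ℕ, (m = n - 2 ∨ m = n - 1 ∨ m = n) ∧ Nonempty (↥(Cfsg.generalizedFittingSubgroup ↥H) ≃* ↥(alternatingGroup (Fin m))) := by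
  obtain ⟨P, hP⟩ := hS
  have hq := Cfsg.L0.qsn_fstar H hF
  have : Fact (Nat.Prime 3) := ⟨Nat.prime_three⟩
  have hc : Equiv.Perm.IsThreeCycle
      (Equiv.swap (⟨0, by omega⟩ : Fin n) ⟨1, by omega⟩ * Equiv.swap ⟨0, by omega⟩ ⟨2, by omega⟩) :=
    Equiv.Perm.isThreeCycle_swap_mul_swap_same (by simp) (by simp) (by simp)
  generalize (Equiv.swap (⟨0, by omega⟩ : Fin n) ⟨1, by omega⟩ *
    Equiv.swap ⟨0, by omega⟩ ⟨2, by omega⟩) = c at hc
  obtain ⟨g, -, hg⟩ := (Cfsg.H7.isSylowIn_top P).exists_conj_mem (x := c)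
    ⟨1, by rw [pow_one, ← hc.orderOf, pow_orderOf_eq_one]⟩ (Subgroup.mem_top _)
  have hc' : Equiv.Perm.IsThreeCycle (g * c * g⁻¹) := by
    change Equiv.Perm.cycleType _ = _
    rw [Equiv.Perm.cycleType_conj]
    exact hc
  obtain ⟨s, hs, e⟩ := hq.eq_altOn hc' (hP hg)
  rw [e] at hq
  have h1 := hq.not_dvd_card_compl (by omega) (Cfsg.H7.isSylowIn_top P) hP le_top
  have h2 : sᶜ.card < 3 := by
    by_contra h'
    exact h1 (three_dvd (by omega))
  have h3 := Finset.card_compl s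
  have h4 := Finset.card_le_univ s
  rw [Fintype.card_fin] at h3 h4
  obtain ⟨f⟩ := Cfsg.L0.nonempty_altOn_equiv s
  exact ⟨s.card, by omega, ⟨((Subgroup.equivMapOfInjective _ _ H.subtype_injective).trans
    (MulEquiv.subgroupCongr e)).trans f⟩⟩

end Cfsg.Agent.S2929
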