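import Cfsg.Statements.S2930
import Cfsg.Agent.L0.AltAut
-- import your own Cfsg.Agent.* helpers here

set_option autoImplicit false
open Cfsg

namespace Cfsg.Agent.S2930

section
set_option linter.unusedSectionVars false
open Subgroup Equiv Equiv.Perm Cfsg.L0

variable {α : Type*} [Fintype α] [DecidableEq α]

/-- Permutations preserving a relation. -/
def pres (r : α → α → Prop) : Subgroup (Perm α) where
  carrier := {g | ∀ x y, r x y ↔ r (g x) (g y)}
  one_mem' _ _ := Iff.rfl
  mul_mem' {a b} ha hb x y := (hb x y).trans (ha _ _)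
  inv_mem' {a} ha x y := by
    have := ha (a⁻¹ x) (a⁻¹ y)
    simpa using this.symm

theorem le_pres {r : α → α → Prop} {P : Subgroup (Perm α)}
    (h : ∀ g ∈ P, ∀ x y, r x y → r (g x) (g y)) : P ≤ pres r := fun g hg x y =>
  ⟨h g hg x y, fun h' => by simpa using h g⁻¹ (inv_mem hg) _ _ h'⟩

/-- The data of a 3-minimal alternating group. -/
structure Min3 (P M : Subgroup (Perm α)) : Prop where
  syl : H7.IsSylowIn 3 P (alternatingGroup α)
  ne : ¬ alternatingGroup α ≤ M
  uniq : ∀ Y, P ≤ Y → Y < alternatingGroup α → Y ≤ M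
  five : 5 ≤ Fintype.card α

theorem exists_notMem (l : List α) (h : l.length < Fintype.card α) : ∃ x, x ∉ l := by
  obtain ⟨x, -, hx⟩ := Finset.exists_mem_notMem_of_card_lt_card (s := l.toFinset)
    (t := Finset.univ) ((List.toFinset_card_le l).trans_lt h)
  exact ⟨x, by simpa using hx⟩

namespace Min3

variable {P M : Subgroup (Perm α)}

theorem pres_le (h : Min3 P M) {r : α → α → Prop} (hP : P ≤ pres r) {a b c : α} (hab : a ≠ b)
    (hac : a ≠ c) (h1 : r a b) (h2 : ¬ r a c) : pres r ⊓ alternatingGroup α ≤ M := by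
  refine h.uniq _ (le_inf hP h.syl.le) (lt_of_le_of_ne inf_le_right fun e => ?_)
  have := h.five
  obtain ⟨d, hd⟩ := exists_notMem [a, b, c] (by simp; omega)
  simp only [List.mem_cons, List.not_mem_nil, or_false, not_or] at hd
  have hbc : b ≠ c := fun e => h2 (e ▸ h1)
  have h3 : swap b d * swap b c ∈ pres r ⊓ alternatingGroup α := by
    rw [e]
    exact (isThreeCycle_swap_mul_swap_same (Ne.symm hd.2.1) hbc hd.2.2).mem_alternatingGroup
  have h4 := (h3.1 a b).1 h1
  have e1 : (swap b d * swap b c) a = a := by simp only [Perm.coe_mul, Function.comp_apply]; grind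
  have e2 : (swap b d * swap b c) b = c := by simp only [Perm.coe_mul, Function.comp_apply]; grind
  rw [e1, e2] at h4
  exact h2 h4

theorem le (h : Min3 P M) : P ≤ M := by
  refine h.uniq P le_rfl (lt_of_le_of_ne h.syl.le fun e => ?_)
  have := h.five
  have h1 := card_altOn (s := (Finset.univ : Finset α)) (by rw [Finset.card_univ]; omega)
  have : Fact (Nat.Prime 3) := ⟨Nat.prime_three⟩
  obtain ⟨k, hk⟩ := h.syl.isPGroup.exists_card_eq
  rw [altOn_univ, ← e, hk, Finset.card_univ] at h1
  have h2 : 24 ∣ 2 * 3 ^ k := h1 ▸ Nat.factorial_dvd_factorial (m := 4) (by omega)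
  have h3 : Odd (3 ^ k) := Odd.pow (by decide)
  obtain ⟨m, hm⟩ := h3
  omega

theorem altOn_le (h : Min3 P M) {s : Finset α} (hs : ∀ g ∈ P, ∀ x ∈ s, g x ∈ s) {b c : α}
    (hb : b ∈ s) (hc : c ∉ s) : altOn s ≤ M := by
  have := h.five
  obtain ⟨a, ha⟩ := exists_notMem [b, c] (by simp; omega)
  simp only [List.mem_cons, List.not_mem_nil, or_false, not_or] at ha
  refine le_trans (le_inf ?_ (altOn_le_alt s))
    (h.pres_le (r := fun _ y => y ∈ s) (le_pres fun g hg _ y hy => hs g hg y hy) ha.1 ha.2 hb hc)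
  exact le_pres fun g hg _ y hy => apply_mem_of_mem_altOn hg hy

theorem not_all (h : Min3 P M) (x : α) : ¬ ∀ y, y ∈ cls M x := fun e => h.ne (by
  rw [← altOn_univ, ← Finset.eq_univ_of_forall e]
  exact altOn_cls_le M x)

theorem case_not_dvd (h : Min3 P M) (hn : ¬ 3 ∣ Fintype.card α) :
    ∃ a : ℕ, 2 ≤ a ∧ Fintype.card α = 3 ^ a + 1 := by
  classical
  have h5 := h.five
  have : Fact (Nat.Prime 3) := ⟨Nat.prime_three⟩
  obtain ⟨x, hx⟩ := h.syl.isPGroup.nonempty_fixed_point_of_prime_not_dvd_card α (by simpa using hn)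
  have hx' : ∀ g ∈ P, g x = x := fun g hg => hx ⟨g, hg⟩
  obtain ⟨y, hy⟩ := exists_notMem [x] (by simp; omega)
  simp only [List.mem_cons, List.not_mem_nil, or_false] at hy
  set O : Finset α := Finset.univ.filter fun z => z ∈ MulAction.orbit P y with hO
  have hOi : ∀ g ∈ P, ∀ z ∈ O, g z ∈ O := fun g hg z hz => by
    simp only [hO, Finset.mem_filter, Finset.mem_univ, true_and] at hz ⊢
    exact MulAction.mapsTo_smul_orbit (⟨g, hg⟩ : P) y hz
  have hyO : y ∈ O := by simp [hO]
  have hxO : x ∉ O := by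
    simp only [hO, Finset.mem_filter, Finset.mem_univ, true_and]
    rintro ⟨g, hg⟩
    have h1 : g.1 y = x := hg
    exact hy (g.1.injective (h1.trans (hx' g g.2).symm))
  have hxi : ∀ g ∈ P, ∀ z ∈ ({x} : Finset α), g z ∈ ({x} : Finset α) := fun g hg z hz => by
    rw [Finset.mem_singleton] at hz ⊢
    rw [hz, hx' g hg]
  have hall : O = {x}ᶜ := by
    by_contra hne
    obtain ⟨z, hz1, hz2⟩ : ∃ z, z ≠ x ∧ z ∉ O := by
      by_contra h'
      push Not at h'
      refine hne (Finset.ext fun z => ?_)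
      simp only [Finset.mem_compl, Finset.mem_singleton]
      exact ⟨fun hz e => hxO (e ▸ hz), h' z⟩
    have h1 : altOn {x}ᶜ ≤ M := h.altOn_le (fun g hg => apply_mem_compl (hxi g hg)) (b := y)
      (by simpa using hy) (c := x) (by simp)
    have h2 := subset_cls_of_altOn_le (x := y) (by rw [Finset.card_compl]; simp; omega) h1
      (by simpa using hy)
    obtain ⟨Γ, hΓ1, hΓ2, hΓ3⟩ : ∃ Γ : Finset α, 3 ≤ Γ.card ∧ altOn Γ ≤ M ∧ x ∈ Γ := by
      by_cases e : 2 ≤ O.card
      · refine ⟨insert x O, by rw [Finset.card_insert_of_notMem hxO]; omega,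
          h.altOn_le (fun g hg w hw => ?_) (b := x) (by simp) (c := z) (by simp [hz1, hz2]), by simp⟩
        rcases Finset.mem_insert.1 hw with rfl | hw
        · rw [hx' g hg]; simp
        · exact Finset.mem_insert_of_mem (hOi g hg w hw)
      · exact ⟨Oᶜ, by rw [Finset.card_compl]; omega, h.altOn_le
          (fun g hg => apply_mem_compl (hOi g hg)) (b := x) (by simpa using hxO) (c := y)
          (by simpa using hyO), by simpa using hxO⟩
    obtain ⟨w, hw, hw'⟩ := Finset.exists_mem_notMem_of_card_lt_card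
      (s := ({x} : Finset α)) (t := Γ) (by rw [Finset.card_singleton]; omega)
    have h3 := subset_cls_of_altOn_le hΓ1 hΓ2 hw hΓ3
    have h4 : w ∈ cls M y := h2 (by simpa using hw')
    refine h.not_all y fun v => ?_
    by_cases e : v = x
    · exact e ▸ mem_cls_trans h4 h3
    · exact h2 (by simpa using e)
  obtain ⟨a, ha⟩ := h.syl.isPGroup.card_orbit y
  have h1 : O.card = 3 ^ a := by
    rw [← ha, Nat.card_coe_set_eq, ← Set.ncard_coe_finset]
    congr 1
    ext z
    simp [hO]
  rw [hall, Finset.card_compl, Finset.card_singleton] at h1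
  refine ⟨a, ?_, by omega⟩
  by_contra h'
  obtain rfl | rfl : a = 0 ∨ a = 1 := by omega
  all_goals omega

theorem card_cls (h : Min3 P M) (hn : 3 ∣ Fintype.card α) (x : α) : (cls P x).card = 3 := by
  classical
  have : Fact (Nat.Prime 3) := ⟨Nat.prime_three⟩
  refine le_antisymm ?_ ?_
  · by_contra h'
    have h1 := card_altOn (s := cls P x) (by omega)
    obtain ⟨k, hk⟩ := (h.syl.isPGroup.to_le (altOn_cls_le P x)).exists_card_eq
    rw [hk] at h1
    have h2 : 24 ∣ 2 * 3 ^ k := h1 ▸ Nat.factorial_dvd_factorial (m := 4) (by omega)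
    have h3 : Odd (3 ^ k) := Odd.pow (by decide)
    obtain ⟨m, hm⟩ := h3
    omega
  · set N : Subgroup (Perm α) := closure {c | c.IsThreeCycle ∧ c ∈ P} with hN
    have hNP : N ≤ P := (closure_le _).2 fun c hc => hc.2
    set F : Finset α := Finset.univ.filter fun y => ∀ c : Perm α, c.IsThreeCycle → c ∈ P → c y = y
      with hF
    have h1 : Nat.card (MulAction.fixedPoints N α) = F.card := by
      rw [Nat.card_coe_set_eq, ← Set.ncard_coe_finset]
      congr 1
      ext y
      simp only [hF, Finset.coe_filter, Finset.mem_univ, true_and, Set.mem_ofPred_eq,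
        MulAction.mem_fixedPoints]
      refine ⟨fun hy c h1 h2 => hy ⟨c, subset_closure ⟨h1, h2⟩⟩, fun hy g => ?_⟩
      exact (closure_le (MulAction.stabilizer (Perm α) y)).2 (fun c hc => hy c hc.1 hc.2) g.2
    have h2 := (h.syl.isPGroup.to_le hNP).card_modEq_card_fixedPoints α
    rw [h1, Nat.card_eq_fintype_card] at h2
    have h3 : 3 ∣ F.card := (h2.dvd_iff dvd_rfl).1 hn
    have h4 : F.card < 3 := by
      by_contra h'
      obtain ⟨u, v, w, hu, hv, hw, huv, huw, hvw⟩ := Finset.two_lt_card_iff.1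
        (show 2 < F.card by omega)
      have hc := isThreeCycle_swap_mul_swap_same huv huw hvw
      have hm := swap_mul_swap_mem_altOn hu hv hu hw huv huw
      have hPn : P ≤ normalizer (altOn F : Set (Perm α)) := fun g hg =>
        mem_normalizer_altOn fun y hy => by
          simp only [hF, Finset.mem_filter, Finset.mem_univ, true_and] at hy ⊢
          intro c h1 h2
          have := hy (g⁻¹ * c * g⁻¹⁻¹) (by
            change cycleType _ = _
            rw [cycleType_conj]; exact h1) (mul_mem (mul_mem (inv_mem hg) h2) (inv_mem (inv_mem hg)))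
          rw [inv_inv, mul_apply, mul_apply, inv_eq_iff_eq] at this
          exact this
      have h5 := (h.syl.mono le_sup_left (sup_le h.syl.le (altOn_le_alt F))).inf_of_normal
        le_sup_right (sup_le hPn le_normalizer)
      obtain ⟨g, -, hg⟩ := h5.exists_conj_mem ⟨1, by rw [pow_one, ← hc.orderOf, pow_orderOf_eq_one]⟩ hm
      have hc' : IsThreeCycle (g * (swap u v * swap u w) * g⁻¹) := by
        change cycleType _ = _
        rw [cycleType_conj]; exact hc
      obtain ⟨a, ha⟩ := Finset.card_pos.1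
        (show 0 < (g * (swap u v * swap u w) * g⁻¹).support.card by rw [hc'.card_support]; decide)
      have := (mem_altOn.1 hg.2).2 ha
      simp only [hF, Finset.mem_filter, Finset.mem_univ, true_and] at this
      exact mem_support.1 ha (this _ hc' hg.1)
    have h5 : F = ∅ := Finset.card_eq_zero.1 (by omega)
    have h6 : x ∉ F := by simp [h5]
    simp only [hF, Finset.mem_filter, Finset.mem_univ, true_and, not_forall] at h6
    obtain ⟨c, h7, h8, h9⟩ := h6
    exact h7.card_support ▸ Finset.card_le_card (support_subset_cls h7 h8 (mem_support.2 h9))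

theorem exists_cls (h : Min3 P M) (hn : 3 ∣ Fintype.card α) (x : α) :
    ∃ y z, x ≠ y ∧ x ≠ z ∧ y ≠ z ∧ cls P x = {x, y, z} := by
  have h1 := h.card_cls hn x
  have h2 : ((cls P x).erase x).card = 2 := by
    rw [Finset.card_erase_of_mem (mem_cls_self P x), h1]
  obtain ⟨y, z, hyz, e⟩ := Finset.card_eq_two.1 h2
  have hy : y ∈ (cls P x).erase x := by simp [e]
  have hz : z ∈ (cls P x).erase x := by simp [e]
  refine ⟨y, z, (Finset.ne_of_mem_erase hy).symm, (Finset.ne_of_mem_erase hz).symm, hyz, ?_⟩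
  rw [← e, Finset.insert_erase (mem_cls_self P x)]

theorem card_cls_le (h : Min3 P M) (hn : 3 ∣ Fintype.card α) (a : α) : (cls M a).card ≤ 3 := by
  by_contra h'
  refine h.not_all a fun c1 => ?_
  by_contra hc1
  obtain ⟨b1, hb1, hb1'⟩ := Finset.exists_mem_notMem_of_card_lt_card
    (s := cls P a) (t := cls M a) (by rw [h.card_cls hn]; omega)
  obtain ⟨a2, a3, ha1, ha2, ha3, ea⟩ := h.exists_cls hn a
  obtain ⟨b2, b3, hb2, hb3, hb4, eb⟩ := h.exists_cls hn b1
  obtain ⟨c2, c3, hc2, hc3, hc4, ec⟩ := h.exists_cls hn c1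
  have hab : cls P a ≠ cls P b1 := fun e => hb1' (e ▸ mem_cls_self P b1)
  have hac : cls P a ≠ cls P c1 := fun e => hc1 (cls_mono h.le a (e ▸ mem_cls_self P c1))
  have hbc : cls P b1 ≠ cls P c1 := fun e =>
    hc1 (mem_cls_trans hb1 (cls_mono h.le b1 (e ▸ mem_cls_self P c1)))
  have fa : ∀ x, cls P x = cls P a ↔ x = a ∨ x = a2 ∨ x = a3 := fun x =>
    ⟨fun e => by simpa [ea] using (e ▸ mem_cls_self P x : x ∈ cls P a), fun e => cls_eq_of_mem (by simpa [ea] using e)⟩
  have fb : ∀ x, cls P x = cls P b1 ↔ x = b1 ∨ x = b2 ∨ x = b3 := fun x =>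
    ⟨fun e => by simpa [eb] using (e ▸ mem_cls_self P x : x ∈ cls P b1), fun e => cls_eq_of_mem (by simpa [eb] using e)⟩
  have fc : ∀ x, cls P x = cls P c1 ↔ x = c1 ∨ x = c2 ∨ x = c3 := fun x =>
    ⟨fun e => by simpa [ec] using (e ▸ mem_cls_self P x : x ∈ cls P c1), fun e => cls_eq_of_mem (by simpa [ec] using e)⟩
  have g1 := (fa a2).2 (by simp)
  have g2 := (fa a3).2 (by simp)
  have g3 := (fb b2).2 (by simp)
  have g4 := (fb b3).2 (by simp)
  have g5 := (fc c2).2 (by simp)
  have g6 := (fc c3).2 (by simp)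
  have hd : [a, a2, a3, b1, b2, b3, c1, c2, c3].Nodup := by
    simp only [List.nodup_cons, List.mem_cons, List.not_mem_nil, or_false, not_or,
      not_false_eq_true, List.nodup_nil, and_true]
    clear fa fb fc ea eb ec
    repeat' apply And.intro
    all_goals first | assumption | (intro e; subst e; simp_all)
  simp only [List.nodup_cons, List.mem_cons, List.not_mem_nil, or_false, not_or,
    not_false_eq_true, List.nodup_nil, and_true] at hd
  set g := swap a2 a3 * swap b1 c1 * swap b2 c2 * swap b3 c3 with hg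
  have key : ∀ x, cls P (g x) = swap (cls P b1) (cls P c1) (cls P x) := by
    intro x
    have k1 := fb x
    have k2 := fc x
    clear fa fb fc ea eb ec
    simp only [hg, Perm.coe_mul, Function.comp_apply]
    by_cases e1 : x = a2
    · subst e1; grind
    by_cases e2 : x = a3
    · subst e2; grind
    by_cases e3 : x = b1
    · subst e3; grind
    by_cases e4 : x = b2
    · subst e4; grind
    by_cases e5 : x = b3
    · subst e5; grind
    by_cases e6 : x = c1
    · subst e6; grind
    by_cases e7 : x = c2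
    · subst e7; grind
    by_cases e8 : x = c3
    · subst e8; grind
    rw [swap_apply_of_ne_of_ne e5 e8, swap_apply_of_ne_of_ne e4 e7, swap_apply_of_ne_of_ne e3 e6,
      swap_apply_of_ne_of_ne e1 e2, swap_apply_of_ne_of_ne (by grind) (by grind)]
  have hgM : g ∈ M := by
    refine h.pres_le (r := fun x y => cls P x = cls P y) (le_pres fun k hk x y e => ?_) ha1
      (fun e => hac (e ▸ rfl)) g1.symm hac ⟨fun x y => ?_, ?_⟩
    · exact (cls_eq_of_mem (apply_mem_cls (le_normalizer hk) (e ▸ mem_cls_self P y))).symm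
    · simp only [key, EmbeddingLike.apply_eq_iff_eq]
    · simp [mem_alternatingGroup, hg, sign_swap ha3, sign_swap hd.2.2.2.1.2.2.1,
        sign_swap hd.2.2.2.2.1.2.2.1, sign_swap hd.2.2.2.2.2.1.2.2]
  have h1 := apply_mem_cls (le_normalizer hgM) hb1
  have e1 : g a = a := by simp only [hg, Perm.coe_mul, Function.comp_apply]; grind
  have e2 : g b1 = c1 := by simp only [hg, Perm.coe_mul, Function.comp_apply]; grind
  rw [e1, e2] at h1
  exact hc1 h1

theorem card_le_of_altOn_le (h : Min3 P M) (hn : 3 ∣ Fintype.card α) {s : Finset α}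
    (hs : altOn s ≤ M) : s.card ≤ 3 := by
  by_contra h'
  obtain ⟨x, hx⟩ := Finset.card_pos.1 (show 0 < s.card by omega)
  exact h' ((Finset.card_le_card (subset_cls_of_altOn_le (by omega) hs hx)).trans (h.card_cls_le hn x))

theorem case_dvd (h : Min3 P M) (hn : 3 ∣ Fintype.card α) : Fintype.card α ≤ 9 := by
  classical
  by_contra h9
  have : Fact (Nat.Prime 3) := ⟨Nat.prime_three⟩
  have : Nonempty α := Fintype.card_pos_iff.1 (by omega)
  obtain ⟨x⟩ := this
  by_cases ht : ∀ y, y ∈ MulAction.orbit P x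
  · have hi : (MulAction.stabilizer P x).index = Fintype.card α := by
      rw [MulAction.index_stabilizer, Set.eq_univ_of_forall ht, Set.ncard_univ,
        Nat.card_eq_fintype_card]
    obtain ⟨k, hk⟩ := h.syl.isPGroup.exists_card_eq
    obtain ⟨j, hj⟩ := (h.syl.isPGroup.to_subgroup (MulAction.stabilizer P x)).exists_card_eq
    have h1 := (MulAction.stabilizer P x).card_mul_index
    rw [hi, hj, hk] at h1
    have hjk : j < k := by
      by_contra h'
      have := Nat.pow_le_pow_right (show 0 < 3 by decide) (not_lt.1 h')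
      have : 0 < 3 ^ j := by positivity
      nlinarith
    obtain ⟨m, rfl⟩ : ∃ m, k = m + 1 := ⟨k - 1, by omega⟩
    obtain ⟨Q, hQ, hQ'⟩ := Sylow.exists_subgroup_card_pow_prime_le 3 (n := j) (m := m)
      (by rw [hk]; exact pow_dvd_pow _ (by omega)) _ hj (by omega)
    have hQi : Q.index = 3 := by
      have := Q.card_mul_index
      rw [hQ, hk, pow_succ] at this
      exact Nat.eq_of_mul_eq_mul_left (by positivity) this
    have hQn : Q.Normal := Subgroup.normal_of_index_eq_minFac_card (by
      rw [hQi, hk, Nat.Prime.pow_minFac Nat.prime_three (by omega)])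
    set B : Finset α := Finset.univ.filter fun z => z ∈ MulAction.orbit Q x with hB
    have hBc : 3 * B.card = Fintype.card α := by
      have e1 : B.card = (MulAction.stabilizer Q x).index := by
        rw [MulAction.index_stabilizer, ← Set.ncard_coe_finset]
        congr 1
        ext z
        simp [hB]
      have e2 : MulAction.stabilizer Q x = (MulAction.stabilizer P x).subgroupOf Q := rfl
      rw [e1, e2, ← hi, ← relIndex_mul_index hQ', hQi, mul_comm]
      rfl
    have hmem : ∀ z, z ∈ B ↔ ∃ g ∈ Q, g.1 x = z := fun z => by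
      simp only [hB, Finset.mem_filter, Finset.mem_univ, true_and]
      exact ⟨fun ⟨g, hg⟩ => ⟨g.1, g.2, hg⟩, fun ⟨g, hg, e⟩ => ⟨⟨g, hg⟩, e⟩⟩
    obtain ⟨b, hb, hb'⟩ := Finset.exists_mem_notMem_of_card_lt_card
      (s := ({x} : Finset α)) (t := B) (by rw [Finset.card_singleton]; omega)
    obtain ⟨c, -, hc⟩ := Finset.exists_mem_notMem_of_card_lt_card
      (s := B) (t := Finset.univ) (by rw [Finset.card_univ]; omega)
    have hxB : x ∈ B := (hmem x).2 ⟨1, Q.one_mem, rfl⟩
    have h2 := h.pres_le (r := fun y z => ∃ g ∈ Q, g.1 y = z) (le_pres ?_) (a := x) (b := b) (c := c)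
      (fun e => hb' (by simp [e])) (fun e => hc (e ▸ hxB)) ((hmem b).1 hb)
      (fun e => hc ((hmem c).2 e))
    · have h3 : altOn B ≤ M := by
        refine le_trans (le_inf (le_pres ?_) (altOn_le_alt B)) h2
        rintro g hg y z ⟨q, hq, rfl⟩
        by_cases e : y ∈ B
        · obtain ⟨q1, hq1, e1⟩ := (hmem _).1 (apply_mem_of_mem_altOn hg e)
          obtain ⟨q0, hq0, rfl⟩ := (hmem _).1 e
          obtain ⟨q2, hq2, e2⟩ := (hmem _).1 (apply_mem_of_mem_altOn hg
            ((hmem _).2 ⟨q * q0, mul_mem hq hq0, rfl⟩))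
          refine ⟨q2 * q1⁻¹, mul_mem hq2 (inv_mem hq1), ?_⟩
          rw [← e1]
          simpa using e2
        · have e' : q.1 y ∉ B := fun e' => by
            obtain ⟨q1, hq1, e1⟩ := (hmem _).1 e'
            exact e ((hmem _).2 ⟨q⁻¹ * q1, mul_mem (inv_mem hq) hq1, by simp [e1]⟩)
          rw [(mem_altOn'.1 hg).2 _ e, (mem_altOn'.1 hg).2 _ e']
          exact ⟨q, hq, rfl⟩
      have := h.card_le_of_altOn_le hn h3
      omega
    · rintro g hg y z ⟨q, hq, rfl⟩
      exact ⟨⟨g, hg⟩ * q * ⟨g, hg⟩⁻¹, hQn.conj_mem q hq _, by simp⟩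
  · push Not at ht
    obtain ⟨y, hy⟩ := ht
    set O : Finset α := Finset.univ.filter fun z => z ∈ MulAction.orbit P x with hO
    have hOi : ∀ g ∈ P, ∀ z ∈ O, g z ∈ O := fun g hg z hz => by
      simp only [hO, Finset.mem_filter, Finset.mem_univ, true_and] at hz ⊢
      exact MulAction.mapsTo_smul_orbit (⟨g, hg⟩ : P) x hz
    have hxO : x ∈ O := by simp [hO]
    have hyO : y ∉ O := by simpa [hO] using hy
    have h1 := h.card_le_of_altOn_le hn (h.altOn_le hOi hxO hyO)
    have h2 := h.card_le_of_altOn_le hn (h.altOn_le (fun g hg => apply_mem_compl (hOi g hg))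
      (b := y) (by simpa using hyO) (c := x) (by simpa using hxO))
    rw [Finset.card_compl] at h2
    omega

theorem result (h : Min3 P M) : Fintype.card α = 6 ∨ Fintype.card α = 9 ∨
    ∃ a : ℕ, 2 ≤ a ∧ Fintype.card α = 3 ^ a + 1 := by
  by_cases hn : 3 ∣ Fintype.card α
  · have := h.case_dvd hn
    have := h.five
    omega
  · exact Or.inr (Or.inr (h.case_not_dvd hn))

end Min3

theorem fstar_eq_top {X : Type*} [Group X] [Finite X] (hX : Cfsg.IsPMinimal 3 X)
    (h5 : 5 ≤ Fintype.card α) (e : Cfsg.generalizedFittingSubgroup X ≃* alternatingGroup α) :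
    Cfsg.generalizedFittingSubgroup X = ⊤ := by
  have hC := centralizer_fstar_le X
  have hKn : (Cfsg.generalizedFittingSubgroup X).Normal := inferInstance
  generalize Cfsg.generalizedFittingSubgroup X = K at *
  have : Fact (Nat.Prime 3) := ⟨Nat.prime_three⟩
  have hsA : IsSimpleGroup (alternatingGroup α) :=
    alternatingGroup.isSimpleGroup (by simpa using h5)
  have hs : IsSimpleGroup K := e.isSimpleGroup
  have : Nontrivial α := Fintype.one_lt_card_iff_nontrivial.1 (by omega)
  have hK : 2 * Nat.card K = (Fintype.card α).factorial := by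
    rw [Nat.card_congr e.toEquiv, two_mul_nat_card_alternatingGroup, Nat.card_perm,
      Nat.card_eq_fintype_card]
  have h60 : 60 ∣ Nat.card K := by
    have : 120 ∣ 2 * Nat.card K := hK ▸ Nat.factorial_dvd_factorial (m := 5) h5
    omega
  obtain ⟨P⟩ : Nonempty (Sylow 3 X) := inferInstance
  obtain ⟨-, M, ⟨hM1, hM2⟩, hM3⟩ := hX P
  have hle : ∀ Y : Subgroup X, (P : Subgroup X) ≤ Y → Y ≠ ⊤ → Y ≤ M := fun Y h1 h2 => by
    obtain ⟨Y', h3, h4⟩ := (eq_top_or_exists_le_coatom Y).resolve_left h2
    exact hM3 Y' ⟨h3, h1.trans h4⟩ ▸ h4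
  have hS := H7.isSylowIn_inf_normal P K
  have hKP : K ⊔ P = ⊤ := by
    by_contra h'
    have h1 := hle _ le_sup_right h'
    have h2 : normalizer (((P : Subgroup X) ⊓ K : Subgroup X) : Set X) ≤ M := by
      refine hle _ (le_normalizer_inf le_normalizer le_normalizer_of_normal) fun h3 => ?_
      rcases (normal_subgroupOf_of_le_normalizer (N := (P : Subgroup X) ⊓ K) (H := K)
        (h3 ▸ le_top)).eq_bot_or_eq_top with e' | e'
      · exact hS.ne_bot (dvd_trans (by decide) h60)
          ((subgroupOf_eq_bot.1 e').eq_bot_of_le inf_le_right)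
      · obtain ⟨k, hk⟩ := (hS.isPGroup.to_le (subgroupOf_eq_top.1 e')).exists_card_eq
        have h3 : Odd (3 ^ k) := Odd.pow (by decide)
        obtain ⟨m, hm⟩ := h3
        omega
    have h3 := hS.frattini (H := ⊤) le_top le_normalizer_of_normal
    exact hM1.1 (top_le_iff.1 (h3.ge.trans (sup_le (le_sup_left.trans h1) (inf_le_right.trans h2))))
  let Φ : X →* MulAut (alternatingGroup α) :=
    (MulAut.congr e).toMonoidHom.comp (MulAut.conjNormal (H := K))
  have hΦ : ∀ x k, Φ x (e k) = e (MulAut.conjNormal x k) := fun x k => by simp [Φ]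
  have hΦk : ∀ k : K, Φ k = MulAut.conj (e k) := fun k => MulEquiv.ext fun g => by
    obtain ⟨g, rfl⟩ := e.surjective g
    rw [hΦ, MulAut.conj_apply, ← map_inv, ← map_mul, ← map_mul]
    congr 1
  have hinj : Function.Injective Φ := by
    rw [injective_iff_map_eq_one]
    intro x hx
    have h1 : x ∈ centralizer (K : Set X) := fun k hk => by
      have := hΦ x ⟨k, hk⟩
      rw [hx] at this
      have h2 := congrArg Subtype.val (e.injective this)
      simp only [MulAut.conjNormal_apply] at h2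
      exact eq_mul_inv_iff_mul_eq.1 h2
    have h2 : (⟨x, hC h1⟩ : K) ∈ center K := mem_center_iff.2 fun k => Subtype.ext (h1 k k.2)
    rcases (inferInstance : (center K).Normal).eq_bot_or_eq_top with e' | e'
    · rw [e'] at h2
      exact congrArg Subtype.val h2
    · exfalso
      have h3 := @IsSimpleGroup.prime_card K
        { (inferInstance : Group K) with
          mul_comm := fun a b => mem_center_iff.1 (e' ▸ mem_top b) a } hs
      have := (Nat.prime_dvd_prime_iff_eq Nat.prime_two h3).1 (dvd_trans (by decide) h60)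
      omega
  have hpres : ∀ x, Pres3 (Φ x) := fun x => by
    obtain ⟨k, hk, p, hp, rfl⟩ := mem_sup_of_normal_left.1 (hKP ▸ mem_top x : x ∈ K ⊔ P)
    rw [map_mul]
    refine Pres3.mul (by rw [hΦk ⟨k, hk⟩]; exact pres3_conj _) ?_
    obtain ⟨j, hj⟩ := P.isPGroup' ⟨p, hp⟩
    refine pres3_of_odd h5 (k := 3 ^ j) (Odd.pow (by decide)) ?_
    have : p ^ 3 ^ j = 1 := congrArg Subtype.val hj
    rw [← map_pow, this, map_one]
  have h1 := card_dvd_factorial_of_pres3 h5 Φ hinj (fun g => by
    obtain ⟨k, rfl⟩ := e.surjective g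
    exact ⟨k, hΦk k⟩) hpres
  rw [← hK, ← K.card_mul_index, mul_comm 2] at h1
  have h2 : K.index ∣ 2 := Nat.dvd_of_mul_dvd_mul_left Nat.card_pos h1
  have h3 : K.index ∣ Nat.card P := by
    rw [← relIndex_top_right, ← hKP, sup_comm, relIndex_sup_right]
    exact index_dvd_card _
  obtain ⟨j, hj⟩ := P.isPGroup'.exists_card_eq
  rw [hj] at h3
  exact index_eq_one.1 (Nat.eq_one_of_dvd_coprimes
    (Nat.Coprime.pow_right j (by decide : Nat.Coprime 2 3)) h2 h3)

end

/-- Let X be a finite 3-minimal group (a Sylow 3-subgroup is not normal and lies in a unique maximal subgroup) whose generalized Fitting subgroup is isomorphic to an alternating group of degree n ≥ 5. Then X = F*(X), and n = 6, n = 9, or n = 3ᵃ + 1 for some a ≥ 2. -/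
theorem result {X : Type*} [Group X] [Finite X] (hX : Cfsg.IsPMinimal 3 X) (n : ℕ) (hn : 5 ≤ n) (hF : Nonempty (↥(Cfsg.generalizedFittingSubgroup X) ≃* ↥(alternatingGroup (Fin n)))) : Cfsg.generalizedFittingSubgroup X = ⊤ ∧ (n = 6 ∨ n = 9 ∨ ∃ a : ℕ, 2 ≤ a ∧ n = 3 ^ a + 1) := by
  obtain ⟨e⟩ := hF
  have h1 := fstar_eq_top hX (by simpa using hn) e
  refine ⟨h1, ?_⟩
  have : Fact (Nat.Prime 3) := ⟨Nat.prime_three⟩
  let ψ : X →* Equiv.Perm (Fin n) := (alternatingGroup (Fin n)).subtype.comp
    (e.toMonoidHom.comp (Subgroup.topEquiv.symm.trans (MulEquiv.subgroupCongr h1.symm)).toMonoidHom)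
  have hψ : Function.Injective ψ := (alternatingGroup (Fin n)).subtype_injective.comp
    (e.injective.comp (MulEquiv.injective _))
  have hr : (⊤ : Subgroup X).map ψ = alternatingGroup (Fin n) := by
    rw [← Subgroup.map_map, Subgroup.map_top_of_surjective _ (e.surjective.comp (MulEquiv.surjective _)),
      ← MonoidHom.range_eq_map, Subgroup.range_subtype]
  obtain ⟨P⟩ : Nonempty (Sylow 3 X) := inferInstance
  obtain ⟨-, M, ⟨hM1, hM2⟩, hM3⟩ := hX P
  have hle : ∀ Y : Subgroup X, (P : Subgroup X) ≤ Y → Y ≠ ⊤ → Y ≤ M := fun Y h1 h2 => by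
    obtain ⟨Y', h3, h4⟩ := (eq_top_or_exists_le_coatom Y).resolve_left h2
    exact hM3 Y' ⟨h3, h1.trans h4⟩ ▸ h4
  have := Min3.result (P := (P : Subgroup X).map ψ) (M := M.map ψ)
    ⟨hr ▸ (Cfsg.H7.isSylowIn_top P).map ψ, fun h => hM1.1 (top_le_iff.1
      ((Subgroup.map_le_map_iff_of_injective hψ).1 (hr ▸ h))), fun Y h2 h3 => by
        have h4 := hle (Y.comap ψ) (Subgroup.map_le_iff_le_comap.1 h2) fun h5 =>
          h3.not_ge (hr ▸ Subgroup.map_le_iff_le_comap.2 h5.ge)
        intro y hy
        obtain ⟨x, -, rfl⟩ : y ∈ (⊤ : Subgroup X).map ψ := hr ▸ h3.le hy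
        exact Subgroup.mem_map_of_mem _ (h4 hy), by simpa using hn⟩
  simpa using this

end Cfsg.Agent.S2930
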