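import Cfsg.Statements.S2931
import Cfsg.Agent.H2.SylTab

set_option autoImplicit false
open Cfsg

namespace Cfsg.Agent.S2931

def aP : List ℕ := [16434824, 16433690, 6852524, 6823845, 2207660, 2178981, 6851390, 16406145,
  6822270, 2206526, 16405011, 2177406, 11789960, 11761281, 16404570, 9954945, 9926280, 11788826,
  11760147, 16405704, 9953811, 9925146, 6822711, 11759706, 372645, 343980, 9953370, 6850935,
  2177847, 11760840, 5017509, 4988844, 9954504, 2206071, 6823404, 371511, 342846, 371070,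
  16433235, 342391, 6852069, 2178540, 5016375, 4987710, 5015934, 16434369, 4987255, 2207205,
  14599809, 14571144, 372204, 11788371, 9924691, 343525, 14598675, 14570010, 5017068, 11789505,
  9925825, 4988389, 14598234, 14569555, 14599368, 14570689]

def aM : List ℕ := [14408200, 4960200, 17555544, 3322072, 906906, 10669752, 5886864, 16070572,
  1457328, 1723366, 6241188, 31904208, 5709018, 1240761, 5689308, 9605493, 6221478, 16077142,
  14362281, 17673652, 1657747, 17667082, 5157057, 3249883, 6024621, 9959817, 28711431, 10807509,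
  30353617, 4822443, 28822969, 16004953, 710049, 14480389, 14473819, 15959034, 28829539, 17601463,
  572292, 3315502, 31950127, 10275339, 926616, 5492451, 9940107, 1611828, 10137582, 5176767,
  30425806, 3203964, 5354694, 30419236, 32022316, 1437618, 11004366, 1103004, 1729936, 10472196,
  11024076, 30307698, 10491906, 9743250, 32015746, 28757350]

def aT : List ℕ := [12417, 20736, 28678, 456, 41033, 4747, 54018, 8398, 66499, 74820, 16723,
  87301, 90513, 26007, 103943, 111130, 34517, 115276, 38685, 128906, 135904, 47184, 50018, 149709,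
  156581, 59812, 162127, 62504, 70825, 178834, 185580, 80747, 191252, 83311, 203798, 210418,
  97497, 214680, 99949, 109877, 199771, 228764, 235384, 122463, 239646, 124902, 134843, 224737,
  166076, 141879, 253731, 145721, 154106, 249703, 195198, 170993, 262058, 174835, 183220, 258030,
  220336, 208255, 245302, 233213]

def aR : List ℕ := [0, 0, 1, 2, 4, 5, 6, 8, 9, 12, 14, 15, 19, 20, 21, 25, 26, 28, 29, 30, 34,
  35, 38, 39, 43, 44, 45, 47, 53, 54, 58, 59, 60, 62, 66, 70, 71, 72, 74, 80, 81, 84, 88, 89, 90,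
  92, 98, 99, 103, 104, 105, 107, 113, 117, 124, 125, 126, 128, 134, 138, 144, 152, 162, 170]

def bP : List ℕ := [16434824, 16434817, 16433690, 6852524, 16433242, 6823852, 16433683, 2207660,
  6852517, 6851390, 16433235, 372652, 6823845, 6822718, 16434376, 2178988, 2207653, 2206526,
  6850942, 16406152, 6851383, 11789960, 16434369, 343980, 372645, 371518, 6822270, 16406145,
  6822711, 11789953, 5017516, 2178981, 2177854, 2206078, 16405018, 2206519, 11788826, 6850935,
  9954952, 6852076, 11761288, 4988844, 343973, 342846, 371070, 16404570, 371511, 11788378,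
  6822263, 9954945, 6823404, 11761281, 5017509, 5016382, 2177406, 16405011, 2177847, 11788819,
  2206071, 9953818, 2207212, 11760154, 6852069, 9926280, 14599816, 4988837, 4987710, 342398,
  16404563, 342839, 11788371, 371063, 9953370, 372204, 11759706, 6823397, 9926273, 14599809,
  5015934, 16405704, 5016375, 11789512, 2177399, 9953811, 2178540, 11760147, 2207205, 9925146,
  14598682, 14571144, 4987262, 16405697, 4987703, 11789505, 342391, 9953363, 343532, 11759699,
  372197, 9924698, 14598234, 14571137, 5015927, 9954504, 5017068, 11760840, 2178533, 9925139,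
  14598675, 14570010, 4987255, 9954497, 4988396, 11760833, 343525, 9924691, 14598227, 14569562,
  5017061, 9925832, 14599368, 14570003, 4988389, 9925825, 14599361, 14569555, 14570696, 14570689]

def bM : List ℕ := [34630287489, 34631336335, 60400092801, 34764507777, 60401141655,
  34765556647, 64696108687, 51944377985, 34832665231, 60534311553, 64695060381, 51945426871,
  34831616941, 60535360423, 38926303383, 56240393895, 52012535439, 43354443393, 60602469015,
  34698444967, 64897436303, 51810156673, 38925255069, 56239345557, 52011487165, 43355492279,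
  60601420725, 34697396653, 64896388013, 51811205519, 39060523703, 56306454189, 47650459303,
  43422600855, 60468250279, 47717568143, 43220223617, 64829278877, 51878314167, 39127632535,
  56173281447, 39059475349, 56307503003, 47649410965, 43421552549, 60467201973, 47716519869,
  43221272471, 64830327739, 51877265853, 39126584245, 56172233133, 39126583997, 64830327479,
  47716519605, 64762169005, 43421552301, 47516239503, 47649410717, 43288381111, 56307502743,
  47583348391, 39059475101, 56105123989, 38993412279, 39127632795, 64829279125, 47717568387,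
  64763217851, 43422601115, 47515191197, 47650459563, 43287332773, 56306454437, 47582300085,
  39060523963, 56106172827, 38992363965, 64896387749, 38992363701, 60601420477, 56106172567,
  43355492027, 47582299837, 52011486901, 43287332525, 56239345309, 47515190933, 64763217591,
  38925254805, 64897436547, 38993412539, 60602469275, 56105124253, 43354443657, 47583348651,
  52012535683, 43288381371, 56240394155, 47516239747, 64762169253, 38926303643, 60535360171,
  56172232869, 34831616677, 51877265589, 51945426619, 43221272219, 60467201725, 64695060117,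
  60534311817, 56173281707, 34832665475, 51878314427, 51944378249, 43220223881, 60468250539,
  64696108931, 34765556395, 51811205251, 34697396389, 60401141403, 34764508041, 51810156937,
  34698445227, 60400093065, 34631336067, 34630287753]

def bT : List ℕ := [49409, 82432, 114694, 1160, 180362, 18060, 247554, 34960, 313603, 344468,
  379652, 68760, 445701, 475804, 492310, 102431, 561287, 590755, 623653, 135451, 660361, 152093,
  673038, 169386, 742923, 771502, 804400, 202387, 841997, 219029, 236212, 908047, 935864, 968762,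
  264631, 1007121, 281273, 1040146, 302513, 1051198, 335539, 368961, 1122711, 1149893, 1182791,
  396740, 1221785, 413382, 1254810, 435238, 1265227, 468264, 1304350, 1331024, 1363922, 518050,
  1403424, 534692, 1436449, 545619, 1446358, 578645, 1462951, 617420, 650317, 1502505, 1529052,
  1561950, 699821, 1601579, 716463, 1634604, 727263, 1644386, 760289, 1660978, 799167, 832064,
  1694310, 859099, 1733685, 875741, 1766710, 897979, 1776746, 931005, 1793340, 958443, 991340,
  1029861, 1827054, 1073743, 1865794, 1090385, 1898819, 1112008, 1909490, 1145034, 1926089,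
  1173107, 1206004, 1243865, 1964878, 1288687, 1976438, 1321713, 1993044, 1358807, 1391704,
  1420537, 2030938, 1486823, 2043514, 1519849, 2060128, 1555939, 1588836, 1618685, 2077544,
  1684987, 1717884, 1752941, 2094960, 1817079, 1849976, 1884149, 1948927, 2014974]

def bR : List ℕ := [0, 0, 1, 2, 4, 5, 6, 8, 9, 10, 12, 14, 15, 16, 19, 20, 21, 22, 25, 26, 27,
  29, 31, 32, 33, 34, 37, 38, 39, 41, 44, 45, 46, 49, 50, 51, 53, 54, 56, 61, 62, 68, 69, 70, 73,
  74, 75, 77, 78, 80, 85, 86, 90, 91, 94, 95, 96, 98, 99, 101, 106, 107, 112, 113, 119, 123, 124,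
  127, 128, 129, 131, 132, 134, 139, 140, 145, 146, 152, 157, 158, 159, 161, 162, 164, 169, 170,
  175, 176, 182, 188, 196, 197, 198, 200, 201, 203, 208, 209, 214, 215, 221, 227, 234, 236, 241,
  242, 247, 248, 254, 260, 270, 272, 277, 278, 283, 284, 290, 296, 307, 308, 314, 320, 331, 332,
  338, 344, 356, 368]

instance instFact3 : Fact (Nat.Prime 3) := ⟨by norm_num⟩

def ix4 : Fin 2 ⊕ Fin 2 → ℕ := Sum.elim (·.val) (·.val + 2)
def ix6 : (Fin 2 ⊕ Fin 2) ⊕ Fin 2 → ℕ := Sum.elim ix4 (·.val + 4)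
def m4 (c : ℕ) : Matrix (Fin 2 ⊕ Fin 2) (Fin 2 ⊕ Fin 2) (ZMod 3) :=
  fun a b => ((c / 3 ^ (4 * ix4 a + ix4 b) % 3 : ℕ) : ZMod 3)
def m6 (c : ℕ) : Matrix ((Fin 2 ⊕ Fin 2) ⊕ Fin 2) ((Fin 2 ⊕ Fin 2) ⊕ Fin 2) (ZMod 2) :=
  fun a b => ((c / 2 ^ (6 * ix6 a + ix6 b) % 2 : ℕ) : ZMod 2)
def dig (c : ℕ) (k : Fin 8) : ℕ := c / 8 ^ k.val % 8

open Equiv in
def sA : Fin 3 → Perm (Fin 8) := ![swap 0 2 * swap 1 3, swap 0 4 * swap 1 5 * swap 2 6 * swap 3 7,
  swap 0 5 * swap 1 4 * swap 2 6 * swap 3 7]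
open Equiv in
def sB : Fin 3 → Perm (Fin 8) := ![swap 0 1, swap 0 2 * swap 1 3,
  swap 0 4 * swap 1 5 * swap 2 6 * swap 3 7]
def tA : Fin 3 → ℕ := ![4960200, 17555544, 3322072]
def tB : Fin 3 → ℕ := ![34631336335, 60400092801, 34764507777]
def tbA (i : ℕ) (k : Fin 3) : ℕ := aT.getD i 0 / 64 ^ k.val % 64
def tbB (i : ℕ) (k : Fin 3) : ℕ := bT.getD i 0 / 128 ^ k.val % 128

theorem sA_mem (k : Fin 3) : sA k ∈ alternatingGroup (Fin 8) := by
  fin_cases k <;> simp [sA, Equiv.Perm.mem_alternatingGroup]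

theorem tA_mem (k : Fin 3) : m4 (tA k) ∈ Matrix.symplecticGroup (Fin 2) (ZMod 3) := by
  rw [SymplecticGroup.mem_iff]; revert k; decide +kernel

theorem stepA : ∀ i < 64, ∀ k : Fin 3,
    (∀ x, dig (aP.getD i 0) (sA k x) = dig (aP.getD (tbA i k) 0) x) ∧
    (m4 (aM.getD i 0) * m4 (tA k) = m4 (aM.getD (tbA i k) 0) ∨
      -(m4 (aM.getD i 0) * m4 (tA k)) = m4 (aM.getD (tbA i k) 0)) := by decide +kernel

theorem stepB : ∀ i < 128, ∀ k : Fin 3,
    (∀ x, dig (bP.getD i 0) (sB k x) = dig (bP.getD (tbB i k) 0) x) ∧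
    m6 (bM.getD i 0) * m6 (tB k) = m6 (bM.getD (tbB i k) 0) := by decide +kernel

theorem dig_inj (L : List ℕ) (h1 : L.Nodup) (h2 : ∀ c ∈ L, c = ∑ k : Fin 8, dig c k * 8 ^ k.val)
    {i j : ℕ} (hi : i < L.length) (hj : j < L.length)
    (h : ∀ k, dig (L.getD i 0) k = dig (L.getD j 0) k) : i = j := by
  rw [List.getD_eq_getElem _ _ hi, List.getD_eq_getElem _ _ hj] at h
  refine (List.Nodup.getElem_inj_iff h1 (hi := hi) (hj := hj)).1 ?_
  rw [h2 _ (List.getElem_mem hi), h2 _ (List.getElem_mem hj)]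
  exact Finset.sum_congr rfl fun k _ => by rw [h k]

theorem partA (P : Sylow 2 ↥(alternatingGroup (Fin 8))) (Q : Sylow 2 (Cfsg.PSp 2 (ZMod 3))) :
    Nonempty (↥(P : Subgroup ↥(alternatingGroup (Fin 8))) ≃* ↥(Q : Subgroup (Cfsg.PSp 2 (ZMod 3)))) := by
  have hc : Nat.card (Cfsg.PSp 2 (ZMod 3)) = 25920 := by
    have h1 := Subgroup.card_eq_card_quotient_mul_card_subgroup
      (Subgroup.center (Matrix.symplecticGroup (Fin 2) (ZMod 3)))
    have h2 := H2.sp_card_center (F := ZMod 3) (p := 3) (f := 1) le_rfl rfl (m := 2) le_rfl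
    rw [← Nat.card_congr (Subgroup.centerCongr (H2.spEquiv 2 (ZMod 3))).toEquiv] at h2
    rw [h2, H2.card_symplecticGroup, ZMod.card] at h1
    exact Nat.eq_of_mul_eq_mul_right (by decide) (h1.symm.trans (by decide +kernel))
  let n1 : Matrix.symplecticGroup (Fin 2) (ZMod 3) := ⟨-1, SymplecticGroup.neg_mem (one_mem _)⟩
  have hneg : n1 ∈ Subgroup.center _ :=
    Subgroup.mem_center_iff.2 fun g => Subtype.ext (by simp [n1])
  refine H2.sylow_equiv_of_table (e := 6) ?_ ?_
    (fun k => (⟨sA k, sA_mem k⟩, QuotientGroup.mk ⟨_, tA_mem k⟩))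
    (fun d i => (∀ x, (d.1.1 x).val = dig (aP.getD i 0) x) ∧
      ∃ A : Matrix.symplecticGroup (Fin 2) (ZMod 3), QuotientGroup.mk A = d.2 ∧
        A.1 = m4 (aM.getD i 0)) tbA ⟨by decide +kernel, 1, rfl, by decide +kernel⟩
    ?_ ?_ ?_ ?_ ?_ P Q
  · rw [nat_card_alternatingGroup, Nat.card_fin]; decide +kernel
  · rw [hc]; decide +kernel
  · rintro d i k hi ⟨h1, A, h2, h3⟩
    refine ⟨Nat.mod_lt _ (by norm_num), fun x => (h1 _).trans ((stepA i hi k).1 x), ?_⟩
    rcases (stepA i hi k).2 with h | h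
    · exact ⟨A * ⟨_, tA_mem k⟩, by rw [QuotientGroup.mk_mul, h2]; rfl, by rw [← h, ← h3]; rfl⟩
    · refine ⟨A * ⟨_, tA_mem k⟩ * n1, ?_, by rw [← h, ← h3]; simp [n1]⟩
      rw [QuotientGroup.mk_mul_of_mem _ hneg, QuotientGroup.mk_mul, h2]; rfl
  · have : ∀ i < 64, i ≠ 0 → aR.getD i 0 / 3 < i ∧
      tbA (aR.getD i 0 / 3) ⟨aR.getD i 0 % 3, Nat.mod_lt _ (by norm_num)⟩ = i := by decide +kernel
    exact fun i hi h => ⟨_, (this i hi h).1, _, (this i hi h).2⟩
  · rintro d d' i ⟨h1, A, h2, h3⟩ ⟨h1', A', h2', h3'⟩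
    refine Prod.ext (Subtype.ext (Equiv.ext fun x => Fin.ext ((h1 x).trans (h1' x).symm))) ?_
    rw [← h2, ← h2', Subtype.ext (h3.trans h3'.symm)]
  · rintro d d' i j hi hj ⟨h1, -⟩ ⟨h1', -⟩ h
    exact dig_inj aP (by decide +kernel) (by decide +kernel) hi hj fun x => by
      rw [← h1, ← h1', h]
  · rintro d i hi ⟨-, A, h2, h3⟩ h
    rw [h, QuotientGroup.eq_one_iff, Subgroup.mem_center_iff] at h2
    have : ∀ i < 64, (∀ k, m4 (tA k) * m4 (aM.getD i 0) = m4 (aM.getD i 0) * m4 (tA k)) → i = 0 := by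
      decide +kernel
    exact this i hi fun k => h3 ▸ congrArg Subtype.val (h2 ⟨_, tA_mem k⟩)

set_option maxRecDepth 4000 in
theorem oneB : ∀ i < 128, 1 = m6 (bM.getD i 0) → i = 0 := by decide +kernel

theorem lenB : bP.length = 2 ^ 7 := by decide +kernel

theorem tB_sq (k : Fin 3) : m6 (tB k) * m6 (tB k) = 1 := by revert k; decide +kernel

def gB (k : Fin 3) : Cfsg.isometryGroup (ZMod 2) (Cfsg.quadFormMinus 2 (ZMod 2) 1 1) :=
  ⟨⟨m6 (tB k), m6 (tB k), tB_sq k, tB_sq k⟩, fun u _ => by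
    change quadFormMinus 2 (ZMod 2) 1 1 ((m6 (tB k)).mulVec u) = quadFormMinus 2 (ZMod 2) 1 1 u
    revert k u; decide +kernel⟩

theorem partB (P : Sylow 2 (Equiv.Perm (Fin 8)))
    (Q : Sylow 2 ↥(Cfsg.isometryGroup (ZMod 2) (Cfsg.quadFormMinus 2 (ZMod 2) 1 1))) :
    Nonempty (↥(P : Subgroup (Equiv.Perm (Fin 8))) ≃* ↥(Q : Subgroup
      ↥(Cfsg.isometryGroup (ZMod 2) (Cfsg.quadFormMinus 2 (ZMod 2) 1 1)))) := by
  have hc : Nat.card (Cfsg.isometryGroup (ZMod 2) (Cfsg.quadFormMinus 2 (ZMod 2) 1 1)) = 51840 := by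
    rw [← H3.coe_QMinus, H2.card_isom_eq_chainCard _ (H2.QMinus_nondeg (by decide))
      [.inl (.inl 0), .inl (.inr 0), .inl (.inl 1), .inl (.inr 1), .inr 0, .inr 1]
      (by decide) (by rintro ((i | i) | i) <;> fin_cases i <;> simp), H3.coe_QMinus]
    decide +kernel
  refine H2.sylow_equiv_of_table (e := 7) ?_ ?_ (fun k => (sB k, gB k))
    (fun d i => (∀ x, (d.1 x).val = dig (bP.getD i 0) x) ∧ d.2.1.1 = m6 (bM.getD i 0)) tbB
    ⟨by decide +kernel, by decide +kernel⟩ ?_ ?_ ?_ ?_ ?_ P Q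
  · rw [Nat.card_perm, Nat.card_fin]; decide +kernel
  · rw [hc]; decide +kernel
  · rintro d i k hi ⟨h1, h2⟩
    exact ⟨Nat.mod_lt _ (by norm_num), fun x => (h1 _).trans ((stepB i hi k).1 x),
      by rw [← (stepB i hi k).2, ← h2]; rfl⟩
  · have : ∀ i < 128, i ≠ 0 → bR.getD i 0 / 3 < i ∧
      tbB (bR.getD i 0 / 3) ⟨bR.getD i 0 % 3, Nat.mod_lt _ (by norm_num)⟩ = i := by decide +kernel
    exact fun i hi h => ⟨_, (this i hi h).1, _, (this i hi h).2⟩
  · rintro d d' i ⟨h1, h2⟩ ⟨h1', h2'⟩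
    exact Prod.ext (Equiv.ext fun x => Fin.ext ((h1 x).trans (h1' x).symm))
      (Subtype.ext (Units.ext (h2.trans h2'.symm)))
  · rintro d d' i j hi hj ⟨h1, -⟩ ⟨h1', -⟩ h
    exact dig_inj bP (by decide +kernel) (by decide +kernel) (lenB ▸ hi) (lenB ▸ hj) fun x => by
      rw [← h1, ← h1', h]
  · rintro d i hi ⟨-, h2⟩ h
    have : ∀ i < 128, 1 = m6 (bM.getD i 0) → i = 0 := oneB
    exact this i hi (by rw [← h2, h]; rfl)

/-- The Sylow 2-subgroups of the alternating group of degree 8 and of PSp₄(3) are isomorphic, and so are the Sylow 2-subgroups of the symmetric group of degree 8 and of the full isometry group of a non-degenerate quadratic form of minus type in dimension 6 over the field with 2 elements. -/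
theorem result (F : Type) [Field F] [Fintype F] (hF : Fintype.card F = 3) (K : Type) [Field K] [Fintype K] (hK : Fintype.card K = 2) (a b : K) (hab : ∀ z₁ z₂ : K, z₁ ^ 2 + a * z₁ * z₂ + b * z₂ ^ 2 = 0 → z₁ = 0 ∧ z₂ = 0) (P : Sylow 2 ↥(alternatingGroup (Fin 8))) (Q : Sylow 2 (Cfsg.PSp 2 F)) (P' : Sylow 2 (Equiv.Perm (Fin 8))) (Q' : Sylow 2 ↥(Cfsg.isometryGroup K (Cfsg.quadFormMinus 2 K a b))) : Nonempty (↥(P : Subgroup ↥(alternatingGroup (Fin 8))) ≃* ↥(Q : Subgroup (Cfsg.PSp 2 F))) ∧ Nonempty (↥(P' : Subgroup (Equiv.Perm (Fin 8))) ≃* ↥(Q' : Subgroup ↥(Cfsg.isometryGroup K (Cfsg.quadFormMinus 2 K a b)))) := by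
  obtain ⟨σ⟩ := H3.nonempty_equiv_zmod 3 hF
  obtain ⟨τ⟩ := H3.nonempty_equiv_zmod 2 hK
  have h : τ a = 1 ∧ τ b = 1 := by
    have h0 : ∀ z₁ z₂ : ZMod 2, z₁ ^ 2 + τ a * z₁ * z₂ + τ b * z₂ ^ 2 = 0 → z₁ = 0 ∧ z₂ = 0 := by
      intro z₁ z₂ hz
      obtain ⟨z₁, rfl⟩ := τ.surjective z₁
      obtain ⟨z₂, rfl⟩ := τ.surjective z₂
      simpa using hab z₁ z₂ (τ.injective (by simpa using hz))
    revert h0
    generalize τ a = x, τ b = y
    revert x y
    decide
  constructor
  · obtain ⟨e⟩ := partA P default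
    obtain ⟨e'⟩ := H2.sylow_equiv_congr (H2.centerCongr' (H3.spCongr σ 2)) Q default
    exact ⟨e.trans e'.symm⟩
  · obtain ⟨e⟩ := partB P' default
    obtain ⟨e'⟩ := H2.sylow_equiv_congr (H3.isomCongr τ (quadFormMinus 2 K a b)
      (quadFormMinus 2 (ZMod 2) 1 1) fun v => by simp [quadFormMinus, h]) Q' default
    exact ⟨e.trans e'.symm⟩

end Cfsg.Agent.S2931
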