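import Cfsg.Statements.S2932
import Cfsg.Agent.H3.A8
import Cfsg.Agent.H3.NatAut

set_option autoImplicit false
open Cfsg

namespace Cfsg.Agent.S2932

open Subgroup Matrix H3 H3.A8 in
open scoped MatrixGroups in
theorem four {X : Type*} [Group X] [Finite X] {F : Type} [Field F] [Fintype F] [CharP F 2]
    {V G L S : Subgroup X} (N : NatMod F V L) (hGV : G ≤ normalizer (V : Set X))
    (hf : G ⊓ centralizer (V : Set X) = ⊥) (hLG : L ≤ G) (hS : H8.IsSyl 2 S G)
    (hSL : S ≤ normalizer (L : Set X)) (hL : Nat.card L = 60) {w : F} (hw : w ^ 2 = w + 1)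
    (hF : ∀ c : F, c = 0 ∨ c = 1 ∨ c = w ∨ c = w + 1) :
    (L.subgroupOf G).Normal ∨ Nonempty (G ≃* alternatingGroup (Fin 7)) := by
  have h2 : (2 : F) = 0 := CharTwo.two_eq_zero
  let c : ZMod 2 →+* F := ZMod.castHom dvd_rfl F
  have hc : ∀ s t, c s + c t * w = 0 → s = 0 ∧ t = 0 := fun s t h => by
    obtain rfl | rfl : t = 0 ∨ t = 1 := by clear h; revert t; decide
    · simpa using h
    obtain rfl | rfl : s = 0 ∨ s = 1 := by clear h; revert s; decide
    all_goals simp only [map_zero, map_one] at h; grind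
  have hc' : ∀ b, ∃ s t, c s + c t * w = b := fun b => by
    rcases hF b with rfl | rfl | rfl | rfl
    exacts [⟨0, 0, by simp⟩, ⟨1, 0, by simp⟩, ⟨0, 1, by simp⟩, ⟨1, 1, by simp [add_comm]⟩]
  let κ : (Fin 4 → ZMod 2) →+ (Fin 2 → F) := AddMonoidHom.mk'
    (fun v => ![c (v 0) + c (v 1) * w, c (v 2) + c (v 3) * w]) fun u v => by
      ext i; fin_cases i <;> simp <;> ring
  have k1 : Function.Injective κ := (injective_iff_map_eq_one' κ.toMultiplicative).2 fun v =>
    ⟨fun h => by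
      have a1 := hc _ _ (congrFun h 0)
      have a2 := hc _ _ (congrFun h 1)
      ext i; fin_cases i
      exacts [a1.1, a1.2, a2.1, a2.2], fun h => h ▸ map_one _⟩
  have k2 : Function.Surjective κ := fun v => by
    obtain ⟨a, b, h⟩ := hc' (v 0)
    obtain ⟨d, e, h'⟩ := hc' (v 1)
    exact ⟨![a, b, d, e], by ext i; fin_cases i; exacts [h, h']⟩
  have key : ∀ g : G, ∃ M : SL(4, ZMod 2), ∀ v, N.E (κ (M • v)) = g * N.E (κ v) * (g : X)⁻¹ := by
    intro g
    obtain ⟨f, hf⟩ := N.exists_act (hGV g.2)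
    let e := AddEquiv.ofBijective κ ⟨k1, k2⟩
    let f' := (e.symm.toAddMonoidHom.comp (f.comp κ)).toZModLinearMap 2
    have a1 : ∀ v, N.E (κ (LinearMap.toMatrix' f' *ᵥ v)) = g * N.E (κ v) * (g : X)⁻¹ := fun v => by
      rw [LinearMap.toMatrix'_mulVec, hf]
      exact congrArg _ (e.apply_symm_apply _)
    have a2 := (isUnit_iff_isUnit_det _).1 (mulVec_injective_iff_isUnit.1 fun u v
      (h : LinearMap.toMatrix' f' *ᵥ u = _) => k1 (N.E_inj (by
        simpa using (a1 u).symm.trans ((congrArg (fun t => N.E (κ t)) h).trans (a1 v)))))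
    exact ⟨⟨_, (by decide : ∀ x : ZMod 2, x ≠ 0 → x = 1) _ a2.ne_zero⟩, a1⟩
  choose M hM using key
  let θ : G →* SL(4, ZMod 2) := MonoidHom.mk' M fun a b => AutL.sl_ext fun k => k1 (N.E_inj (by
    rw [mul_smul, hM, hM, hM]; simp [mul_assoc]))
  have t1 : Function.Injective θ := fun a b h => Subtype.ext (NatMod.eq_of_conj_eq hf a.2 b.2
    fun v hv => by
      obtain ⟨v, rfl⟩ := (N.mem_V _).1 hv
      obtain ⟨v, rfl⟩ := k2 v
      rw [← hM, ← hM]; exact congrArg (fun t : SL(4, ZMod 2) => N.E (κ (t • v))) h)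
  have t2 : ∀ (A : SL(2, F)) (B : SL(4, ZMod 2)), (∀ v, κ (B • v) = A.1 *ᵥ κ v) →
      θ ⟨N.ρ A, hLG (N.ρ_mem A)⟩ = B := fun A B h => AutL.sl_ext fun k => k1 (N.E_inj (by
    rw [h, ← N.conj]; exact hM _ _))
  obtain ⟨φ, p1, p2, p3⟩ := exists_hom
  have u1 : ∀ s t, φ (θ ⟨N.ρ (U (c s + c t * w)), hLG (N.ρ_mem _)⟩) =
      pi8 0 2 ^ s.val * pi8 0 3 ^ t.val * pi8 1 2 ^ t.val * pi8 1 3 ^ (s + t).val := fun s t => by
    rw [← p3 (by decide), ← p3 (by decide), ← p3 (by decide), ← p3 (by decide), ← map_mul, ← map_mul,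
      ← map_mul, t2 _ _ fun v => ?_]
    rw [U_mulVec]
    ext i; fin_cases i <;> simp [κ, mul_smul, AutL.tr_smul]
    linear_combination (-(c t * c (v 3))) * hw
  have u2 : ∀ s t, φ (θ ⟨N.ρ (Lo (c s + c t * w)), hLG (N.ρ_mem _)⟩) =
      pi8 2 0 ^ s.val * pi8 2 1 ^ t.val * pi8 3 0 ^ t.val * pi8 3 1 ^ (s + t).val := fun s t => by
    rw [← p3 (by decide), ← p3 (by decide), ← p3 (by decide), ← p3 (by decide), ← map_mul, ← map_mul,
      ← map_mul, t2 _ _ fun v => ?_]
    rw [Lo_mulVec]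
    ext i; fin_cases i <;> simp [κ, mul_smul, AutL.tr_smul]
    linear_combination (-(c t * c (v 1))) * hw
  refine normal_or_alt (φ.comp θ) (p1.comp t1) (fun g => p2 _) ?_ (fun i hi => ?_)
    ((Nat.card_congr (subgroupOfEquivOfLe hLG).toEquiv).trans hL) hS.subgroupOf_top
    fun s hs x => (mem_normalizer_iff.1 (hSL hs) x.1)
  · rintro ⟨l, hl⟩ h
    obtain ⟨A, rfl⟩ := (N.mem_L _).1 h
    clear h
    induction A using SL2_induction with
    | hU b =>
      obtain ⟨s, t, rfl⟩ := hc' b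
      rw [MonoidHom.comp_apply, u1]
      clear hl; revert s t; decide +kernel
    | hL b =>
      obtain ⟨s, t, rfl⟩ := hc' b
      rw [MonoidHom.comp_apply, u2]
      clear hl; revert s t; decide +kernel
    | hmul A B hA hB =>
      intro i hi
      rw [show (⟨N.ρ (A * B), hl⟩ : G) = ⟨_, hLG (N.ρ_mem A)⟩ * ⟨_, hLG (N.ρ_mem B)⟩ from
        Subtype.ext (map_mul _ _ _), map_mul, Equiv.Perm.mul_apply, hB _ i hi, hA _ i hi]
  · obtain ⟨a, b, s, t, h⟩ : ∃ a b s t : ZMod 2, (pi8 2 0 ^ a.val * pi8 2 1 ^ b.val *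
        pi8 3 0 ^ b.val * pi8 3 1 ^ (a + b).val * (pi8 0 2 ^ s.val * pi8 0 3 ^ t.val *
        pi8 1 2 ^ t.val * pi8 1 3 ^ (s + t).val)) 0 = i := by revert i; decide +kernel
    rw [← u1, ← u2, ← map_mul, ← map_mul] at h
    exact ⟨_, L.mul_mem (N.ρ_mem _) (N.ρ_mem _), h⟩

/-- Let p be a prime. Inside a finite ambient group let V be an elementary abelian p-subgroup and G a subgroup normalizing V and acting faithfully on it (G ∩ C(V) = 1), and let L ≤ G act on V as SL₂(F) on its natural module, F a finite field of characteristic p, with L ≅ SL₂(F). If every Sylow p-subgroup of N_G(L) is a Sylow p-subgroup of G, then either L is normal in G, or F has 4 elements and G is isomorphic to the alternating group of degree 7. -/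
theorem result {X : Type*} [Group X] [Finite X] {p : ℕ} [Fact p.Prime] (F : Type) [Field F] [Fintype F] [CharP F p] (V G L : Subgroup X) (hV : Cfsg.IsElementaryAbelian p V) (hGV : G ≤ Subgroup.normalizer (V : Set X)) (hfaith : G ⊓ Subgroup.centralizer (V : Set X) = ⊥) (hLG : L ≤ G) (hnat : Cfsg.IsNaturalSL2Module F V L) (hLiso : Nonempty (↥L ≃* Matrix.SpecialLinearGroup (Fin 2) F)) (hSyl : ∀ S : Sylow p ↥(G ⊓ Subgroup.normalizer (L : Set X)), ∀ P : Sylow p ↥G, Nat.card S = Nat.card P) : (L.subgroupOf G).Normal ∨ (Fintype.card F = 4 ∧ Nonempty (↥G ≃* ↥(alternatingGroup (Fin 7)))) := by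
  obtain ⟨S, hS⟩ := H8.exists_isSyl p (G ⊓ Subgroup.normalizer (L : Set X))
  have hSL := hS.le.trans inf_le_right
  have h1 : H8.IsSyl p S G := by
    obtain ⟨P⟩ : Nonempty (Sylow p G) := inferInstance
    refine (H8.isSyl_map_subtype P).of_card_ge hS.isPGroup (hS.le.trans inf_le_left) ?_
    rw [← hS.map_toSylow, Subgroup.card_subtype, Subgroup.card_subtype]
    exact (hSyl _ P).ge
  have h2 := hS.inf (le_inf hLG Subgroup.le_normalizer) hSL
  obtain ⟨N, hN⟩ := H3.exists_natMod hnat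
    (le_bot_iff.1 ((inf_le_inf_right _ hLG).trans hfaith.le)) h2.toSylow
  rw [h2.map_toSylow] at hN
  rcases N.normal_or_four hN hLG hGV (N.normalizer_le hN hfaith hLG hGV h1 hSL rfl) with
    h | ⟨h3, w, hw, hF⟩
  · exact .inl ((Subgroup.normal_subgroupOf_iff_le_normalizer hLG).2 h)
  have := CharTwo.of_one_ne_zero_of_two_eq_zero one_ne_zero h3
  obtain rfl := CharP.eq F ‹CharP F p› this
  have h4 : Fintype.card F = 4 := by
    classical
    rw [← Finset.card_univ, show Finset.univ = {0, 1, w, w + 1} by ext c; simpa using hF c]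
    rw [Finset.card_insert_of_notMem (by grind), Finset.card_insert_of_notMem (by grind),
      Finset.card_pair (by simp)]
  refine (four N hGV hfaith hLG h1 hSL ?_ hw hF).imp_right fun h => ⟨h4, h⟩
  rw [Nat.card_congr hLiso.some.toEquiv, H3.card_SL2, h4]; rfl

end Cfsg.Agent.S2932
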