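import Cfsg.Statements.S2939
import Cfsg.Agent.H8.Chains

set_option autoImplicit false
open Cfsg

namespace Cfsg.Agent.S2939

open Subgroup Cfsg.L0 Cfsg.H8
open scoped commutatorElement


theorem conjRight_subset {G : Type*} [Group G] {g : G} {A : Set G} {K : Subgroup G} :
    conjRight g A ⊆ K ↔ A ⊆ cj g K := by
  rw [conjRight, Set.image_subset_iff]
  exact forall₂_congr fun a _ => mem_cj.symm

theorem iff_rtg {G : Type*} [Group G] [Finite G] {p : ℕ} [Fact p.Prime] {𝓕 : Set (Subgroup G)} :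
    FamilyStronglyControlsFusion p 𝓕 ↔ ∀ (S : Sylow p G) (A : Set G) (g : G), A ⊆ (S : Subgroup G) →
      (∃ a ∈ A, a ≠ 1) → A ⊆ cj g (S : Subgroup G) → ∃ z, z⁻¹ * g ∈ normalizer ((S : Subgroup G) : Set G) ∧
        Relation.ReflTransGen (fun a b => (fun a y => ∃ Y ∈ 𝓕, IsSyl p (S ⊓ Y) Y ∧ y ∈ Y ∧
          A ⊆ cj (a * y) (S ⊓ Y)) a (a⁻¹ * b)) 1 z := by
  refine forall₃_congr fun S A g => imp_congr_right fun _ => imp_congr_right fun _ =>
    imp_congr conjRight_subset ?_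
  constructor
  · rintro ⟨n, Y, y, y₀, h1, h2, rfl, h3⟩
    refine ⟨(List.ofFn y).prod, by simpa using h1, (rtg_iff_prod (Q := fun a y => ∃ Y ∈ 𝓕,
      IsSyl p (S ⊓ Y) Y ∧ y ∈ Y ∧ A ⊆ cj (a * y) (S ⊓ Y))).2 ⟨n, y, rfl, fun i => ⟨Y i, (h2 i).1.1,
      (mem_sylowMembers.1 (h2 i).1).2, (h2 i).2, ?_⟩⟩⟩
    rw [← prod_take_succ_ofFn, ← conjRight_subset]
    exact h3 i
  · rintro ⟨z, h1, h2⟩
    obtain ⟨n, y, rfl, h3⟩ := (rtg_iff_prod (Q := fun a y => ∃ Y ∈ 𝓕,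
      IsSyl p (S ⊓ Y) Y ∧ y ∈ Y ∧ A ⊆ cj (a * y) (S ⊓ Y))).1 h2
    choose Y h4 h5 h6 h7 using h3
    refine ⟨n, Y, y, _, h1, fun i => ⟨mem_sylowMembers.2 ⟨h4 i, h5 i⟩, h6 i⟩, by group, fun i => ?_⟩
    have := h7 i
    rwa [← prod_take_succ_ofFn, ← conjRight_subset] at this

/-- Let p be a prime dividing the order of the finite group G and 𝓕 a family of subgroups of G closed under conjugation, with conjugates taken as X^g = g⁻¹Xg. Then 𝓕 controls Sylow p-intersections in G (any two distinct Sylow p-subgroups S and T with S ∩ T ≠ 1 are joined by a chain S = S₀, S₁, …, Sₙ = T of Sylow p-subgroups where, for each i, some member Xᵢ of 𝓕 meets both S_{i-1} and Sᵢ in Sylow p-subgroups of Xᵢ, satisfies S ∩ T ≤ Sᵢ ∩ Xᵢ, and contains an element xᵢ with Sᵢ^{xᵢ} = S_{i-1}) if and only if 𝓕 strongly controls p-fusion in G (whenever A is a subset of a Sylow p-subgroup S, A contains an element other than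 1, and A^g ⊆ S, the element g factorises as g = y₁⋯yₙy with y ∈ N_G(S) and each yᵢ in a member Yᵢ of 𝓕 that meets S in a Sylow p-subgroup of Yᵢ, with A^{y₁⋯yᵢ} ⊆ S ∩ Yᵢ for each i). -/
theorem result {G : Type*} [Group G] [Finite G] {p : ℕ} [Fact p.Prime] (hdiv : p ∣ Nat.card G) (𝓕 : Set (Subgroup G)) (h𝓕 : Cfsg.IsNormalSet 𝓕) : Cfsg.ControlsSylowIntersections p 𝓕 ↔ Cfsg.FamilyStronglyControlsFusion p 𝓕 := by
  rw [controls_iff_actrl, iff_rtg]
  rw [isNormalSet_iff] at h𝓕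
  constructor
  · intro h S A g h1 ⟨a, ha, ha1⟩ h2
    have h3 := h S (cj g S) (isSyl_sylow S)
      ((isSyl_sylow S).cj_of_mem (le_normalizer_of_normal (mem_top _)))
      fun e => ha1 (mem_bot.1 (e ▸ ⟨h1 ha, h2 ha⟩))
    have h4 : A ⊆ ((S : Subgroup G) ⊓ cj g S : Subgroup G) := fun a ha => ⟨h1 ha, h2 ha⟩
    generalize (S : Subgroup G) ⊓ cj g S = D at h3 h4
    suffices ∀ B, AChain p 𝓕 ⊤ D S B → ∃ z, B = cj z S ∧ Relation.ReflTransGen (fun a b =>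
        (fun a y => ∃ Y ∈ 𝓕, IsSyl p (S ⊓ Y) Y ∧ y ∈ Y ∧ A ⊆ cj (a * y) (S ⊓ Y)) a (a⁻¹ * b)) 1 z by
      obtain ⟨z, e, hz⟩ := this _ h3
      exact ⟨z, cj_eq_iff.1 (by rw [cj_mul, e, cj_inv_cj]), hz⟩
    intro B hB
    induction hB with
    | refl => exact ⟨1, (cj_one _).symm, .refl⟩
    | tail _ h ih =>
      obtain ⟨z, rfl, hz⟩ := ih
      obtain ⟨-, -, -, h5, X, hX, h6, h7, -, x, hx, rfl⟩ := h
      refine ⟨x * z, (cj_mul _ _ _).symm, hz.tail ⟨cj z⁻¹ X, h𝓕 X hX _, ?_, ?_, ?_⟩⟩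
      · have := h7.cj z⁻¹
        rwa [cj_inf, cj_inv_cj] at this
      · simpa [mul_assoc] using conj_mem_cj (g := z⁻¹) hx
      · rw [mul_inv_cancel_left, cj_inf, ← cj_mul, mul_inv_cancel_right, cj_eq_of_mem hx, cj_mul]
        exact fun a ha => ⟨h5 (h4 ha), h6 (h4 ha)⟩
  · intro h S T hS hT hb
    obtain ⟨g, -, rfl⟩ := hS.exists_cj_eq hT
    obtain ⟨S, rfl⟩ := isSyl_top_iff.1 hS
    obtain ⟨z, h1, h2⟩ := h S ((S : Subgroup G) ⊓ cj g S : Subgroup G) g (fun _ h => h.1)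
      ((bot_or_exists_ne_one _).resolve_left hb) (fun _ h => h.2)
    have e : cj g (S : Subgroup G) = cj z S := by
      rw [← mul_inv_cancel_left z g, cj_mul, cj_eq_iff.2 h1]
    have h3 : (S : Subgroup G) ⊓ cj g S ≤ S := inf_le_left
    generalize (S : Subgroup G) ⊓ cj g S = D at h2 h3 ⊢
    rw [e]
    clear e h1
    suffices D ≤ cj z S ∧ AChain p 𝓕 ⊤ D S (cj z S) from this.2
    induction h2 with
    | refl => rw [cj_one]; exact ⟨h3, .refl⟩
    | @tail a b _ h ih =>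
      obtain ⟨Y, hY, h4, h5, h6⟩ := h
      rw [mul_inv_cancel_left, cj_inf] at h6
      have e : cj b Y = cj a Y := by rw [← mul_inv_cancel_left a b, cj_mul, cj_eq_of_mem h5]
      refine ⟨fun x hx => (h6 hx).1, ih.2.tail ⟨hS.cj_of_mem (le_normalizer_of_normal (mem_top _)),
        hS.cj_of_mem (le_normalizer_of_normal (mem_top _)), ih.1, fun x hx => (h6 hx).1, cj a Y,
        h𝓕 Y hY _, fun x hx => e ▸ (h6 hx).2, ?_, ?_, b * a⁻¹, ?_, ?_⟩⟩
      · rw [← cj_inf]; exact h4.cj a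
      · rw [← e, ← cj_inf]; exact h4.cj b
      · simpa [mul_assoc] using conj_mem_cj (g := a) h5
      · rw [← cj_mul, inv_mul_cancel_right]

end Cfsg.Agent.S2939
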