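import Cfsg.Statements.S2940
import Cfsg.Agent.H8.Stab

set_option autoImplicit false
open Cfsg

namespace Cfsg.Agent.S2940

open Subgroup Cfsg.L0 Cfsg.H8
open scoped commutatorElement


/-- Let S be a Sylow p-subgroup of the finite group G and G₁, G₂ subgroups containing S with G = G₁G₂. Then for every g ∈ G there is a Sylow p-subgroup U of G with S ∩ S^g ≤ U ≤ G₁ ∩ G₂^g (conjugates taken as X^g = g⁻¹Xg). -/
theorem result {G : Type*} [Group G] [Finite G] {p : ℕ} [Fact p.Prime] (S : Sylow p G) (G₁ G₂ : Subgroup G) (h1 : (S : Subgroup G) ≤ G₁) (h2 : (S : Subgroup G) ≤ G₂) (hfact : ∀ g : G, ∃ g₁ ∈ G₁, ∃ g₂ ∈ G₂, g = g₁ * g₂) (g : G) : ∃ U : Sylow p G, (S : Subgroup G) ⊓ Cfsg.subgroupConjRight g (S : Subgroup G) ≤ (U : Subgroup G) ∧ (U : Subgroup G) ≤ G₁ ⊓ Cfsg.subgroupConjRight g G₂ := by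
  obtain ⟨g₁, hg₁, g₂, hg₂, e⟩ := hfact g⁻¹
  change ∃ U : Sylow p G, (S : Subgroup G) ⊓ cj g⁻¹ S ≤ U ∧ (U : Subgroup G) ≤ G₁ ⊓ cj g⁻¹ G₂
  have e2 : cj g⁻¹ G₂ = cj g₁ G₂ := by rw [e, cj_mul, cj_eq_of_mem hg₂]
  have h3 : cj g₁ (S : Subgroup G) ≤ G₁ ⊓ cj g⁻¹ G₂ :=
    le_inf (cj_le_of_le h1 (le_normalizer hg₁)) (e2 ▸ cj_mono _ h2)
  have hS : IsSyl p (cj g₁ (S : Subgroup G)) ⊤ := (isSyl_sylow S).cj_of_mem
    (le_normalizer_of_normal (mem_top _))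
  obtain ⟨U, hU, hle⟩ := exists_isSyl_ge (Q := (S : Subgroup G) ⊓ cj g⁻¹ S) (H := G₁ ⊓ cj g⁻¹ G₂)
    S.isPGroup'.to_inf_left (inf_le_inf h1 (cj_mono _ h2))
  obtain ⟨U, rfl⟩ := isSyl_top_iff.1 (hS.of_card_ge hU.isPGroup le_top
    (hU.card_le hS.isPGroup h3))
  exact ⟨U, hle, hU.le⟩

end Cfsg.Agent.S2940
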