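import Cfsg.Statements.S2955
import Cfsg.Agent.H8.Chains

set_option autoImplicit false
open Cfsg

namespace Cfsg.Agent.S2955

open Subgroup Cfsg.L0 Cfsg.H8
open scoped commutatorElement


/-- Let p be a prime dividing the order of the finite group G and 𝓕 a conjugation-closed family of subgroups that controls Sylow p-intersections in G. Suppose the Sylow p-subgroups of G are chain-connected: any two of them are joined by a chain of Sylow p-subgroups, consecutive ones distinct with nontrivial intersection, all containing the intersection of the two ends (equivalently, the graph on the Sylow p-subgroups whose edges are the distinct pairs meeting nontrivially is connected). Then for every Sylow p-subgroup S, G is generated by N_G(S) together with the members of 𝓕 that meet S in a Sylow p-subgroup of themselves. -/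
theorem result {G : Type*} [Group G] [Finite G] (p : ℕ) [Fact p.Prime] (hdiv : p ∣ Nat.card G)
    (𝓕 : Set (Subgroup G)) (h𝓕 : Cfsg.IsNormalSet 𝓕) (hc : Cfsg.ControlsSylowIntersections p 𝓕)
    (hconn : Cfsg.IsSylowChainConnected p G) (S : Sylow p G) :
    (⨆ X ∈ Cfsg.sylowMembers p 𝓕 (S : Subgroup G), X) ⊔ Subgroup.normalizer ((S : Subgroup G) : Set G) = ⊤ := by
  set L := (⨆ X ∈ Cfsg.sylowMembers p 𝓕 (S : Subgroup G), X) ⊔ normalizer ((S : Subgroup G) : Set G)
    with hL
  have h1 : ∀ {D A B : Subgroup G}, AStep p 𝓕 ⊤ D A B → (∃ l ∈ L, A = cj l S) → ∃ l ∈ L, B = cj l S := by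
    rintro D _ _ ⟨-, -, -, -, X, hX, -, h1, -, x, hx, rfl⟩ ⟨l, hl, rfl⟩
    refine ⟨x * l, mul_mem ?_ hl, (cj_mul _ _ _).symm⟩
    have h2 := h1.cj l⁻¹
    rw [cj_inf, cj_inv_cj] at h2
    have h3 : cj l⁻¹ X ≤ L := le_trans (le_iSup₂_of_le (f := fun X (_ : X ∈ sylowMembers p 𝓕 S) => X) _
      (mem_sylowMembers.2 ⟨isNormalSet_iff.1 h𝓕 X hX _, h2⟩) le_rfl) le_sup_left
    simpa [mul_assoc] using mul_mem (mul_mem hl (h3 (conj_mem_cj hx))) (inv_mem hl)
  have h2 : ∀ {D A B : Subgroup G}, AChain p 𝓕 ⊤ D A B → (∃ l ∈ L, A = cj l S) → ∃ l ∈ L, B = cj l S := by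
    intro D A B h hA
    induction h with
    | refl => exact hA
    | tail _ h ih => exact h1 h ih
  have h3 : ∀ T : Sylow p G, ∃ l ∈ L, (T : Subgroup G) = cj l S := fun T => by
    induction chainConnected_iff.1 hconn S T with
    | refl => exact ⟨1, one_mem _, (cj_one _).symm⟩
    | tail _ h ih => exact h2 (controls_iff_actrl.1 hc _ _ (isSyl_sylow _) (isSyl_sylow _) h) ih
  rw [eq_top_iff]
  intro g _
  obtain ⟨l, hl, e⟩ := h3 (g • S)
  rw [coe_smul_eq_cj] at e
  have h4 : l⁻¹ * g ∈ L := mem_sup_right (cj_eq_iff.1 (by rw [cj_mul, e, cj_inv_cj]))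
  simpa using mul_mem hl h4

end Cfsg.Agent.S2955
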