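import Cfsg.Statements.S2956
import Cfsg.Agent.H8.Chains

set_option autoImplicit false
open Cfsg

namespace Cfsg.Agent.S2956

open Subgroup Cfsg.L0 Cfsg.H8
open scoped commutatorElement


theorem exists_maximalPLocal {G : Type*} [Group G] [Finite G] {p : ℕ} {N : Subgroup G}
    (h : IsPLocal p N) : ∃ M, IsMaximalPLocal p M ∧ N ≤ M := by
  obtain ⟨M, ⟨h1, h2⟩, h3⟩ := (wellFounded_gt (α := Subgroup G)).has_min
    {M | IsPLocal p M ∧ N ≤ M} ⟨N, h, le_rfl⟩
  exact ⟨M, ⟨h1, fun L hL hML => by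
    by_contra hne
    exact h3 L ⟨hL, h2.trans hML⟩ (lt_of_le_of_ne hML (Ne.symm hne))⟩, h2⟩

/-- Let p be a prime dividing the order of the finite group G, and f an assignment to every p-subgroup P of a set f(P) of subgroups of P, each normalized by N_G(P), compatible with conjugation, such that for P ≠ 1 the members of f(P) are nontrivial. Let 𝓕 be the family of the normalizers N_G(F) of the members F of f(S) over the Sylow p-subgroups S of G, and 𝓕' the family of the maximal p-local subgroups M of G that are singular for f (the corresponding family of normalizers inside M does not control Sylow p-intersections in M). Then 𝓕 ∪ 𝓕' controls Sylow p-intersections in G. -/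
theorem result {G : Type*} [Group G] [Finite G] (p : ℕ) [Fact p.Prime] (hdiv : p ∣ Nat.card G)
    (f : Subgroup G → Set (Subgroup G)) (hf : Cfsg.IsNormalizerFunctor p f)
    (hf1 : ∀ P : Subgroup G, IsPGroup p ↥P → P ≠ ⊥ → ∀ F ∈ f P, F ≠ ⊥)
    (𝓕 𝓕' : Set (Subgroup G)) (h𝓕 : 𝓕 = Cfsg.functorFamily p f ⊤)
    (h𝓕' : 𝓕' = {M | Cfsg.IsMaximalPLocal p M ∧ ¬ Cfsg.IsFunctorRegular p f M}) :
    Cfsg.ControlsSylowIntersections p (𝓕 ∪ 𝓕') := by
  rw [controls_iff_actrl]
  suffices ∀ (n : ℕ) (S T : Subgroup G), Nat.card G - Nat.card ↥(S ⊓ T) = n → IsSyl p S ⊤ →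
      IsSyl p T ⊤ → S ⊓ T ≠ ⊥ → AChain p (𝓕 ∪ 𝓕') ⊤ (S ⊓ T) S T from fun S T => this _ S T rfl
  intro n
  induction n using Nat.strong_induction_on with | _ n IH => ?_
  intro S T hn hS hT hb
  generalize hD : S ⊓ T = D at hn hb
  have IH' : ∀ {A S T : Subgroup G}, D < A → A ≤ S → A ≤ T → IsSyl p S ⊤ → IsSyl p T ⊤ →
      AChain p (𝓕 ∪ 𝓕') ⊤ D S T := fun {A S T} h1 h2 h3 hS hT => by
    have h4 : D < S ⊓ T := h1.trans_le (le_inf h2 h3)
    have := card_lt_of_lt h4
    have := card_le_card_group (S ⊓ T)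
    exact (IH _ (by omega) S T rfl hS hT (ne_bot_of_gt h4)).mono subset_rfl h4.le
  have key : ∀ (m : ℕ) (M Q : Subgroup G), IsMaximalPLocal p M → IsSyl p Q M →
      Nat.card G - Nat.card Q = m → ∀ A B A1 B1 : Subgroup G, A ≤ M → B ≤ M → D < A → D < B → A ≤ A1 →
      B ≤ B1 → IsSyl p A1 ⊤ → IsSyl p B1 ⊤ → AChain p (𝓕 ∪ 𝓕') ⊤ D A1 B1 := by
    intro m
    induction m using Nat.strong_induction_on with | _ m IH2 => ?_
    intro M Q hM hQ hm
    suffices ∀ A B A1 B1 : Subgroup G, IsSyl p A M → IsSyl p B M → D < A → D < B → A ≤ A1 →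
        B ≤ B1 → IsSyl p A1 ⊤ → IsSyl p B1 ⊤ → AChain p (𝓕 ∪ 𝓕') ⊤ D A1 B1 by
      intro A B A1 B1 hA hB hDA hDB h1 h2 hA1 hB1
      obtain ⟨A', hA', h3⟩ := exists_isSyl_ge (hA1.isPGroup.to_le h1) hA
      obtain ⟨B', hB', h4⟩ := exists_isSyl_ge (hB1.isPGroup.to_le h2) hB
      obtain ⟨A2, hA2, h5⟩ := exists_isSyl_ge hA'.isPGroup le_top
      obtain ⟨B2, hB2, h6⟩ := exists_isSyl_ge hB'.isPGroup le_top
      exact ((IH' hDA h1 (h3.trans h5) hA1 hA2).trans (this A' B' A2 B2 hA' hB' (hDA.trans_le h3)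
        (hDB.trans_le h4) h5 h6 hA2 hB2)).trans (IH' hDB (h4.trans h6) h2 hB2 hB1)
    intro A B A1 B1 hA hB hDA hDB h1 h2 hA1 hB1
    by_cases hreg : IsFunctorRegular p f M
    · have hc := (actrl_of_regular hreg A B hA hB
        fun e => hb (le_bot_iff.1 (e ▸ le_inf hDA.le hDB.le))).mono subset_rfl (le_inf hDA.le hDB.le)
      clear hB hDB
      induction hc generalizing B1 with
      | refl => exact IH' hDA h1 h2 hA1 hB1
      | @tail B C _ hBC ih =>
        obtain ⟨B2, hB2, h3⟩ := exists_isSyl_ge hBC.1.isPGroup le_top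
        refine (ih B2 h3 hB2).trans ?_
        have hlt : ∀ {B : Subgroup G}, IsSyl p B M → D ≤ B → D < B := fun {B} hB hle =>
          lt_of_le_of_ne hle fun e => (card_lt_of_lt hDA).ne (by rw [e]; exact hB.card_eq hA)
        by_cases hBs : IsSyl p B ⊤
        · have h4 := hBC.functor_top hf hBs
          rw [hBs.eq_of_le hB2.isPGroup h3 le_top, h4.2.1.eq_of_le hB1.isPGroup h2 le_top]
          exact .single (h4.mono (h𝓕 ▸ Set.subset_union_left) le_rfl)
        · obtain ⟨P, hP, F, hF, h4, h5, -⟩ := hBC.functor_le hf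
          have hPb : P ≠ ⊥ := fun e => hb (le_bot_iff.1 (hDA.le.trans_eq (card_eq_one.1
            (by rw [hA.card_eq hP, e, card_bot]))))
          obtain ⟨M2, hM2, h6⟩ := exists_maximalPLocal (p := p) ⟨F, hP.isPGroup.to_le
            ((hf P hP.isPGroup).1 F hF).1, hf1 P hP.isPGroup hPb F hF, rfl⟩
          obtain ⟨P1, hP1, h7⟩ := exists_isSyl_ge hP.isPGroup le_top
          have h8 : P < P1 := lt_of_le_of_ne h7 fun e => hBs
            (hP1.of_card_ge hBC.1.isPGroup le_top (by rw [← e]; exact (hP.card_eq hBC.1).le))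
          obtain ⟨Q2, hQ2, h9⟩ := exists_isSyl_ge (Q := P1 ⊓ normalizer (P : Set G))
            hP1.isPGroup.to_inf_left (inf_le_right.trans (((hf P hP.isPGroup).1 F hF).2.trans h6))
          have h10 := card_lt_of_lt ((lt_inf_normalizer hP1.isPGroup h8).trans_le h9)
          have h11 := hP.card_eq hQ
          have := card_le_card_group Q2
          exact IH2 _ (by omega) M2 Q2 hM2 hQ2 rfl B C B2 B1 (h4.trans h6) (h5.trans h6)
            (hlt hBC.1 hBC.2.2.1) (hlt hBC.2.1 hBC.2.2.2.1) h3 h2 hB2 hB1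
    · obtain ⟨x, hx, rfl⟩ := hA.exists_cj_eq hB
      have h3 : IsSyl p (cj x A1) ⊤ := hA1.cj_of_mem (le_normalizer_of_normal (mem_top _))
      refine (IH' hDB (cj_mono x h1) h2 h3 hB1).head ⟨hA1, h3, hDA.le.trans h1,
        hDB.le.trans (cj_mono x h1), M, Or.inr (h𝓕' ▸ ⟨hM, hreg⟩), hDA.le.trans hA.le, ?_, ?_, x, hx, rfl⟩
      · exact hA.of_ge hA1.isPGroup.to_inf_left (le_inf h1 hA.le) inf_le_right
      · exact hB.of_ge h3.isPGroup.to_inf_left (le_inf (cj_mono x h1) hB.le) inf_le_right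
  by_cases hST : S = T
  · subst hST; exact .refl
  have hDS : D < S := hD ▸ inf_lt_left.2 fun h => hST (hS.eq_of_le hT.isPGroup h le_top).symm
  have hDT : D < T := hD ▸ inf_lt_right.2 fun h => hST (hT.eq_of_le hS.isPGroup h le_top)
  obtain ⟨M, hM, h1⟩ := exists_maximalPLocal (p := p) ⟨D, hS.isPGroup.to_le hDS.le, hb, rfl⟩
  obtain ⟨Q, hQ⟩ := exists_isSyl p M
  exact key _ M Q hM hQ rfl _ _ S T (inf_le_right.trans h1) (inf_le_right.trans h1)
    (lt_inf_normalizer hS.isPGroup hDS) (lt_inf_normalizer hT.isPGroup hDT) inf_le_left inf_le_left hS hT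

end Cfsg.Agent.S2956
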