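import Cfsg.Statements.S2957
import Cfsg.Agent.H8.Chains
import Cfsg.Agent.S2940

set_option autoImplicit false
open Cfsg

namespace Cfsg.Agent.S2957

open Subgroup Cfsg.L0 Cfsg.H8
open scoped commutatorElement


/-- Let p be a prime dividing the order of the finite group G, f an equivariant assignment of a set of subgroups f(P) of P to every p-subgroup P, each normalized by N_G(P), and S a Sylow p-subgroup. If G = G₁G₂ for subgroups G₁, G₂ both containing S and both regular for f (in each Gᵢ, the family of normalizers in Gᵢ of the members of f(P), P a Sylow p-subgroup of Gᵢ, controls Sylow p-intersections), then G itself is regular for f. -/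
theorem result {G : Type*} [Group G] [Finite G] (p : ℕ) [Fact p.Prime] (hdiv : p ∣ Nat.card G)
    (f : Subgroup G → Set (Subgroup G)) (hf : Cfsg.IsNormalizerFunctor p f) (S : Sylow p G)
    (G₁ G₂ : Subgroup G) (h₁ : (S : Subgroup G) ≤ G₁) (h₂ : (S : Subgroup G) ≤ G₂)
    (hprod : ∀ g : G, ∃ g₁ ∈ G₁, ∃ g₂ ∈ G₂, g = g₁ * g₂)
    (hr₁ : Cfsg.IsFunctorRegular p f G₁) (hr₂ : Cfsg.IsFunctorRegular p f G₂) :
    Cfsg.IsFunctorRegular p f ⊤ := by
  refine regular_top_of_actrl fun A B hA hB hb => ?_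
  obtain ⟨a, -, rfl⟩ := (isSyl_sylow S).exists_cj_eq hA
  obtain ⟨b, -, rfl⟩ := (isSyl_sylow S).exists_cj_eq hB
  obtain ⟨U, hU1, hU2⟩ := S2940.result S G₁ G₂ h₁ h₂ hprod (b⁻¹ * a)
  change (S : Subgroup G) ⊓ cj _ _ ≤ _ at hU1
  change _ ≤ G₁ ⊓ cj _ _ at hU2
  have h3 := cj_mono a hU1
  have h4 := cj_mono a hU2
  rw [cj_inf, ← cj_mul, mul_inv_rev, inv_inv, mul_inv_cancel_left] at h3 h4
  have hU : IsSyl p (cj a (U : Subgroup G)) ⊤ :=
    (isSyl_sylow U).cj_of_mem (le_normalizer_of_normal (mem_top _))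
  have c1 := actrl_cj hf a (actrl_of_regular hr₁) _ _ (hA.mono (cj_mono a h₁) le_top)
    (hU.mono (h4.trans inf_le_left) le_top) fun e => hb (le_bot_iff.1 (e ▸ le_inf inf_le_left h3))
  have c2 := actrl_cj hf b (actrl_of_regular hr₂) _ _ (hU.mono (h4.trans inf_le_right) le_top)
    (hB.mono (cj_mono b h₂) le_top) fun e => hb (le_bot_iff.1 (e ▸ le_inf h3 inf_le_right))
  exact ((c1.functor_top hf hA).mono subset_rfl (le_inf inf_le_left h3)).trans
    ((c2.functor_top hf hU).mono subset_rfl (le_inf h3 inf_le_right))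

end Cfsg.Agent.S2957
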