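import Cfsg.Statements.S2958
import Cfsg.Agent.H8.Stab

set_option autoImplicit false
open Cfsg

namespace Cfsg.Agent.S2958

open Subgroup Cfsg.L0 Cfsg.H8
open scoped commutatorElement


/-- Let X, A, B be subgroups of a group G such that G is generated by the conjugates of X and every conjugate of X is contained in A or in B. Then A = G or B = G. -/
theorem result {G : Type*} [Group G] (X A B : Subgroup G) (hgen : (⨆ g : G, X.map (MulAut.conj g).toMonoidHom) = ⊤) (hcover : ∀ g : G, X.map (MulAut.conj g).toMonoidHom ≤ A ∨ X.map (MulAut.conj g).toMonoidHom ≤ B) : A = ⊤ ∨ B = ⊤ := by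
  by_cases hB : B = ⊤
  · exact Or.inr hB
  left
  set N : Subgroup G := sSup {Y | (∃ g, Y = cj g X) ∧ ¬ Y ≤ B} with hN
  have hNA : N ≤ A := sSup_le (by
    rintro Y ⟨⟨g, rfl⟩, h⟩
    exact (hcover g).resolve_right h)
  have hBN : B ≤ normalizer (N : Set G) := by
    refine le_normalizer_sSup ?_
    rintro b hb Y ⟨⟨g, rfl⟩, h⟩
    refine ⟨⟨b * g, (cj_mul _ _ _).symm⟩, fun h' => h ?_⟩
    have := cj_le_of_le h' (le_normalizer (inv_mem hb))
    rwa [cj_inv_cj] at this
  have hn : N.Normal := normal_of_top_le (by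
    rw [← hgen]
    refine iSup_le fun g => ?_
    by_cases h : cj g X ≤ B
    · exact h.trans hBN
    · exact (le_sSup (s := {Y | (∃ g, Y = cj g X) ∧ ¬ Y ≤ B}) ⟨⟨g, rfl⟩, h⟩).trans le_normalizer)
  obtain ⟨g, hg⟩ : ∃ g, ¬ cj g X ≤ B := by
    by_contra h
    push Not at h
    exact hB (top_le_iff.1 (hgen ▸ iSup_le h))
  have h1 : cj g X ≤ N := le_sSup ⟨⟨g, rfl⟩, hg⟩
  rw [eq_top_iff, ← hgen]
  refine iSup_le fun h => le_trans ?_ hNA
  have := cj_le_of_le h1 (g := h * g⁻¹) (le_normalizer_of_normal (mem_top _))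
  rwa [← cj_mul, inv_mul_cancel_right] at this

end Cfsg.Agent.S2958
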