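import Cfsg.Statements.S2961
import Cfsg.Agent.H7.CharP

set_option autoImplicit false
open Cfsg

namespace Cfsg.Agent.S2961

open Subgroup Cfsg.H7
open Cfsg.L0 (SN)
open scoped commutatorElement

/-- Let G be a finite group of characteristic p (C_G(O_p(G)) ≤ O_p(G)), p prime, T a Sylow p-subgroup of G and Q a normal subgroup of T with C_T(Q) ≤ Q. Then every subgroup L of G containing Q has characteristic p: C_L(O_p(L)) ≤ O_p(L). -/
theorem result {G : Type*} [Group G] [Finite G] {p : ℕ} [Fact p.Prime] (hG : Subgroup.centralizer (Cfsg.pCore p G : Set G) ≤ Cfsg.pCore p G) (T : Sylow p G) (Q : Subgroup G) (hQT : Q ≤ (T : Subgroup G)) (hQn : (T : Subgroup G) ≤ Subgroup.normalizer (Q : Set G)) (hC : (T : Subgroup G) ⊓ Subgroup.centralizer (Q : Set G) ≤ Q) (L : Subgroup G) (hQL : Q ≤ L) : Subgroup.centralizer (Cfsg.pCore p ↥L : Set ↥L) ≤ Cfsg.pCore p ↥L := by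
  have hCQ : centralizer (Q : Set G) ≤ Q := by
    have := (isCharP_top_iff.mpr hG).inf_centralizer_le (isSylowIn_top T) hQT hQn hC
    rwa [top_inf_eq] at this
  rw [← isCharP_iff, isCharP_iff_isPGroup]
  set D := pCore p G
  set C := L ⊓ centralizer (pCoreOf p L : Set G) with hCdef
  have hCn : L ≤ normalizer (C : Set G) :=
    le_normalizer_inf le_normalizer (le_normalizer_centralizer (le_normalizer_pCoreOf p L))
  set L₀ := L ⊓ stab D (D ⊓ L) with hL₀
  have hL₀n : L ≤ normalizer (L₀ : Set G) :=
    le_normalizer_inf le_normalizer (le_normalizer_stab le_normalizer_of_normal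
      (le_normalizer_inf le_normalizer_of_normal le_normalizer))
  have hQL₀ : Q ≤ L₀ := by
    refine le_inf hQL (le_stab_iff.mpr ⟨hQL.trans
      (le_normalizer_inf le_normalizer_of_normal le_normalizer), ?_⟩)
    exact (commutator_le_inf' le_normalizer_of_normal ((pCore_le_sylow T).trans hQn)).trans
      (inf_le_inf_left _ hQL)
  have h1 : IsPGroup p (L₀ ⊓ C : Subgroup G) := by
    refine isPGroup_of_pResidualOf_le (isPGroup_pCore p G) (le_trans ?_ hG)
    refine pResidualOf_le_centralizer (W := pCoreOf p L) ?_ ?_ (isPGroup_pCoreOf p L)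
    · exact ((commutator_mono le_rfl (inf_le_left.trans inf_le_right)).trans
        (commutator_stab_le _ _)).trans (pCore_inf_le L)
    · exact commutator_eq_bot_iff'.mpr (inf_le_right.trans inf_le_right)
  have h2 : L₀ ⊓ C ≤ pCoreOf p L :=
    le_pCoreOf h1 (inf_le_right.trans inf_le_left) (le_normalizer_inf hL₀n hCn)
  refine isPGroup_of_pResidualOf_le (T.isPGroup'.to_le hQT) (le_trans ?_ hCQ)
  refine pResidualOf_le_centralizer (W := pCoreOf p L) ?_
    (commutator_eq_bot_iff'.mpr inf_le_right) (isPGroup_pCoreOf p L)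
  exact ((commutator_mono hQL₀ le_rfl).trans
    (commutator_le_inf' (inf_le_left.trans hL₀n) (inf_le_left.trans hCn))).trans h2

end Cfsg.Agent.S2961
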