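import Cfsg.Statements.S2963
import Cfsg.Agent.L0.Components
-- import your own Cfsg.Agent.* helpers here

set_option autoImplicit false
open Cfsg

namespace Cfsg.Agent.S2963

open Subgroup Pointwise


/-- Let n be odd. If the symmetric group of degree n is a minimal parabolic group for the prime 2, that is, a Sylow 2-subgroup is not normal and lies in exactly one maximal subgroup, then n = 2^m + 1 for some natural number m. -/
theorem result (n : ℕ) (hn : Odd n) (h : Cfsg.IsPMinimal 2 (Equiv.Perm (Fin n))) : ∃ m : ℕ, n = 2 ^ m + 1 := by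
  classical
  have : Fact (Nat.Prime 2) := ⟨Nat.prime_two⟩
  obtain ⟨S⟩ : Nonempty (Sylow 2 (Equiv.Perm (Fin n))) := inferInstance
  obtain ⟨hnn, M, ⟨hM, hSM⟩, huniq⟩ := h S
  have hall : ∀ K : Subgroup (Equiv.Perm (Fin n)), K ≠ ⊤ → (S : Subgroup _) ≤ K → K ≤ M := by
    intro K hK hSK
    obtain ⟨N, hN, hKN⟩ := (eq_top_or_exists_le_coatom K).resolve_left hK
    rw [← huniq N ⟨hN, hSK.trans hKN⟩]; exact hKN
  obtain ⟨x, hx⟩ := S.isPGroup'.nonempty_fixed_point_of_prime_not_dvd_card (Fin n)
    (by simpa [← even_iff_two_dvd] using hn)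
  have hnt : Nontrivial (Fin n) := by
    by_contra hc
    rw [not_nontrivial_iff_subsingleton] at hc
    exact hnn ⟨fun a ha g => by rwa [Subsingleton.elim (g * a * g⁻¹) a]⟩
  obtain ⟨y, hy⟩ := exists_ne x
  -- the stabilizer of x is the maximal subgroup
  have hSx : (S : Subgroup _) ≤ MulAction.stabilizer (Equiv.Perm (Fin n)) x := fun g hg =>
    MulAction.mem_fixedPoints.1 hx ⟨g, hg⟩
  have hco : IsCoatom (MulAction.stabilizer (Equiv.Perm (Fin n)) x) :=
    MulAction.IsPreprimitive.isCoatom_stabilizer_of_isPreprimitive _ x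
  have hMx : MulAction.stabilizer (Equiv.Perm (Fin n)) x = M := huniq _ ⟨hco, hSx⟩
  set O : Set (Fin n) := MulAction.orbit (S : Subgroup (Equiv.Perm (Fin n))) y with hO
  have hxO : x ∉ O := by
    rintro ⟨g, hg⟩
    apply hy
    have : g⁻¹ • x = x := MulAction.mem_fixedPoints.1 hx g⁻¹
    rw [← this, ← hg]; simp
  have hyO : y ∈ O := MulAction.mem_orbit_self y
  have hSO : (S : Subgroup _) ≤ MulAction.stabilizer (Equiv.Perm (Fin n)) O := fun g hg =>
    MulAction.smul_orbit (⟨g, hg⟩ : (S : Subgroup (Equiv.Perm (Fin n)))) y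
  have hne : MulAction.stabilizer (Equiv.Perm (Fin n)) O ≠ ⊤ := by
    intro e
    have : Equiv.swap x y ∈ MulAction.stabilizer (Equiv.Perm (Fin n)) O := e ▸ mem_top _
    apply hxO
    rw [← MulAction.mem_stabilizer_iff.1 this]
    exact ⟨y, hyO, by simp⟩
  have hle := hall _ hne hSO
  rw [← hMx] at hle
  have hOc : O = {x}ᶜ := by
    ext z
    constructor
    · rintro hz rfl; exact hxO hz
    · intro hz
      by_contra hzO
      have : Equiv.swap x z ∈ MulAction.stabilizer (Equiv.Perm (Fin n)) O := by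
        rw [MulAction.mem_stabilizer_iff]
        have hfix : ∀ w ∈ O, Equiv.swap x z • w = w := fun w hw =>
          Equiv.swap_apply_of_ne_of_ne (by rintro rfl; exact hxO hw) (by rintro rfl; exact hzO hw)
        ext w
        constructor
        · rintro ⟨v, hv, rfl⟩; simpa only [hfix v hv] using hv
        · intro hw; exact ⟨w, hw, hfix w hw⟩
      have h2 := MulAction.mem_stabilizer_iff.1 (hle this)
      exact hz (by simpa using h2)
  obtain ⟨m, hm⟩ := S.isPGroup'.card_orbit y
  refine ⟨m, ?_⟩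
  rw [← hm, ← hO, hOc]
  have := Set.ncard_add_ncard_compl ({x} : Set (Fin n))
  simp only [Set.ncard_singleton, Nat.card_eq_fintype_card, Fintype.card_fin] at this
  rw [Nat.card_coe_set_eq]; omega

end Cfsg.Agent.S2963
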