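import Cfsg.Statements.S2980
import Cfsg.Agent.H7.LC14

set_option autoImplicit false
open Cfsg

namespace Cfsg.Agent.S2980

open Subgroup Cfsg.H7
open Cfsg.L0 (SN)
open scoped commutatorElement

/-- The local C(G,T)-Theorem. Let G be a finite group of characteristic p (C_G(O_p(G)) ≤ O_p(G)), p prime, T a Sylow p-subgroup, and suppose G ≠ C(G,T), the subgroup generated by the normalizers of the nontrivial characteristic subgroups of T. Then G has a set of B(T)-blocks with the block structure of the local C*(G,T)-Theorem, and in addition every block E with E/O_p(E) alternating of degree 2m+1 (p = 2) has 2m + 1 = 2ⁿ + 1 for some n. -/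
theorem result {G : Type*} [Group G] [Finite G] {p : ℕ} [Fact p.Prime] (hG : Subgroup.centralizer (Cfsg.pCore p G : Set G) ≤ Cfsg.pCore p G) (T : Sylow p G) (hne : Cfsg.charNormalizersJoin (T : Subgroup G) ≠ ⊤) : ∃ 𝓑 : Set (Subgroup G), Cfsg.HasBaumannBlockStructure p (T : Subgroup G) 𝓑 ∧ ∀ E ∈ 𝓑, ∀ m : ℕ, Nonempty (↥E ⧸ Cfsg.pCore p ↥E ≃* ↥(alternatingGroup (Fin (2 * m + 1)))) → ∃ n : ℕ, 2 * m + 1 = 2 ^ n + 1 := by
  have h := H7.hyp_CGT (H7.isSylowIn_top T) hG hne
  exact ⟨_, h.cStar.blocks, fun E hE => h.cStar.deg h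
    (fun C c1 c2 c3 _ => le_iSup_of_le ⟨C, c1, c2, c3⟩ le_rfl) hE⟩

end Cfsg.Agent.S2980
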