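import Cfsg.Statements.S2981
import Cfsg.Agent.H7.FF5
import Cfsg.Agent.H9.Thompson

set_option autoImplicit false
open Cfsg

namespace Cfsg.Agent.S2981

open Subgroup Cfsg.H7
open Cfsg.L0 (SN)
open scoped commutatorElement

open Cfsg.H7.Md
open Cfsg.H8 (up down)

/-- The local C**(G,T)-Theorem for minimal parabolic groups. Let G be a finite p-minimal group (a Sylow p-subgroup T is not normal and lies in exactly one maximal subgroup) of characteristic p (C_G(O_p(G)) ≤ O_p(G)), and suppose G ≠ C**(G,T), the subgroup generated by C_G(Ω₁(Z(T))) and N_G(J(T)) (J(T) generated by the elementary abelian p-subgroups of T of largest order). Put V = Ω₁(Z(O_p(G))) and C = C_G(V). Then there are subgroups E₁, …, E_r of G containing C such that: J(G)TC = G and the E_i C/C form an internal direct product equal to J(G)C/C; any two of the E_i are conjugate by an element of T; V = C_V(⟨E_i⟩)·∏[V, E_i] with [V, E_i, E_j] = 1 for i ≠ j; for some n ≥ 1, each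 E_i/C is isomorphic to SL₂(pⁿ), or p = 2 and to the symmetric group of degree 2ⁿ + 1; and E_i acts on [V, E_i]/C_{[V,E_i]}(E_i) as the natural two-dimensional SL₂(pⁿ)-module, respectively as the symmetric group of degree 2ⁿ+1 on its even-weight permutation module. -/
theorem result {G : Type*} [Group G] [Finite G] {p : ℕ} [Fact p.Prime] (hmin : Cfsg.IsPMinimal p G) (hG : Subgroup.centralizer (Cfsg.pCore p G : Set G) ≤ Cfsg.pCore p G) (T : Sylow p G) (hne : Cfsg.cStarStarOf p (T : Subgroup G) ≠ ⊤) : ∃ (r : ℕ) (E : Fin r → Subgroup G), (∀ i, Subgroup.centralizer (Cfsg.omegaOneCenter p (Cfsg.pCore p G) : Set G) ≤ E i) ∧ Cfsg.thompsonSubgroup p G ⊔ (T : Subgroup G) ⊔ Subgroup.centralizer (Cfsg.omegaOneCenter p (Cfsg.pCore p G) : Set G) = ⊤ ∧ (⨆ i, E i) = Cfsg.thompsonSubgroup p G ⊔ Subgroup.centralizer (Cfsg.omegaOneCenter p (Cfsg.pCore p G) : Set G) ∧ (∀ i j, i ≠ j → ⁅E i, E j⁆ ≤ Subgroup.centralizer (Cfsg.omegaOneCenter p (Cfsg.pCore p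 G) : Set G)) ∧ (∀ i, E i ⊓ (⨆ j ∈ {j | j ≠ i}, E j) ≤ Subgroup.centralizer (Cfsg.omegaOneCenter p (Cfsg.pCore p G) : Set G)) ∧ (∀ i j, ∃ t ∈ (T : Subgroup G), (E i).map (MulAut.conj t).toMonoidHom = E j) ∧ (Cfsg.omegaOneCenter p (Cfsg.pCore p G) ⊓ Subgroup.centralizer ((⨆ i, E i : Subgroup G) : Set G)) ⊔ (⨆ i, ⁅Cfsg.omegaOneCenter p (Cfsg.pCore p G), E i⁆) = Cfsg.omegaOneCenter p (Cfsg.pCore p G) ∧ (∀ i j, i ≠ j → ⁅⁅Cfsg.omegaOneCenter p (Cfsg.pCore p G), E i⁆, E j⁆ = ⊥) ∧ ∀ i, ∃ n : ℕ, 1 ≤ n ∧ ((∃ (F : Type) (_ : Field F) (_ : Fintype F), Fintype.card F = p ^ n ∧ (∃ _ : ((Subgroup.centralizer (Cfsg.omegaOneCenter p (Cfsg.pCore p G) : Set G)).subgroupOf (E i)).Normal, Nonempty (↥(E i) ⧸ (Subgroup.centralizer (Cfsg.omegaOneCenter p (Cfsg.pCore p G) : Set G)).subgroupOf (E i) ≃* Matrix.SpecialLinearGroup (Fin 2) F)) ∧ Cfsg.ActsAsSL2OnSection F ⊤ (E i) ⁅Cfsg.omegaOneCenter p (Cfsg.pCore p G), E i⁆ (⁅Cfsg.omegaOneCenter p (Cfsg.pCore p G),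 E i⁆ ⊓ Subgroup.centralizer ((E i : Subgroup G) : Set G))) ∨ (p = 2 ∧ (∃ _ : ((Subgroup.centralizer (Cfsg.omegaOneCenter p (Cfsg.pCore p G) : Set G)).subgroupOf (E i)).Normal, Nonempty (↥(E i) ⧸ (Subgroup.centralizer (Cfsg.omegaOneCenter p (Cfsg.pCore p G) : Set G)).subgroupOf (E i) ≃* Equiv.Perm (Fin (2 ^ n + 1)))) ∧ Cfsg.ActsAsOddPermModuleOnSection (2 ^ n + 1) ⊤ (E i) ⁅Cfsg.omegaOneCenter p (Cfsg.pCore p G), E i⁆ (⁅Cfsg.omegaOneCenter p (Cfsg.pCore p G), E i⁆ ⊓ Subgroup.centralizer ((E i : Subgroup G) : Set G)))) := by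
  set V := omegaOneCenter p (pCore p G) with hVdef
  set C := centralizer (V : Set G) with hCdef
  have hV : IsElementaryAbelian p V := ea_omegaOneCenter _ _
  haveI : C.Normal := normal_of_le_normalizer_top (le_normalizer_centralizer le_normalizer_of_normal)
  obtain ⟨Γ, W, _, _, _, _, _, ⟨r⟩⟩ := exists_rep (V := V) (L := ⊤) (N := C)
    (ea_le_centralizer hV) le_normalizer_of_normal le_normalizer_of_normal le_rfl
  obtain ⟨M, hM⟩ := exists_minOver_of_isPMinimal hmin T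
  have hT := isSylowIn_top T
  have hOT : pCore p G ≤ T := pCore_le_sylow T
  have hVT : V ≤ T := (omegaOneCenter_le _ _).trans hOT
  have hZ : omegaOneCenter p (T : Subgroup G) = V ⊓ centralizer (T : Set G) :=
    omegaOneCenter_eq_inf (isElementaryAbelian_iff.mp hV).2 hVT (by
      have := (isCharP_top_iff.mpr hG).omegaOneCenter_le (T := T) le_top (by rwa [pCoreOf_top])
      rwa [pCoreOf_top] at this)
  have hs : cStarStarOf p (T : Subgroup G) ≤ M :=
    hM.max _ (le_sup_of_le_right (H9.le_normalizer_J _ _)) (lt_top_iff_ne_top.mpr hne)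
  have hZM : centralizer ((V ⊓ centralizer (T : Set G) : Subgroup G) : Set G) ≤ M :=
    hZ ▸ le_sup_left.trans hs
  have hCM : C ≤ M := (centralizer_anti inf_le_left).trans hZM
  have hOC : pCore p G ≤ C := le_centralizer_omegaOneCenter _ _
  have ub : up r.π ⊥ = C := by rw [r.up_bot, inf_top_eq]
  have ud : ∀ X : Subgroup G, up r.π (down r.π X) = X ⊔ C := fun X => by
    rw [H8.up_down _ le_top, ub]
  have hf := r.faithful inf_le_right
  have H : PM p W (down r.π T) (down r.π M) :=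
    { syl := H8.down_top r.surj ▸ (hT.subgroupOf le_rfl).map r.π
      le := H8.down_mono _ hM.le
      cz := by
        rw [← H8.up_le_up_iff r.surj, r.up_cz, r.uv_fx_down le_top, ud]
        exact inf_le_right.trans (hZM.trans le_sup_left)
      tor := r.tor hV
      faith := hf
      um := ⟨H8.down_mono _ hM.le, lt_top_iff_ne_top.mpr fun e => hM.not_le (by
          have := ud M
          rw [e, H8.up_top, sup_eq_left.mpr hCM] at this
          exact this.le), fun X h1 h2 => by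
        rw [← H8.up_le_up_iff r.surj, ud] at *
        refine (hM.max _ (le_sup_left.trans h1) (lt_top_iff_ne_top.mpr fun e => h2.ne ?_)).trans
          le_sup_left
        rw [← H8.down_up r.surj X, e, H8.down_top r.surj]⟩
      op := by
        have hn : ⊤ ≤ normalizer (up r.π (pCore p Γ) : Set G) := H8.le_normalizer_up _ _
        have hp : ∀ x ∈ up r.π (pCore p Γ), ∃ k : ℕ, x ^ p ^ k ∈ C := fun x hx => by
          obtain ⟨h1, h2⟩ := H8.mem_up.mp hx
          obtain ⟨k, hk⟩ := isPGroup_iff_mem.mp (isPGroup_pCore p Γ) _ h2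
          exact ⟨k, (r.ker (⟨x, h1⟩ ^ p ^ k)).mp (by rw [map_pow, hk])⟩
        have h1 := (hM.pResidualOf_le_or_le hT.isPGroup le_top hn).resolve_left fun e =>
          hM.not_pResidualOf_le hT (by
            rw [← pResidualOf_eq_of_le e le_top]
            exact (pResidualOf_le_of_pow_mem hp).trans hCM)
        have h2 := (hT.inf_of_normal le_top hn).le_sup_of_pow_mem le_normalizer_of_normal hp
        rw [eq_bot_iff, ← H8.up_le_up_iff r.surj, ub]
        exact h2.trans (sup_le ((hM.inf_le_pCoreOf hT h1 hn).trans (by rwa [pCoreOf_top])) le_rfl) }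
  have off : ∀ A, H9.MaxEA p (T : Subgroup G) A →
      IsElementaryAbelian p (down r.π A) ∧ Nat.card W ≤ ms W (down r.π A) := fun A hA => by
    refine ⟨ea_map (ea_subgroupOf hA.ea _) _, ?_⟩
    have h1 := hA.best hVT hV (C ⊓ A) inf_le_right
    rw [← r.ms_down (X := A) le_top,
      inf_eq_left.mpr (le_centralizer_iff.mp (inf_le_left : C ⊓ A ≤ C)), ← r.card_W,
      mul_comm] at h1
    exact Nat.le_of_mul_le_mul_right h1 Nat.card_pos
  obtain ⟨A, hA, hAC⟩ := H9.exists_maxEA_not_le (p := p) (T := T) (K := C) fun e => hM.not_le (by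
    have h1 : thompsonSubgroupOf p (T : Subgroup G) ≤ pCore p G :=
      (le_inf (H9.J_le _ _) e).trans ((hM.inf_le_pCoreOf hT hCM le_normalizer_of_normal).trans
        (pCoreOf_top p G).le)
    refine le_trans ?_ (le_sup_right.trans hs)
    rw [← H9.J_eq_of_le h1 hOT]
    exact le_normalizer_of_normal.trans (H9.normalizer_le_normalizer_J _ _))
  have mt : ∀ B, H9.MaxEA p (T : Subgroup G) B → H9.MaxEA p ⊤ B := fun B hB =>
    ⟨le_top, hB.ea, fun D _ hD => by
      obtain ⟨g, -, h1⟩ := hT.exists_cj_le (ea_isPGroup hD) le_top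
      exact (card_cj g D).ge.trans (hB.max _ h1 (ea_cj hD g))⟩
  obtain ⟨X, L, n, E, h, g, hg⟩ := H.structure (off A hA).1
    (fun e => hAC (ub ▸ (H8.down_eq_bot_iff le_top).mp e)) (off A hA).2
  have hn : ⊤ ≤ normalizer (thompsonSubgroupOf p (⊤ : Subgroup G) : Set G) := H9.le_normalizer_J _ _
  haveI := H8.normal_down r.surj hn
  have CE : ∀ i, C ≤ up r.π (E i) := fun i => ub.ge.trans (H8.up_mono _ bot_le)
  have e1 : (⨆ i, up r.π (E i)) = up r.π (⨆ i, E i) := by
    rw [r.up_iSup, ub, sup_eq_left.mpr ((CE ⟨0, h.pos⟩).trans (le_iSup (fun i => up r.π (E i)) _))]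
  have e2 : (⨆ i, E i) = down r.π (thompsonSubgroupOf p ⊤) := by
    apply le_antisymm
    · rw [h.ncl]
      exact normalClosure_le_normal (hg.trans ((cj_mono (H8.down_mono _ (mt A hA).le_J)).trans
        (cj_eq_of_normal _ _).le))
    · rw [H8.down_le_iff' le_top, H9.J_le_iff]
      intro B hB
      obtain ⟨k, -, h1⟩ := hT.exists_cj_le (ea_isPGroup hB.ea) le_top
      have h2 := off _ ((hB.cj_of_mem (g := k) (le_normalizer trivial)).mono h1 le_top)
      have h3 := (h.off _ h2.1 (H8.down_mono _ h1) h2.2).trans h.DT_le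
      rw [h.ncl, show cj k B = cj ((⟨k, trivial⟩ : (⊤ : Subgroup G)) : G) B from rfl, r.down_cj,
        cj_le_iff, cj_eq_of_normal, ← h.ncl] at h3
      exact (H8.down_le_iff' le_top).mp h3
  have e3 : (⨆ i, up r.π (E i)) = thompsonSubgroup p G ⊔ C := by rw [e1, e2, ud, H9.J_top]
  refine ⟨n, fun i => up r.π (E i), CE, ?_, e3, fun i j e => ?_, fun i => ?_,
    fun i j => ?_, ?_, fun i j e => ?_, fun i => ?_⟩
  · have := congrArg (up r.π) h.top
    rw [r.up_sup, ← e1, e3, ud, H8.up_top] at this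
    rw [← this]; ac_rfl
  · refine (r.commutator_up_le _ _).trans ?_
    rw [commutator_eq_bot_iff'.mpr (h.toFam.comm hf e.symm), ub]
  · have := congrArg (up r.π) (h.toFam.disj i)
    rw [H8.up_inf, ub] at this
    exact (inf_le_inf_left _ (iSup₂_le fun j hj => H8.up_mono _
      (le_iSup₂_of_le (f := fun j (_ : j ∈ {j | j ≠ i}) => E j) j hj le_rfl))).trans this.le
  · obtain ⟨_, ⟨t, ht, rfl⟩, e⟩ := h.toFam.conj i j
    exact ⟨t, ht, by rw [map_conj_eq_cj, ← r.up_cj, e]⟩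
  · have := congrArg r.uv h.toFam.decomp
    simpa only [r.uv_sup, r.uv_iSup, r.uv_fx, r.uv_cm_top, ← e1, r.uv_top] using this
  · rw [← r.uv_cm_top, ← r.uv_cm, cm_eq_bot_iff.mpr (h.cm_le i j e), r.uv_bot]
  · obtain ⟨hn, ⟨e⟩⟩ := r.nonempty_quot_equiv le_top (E i)
    obtain ⟨n, hn', ⟨F, _, _, h1, ⟨ρ⟩, h2⟩ | ⟨h1, ⟨ρ⟩, h2⟩⟩ := r.kind (h.kind i)
    · exact ⟨n, hn', Or.inl ⟨F, inferInstance, inferInstance, h1, ⟨hn, ⟨e.trans ρ⟩⟩, h2⟩⟩
    · exact ⟨n, hn', Or.inr ⟨h1, ⟨hn, ⟨e.trans ρ⟩⟩, h2⟩⟩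

end Cfsg.Agent.S2981
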