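import Cfsg.Statements.S2982
import Cfsg.Agent.H7.LC14

set_option autoImplicit false
open Cfsg

namespace Cfsg.Agent.S2982

open Subgroup Cfsg.H7
open Cfsg.L0 (SN)
open scoped commutatorElement

/-- Pushing up for minimal parabolic groups. Let G be a finite p-minimal group (a Sylow p-subgroup T is not normal and lies in exactly one maximal subgroup) of characteristic p (C_G(O_p(G)) ≤ O_p(G)). Suppose that no nontrivial characteristic subgroup of the Baumann subgroup B(T) is normal in G and that Ω₁(Z(T)) is not normal in G. Then G has a set of B(T)-blocks with the block structure of the local C*(G,T)-Theorem, every block E with E/O_p(E) alternating of degree 2m+1 (p = 2) has 2m+1 = 2ⁿ+1, and C*(G,T) = (C*(G,T) ∩ ⟨blocks⟩)·T. -/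
theorem result {G : Type*} [Group G] [Finite G] {p : ℕ} [Fact p.Prime] (hmin : Cfsg.IsPMinimal p G) (hG : Subgroup.centralizer (Cfsg.pCore p G : Set G) ≤ Cfsg.pCore p G) (T : Sylow p G) (hchar : ∀ C : Subgroup G, C ≤ Cfsg.baumannSubgroupOf p (T : Subgroup G) → C ≠ ⊥ → (C.subgroupOf (Cfsg.baumannSubgroupOf p (T : Subgroup G))).Characteristic → ¬ C.Normal) (hz : ¬ (Cfsg.omegaOneCenter p (T : Subgroup G)).Normal) : ∃ 𝓑 : Set (Subgroup G), Cfsg.HasBaumannBlockStructure p (T : Subgroup G) 𝓑 ∧ (∀ E ∈ 𝓑, ∀ m : ℕ, Nonempty (↥E ⧸ Cfsg.pCore p ↥E ≃* ↥(alternatingGroup (Fin (2 * m + 1)))) → ∃ n : ℕ, 2 * m + 1 = 2 ^ n + 1) ∧ Cfsg.cStarOf p (T : Subgroup G) = (Cfsg.cStarOf p (T : Subgroup G) ⊓ sSup 𝓑) ⊔ (T : Subgroup G) := by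
  obtain ⟨M, ⟨h1, h2⟩, h3⟩ := (hmin T).2
  have k : ∀ H : Subgroup G, (T : Subgroup G) ≤ H → H ≠ ⊤ → H ≤ M := fun H e e' => by
    obtain ⟨K, k1, k2⟩ := (eq_top_or_exists_le_coatom H).resolve_left e'
    exact h3 K ⟨k1, e.trans k2⟩ ▸ k2
  have n : ∀ C : Subgroup G, ¬ C.Normal → (T : Subgroup G) ≤ Subgroup.normalizer (C : Set G) →
      Subgroup.normalizer (C : Set G) ≤ M := fun C c1 c2 =>
    k _ c2 fun e => c1 (H7.normal_of_le_normalizer_top e.ge)
  have h : H7.Hyp p (T : Subgroup G) M := ⟨H7.isSylowIn_top T, hG,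
    (Subgroup.centralizer_le_normalizer _).trans (n _ hz (Subgroup.le_normalizer.trans
      (H7.normalizer_le_normalizer_omegaOneCenter _ _))), fun C c1 c2 c3 => n C (hchar C c1 c2 c3)
      ((H9.le_normalizer_B p _).trans (H7.norm_le_of_char c1 c3)), h1.1⟩
  refine ⟨_, h.cStar.blocks, fun E hE => h.cStar.deg h (fun C c1 _ c3 c4 => n C c4
    (Subgroup.le_normalizer.trans (H7.norm_le_of_char c1 c3))) hE, ?_⟩
  have nK : ⊤ ≤ Subgroup.normalizer ((sSup (H7.Blks p (T : Subgroup G) (cStarOf p T)) : Subgroup G) : Set G) :=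
    L0.le_normalizer_sSup fun x _ E e => h.cStar.conj e x
  have e : (T : Subgroup G) ⊔ sSup (H7.Blks p (T : Subgroup G) (cStarOf p T)) = ⊤ := by
    by_contra e
    exact h1.1 (top_le_iff.mp (h.cStar.sup_top.ge.trans (sup_le (H7.cStar_le h)
      (le_sup_right.trans (k _ le_sup_left e)))))
  rw [sup_comm, inf_comm, ← H7.dedekind_left h.cStar.T_le (le_top.trans nK), e, top_inf_eq]

end Cfsg.Agent.S2982
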