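import Cfsg.Statements.S2998
import Cfsg.Agent.H8.Isolated

set_option autoImplicit false
open Cfsg

namespace Cfsg.Agent.S2998

open Subgroup Cfsg.L0 Cfsg.H8
open scoped commutatorElement


/-- Let G be a finite group, p a prime, P a Sylow p-subgroup of G and x ∈ P an element such that N_G(R) ≤ C_G(x) for every nontrivial subgroup R of P. Then P ≤ C_G(x); every G-conjugate of x lying in P equals x (so g ∈ C_G(x) whenever g x g⁻¹ ∈ P); and for every normal subgroup N of G, the image of x in G ⧸ N has the same property with respect to the image of P: the normalizer of every nontrivial subgroup of the image of P centralizes the image of x. -/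
theorem result {G : Type*} [Group G] [Finite G] {p : ℕ} [Fact p.Prime] (P : Sylow p G) (x : G) (hxP : x ∈ (P : Subgroup G)) (hlc : ∀ R : Subgroup G, R ≤ (P : Subgroup G) → R ≠ ⊥ → Subgroup.normalizer (R : Set G) ≤ Subgroup.centralizer ({x} : Set G)) : (P : Subgroup G) ≤ Subgroup.centralizer ({x} : Set G) ∧ (∀ g : G, g * x * g⁻¹ ∈ (P : Subgroup G) → g * x * g⁻¹ = x) ∧ ∀ (N : Subgroup G) [N.Normal], ∀ R : Subgroup (G ⧸ N), R ≤ (P : Subgroup G).map (QuotientGroup.mk' N) → R ≠ ⊥ → Subgroup.normalizer (R : Set (G ⧸ N)) ≤ Subgroup.centralizer ({(QuotientGroup.mk x : G ⧸ N)} : Set (G ⧸ N)) := by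
  have h1 : (P : Subgroup G) ≤ centralizer {x} := by
    by_cases hb : (P : Subgroup G) = ⊥
    · rw [hb]; exact bot_le
    · exact le_normalizer.trans (hlc _ le_rfl hb)
  refine ⟨h1, fun g hg => ?_, fun N _ R hR hRb => ?_⟩
  · by_cases hx1 : x = 1
    · simp [hx1]
    have h2 : centralizer {g * x * g⁻¹} ≤ centralizer {x} := by
      refine le_trans ?_ (hlc (zpowers (g * x * g⁻¹)) (zpowers_le.2 hg) (by simpa using hx1))
      rw [← centralizer_closure, ← zpowers_eq_closure]
      exact centralizer_le_normalizer _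
    have h3 : centralizer {g * x * g⁻¹} = centralizer {x} := by
      refine eq_of_le_of_card_ge h2 (le_of_eq ?_)
      rw [← centralizer_closure, ← zpowers_eq_closure, ← centralizer_closure {g * x * g⁻¹},
        ← zpowers_eq_closure, ← cj_zpowers, ← cj_centralizer, card_cj]
    obtain ⟨n, -, hn, e⟩ := (isSyl_sylow P).burnside_centralizer (A := {x}) (mem_top g) h1 (by
      rintro _ rfl y hy
      exact (mem_centralizer_singleton_iff.1 (h3.ge (h1 hy))).symm)
    have hb : (P : Subgroup G) ≠ ⊥ := fun e => hx1 (by simpa [e] using hxP)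
    rw [← e x rfl, mem_centralizer_singleton_iff.1 (hlc _ le_rfl hb hn)]; group
  · intro g hg
    obtain ⟨g, rfl⟩ := QuotientGroup.mk'_surjective N g
    set K := R.comap (QuotientGroup.mk' N) with hK
    have hNK : N ≤ K := fun y hy => mem_comap.2 (by
      rw [QuotientGroup.mk'_apply, (QuotientGroup.eq_one_iff y).2 hy]; exact one_mem _)
    have hKP : K ≤ N ⊔ (P : Subgroup G) := by
      intro y hy
      obtain ⟨z, hz, e⟩ := hR (mem_comap.1 hy)
      have : y * z⁻¹ ∈ N := by
        rw [← QuotientGroup.eq_one_iff]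
        have e' : (z : G ⧸ N) = y := e
        simp [e']
      have e2 : y = (y * z⁻¹) * z := by group
      rw [e2]
      exact mul_mem (mem_sup_left this) (mem_sup_right hz)
    have hK2 : K = ((P : Subgroup G) ⊓ K) ⊔ N := by
      refine le_antisymm (fun y hy => ?_) (sup_le inf_le_right hNK)
      obtain ⟨a, ha, b, hb, rfl⟩ := (mem_sup_of_le_normalizer_left (le_normalizer_of_normal)).1 (hKP hy)
      have hbK : b ∈ K := by simpa using mul_mem (inv_mem (hNK ha)) hy
      exact mul_mem (mem_sup_right ha) (mem_sup_left ⟨hb, hbK⟩)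
    have hS : IsSyl p ((P : Subgroup G) ⊓ K) K := by
      refine ⟨inf_le_right, P.isPGroup'.to_inf_left, ?_⟩
      have h1 := ((isSyl_sylow P).inf (K := N) le_top le_normalizer_of_normal).not_dvd
      have h2 := card_sup_mul_card_inf (H := (P : Subgroup G) ⊓ K) (N := N) le_normalizer_of_normal
      rw [← hK2, inf_assoc, inf_eq_right.2 hNK, ← card_mul_relIndex (H := (P : Subgroup G) ⊓ K) (K := K) inf_le_right,
        ← card_mul_relIndex (H := (P : Subgroup G) ⊓ N) (K := N) inf_le_right, mul_assoc] at h2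
      have h3 := Nat.eq_of_mul_eq_mul_left Nat.card_pos h2
      rw [mul_comm] at h3
      rw [Nat.eq_of_mul_eq_mul_left Nat.card_pos h3]
      exact h1
    have hb : (P : Subgroup G) ⊓ K ≠ ⊥ := by
      intro e
      rw [e, bot_sup_eq] at hK2
      apply hRb
      rw [← map_comap_eq_self_of_surjective (QuotientGroup.mk'_surjective N) R, ← hK, hK2,
        QuotientGroup.map_mk'_self]
    have hgK : g ∈ normalizer (K : Set G) := by
      rw [mem_normalizer_iff] at hg ⊢
      intro y
      simpa [hK, mem_comap] using hg (QuotientGroup.mk' N y)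
    obtain ⟨k, hk, n, hn, rfl⟩ := hS.frattini hgK
    have hn' := hlc _ inf_le_left hb hn
    obtain ⟨a, ha, b, hb', rfl⟩ := (mem_sup_of_le_normalizer_left (le_normalizer_of_normal)).1 (hKP hk)
    have hb2 := h1 hb'
    rw [mem_centralizer_singleton_iff] at hn' hb2 ⊢
    have ha' : (a : G ⧸ N) = 1 := (QuotientGroup.eq_one_iff a).2 ha
    simp only [QuotientGroup.mk'_apply, QuotientGroup.mk_mul, ha', one_mul]
    rw [← QuotientGroup.mk_mul, ← QuotientGroup.mk_mul, ← QuotientGroup.mk_mul, mul_assoc, hn',
      ← mul_assoc, hb2, mul_assoc]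

end Cfsg.Agent.S2998
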