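import Cfsg.Statements.S2999
import Cfsg.Agent.H7.Bridge

set_option autoImplicit false
open Cfsg

namespace Cfsg.Agent.S2999

open Subgroup Cfsg.H7
open Cfsg.L0 (SN)
open scoped commutatorElement

open Cfsg.H7.Md
open Cfsg.H8 (up down)

/-- Let p be a prime and let P and V be subgroups of a finite group with V elementary abelian, P normalizing V and acting faithfully on it (P ∩ C(V) = 1). Suppose P is p-minimal (a Sylow p-subgroup T of P is not normal and lies in a unique maximal subgroup M of P) and A ≤ T is an elementary abelian subgroup such that: |V/C_V(A)| ≤ |A| while |A₀|·|C_V(A₀)| < |A|·|C_V(A)| for every nontrivial proper subgroup A₀ of A; [C_V(T), P] ≠ 1; and P = ⟨A, xAx⁻¹⟩ for every x ∈ P outside M. Then, with q = |A|, there is a field F with q elements such that P ≅ SL₂(F), C_V(A) = [V, A]·C_V(P), and P acts on V/C_V(P) as SL₂(F) on its natural two-dimensional module. -/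
theorem result {G : Type*} [Group G] [Finite G] {p : ℕ} [Fact p.Prime] (V P : Subgroup G) (hV : Cfsg.IsElementaryAbelian p V) (hPV : P ≤ Subgroup.normalizer (V : Set G)) (hfaith : P ⊓ Subgroup.centralizer (V : Set G) = ⊥) (hmin : Cfsg.IsPMinimal p ↥P) (T : Sylow p ↥P) (M : Subgroup ↥P) (hM : IsCoatom M) (hTM : (T : Subgroup ↥P) ≤ M) (A : Subgroup G) (hAT : A ≤ ((T : Subgroup ↥P).map P.subtype)) (hAel : Cfsg.IsElementaryAbelian p A) (hi : Nat.card ↥V ≤ Nat.card ↥A * Nat.card ↥(V ⊓ Subgroup.centralizer ((A : Subgroup G) : Set G)) ∧ ∀ A₀ : Subgroup G, A₀ ≤ A → A₀ ≠ ⊥ → A₀ ≠ A → Nat.card ↥A₀ * Nat.card ↥(V ⊓ Subgroup.centralizer ((A₀ : Subgroup G) : Set G)) < Nat.card ↥A * Nat.card ↥(V ⊓ Subgroup.centralizer ((A : Subgroup G) : Set G))) (hii : ⁅(V ⊓ Subgroup.centralizer ((((T : Subgroup ↥P).map P.subtype) : Subgroup G) : Set G)), P⁆ ≠ ⊥) (hiii : ∀ x : ↥P, x ∉ M → A ⊔ A.map (MulAut.conj (x : G)).toMonoidHom = P) : ∃ (F : Type) (_ :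 Field F) (_ : Fintype F), Fintype.card F = Nat.card ↥A ∧ Nonempty (↥P ≃* Matrix.SpecialLinearGroup (Fin 2) F) ∧ (V ⊓ Subgroup.centralizer ((A : Subgroup G) : Set G)) = ⁅V, A⁆ ⊔ (V ⊓ Subgroup.centralizer ((P : Subgroup G) : Set G)) ∧ Cfsg.ActsAsSL2OnSection F ⊤ P V (V ⊓ Subgroup.centralizer ((P : Subgroup G) : Set G)) := by
  obtain ⟨Γ, W, _, _, _, _, _, ⟨r⟩⟩ := exists_rep_bot (ea_le_centralizer hV) hPV
  have hf := r.faithful hfaith.le
  have hTP : (T : Subgroup P).map P.subtype ≤ P := map_subtype_le _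
  have hAP : A ≤ P := hAT.trans hTP
  have hAM : A ≤ M.map P.subtype := hAT.trans (map_mono hTM)
  have hmemM : ∀ x : P, r.π x ∈ M.map r.π ↔ x ∈ M := fun x => mem_map_iff_mem r.inj
  have hA'M : down r.π A ≤ M.map r.π := by
    rw [← r.down_map_subtype]; exact H8.down_mono _ hAM
  have hgen : ∀ g : Γ, g ∉ M.map r.π → down r.π A ⊔ cj g (down r.π A) = ⊤ := by
    intro g hg
    obtain ⟨x, rfl⟩ := r.surj g
    rw [← r.down_cj, ← H8.down_sup _ hAP (cj_le_of_le' x.2 hAP)]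
    rw [show A ⊔ cj (x : G) A = P from hiii x (mt (hmemM x).mpr hg), H8.down_top r.surj]
  have hMt : M.map r.π ≠ ⊤ := fun h => hM.1 (eq_top_iff.mpr fun x _ => (hmemM x).mp (h ▸ trivial))
  obtain ⟨g₀, hg₀⟩ : ∃ g, g ∉ M.map r.π := by
    by_contra! h
    exact hMt (eq_top_iff.mpr fun x _ => h x)
  have hu : UniqMax (down r.π A) ⊤ (M.map r.π) := ⟨hA'M, lt_top_iff_ne_top.mpr hMt,
    fun X h1 h2 x hx => by
      by_contra hx'
      exact h2.ne (eq_top_iff.mpr ((hgen x hx').ge.trans (sup_le h1 (cj_le_of_le' hx h1))))⟩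
  have hm : MinOver (down r.π A) ⊤ (M.map r.π) := minOver_of_not_le_normalizer hu
    fun N h1 h2 h3 => hMt (eq_top_iff.mpr ((hgen g₀ hg₀).ge.trans
      ((sup_le h1 (cj_le_of_le (h3 trivial) h1)).trans h2)))
  have hT : IsSylowIn p (down r.π ((T : Subgroup P).map P.subtype)) ⊤ := by
    have := (isSylowIn_top T).map r.π
    rwa [← MonoidHom.range_eq_map, MonoidHom.range_eq_top.mpr r.surj, ← r.down_map_subtype] at this
  have hea : IsElementaryAbelian p (down r.π A) := r.ea_down hAP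
    (commutator_eq_bot_iff'.mpr (ea_le_centralizer hAel)).le (isElementaryAbelian_iff.mp hAel).2
  have hZ : ¬ ⊤ ≤ cz Γ (fx W (down r.π ((T : Subgroup P).map P.subtype))) := fun h => hii (by
    rw [commutator_eq_bot_iff', ← r.uv_fx_down hTP]
    have := H8.up_mono r.π h
    rw [H8.up_top, r.up_cz] at this
    exact this.trans inf_le_right)
  have h1 : Nat.card W ≤ ms W (down r.π A) := by rw [r.card_W, r.ms_down' hAP]; exact hi.1
  have h2 : ∀ B ≤ down r.π A, B ≠ ⊥ → B ≠ down r.π A → ms W B < ms W (down r.π A) := by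
    intro B hB h1 h2
    rw [r.ms_up', r.ms_down' hAP]
    refine hi.2 _ ((H8.up_mono _ hB).trans (r.up_down' hAP).le) (fun h => h1 ?_) fun h => h2 ?_
    · exact H8.up_injective r.surj (h.trans r.up_bot'.symm)
    · rw [← h, H8.down_up r.surj]
  obtain ⟨-, F, _, _, ψ, hc, hN⟩ := rec_core (r.tor hV) (by rw [hf, inf_bot_eq]) hm hea hT
    (H8.down_mono _ hAT) hZ h1 h2
  have hq := quad_of_strict (r.tor hV) (by rw [hf, inf_bot_eq]) hea h1 h2
  obtain ⟨ρ, -⟩ := hN.exists_equiv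
  refine ⟨F, inferInstance, inferInstance, hc.trans (r.card_down' hAP),
    ⟨(MulEquiv.ofBijective r.π ⟨r.inj, r.surj⟩).trans (topEquiv.symm.trans ρ)⟩, ?_, ?_⟩
  · have e : fx W (down r.π A) = cm ⊤ (down r.π A) ⊔ fx W ⊤ := le_antisymm
      ((quad_fx_le hq (mem_top g₀) (hgen g₀ hg₀)).trans (sup_comm _ _).le) (sup_le hq (fx_anti le_top))
    have := congrArg r.uv e
    rwa [r.uv_sup, r.uv_fx_down hAP, r.uv_cm_down _ hAP, r.uv_fx, H8.up_top, r.uv_top] at this
  · have := r.actsAsSL2 hN (X := ⊤) (by simp) fun y => by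
      obtain ⟨x, hx⟩ := hN.surj y
      exact ⟨x, trivial, hx⟩
    rwa [H8.up_top, r.uv_top] at this

end Cfsg.Agent.S2999
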