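import Cfsg.Statements.S3000
import Cfsg.Agent.H7.FF5

set_option autoImplicit false
open Cfsg

namespace Cfsg.Agent.S3000

open Subgroup Cfsg.H7
open Cfsg.L0 (SN)
open scoped commutatorElement

open Cfsg.H7.Md
open Cfsg.H8 (up down)

/-- Let p be a prime and let P and V be subgroups of a finite group with V elementary abelian, P normalizing V and acting faithfully on it (P ∩ C(V) = 1). Suppose P is p-minimal (a Sylow p-subgroup T of P is not normal and lies in a unique maximal subgroup M of P), O_p(P) = 1, C_P(C_V(T)) ≤ M, and P has a best offender on V: a subgroup A not centralizing V, with A/C_A(V) elementary abelian, such that |B|·|C_V(B)| ≤ |A|·|C_V(A)| for every subgroup B of A. Then there are subgroups E₁, …, E_r of P (r ≥ 1), pairwise commuting and forming with T a product P = (E₁ × ⋯ × E_r)T (internal direct product of the E_i), any two of which are conjugate by an element of T, such that V = C_V(E₁⋯E_r)·∏[V,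 E_i] with [V, E_i, E_j] = 1 for i ≠ j, and for each i there is n ≥ 1 with either E_i ≅ SL₂(pⁿ) acting on [V, E_i]/C_{[V,E_i]}(E_i) as on its natural two-dimensional module, or p = 2 and E_i isomorphic to the symmetric group of degree 2ⁿ + 1 acting on [V, E_i]/C_{[V,E_i]}(E_i) as on its even-weight permutation module. -/
theorem result {G : Type*} [Group G] [Finite G] {p : ℕ} [Fact p.Prime] (V P : Subgroup G) (hV : Cfsg.IsElementaryAbelian p V) (hPV : P ≤ Subgroup.normalizer (V : Set G)) (hfaith : P ⊓ Subgroup.centralizer (V : Set G) = ⊥) (hmin : Cfsg.IsPMinimal p ↥P) (T : Sylow p ↥P) (M : Subgroup ↥P) (hM : IsCoatom M) (hTM : (T : Subgroup ↥P) ≤ M) (hOp : Cfsg.pCore p ↥P = ⊥) (hoff : ∃ A : Subgroup G, A ≤ P ∧ ¬ A ≤ Subgroup.centralizer (V : Set G) ∧ Cfsg.IsBestOffenderOn p V A) (hCT : P ⊓ Subgroup.centralizer ((V ⊓ Subgroup.centralizer ((((T : Subgroup ↥P).map P.subtype) : Subgroup G) : Set G)) : Set G) ≤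 M.map P.subtype) : ∃ (r : ℕ) (E : Fin r → Subgroup G), 1 ≤ r ∧ (∀ i, E i ≤ P) ∧ (∀ i j, i ≠ j → ⁅E i, E j⁆ = ⊥) ∧ (∀ i, E i ⊓ (⨆ j ∈ {j | j ≠ i}, E j) = ⊥) ∧ (⨆ i, E i) ⊔ ((T : Subgroup ↥P).map P.subtype) = P ∧ (∀ i j, ∃ t ∈ ((T : Subgroup ↥P).map P.subtype), (E i).map (MulAut.conj t).toMonoidHom = E j) ∧ (V ⊓ Subgroup.centralizer (((⨆ i, E i) : Subgroup G) : Set G)) ⊔ (⨆ i, ⁅V, E i⁆) = V ∧ (∀ i j, i ≠ j → ⁅⁅V, E i⁆, E j⁆ = ⊥) ∧ ∀ i, ∃ n : ℕ, 1 ≤ n ∧ ((∃ (F : Type) (_ : Field F) (_ : Fintype F), Fintype.card F = p ^ n ∧ Nonempty (↥(E i) ≃* Matrix.SpecialLinearGroup (Fin 2) F) ∧ Cfsg.ActsAsSL2OnSection F ⊤ (E i) ⁅V, E i⁆ (⁅V, E i⁆ ⊓ Subgroup.centralizer ((E i : Subgroup G) : Set G))) ∨ (p = 2 ∧ Nonempty (↥(E i) ≃* Equiv.Perm (Fin (2 ^ n + 1))) ∧ Cfsg.ActsAsOddPermModuleOnSection (2 ^ n + 1) ⊤ (E i) ⁅V, E i⁆ (⁅V, E i⁆ ⊓ Subgroup.centralizer ((E i : Subgroup G) : Set G)))) := by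
  obtain ⟨Γ, W, _, _, _, _, _, ⟨r⟩⟩ := exists_rep_bot (ea_le_centralizer hV) hPV
  have hf := r.faithful hfaith.le
  have hTP : (T : Subgroup P).map P.subtype ≤ P := map_subtype_le _
  have tp : (⊤ : Subgroup P).map r.π = ⊤ := by
    rw [← MonoidHom.range_eq_map, MonoidHom.range_eq_top.mpr r.surj]
  have hker : r.π.ker = ⊥ := (MonoidHom.ker_eq_bot_iff _).mpr r.inj
  have H : PM p W ((T : Subgroup P).map r.π) (M.map r.π) :=
    { syl := tp ▸ (isSylowIn_top T).map r.π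
      le := map_mono hTM
      cz := by
        rw [← H8.up_le_up_iff r.surj, r.up_cz, ← r.down_map_subtype, r.uv_fx_down hTP,
          ← r.down_map_subtype, r.up_down' (map_subtype_le _)]
        exact hCT
      tor := r.tor hV
      faith := hf
      um := tp ▸ (minOver_of_isPMinimal hmin T hM hTM).toUniqMax.map r.π (by simp [hker])
      op := by
        rw [← map_pCore r.surj (by rw [hker]; exact IsPGroup.of_bot), hOp, Subgroup.map_bot] }
  obtain ⟨A, hAP, hA1, hA2, hA3, hA4⟩ := hoff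
  have a1 : IsElementaryAbelian p (down r.π A) := r.ea_down hAP
    (hfaith ▸ le_inf (commutator_le_of_le2 hAP hAP) hA3)
    fun x hx => hfaith ▸ ⟨pow_mem (hAP hx) p, hA4 x hx⟩
  have a2 : down r.π A ≠ ⊥ := fun e => hA1 (by
    rw [← r.up_down' hAP, e, r.up_bot']; exact bot_le)
  have a3 : Nat.card W ≤ ms W (down r.π A) := by
    have := hA2 ⊥ bot_le
    rwa [card_bot, one_mul, centralizer_bot', inf_top_eq, ← r.ms_down' hAP, ← r.card_W] at this
  obtain ⟨X, L, n, E, h, -⟩ := H.structure a1 a2 a3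
  refine ⟨n, fun i => up r.π (E i), h.pos, fun i => H8.up_le _ _, fun i j e => ?_, fun i => ?_, ?_,
    fun i j => ?_, ?_, fun i j e => ?_, fun i => ?_⟩
  · refine eq_bot_iff.mpr ((r.commutator_up_le _ _).trans ?_)
    rw [commutator_eq_bot_iff'.mpr (h.toFam.comm hf e.symm), r.up_bot']
  · have := congrArg (up r.π) (h.toFam.disj i)
    simpa only [H8.up_inf, r.up_iSup', r.up_bot'] using this
  · have := congrArg (up r.π) h.top
    rwa [r.up_sup, r.up_iSup', H8.up_top, ← r.down_map_subtype, r.up_down' hTP] at this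
  · obtain ⟨_, ⟨t, ht, rfl⟩, e⟩ := h.toFam.conj i j
    exact ⟨t, ⟨t, ht, rfl⟩, by rw [map_conj_eq_cj, ← r.up_cj, e]⟩
  · have := congrArg r.uv h.toFam.decomp
    simpa only [r.uv_sup, r.uv_iSup, r.uv_fx, r.uv_cm_top, r.up_iSup', r.uv_top] using this
  · rw [← r.uv_cm_top, ← r.uv_cm, cm_eq_bot_iff.mpr (h.cm_le i j e), r.uv_bot]
  · obtain ⟨e⟩ := r.nonempty_equiv_up (bot_inf_eq _) (E i)
    obtain ⟨n, hn, ⟨F, _, _, h1, ⟨ρ⟩, h2⟩ | ⟨h1, ⟨ρ⟩, h2⟩⟩ := r.kind (h.kind i)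
    · exact ⟨n, hn, Or.inl ⟨F, inferInstance, inferInstance, h1, ⟨e.trans ρ⟩, h2⟩⟩
    · exact ⟨n, hn, Or.inr ⟨h1, ⟨e.trans ρ⟩, h2⟩⟩

end Cfsg.Agent.S3000
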