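import Cfsg.Statements.S3001
import Cfsg.Agent.H7.FF6

set_option autoImplicit false
open Cfsg

namespace Cfsg.Agent.S3001

open Subgroup Cfsg.H7
open Cfsg.L0 (SN)
open scoped commutatorElement

open Cfsg.H7.Md
open Cfsg.H8 (up down)

/-- Let p be a prime and let P and V be subgroups of a finite group with V elementary abelian, P normalizing V and acting faithfully on it (P ∩ C(V) = 1). Suppose P is p-minimal (a Sylow p-subgroup is not normal and lies in a unique maximal subgroup), O_p(P) = 1, and P has a best offender on V (a subgroup A not centralizing V, with A/C_A(V) elementary abelian and |B|·|C_V(B)| ≤ |A|·|C_V(A)| for every B ≤ A). Then [C_V(T), P] ≠ 1 for every Sylow p-subgroup T of P. -/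
theorem result {G : Type*} [Group G] [Finite G] {p : ℕ} [Fact p.Prime] (V P : Subgroup G) (hV : Cfsg.IsElementaryAbelian p V) (hPV : P ≤ Subgroup.normalizer (V : Set G)) (hfaith : P ⊓ Subgroup.centralizer (V : Set G) = ⊥) (hmin : Cfsg.IsPMinimal p ↥P) (hOp : Cfsg.pCore p ↥P = ⊥) (hoff : ∃ A : Subgroup G, A ≤ P ∧ ¬ A ≤ Subgroup.centralizer (V : Set G) ∧ Cfsg.IsBestOffenderOn p V A) (T : Sylow p ↥P) : ⁅(V ⊓ Subgroup.centralizer ((((T : Subgroup ↥P).map P.subtype) : Subgroup G) : Set G)), P⁆ ≠ ⊥ := by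
  obtain ⟨Γ, W, _, _, _, _, _, ⟨r⟩⟩ := exists_rep_bot (ea_le_centralizer hV) hPV
  have hf := r.faithful hfaith.le
  have hTP : (T : Subgroup P).map P.subtype ≤ P := map_subtype_le _
  have tp : (⊤ : Subgroup P).map r.π = ⊤ := by
    rw [← MonoidHom.range_eq_map, MonoidHom.range_eq_top.mpr r.surj]
  have hker : r.π.ker = ⊥ := (MonoidHom.ker_eq_bot_iff _).mpr r.inj
  obtain ⟨M, hM⟩ := exists_minOver_of_isPMinimal hmin T
  obtain ⟨A, hAP, hA1, hA2, hA3, hA4⟩ := hoff
  have a1 : IsElementaryAbelian p (down r.π A) := r.ea_down hAP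
    (hfaith ▸ le_inf (commutator_le_of_le2 hAP hAP) hA3)
    fun x hx => hfaith ▸ ⟨pow_mem (hAP hx) p, hA4 x hx⟩
  have a2 : down r.π A ≠ ⊥ := fun e => hA1 (by
    rw [← r.up_down' hAP, e, r.up_bot']; exact bot_le)
  have a3 : Nat.card W ≤ ms W (down r.π A) := by
    have := hA2 ⊥ bot_le
    rwa [card_bot, one_mul, centralizer_bot', inf_top_eq, ← r.ms_down' hAP, ← r.card_W] at this
  intro e
  refine fix_pmin (T := (T : Subgroup P).map r.π) (M := M.map r.π) (r.tor hV) hf
    (tp ▸ (isSylowIn_top T).map r.π) (tp ▸ hM.toUniqMax.map r.π (by simp [hker]))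
    (by rw [← map_pCore r.surj (by rw [hker]; exact IsPGroup.of_bot), hOp, Subgroup.map_bot])
    a1 a2 a3 (le_trans ?_ (fx_anti le_top))
  rw [← r.uv_le_uv, ← r.down_map_subtype, r.uv_fx_down hTP, r.uv_fx, H8.up_top]
  exact le_inf inf_le_left (le_centralizer_iff.mp (commutator_eq_bot_iff'.mp e))

end Cfsg.Agent.S3001
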