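import Cfsg.Statements.S3003
import Cfsg.Agent.H7.WClos

set_option autoImplicit false
open Cfsg

namespace Cfsg.Agent.S3003

open Subgroup Cfsg.H7
open Cfsg.L0 (SN)
open scoped commutatorElement

/-- Let G be a finite group, p a prime and Q a large p-subgroup of G: C_G(Q) ≤ Q and N_G(U) ≤ N_G(Q) for every nontrivial subgroup U of C_G(Q). Let Q ≤ G₁ ≤ G, let R be a subgroup of order prime to p normalized by G₁, and let U ≤ G₁ be a p-subgroup. If U contains a nontrivial element which is G₁-conjugate to an element of Z(Q), then C_R(U) = 1. In particular, if U is elementary abelian of order at least p² and every maximal subgroup of U contains a nontrivial element G₁-conjugate into Z(Q), then R = 1. -/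
theorem result {G : Type*} [Group G] [Finite G] {p : ℕ} [Fact p.Prime] (Q : Subgroup G) (hQp : IsPGroup p ↥Q) (hlarge : Cfsg.IsLarge Q) (G₁ : Subgroup G) (hQG : Q ≤ G₁) (R : Subgroup G) (hR : (Nat.card ↥R).Coprime p) (hGR : G₁ ≤ Subgroup.normalizer (R : Set G)) (U : Subgroup G) (hUG : U ≤ G₁) (hUp : IsPGroup p ↥U) : ((∃ x ∈ U, x ≠ 1 ∧ ∃ g ∈ G₁, g * x * g⁻¹ ∈ Q ⊓ Subgroup.centralizer (Q : Set G)) → R ⊓ Subgroup.centralizer (U : Set G) = ⊥) ∧ (Cfsg.IsElementaryAbelian p U → p ^ 2 ≤ Nat.card ↥U → (∀ U₀ : Subgroup G, U₀ ≤ U → IsCoatom (U₀.subgroupOf U) → ∃ x ∈ U₀, x ≠ 1 ∧ ∃ g ∈ G₁, g * x * g⁻¹ ∈ Q ⊓ Subgroup.centralizer (Q : Set G)) → R = ⊥) := by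
  have key : ∀ U : Subgroup G, (∃ x ∈ U, x ≠ 1 ∧ ∃ g ∈ G₁, g * x * g⁻¹ ∈ Q ⊓ centralizer (Q : Set G)) →
      R ⊓ centralizer (U : Set G) = ⊥ := by
    rintro U ⟨x, hx, hx1, g, hg, hz⟩
    have h1 : R ⊓ centralizer {g * x * g⁻¹} ≤ normalizer (Q : Set G) := by
      rw [← centralizer_zpowers]
      exact inf_le_right.trans ((centralizer_le_normalizer _).trans (hlarge.2 _ (zpowers_le.mpr hz.2)
        (zpowers_ne_bot.mpr (by simpa using hx1))))
    have h2 : R ⊓ centralizer {g * x * g⁻¹} ≤ Q := by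
      refine le_trans (le_centralizer_of_commutator_le_bot ?_) hlarge.1
      rw [← inf_eq_bot_of_isPGroup_of_coprime hQp hR]
      exact le_inf (commutator_le_left_of_le_normalizer h1) ((commutator_mono le_rfl inf_le_left).trans
        (commutator_le_right_of_le_normalizer (hQG.trans hGR)))
    rw [← cj_eq_bot_iff (g := g), eq_bot_iff, ← inf_eq_bot_of_isPGroup_of_coprime hQp hR, cj_inf,
      cj_eq_of_mem_normalizer (hGR hg)]
    refine le_inf (le_trans (inf_le_inf_left _ ?_) h2) inf_le_left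
    rw [← cj_centralizer_singleton]
    exact cj_mono (centralizer_le_centralizer_singleton hx)
  refine ⟨key U, fun hea hc h => ?_⟩
  have hp : p.Prime := Fact.out
  rw [eq_bot_iff]
  refine H9.generation_hyperplanes hea (hUG.trans hGR) (hp.coprime_iff_not_dvd.mp hR.symm)
    fun B hB hi => ?_
  rcases (Nat.dvd_prime hp).mp hi with h1 | h1
  · have hU : (⊥ : Subgroup U) ≠ ⊤ := by
      intro h2
      have : Nat.card U = 1 := by rw [← card_top, ← h2, card_bot]
      have h3 := hp.two_le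
      nlinarith
    obtain ⟨M, hM, -⟩ := (eq_top_or_exists_le_coatom (⊥ : Subgroup U)).resolve_left hU
    obtain ⟨x, hx, h2⟩ := h (M.map U.subtype) (map_subtype_le _) (by rwa [subgroupOf_map_subtype_self])
    exact (key B ⟨x, relIndex_eq_one.mp h1 (map_subtype_le _ hx), h2⟩).le
  · exact (key B (h B hB (H1.isCoatom_of_index_prime (by rw [← h1] at hp; exact hp)))).le

end Cfsg.Agent.S3003
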