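import Cfsg.Statements.S3006
import Cfsg.Agent.H4.CD

set_option autoImplicit false
open scoped Pointwise
open Cfsg

namespace Cfsg.Agent.S3006

/-- Let P be a finite p-group, Q a centrally large subgroup of P (|Q|·|Z(Q)| maximal among subgroups of P) and A an abelian subgroup of P of largest order. Then QA = AQ is a centrally large subgroup of P, C_{QA}(Q ∩ A) = Z(Q)·A, and the subgroup generated by all centrally large subgroups of P contains C_P(Z(J(P))), where J(P) is generated by the abelian subgroups of largest order. -/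
theorem result {p : ℕ} [Fact p.Prime] (P : Type*) [Group P] [Finite P] (hP : IsPGroup p P) (Q A : Subgroup P) (hQ : Cfsg.IsCentrallyLarge Q) (hA : A ∈ Cfsg.maxAbelianSubgroups P) : ((Q ⊔ A : Subgroup P) : Set P) = (Q : Set P) * (A : Set P) ∧ Cfsg.IsCentrallyLarge (Q ⊔ A) ∧ (Q ⊔ A) ⊓ Subgroup.centralizer ((Q ⊓ A : Subgroup P) : Set P) = (Q ⊓ Subgroup.centralizer (Q : Set P)) ⊔ A ∧ (((Q ⊓ Subgroup.centralizer (Q : Set P)) ⊔ A : Subgroup P) : Set P) = ((Q ⊓ Subgroup.centralizer (Q : Set P)) : Set P) * (A : Set P) ∧ Subgroup.centralizer ((Cfsg.thompsonSubgroupA P ⊓ Subgroup.centralizer (Cfsg.thompsonSubgroupA P : Set P) : Subgroup P) : Set P) ≤ Cfsg.centrallyLargeJoin P := by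
  rw [H4.isCentrallyLarge_iff] at *
  have h1 : Q ⊓ Subgroup.centralizer (Q : Set P) = Subgroup.centralizer (Q : Set P) :=
    inf_eq_right.mpr hQ.2
  have h2 : H4.CL (centrallyLargeJoin P) := H4.CL.sSup ⟨Q, H4.isCentrallyLarge_iff.mpr hQ⟩
    fun _ => H4.isCentrallyLarge_iff.mp
  refine ⟨H1.perm_iff_coe.mp (hQ.maxAb_aux hA).1, (hQ.maxAb_aux hA).2.1, ?_, ?_,
    h2.jt_le.trans (le_sSup (H4.isCentrallyLarge_iff.mpr h2.sup_J))⟩
  · rw [h1]
    refine le_antisymm (fun x hx => ?_) (hQ.sup_le_of_maxAb hA)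
    obtain ⟨z, hz, a, ha, rfl⟩ := (hQ.maxAb_aux hA).2.2 x hx
    exact Subgroup.mul_mem_sup hz ha
  · change _ = ((Q ⊓ Subgroup.centralizer (Q : Set P) : Subgroup P) : Set P) * _
    rw [h1]
    exact H1.perm_iff_coe.mp (hQ.perm_maxAb hA)

end Cfsg.Agent.S3006
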