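import Cfsg.Statements.S3008
import Cfsg.Agent.H4.CD

set_option autoImplicit false
open Cfsg

namespace Cfsg.Agent.S3008

/-- Let P be a finite p-group, with J(P) generated by its abelian subgroups of largest order and J̃(P) = C_P(Z(J(P))); call R ≤ P centrally large if |R|·|Z(R)| is as large as possible, and let P_MCL be generated by the minimal centrally large subgroups. Then: for every centrally large Q, Q·J(P) ⊇ J̃(P); some minimal centrally large subgroup of P is normalized by both J(P) and P_MCL; if P = J(P) and d(P)² = |P|·|Z(P)|, where d(P) is the largest order of an abelian subgroup, then every minimal centrally large subgroup of P is abelian; and if every minimal centrally large subgroup is abelian then J̃(P) = J(P). -/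
theorem result {p : ℕ} [Fact p.Prime] (P : Type*) [Group P] [Finite P] (hP : IsPGroup p P) : (∀ Q : Subgroup P, Cfsg.IsCentrallyLarge Q → Subgroup.centralizer ((Cfsg.thompsonSubgroupA P ⊓ Subgroup.centralizer (Cfsg.thompsonSubgroupA P : Set P) : Subgroup P) : Set P) ≤ Q ⊔ Cfsg.thompsonSubgroupA P) ∧ (∃ Q : Subgroup P, Cfsg.IsMinimalCentrallyLarge Q ∧ Cfsg.thompsonSubgroupA P ≤ Subgroup.normalizer (Q : Set P) ∧ Cfsg.minimalCentrallyLargeJoin P ≤ Subgroup.normalizer (Q : Set P)) ∧ (Cfsg.thompsonSubgroupA P = ⊤ → (∀ A ∈ Cfsg.maxAbelianSubgroups P, Nat.card ↥A ^ 2 = Nat.card P * Nat.card ↥(Subgroup.center P)) → ∀ Q : Subgroup P, Cfsg.IsMinimalCentrallyLarge Q → IsMulCommutative ↥Q) ∧ ((∀ Q : Subgroup P, Cfsg.IsMinimalCentrallyLarge Q → IsMulCommutative ↥Q) → Subgroup.centralizer ((Cfsg.thompsonSubgroupA P ⊓ Subgroup.centralizer (Cfsg.thompsonSubgroupA P : Set P) : Subgroup P) : Set P) = Cfsg.thompsonSubgroupA P) := by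
  have := hP.isNilpotent
  simp only [H4.isMinimalCentrallyLarge_iff, H4.isCentrallyLarge_iff, H4.isMulCommutative_iff_le]
  refine ⟨fun Q hQ => hQ.jt_le, H4.exists_mcl_normalized, fun h1 h2 Q hQ => ?_, fun h => ?_⟩
  · obtain ⟨A, hA⟩ := H4.exists_maxAb (G := P)
    have h3 := hQ.1.sup_J
    rw [h1, sup_top_eq] at h3
    have h4 := H4.centralizer_eq_of_maxAb hA
    have h5 : H4.CL A := ⟨h3.1.of_le (by
      rw [h4, ← sq, h2 A hA, Subgroup.card_top, H7.centralizer_top']), h4.le⟩
    obtain ⟨R, h6, h7⟩ := h5.exists_mcl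
    exact h7.comm (h6.trans (h4.ge.trans (H7.centralizer_anti h6))) hQ
  · obtain ⟨Q, hQ⟩ := H4.exists_mcl (G := P)
    refine le_antisymm (hQ.1.jt_le.trans (sup_le (le_sSup ((hQ.iff_maxAb (h Q hQ)).mp hQ)) le_rfl))
      (Subgroup.le_centralizer_iff.mp inf_le_right)

end Cfsg.Agent.S3008
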