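import Cfsg.Statements.S3009
import Cfsg.Agent.H3.SL2Mod

set_option autoImplicit false
open Cfsg

namespace Cfsg.Agent.S3009

/-- Let p be a prime and let G and V be subgroups of a finite group with V elementary abelian and normalized by G, and G isomorphic to SL₂(F) for a finite field F with pⁿ elements. Suppose G acts irreducibly and nontrivially on V by conjugation (no G-invariant subgroups of V other than 1 and V, and [V, G] ≠ 1), and let S be a Sylow p-subgroup of G and V₀ = C_V(S). If [V, S, S] = 1 or |V| ≤ |V₀|², then G acts on V as SL₂(F) on its natural two-dimensional module; in particular |V| = |F|². -/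
theorem result {X : Type*} [Group X] [Finite X] {p : ℕ} [Fact p.Prime] (G V : Subgroup X) (hV : Cfsg.IsElementaryAbelian p V) (hGV : G ≤ Subgroup.normalizer (V : Set X)) (F : Type) [Field F] [Fintype F] (n : ℕ) (hF : Fintype.card F = p ^ n) (hG : Nonempty (↥G ≃* Matrix.SpecialLinearGroup (Fin 2) F)) (hirr : ∀ U : Subgroup X, U ≤ V → G ≤ Subgroup.normalizer (U : Set X) → U = ⊥ ∨ U = V) (hnt : ⁅V, G⁆ ≠ ⊥) (S : Sylow p ↥G) (hyp : ⁅⁅V, (S : Subgroup ↥G).map G.subtype⁆, (S : Subgroup ↥G).map G.subtype⁆ = ⊥ ∨ Nat.card ↥V ≤ Nat.card ↥(V ⊓ Subgroup.centralizer (((S : Subgroup ↥G).map G.subtype : Subgroup X) : Set X)) ^ 2) : Cfsg.ActsAsSL2OnSection F ⊤ G V ⊥ := by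
  have := charP_of_card_eq_prime_pow hF
  obtain ⟨e⟩ := hG
  obtain ⟨g, hg⟩ := H3.exists_sylow_coord e S
  set T := (S : Subgroup G).map G.subtype
  let π := (e.trans (MulAut.conj g).symm).toMonoidHom
  obtain ⟨W, _, _, _, r, hr⟩ := H3.QM.exists_rep_of_hom (V := V) (N := ⊥) π (MulEquiv.surjective _)
    (fun l => (MulEquiv.map_eq_one_iff _).trans (by simp)) (H7.isElementaryAbelian_iff.1 hV).1 hGV
    (by simp [Subgroup.normalizer_eq_top, -Subgroup.coe_bot]) bot_le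
  have h1 : ∀ x, x ∈ T ↔ ∃ l : G, (∃ b, H3.U b = r.π l) ∧ l = x := fun x =>
    exists_congr fun l => and_congr_left fun _ => (hg l).trans (exists_congr fun b => by
      rw [MulEquiv.symm_apply_eq, mul_inv_eq_iff_eq_mul]
      simp [hr, π, eq_inv_mul_iff_mul_eq, mul_assoc])
  have h2 : ∀ w, r.e w ∈ Subgroup.centralizer (T : Set X) ↔ w ∈ H3.QM.V0 F W := fun w =>
    ⟨fun h s => by
      obtain ⟨l, hl⟩ := r.surj (H3.U s)
      rw [← hl, r.smul_eq_iff]
      exact h _ ((h1 _).2 ⟨l, ⟨s, hl.symm⟩, rfl⟩), fun h x hx => by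
      obtain ⟨l, ⟨s, hs⟩, rfl⟩ := (h1 x).1 hx
      exact (r.smul_eq_iff l w).1 (hs ▸ h s)⟩
  have h3 : ∀ Y : AddSubgroup W, (∀ k : Matrix.SpecialLinearGroup (Fin 2) F, ∀ v ∈ Y, k • v ∈ Y) →
      Y = ⊥ ∨ Y = ⊤ := fun Y hY => by
    simpa only [← r.uv_inj, r.uv_bot, r.uv_top] using hirr _ (r.uv_le Y) fun l hl =>
      (r.π_mem_st (l := ⟨l, hl⟩)).1 (H7.Md.mem_st_of_finite (hY _))
  have h4 : ∀ v : W, (∀ k : Matrix.SpecialLinearGroup (Fin 2) F, k • v = v) → v = 0 := fun v hv => by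
    have := (h3 (H7.Md.fx W (⊤ : Subgroup (Matrix.SpecialLinearGroup (Fin 2) F))) fun k u hu =>
      (hu k trivial).symm ▸ hu).resolve_right fun hc => hnt (by
        rw [Subgroup.commutator_eq_bot_iff_le_centralizer]
        intro x hx l hl
        obtain ⟨w, rfl⟩ := r.exists_e hx
        exact (r.smul_eq_iff ⟨l, hl⟩ w).1 (hc.ge trivial _ trivial))
    exact this.le fun k _ => hv k
  have hq : H3.QM.Quad F W := hyp.elim (fun h => ⟨h4, fun y _ s => by
    obtain ⟨l, hl⟩ := r.surj (H3.U s)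
    rw [← h2, ← hl, r.e_smul_sub]
    rw [Subgroup.commutator_eq_bot_iff_le_centralizer, Subgroup.commutator_comm] at h
    exact h (Subgroup.commutator_mem_commutator ((h1 _).2 ⟨l, ⟨s, hl.symm⟩, rfl⟩) (r.e_mem y))⟩)
    fun h => H3.QM.quad_of_card (r.tor hV) h4 h3 (by
      rwa [r.card_W, ← AddSubgroup.ext (H := r.dv (Subgroup.centralizer T)) h2, ← r.dv_inf_self, r.card_dv inf_le_left])
  obtain ⟨x, -, hx, hx0⟩ := H7.Md.exists_fixed_ne_zero (r.tor hV) (H8.isSyl_uHom (F := F)).isPGroup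
    (U := ⊤) (by simp) fun hc => hnt (by simp [← r.uv_top, hc])
  obtain ⟨Ψ, a1, a2, a3⟩ := hq.exists_hom (fun s => hx0 _ (H8.mem_range_uHom.2 ⟨s, rfl⟩)) hx
  have := H3.QM.actsAs_of_hom r a1 a3
  rwa [(h3 Ψ.range (by rintro k _ ⟨v, rfl⟩; exact ⟨_, a3 k v⟩)).resolve_left fun hc =>
    hx (hc.le ⟨_, a2⟩), r.uv_top] at this

end Cfsg.Agent.S3009
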