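import Cfsg.Statements.S3011
import Cfsg.Agent.L0.Dihedral
-- import your own Cfsg.Agent.* helpers here

set_option autoImplicit false
open Cfsg

namespace Cfsg.Agent.S3011

open Subgroup Cfsg.L0

theorem four {G : Type*} [Group G] [Finite G] {V : Subgroup G} (h4 : Nat.card V ≤ 4) {b c w : G}
    (hb : b ∈ V) (hc : c ∈ V) (hw : w ∈ V) (hb1 : b ≠ 1) (hc1 : c ≠ 1) (hbc : b ≠ c)
    (hb2 : b * b = 1) : w = 1 ∨ w = b ∨ w = c ∨ w = b * c := by
  classical
  by_contra hn
  push Not at hn
  obtain ⟨n1, n2, n3, n4⟩ := hn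
  have e1 : b * c ≠ 1 := fun e => hbc (mul_left_cancel (hb2.trans e.symm))
  have e2 : b * c ≠ b := fun e => hc1 (by simpa using e)
  have e3 : b * c ≠ c := fun e => hb1 (by simpa using e)
  have h5 : ({w, 1, b, c, b * c} : Finset G).card = 5 := by
    rw [Finset.card_insert_of_notMem (by simp [n1, n2, n3, n4]),
      Finset.card_insert_of_notMem (by simp [hb1.symm, hc1.symm, e1.symm]),
      Finset.card_insert_of_notMem (by simp [hbc, e2.symm]),
      Finset.card_pair e3.symm]
  have h6 : (({w, 1, b, c, b * c} : Finset G) : Set G) ⊆ V := by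
    intro x hx
    simp only [Finset.coe_insert, Finset.coe_singleton, Set.mem_insert_iff, Set.mem_singleton_iff] at hx
    rcases hx with rfl | rfl | rfl | rfl | rfl
    exacts [hw, V.one_mem, hb, hc, V.mul_mem hb hc]
  have h7 := Set.ncard_le_ncard h6 (Set.toFinite _)
  rw [Set.ncard_coe_finset, h5] at h7
  have : (V : Set G).ncard = Nat.card V := rfl
  omega


/-- Let G be a finite group and V a nontrivial elementary abelian 2-subgroup of G of order at most 4 such that, whenever an element of V inverts an element h of G of odd order, some nontrivial element of V commutes with h. Then V meets O₂(G) nontrivially. (The case of order at most 4 has a short argument from the Baer–Suzuki theorem.) -/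
theorem result {G : Type*} [Group G] [Finite G] (V : Subgroup G) (hV : Cfsg.IsElementaryAbelian 2 V) (hV1 : V ≠ ⊥) (hS : Cfsg.IsSidkiPair V) (h4 : Nat.card V ≤ 4) : V ⊓ Cfsg.pCore 2 G ≠ ⊥ := by
  intro hVO
  have hcomm : ∀ a ∈ V, ∀ b ∈ V, a * b = b * a := fun a ha b hb => by
    have := hV.1
    exact congrArg Subtype.val (mul_comm' (⟨a, ha⟩ : V) ⟨b, hb⟩)
  have hsq : ∀ v ∈ V, v * v = 1 := fun v hv => by rw [← pow_two]; exact hV.2 v hv
  have hex : ∀ v ∈ V, v ≠ 1 → ∃ x : G, x ≠ 1 ∧ Odd (orderOf x) ∧ v * x * v⁻¹ = x⁻¹ ∧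
      ∃ w ∈ V, w ≠ 1 ∧ w ≠ v ∧ Commute w x := by
    intro v hv hv1
    obtain ⟨x, hx1, hx2, hx3⟩ := exists_inverted_of_not_mem_pCore (hsq v hv) fun h =>
      hv1 (mem_bot.1 (hVO ▸ (⟨hv, h⟩ : v ∈ V ⊓ pCore 2 G)))
    obtain ⟨w, hw, hw1, hw2⟩ := hS x v hv hx2 hx3
    exact ⟨x, hx1, hx2, hx3, w, hw, hw1, by
      rintro rfl; exact hx1 (eq_one_of_inverts_of_commute hx2 hx3 hw2), hw2⟩
  obtain ⟨⟨a, ha⟩, ha1⟩ := ne_bot_iff_exists_ne_one.1 hV1
  have ha1' : a ≠ 1 := fun e => ha1 (Subtype.ext e)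
  obtain ⟨h, h1, ho, hah, b, hb, hb1, hba, hbh⟩ := hex a ha ha1'
  obtain ⟨k, k1, ko, hbk, c, hc, hc1, hcb, hck⟩ := hex b hb hb1
  have hF := fun w hw => four h4 hb hc (w := w) hw hb1 hc1 hcb.symm (hsq b hb)
  have hch : c * h * c⁻¹ = h⁻¹ := by
    rcases hF a ha with e | e | e | e
    · exact absurd e ha1'
    · exact absurd e.symm hba
    · rwa [← e]
    · rw [e, hcomm b hb c hc] at hah
      rw [← hah]
      calc c * h * c⁻¹ = c * (b * h * b⁻¹) * c⁻¹ := by rw [hbh.eq, mul_inv_cancel_right]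
        _ = _ := by group
  have hbch : (b * c) * h * (b * c)⁻¹ = h⁻¹ := by
    calc (b * c) * h * (b * c)⁻¹ = b * (c * h * c⁻¹) * b⁻¹ := by group
      _ = h⁻¹ := by rw [hch, hbh.inv_right.eq, mul_inv_cancel_right]
  -- for a power `u` of `h`, `k` commutes with `u⁻¹ c u` or `u⁻¹ (b c) u`
  have step : ∀ n : ℕ, Commute k (c * (h ^ n * h ^ n)) ∨ Commute k (b * c * (h ^ n * h ^ n)) := by
    intro n
    set u := h ^ n with hu
    have hbu : Commute b u := hbh.pow_right n
    have e0 : ∀ v : G, v * u * v⁻¹ = u⁻¹ → u⁻¹ * v * u = v * (u * u) := fun v hv => by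
      have : u⁻¹ * v = v * u := by rw [← hv]; group
      rw [this, mul_assoc]
    have o2 : Odd (orderOf (u * k * u⁻¹)) := by
      have : orderOf (u * k * u⁻¹) = orderOf k := (MulAut.conj u).orderOf_eq k
      rwa [this]
    have i2 : b * (u * k * u⁻¹) * b⁻¹ = (u * k * u⁻¹)⁻¹ := by
      calc b * (u * k * u⁻¹) * b⁻¹ = (b * u) * k * (b * u)⁻¹ := by group
        _ = u * (b * k * b⁻¹) * u⁻¹ := by rw [hbu.eq]; group
        _ = _ := by rw [hbk]; group
    obtain ⟨w, hw, hw1, hw2⟩ := hS _ b hb o2 i2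
    have hw3 : Commute k (u⁻¹ * w * u) := by
      have : k * (u⁻¹ * w * u) = u⁻¹ * ((u * k * u⁻¹) * w) * u := by group
      rw [Commute, SemiconjBy, this, ← hw2]; group
    rcases hF w hw with e | e | e | e
    · exact absurd e hw1
    · subst e
      have := eq_one_of_inverts_of_commute o2 i2 hw2
      exact absurd (by simpa using this) k1
    · left; rw [← e0 c (inverts_pow hch n), ← e]; exact hw3
    · right; rw [← e0 _ (inverts_pow hbch n), ← e]; exact hw3
  have hc' : ∀ y, Commute k (c * y) → Commute k y := fun y hy => by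
    have := hck.symm.inv_right.mul_right hy
    simpa using this
  have hkh : Commute k h := by
    rcases step 1 with s1 | s1
    · exact commute_of_commute_sq ho (by rw [pow_two]; simpa using hc' _ s1)
    rcases step 2 with s2 | s2
    · refine commute_of_commute_pow (n := 4) ((Nat.coprime_two_left.2 ho).pow_left 2) ?_
      have := hc' _ s2
      rwa [← pow_add] at this
    · refine commute_of_commute_sq ho ?_
      have := s1.inv_right.mul_right s2
      have e : (b * c * (h ^ 1 * h ^ 1))⁻¹ * (b * c * (h ^ 2 * h ^ 2)) = h ^ 2 := by group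
      rwa [e] at this
  have o3 : Odd (orderOf (k * h)) := Odd.of_dvd_nat (ko.mul ho) hkh.orderOf_mul_dvd_mul_orderOf
  have hbck : (b * c) * k * (b * c)⁻¹ = k⁻¹ := by
    calc (b * c) * k * (b * c)⁻¹ = b * (c * k * c⁻¹) * b⁻¹ := by group
      _ = k⁻¹ := by rw [hck.eq, mul_inv_cancel_right, hbk]
  have i3 : (b * c) * (k * h) * (b * c)⁻¹ = (k * h)⁻¹ := by
    calc (b * c) * (k * h) * (b * c)⁻¹ = ((b * c) * k * (b * c)⁻¹) * ((b * c) * h * (b * c)⁻¹) := by group
      _ = _ := by rw [hbck, hbch, hkh.eq, mul_inv_rev]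
  obtain ⟨w, hw, hw1, hw2⟩ := hS _ _ (V.mul_mem hb hc) o3 i3
  have hw3 : Commute w (k * h) := hw2
  rcases hF w hw with e | e | e | e
  · exact hw1 e
  · subst e
    refine k1 (eq_one_of_inverts_of_commute ko hbk ?_)
    have := hw3.mul_right hbh.inv_right
    simpa using this.eq
  · subst e
    refine h1 (eq_one_of_inverts_of_commute ho hch ?_)
    have := hck.inv_right.mul_right hw3
    simpa using this.eq
  · subst e
    have h2 := eq_one_of_inverts_of_commute o3 i3 hw2
    have h3 : k = h⁻¹ := eq_inv_of_mul_eq_one_left h2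
    refine k1 (eq_one_of_inverts_of_commute ko hbk ?_)
    rw [h3]; exact hbh.inv_right.eq

end Cfsg.Agent.S3011
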