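import Cfsg.Statements.S3012

set_option autoImplicit false
open Cfsg

namespace Cfsg.Agent.S3012

theorem result {G : Type*} [Group G] [Finite G] (V K : Subgroup G) [K.Normal] (hV : Cfsg.IsElementaryAbelian 2 V) (hV1 : V ≠ ⊥) (hS : Cfsg.IsSidkiPair V) (hVK : V ⊓ K = ⊥) : Cfsg.IsSidkiPair (V.map (QuotientGroup.mk' K)) := by
  simp only [Cfsg.IsSidkiPair]
  rintro h _ ⟨v, hv, rfl⟩ hodd hinv
  set π := QuotientGroup.mk' K with hπ
  obtain ⟨k, hk⟩ := hodd
  obtain ⟨g, hg⟩ := QuotientGroup.mk'_surjective K (h ^ (k + 1))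
  rw [← hπ] at hg
  have hv2 : v * v = 1 := by rw [← pow_two]; exact hV.2 v hv
  have hvinv : v⁻¹ = v := inv_eq_of_mul_eq_one_right hv2
  set y := g * v * g⁻¹ * v⁻¹ with hy
  have hyinv : v * y * v⁻¹ = y⁻¹ := by
    rw [hy, hvinv]
    calc v * (g * v * g⁻¹ * v) * v = v * g * v * g⁻¹ * (v * v) := by group
      _ = v * g * v * g⁻¹ := by rw [hv2, mul_one]
      _ = v⁻¹ * g * v⁻¹ * g⁻¹ := by rw [hvinv]
      _ = (g * v * g⁻¹ * v)⁻¹ := by group
  have hπy : π y = h := by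
    have e : π v * (h ^ (k + 1))⁻¹ * (π v)⁻¹ = h ^ (k + 1) := by
      rw [← inv_pow, ← conj_pow]
      congr 1
      calc π v * h⁻¹ * (π v)⁻¹ = (π v * h * (π v)⁻¹)⁻¹ := by group
        _ = h := by rw [hinv, inv_inv]
    calc π y = h ^ (k + 1) * (π v * (h ^ (k + 1))⁻¹ * (π v)⁻¹) := by
          rw [hy]; simp only [map_mul, map_inv, hg]; group
      _ = h ^ (orderOf h + 1) := by rw [e, ← pow_add]; congr 1; omega
      _ = h := by rw [pow_succ, pow_orderOf_eq_one, one_mul]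
  obtain ⟨N, m, hm, hNm⟩ := Nat.exists_eq_two_pow_mul_odd (orderOf_pos y).ne'
  have hodd2 : Odd (orderOf (y ^ 2 ^ N)) := by
    apply Odd.of_dvd_nat hm
    apply orderOf_dvd_of_pow_eq_one
    rw [← pow_mul, ← hNm, pow_orderOf_eq_one]
  have hinv2 : v * y ^ 2 ^ N * v⁻¹ = (y ^ 2 ^ N)⁻¹ := by
    rw [← conj_pow, hyinv, inv_pow]
  obtain ⟨w, hw, hw1, hwc⟩ := hS _ v hv hodd2 hinv2
  refine ⟨π w, ⟨w, hw, rfl⟩, ?_, ?_⟩
  · intro h1
    apply hw1
    have : w ∈ V ⊓ K := ⟨hw, (QuotientGroup.eq_one_iff w).1 h1⟩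
    rw [hVK] at this; exact this
  · have c1 : Commute (π w) (h ^ 2 ^ N) := by
      have := congrArg π hwc
      simp only [map_mul, map_pow, hπy] at this
      exact this
    have hcop : (2 ^ N).Coprime (orderOf h) := by
      apply Nat.Coprime.pow_left
      rw [Nat.coprime_two_left]; exact ⟨k, hk⟩
    obtain ⟨j, hj⟩ := exists_pow_eq_self_of_coprime hcop
    have := c1.pow_right j
    rw [hj] at this
    exact this.eq

end Cfsg.Agent.S3012
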