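import Cfsg.Statements.S3013

set_option autoImplicit false
open Cfsg

namespace Cfsg.Agent.S3013

theorem result {G : Type*} [Group G] [Finite G] (V : Subgroup G) (hV : Cfsg.IsElementaryAbelian 2 V) (hV1 : V ≠ ⊥) (hS : Cfsg.IsSidkiPair V) (v x : G) (hv : v ∈ V) (hx : Odd (orderOf x)) (hinv : v * x * v⁻¹ = x⁻¹) (C : Subgroup G) (hC : C = Subgroup.centralizer ({v} : Set G) ⊓ Subgroup.centralizer ({x} : Set G)) : C ⊓ V ≠ ⊥ ∧ Cfsg.IsSidkiPair ((C ⊓ V).subgroupOf C) := by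
  have hcomm : ∀ a ∈ V, ∀ b ∈ V, a * b = b * a := fun a ha b hb => by
    have := hV.1
    exact congrArg Subtype.val (mul_comm' (⟨a, ha⟩ : V) ⟨b, hb⟩)
  have memC : ∀ g : G, g ∈ C ↔ v * g = g * v ∧ x * g = g * x := by
    intro g; subst hC
    simp [Subgroup.mem_centralizer_iff]
  constructor
  · obtain ⟨w, hw, hw1, hwx⟩ := hS x v hv hx hinv
    intro h
    apply hw1
    have : w ∈ C ⊓ V := ⟨(memC w).2 ⟨hcomm _ hv _ hw, hwx.symm⟩, hw⟩
    rw [h] at this; exact this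
  · rintro ⟨h, hh⟩ ⟨u, hu⟩ huV hodd huinv
    have huV' : u ∈ V := (Subgroup.mem_subgroupOf.1 huV).2
    have huinv' : u * h * u⁻¹ = h⁻¹ := congrArg Subtype.val huinv
    have hodd' : Odd (orderOf h) := by rwa [← Subgroup.orderOf_coe] at hodd
    obtain ⟨hvh, hxh⟩ := (memC h).1 hh
    obtain ⟨hvu, hxu⟩ := (memC u).1 hu
    have cxh : Commute x h := hxh
    have hodd2 : Odd (orderOf (x * h)) :=
      Odd.of_dvd_nat (hx.mul hodd') cxh.orderOf_mul_dvd_mul_orderOf
    have hinv2 : (u * v) * (x * h) * (u * v)⁻¹ = (x * h)⁻¹ := by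
      have e1 : v * h * v⁻¹ = h := by rw [hvh]; group
      have e2 : u * x⁻¹ * u⁻¹ = x⁻¹ := by
        have : Commute x u := hxu
        rw [this.inv_left.symm.eq]; group
      calc (u * v) * (x * h) * (u * v)⁻¹ = u * ((v * x * v⁻¹) * (v * h * v⁻¹)) * u⁻¹ := by group
        _ = (u * x⁻¹ * u⁻¹) * (u * h * u⁻¹) := by rw [hinv, e1]; group
        _ = x⁻¹ * h⁻¹ := by rw [e2, huinv']
        _ = (x * h)⁻¹ := by rw [cxh.eq, mul_inv_rev]
    obtain ⟨w, hw, hw1, hwc⟩ := hS (x * h) (u * v) (V.mul_mem huV' hv) hodd2 hinv2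
    have c1 : Commute w (x * h) := hwc
    have cwv : Commute w v := hcomm _ hw _ hv
    have c2 : Commute w (v * (x * h) * v⁻¹) := (cwv.mul_right c1).mul_right cwv.inv_right
    have e3 : (x * h) * (v * (x * h) * v⁻¹) = h ^ 2 := by
      have e1 : v * h * v⁻¹ = h := by rw [hvh]; group
      calc (x * h) * (v * (x * h) * v⁻¹) = (x * h) * ((v * x * v⁻¹) * (v * h * v⁻¹)) := by group
        _ = (x * h) * x⁻¹ * h := by rw [hinv, e1]; group
        _ = h ^ 2 := by rw [cxh.eq, pow_two]; group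
    have c3 : Commute w (h ^ 2) := e3 ▸ c1.mul_right c2
    have c4 : Commute w h := by
      obtain ⟨k, hk⟩ := hodd'
      have : h = (h ^ 2) ^ (k + 1) := by
        rw [← pow_mul, show 2 * (k + 1) = orderOf h + 1 by omega, pow_succ, pow_orderOf_eq_one, one_mul]
      rw [this]; exact c3.pow_right _
    have c5 : Commute w x := by
      have : x = (x * h) * h⁻¹ := by group
      rw [this]; exact c1.mul_right c4.inv_right
    have hwC : w ∈ C := (memC w).2 ⟨cwv.symm.eq, c5.symm.eq⟩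
    refine ⟨⟨w, hwC⟩, Subgroup.mem_subgroupOf.2 ⟨hwC, hw⟩, fun h1 => hw1 (congrArg Subtype.val h1), Subtype.ext c4.eq⟩

end Cfsg.Agent.S3013
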