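import Cfsg.Statements.S3014
import Cfsg.Agent.L0.TransferTI
import Cfsg.Agent.L0.Components
-- import your own Cfsg.Agent.* helpers here

set_option autoImplicit false
open Cfsg

namespace Cfsg.Agent.S3014

open Subgroup Cfsg.L0

theorem comm_le {G : Type*} [Group G] [Finite G] {H M : Subgroup G} (hHM : H ≤ M)
    (hn : M ≤ normalizer (H : Set G)) (hmax : ∀ x ∈ M, x ∉ H → H ⊔ zpowers x = M) :
    ⁅M, M⁆ ≤ H := by
  by_cases h : M ≤ H
  · exact (commutator_le_inf_of_normalizes le_normalizer le_normalizer).trans (inf_le_left.trans h)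
  obtain ⟨x, hx, hxH⟩ := SetLike.not_le_iff_exists.1 h
  have e := hmax x hx hxH
  rw [commutator_le]
  intro a ha b hb
  rw [← e] at ha hb
  have hz : zpowers x ≤ normalizer (H : Set G) := zpowers_le.2 (hn hx)
  obtain ⟨a1, ha1, _, ⟨i, rfl⟩, rfl⟩ := (mem_sup_of_le_normalizer' hz).1 ha
  obtain ⟨b1, hb1, _, ⟨j, rfl⟩, rfl⟩ := (mem_sup_of_le_normalizer' hz).1 hb
  have h1 := (mem_normalizer_iff.1 (hz (zpow_mem (mem_zpowers x) i)) _).1 hb1
  have h2 := (mem_normalizer_iff.1 (hz (zpow_mem (mem_zpowers x) j)) _).1 (inv_mem ha1)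
  have := mul_mem (mul_mem (mul_mem ha1 h1) h2) (inv_mem hb1)
  convert this using 1
  simp only [commutatorElement_def]; group


/-- Let G be a finite group and H ≤ M ≤ G subgroups such that for every g ∈ G the subgroup generated by H and g H g⁻¹ meets M exactly in H. If H is a maximal subgroup of M and M is a maximal subgroup of G, then the normal closure of H in G meets M exactly in H. -/
theorem result {G : Type*} [Group G] [Finite G] (H M : Subgroup G) (hHM : H ≤ M) (hcl : ∀ g : G, (H ⊔ H.map (MulAut.conj g).toMonoidHom) ⊓ M = H) (hmaxH : IsCoatom (H.subgroupOf M)) (hmaxM : IsCoatom M) : Subgroup.normalClosure (H : Set G) ⊓ M = H := by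
  have hmax : ∀ x ∈ M, x ∉ H → H ⊔ zpowers x = M := by
    intro x hx hxH
    have h1 : H ⊔ zpowers x ≤ M := sup_le hHM (zpowers_le.2 hx)
    have h2 : H.subgroupOf M < (H ⊔ zpowers x).subgroupOf M :=
      lt_of_le_of_ne (comap_mono le_sup_left) fun e => hxH (by
        have : (⟨x, hx⟩ : M) ∈ (H ⊔ zpowers x).subgroupOf M := mem_sup_right (mem_zpowers x)
        rw [← e] at this; exact this)
    exact le_antisymm h1 (subgroupOf_eq_top.1 (hmaxH.2 _ h2))
  have hcl' : ∀ g : G, (H ⊔ cj g H) ⊓ M = H := hcl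
  have hn : M ≤ normalizer (H : Set G) := fun g hg => mem_normalizer_of_cj_le
    ((le_inf le_sup_right (cj_le_of_le hHM (le_normalizer hg))).trans (hcl' g).le)
  have fin : ∀ K : Subgroup G, K.Normal → K ⊓ M = H → normalClosure (H : Set G) ⊓ M = H := by
    intro K hK e
    refine le_antisymm ?_ (le_inf le_normalClosure hHM)
    exact (inf_le_inf_right M (normalClosure_le_normal (e.ge.trans inf_le_left))).trans e.le
  by_cases h : ∀ g : G, g ∉ M → M ⊓ cj g M ≤ H
  · obtain ⟨K, hK, e, -⟩ := exists_normal_inf_eq_of_inter_le hHM (comm_le hHM hn hmax) h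
    exact fin K hK e
  push Not at h
  obtain ⟨g, hg, h⟩ := h
  obtain ⟨x, hx, hxH⟩ := SetLike.not_le_iff_exists.1 h
  have hn' : cj g M ≤ normalizer (cj g H : Set G) := by rw [← cj_normalizer]; exact cj_mono g hn
  have hxT : x ∈ normalizer ((H ⊔ cj g H : Subgroup G) : Set G) :=
    le_normalizer_sup (zpowers_le.2 (hn hx.1)) (zpowers_le.2 (hn' hx.2)) (mem_zpowers x)
  have h1 : M ≤ normalizer ((H ⊔ cj g H : Subgroup G) : Set G) := by
    rw [← hmax x hx.1 hxH]
    exact sup_le (le_sup_left.trans le_normalizer) (zpowers_le.2 hxT)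
  have h2 : cj g M ≤ normalizer ((H ⊔ cj g H : Subgroup G) : Set G) := by
    have hx' : g⁻¹ * x * g ∉ H := fun e => hxH (by
      rw [← hcl' g]; exact ⟨mem_sup_right (mem_cj.2 e), hx.1⟩)
    rw [← hmax _ (mem_cj.1 hx.2) hx', cj_sup, cj_zpowers]
    exact sup_le (le_sup_right.trans le_normalizer) (zpowers_le.2 (by simpa [mul_assoc] using hxT))
  by_cases h3 : cj g M ≤ M
  · have h4 : normalizer (M : Set G) = ⊤ := hmaxM.2 _ (lt_of_le_of_ne le_normalizer fun e =>
      hg (e ▸ mem_normalizer_of_cj_le h3))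
    have h5 : M.Normal := normalizer_eq_top_iff.1 h4
    refine fin H (normal_of_top_le fun y _ => mem_normalizer_of_cj_le ?_) (inf_eq_left.2 hHM)
    exact (le_inf le_sup_right (cj_le_of_le hHM (h4 ▸ mem_top y))).trans (hcl' y).le
  · have h4 : M ⊔ cj g M = ⊤ := hmaxM.2 _ (left_lt_sup.2 h3)
    exact fin _ (normal_of_top_le (h4 ▸ sup_le h1 h2)) (hcl' g)

end Cfsg.Agent.S3014
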