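import Cfsg.Statements.S3015
import Cfsg.Agent.L0.TransferTI
import Cfsg.Agent.L0.Components
import Cfsg.Agent.S3014
import Cfsg.Agent.H7.Residual
import Cfsg.Agent.H1.Frattini
import Cfsg.Agent.H8.Syl
-- import your own Cfsg.Agent.* helpers here

set_option autoImplicit false
open Cfsg

namespace Cfsg.Agent.S3015

open Subgroup Cfsg.L0

theorem eq_or_eq {G : Type*} [Group G] {H K M : Subgroup G} (h : (H.relIndex M).Prime) (h1 : H ≤ K)
    (h2 : K ≤ M) : K = H ∨ K = M := by
  have e := relIndex_mul_relIndex H K M h1 h2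
  rcases (Nat.dvd_prime h).1 (Dvd.intro _ e) with e1 | e1
  · exact Or.inl (le_antisymm (relIndex_eq_one.1 e1) h1)
  · rw [← e1] at e
    have := h.pos
    rw [← e1] at this
    exact Or.inr (le_antisymm h2 (relIndex_eq_one.1 (Nat.eq_of_mul_eq_mul_left this (e.trans (mul_one _).symm))))


/-- Let G be a finite non-abelian simple group, M a maximal subgroup of G and H a normal subgroup of M of prime index in M. Then G is generated by H together with one of its conjugates. -/
theorem result {G : Type*} [Group G] [Finite G] [IsSimpleGroup G] (hG : ¬ IsMulCommutative G) (M H : Subgroup G) (hmaxM : IsCoatom M) (hHM : H ≤ M) (hHn : (H.subgroupOf M).Normal) (hidx : (H.relIndex M).Prime) : ∃ g : G, H ⊔ H.map (MulAut.conj g).toMonoidHom = ⊤ := by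
  by_contra hn
  push Not at hn
  have hn' : ∀ g : G, H ⊔ cj g H ≠ ⊤ := hn
  have : Fact (H.relIndex M).Prime := ⟨hidx⟩
  have hne : H ≠ M := by rintro rfl; rw [relIndex_self] at hidx; exact Nat.not_prime_one hidx
  have hMn : M ≤ normalizer (H : Set G) := (normal_subgroupOf_iff_le_normalizer hHM).1 hHn
  have hM : ∀ g : G, cj g M ≤ M → g ∈ M := by
    intro g hg
    by_contra hgM
    have h4 : normalizer (M : Set G) = ⊤ := hmaxM.2 _ (lt_of_le_of_ne le_normalizer fun e =>
      hgM (e ▸ mem_normalizer_of_cj_le hg))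
    rcases (normalizer_eq_top_iff.1 h4).eq_bot_or_eq_top with h | h
    · exact hne (le_antisymm hHM (h ▸ bot_le))
    · exact hmaxM.1 h
  by_cases hcl : ∀ g : G, (H ⊔ cj g H) ⊓ M = H
  · have h1 := S3014.result H M hHM hcl (H1.isCoatom_of_index_prime hidx) hmaxM
    rcases (normalClosure_normal (s := (H : Set G))).eq_bot_or_eq_top with h | h
    · have hb : H = ⊥ := le_bot_iff.1 (h ▸ le_normalClosure)
      obtain ⟨K, hK, e, hc⟩ := exists_normal_inf_eq_of_inter_le hHM
        (S3014.comm_le hHM hMn fun x hx hxH => (eq_or_eq hidx le_sup_left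
          (sup_le hHM (zpowers_le.2 hx))).resolve_left fun e => hxH (e ▸ mem_sup_right (mem_zpowers x)))
        fun g hg => ((eq_or_eq (K := M ⊓ cj g M) hidx (hb ▸ bot_le) inf_le_left).resolve_right
          fun e => hg (by
            have : cj g⁻¹ M ≤ M := by rw [cj_le_iff, inv_inv]; exact e.ge.trans inf_le_right
            simpa using inv_mem (hM _ this))).le
      rcases hK.eq_bot_or_eq_top with rfl | rfl
      · apply hG
        have := commutator_eq_bot_iff_le_centralizer.1 (le_bot_iff.1 hc)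
        exact ⟨⟨fun a b => (this (mem_top b) a (mem_top a))⟩⟩
      · exact hne (by rw [← e, top_inf_eq])
    · rw [h, top_inf_eq] at h1; exact hne h1.symm
  push Not at hcl
  obtain ⟨g, hg⟩ := hcl
  have h1 : M ≤ H ⊔ cj g H := inf_eq_right.1
    ((eq_or_eq hidx (le_inf le_sup_left hHM) inf_le_right).resolve_left hg)
  have h2 : M = H ⊔ cj g H := by
    by_contra h; exact hn' g (hmaxM.2 _ (lt_of_le_of_ne h1 h))
  have h3 : cj g H ≤ M := h2 ▸ le_sup_right
  have h4 : g ∉ normalizer (H : Set G) := fun e => hne (by rw [h2, cj_eq_iff.2 e, sup_idem])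
  set q := H.relIndex M with hq
  have h5 : pResidualOf q H = pResidualOf q M := H7.pResidualOf_eq_of_le
    (H7.pResidualOf_le_of_pow_mem fun x hx => ⟨1, by simpa using H8.pow_relIndex_mem hMn hx⟩) hHM
  have h6 : g ∈ normalizer (pResidualOf q M : Set G) := by
    refine mem_normalizer_of_cj_le ?_
    have : cj g (pResidualOf q H) = pResidualOf q (cj g H) := H7.cj_pResidualOf g H
    conv_lhs => rw [← h5, this]
    exact H7.pResidualOf_mono h3
  have h7 : normalizer (pResidualOf q M : Set G) = ⊤ := hmaxM.2 _ (lt_of_le_of_ne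
    (H7.le_normalizer_pResidualOf q M) fun e => h4 (hMn (e ▸ h6)))
  rcases (normalizer_eq_top_iff.1 h7).eq_bot_or_eq_top with h | h
  · have hp : IsPGroup q M := H7.pResidualOf_eq_bot_iff.1 h
    have hidx' : ((cj g H).relIndex M).Prime := by
      have e1 := H8.card_mul_relIndex hHM
      have e2 := H8.card_mul_relIndex h3
      rw [card_cj, ← e1] at e2
      rwa [Nat.eq_of_mul_eq_mul_left Nat.card_pos e2]
    have hlt : cj g H < M := lt_of_le_of_ne h3 fun e => by
      rw [e, relIndex_self] at hidx'; exact Nat.not_prime_one hidx'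
    have h8 := H8.lt_inf_normalizer hp hlt
    have h9 : M ≤ normalizer (cj g H : Set G) :=
      inf_eq_left.1 ((eq_or_eq hidx' h8.le inf_le_left).resolve_left h8.ne')
    have h10 : cj g M ≤ normalizer (cj g H : Set G) := by rw [← cj_normalizer]; exact cj_mono g hMn
    have h11 : M ⊔ cj g M = ⊤ := hmaxM.2 _ (left_lt_sup.2 fun e => h4 (hMn (hM g e)))
    have h12 : g⁻¹ ∈ normalizer (cj g H : Set G) := (sup_le h9 h10) (h11 ▸ mem_top _)
    have h13 := cj_eq_iff.2 h12
    rw [cj_inv_cj] at h13
    exact h4 (cj_eq_iff.1 h13.symm)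
  · exact hmaxM.1 (top_le_iff.1 (h ▸ H7.pResidualOf_le q M))

end Cfsg.Agent.S3015
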