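import Cfsg.Statements.S3016
import Cfsg.Agent.H1.XClosed

set_option autoImplicit false
set_option linter.style.haveILetI false
set_option linter.unusedVariables false
open Cfsg

namespace Cfsg.Agent.S3016

/-- Let G be a finite group, p an odd prime, and H an abelian p-subgroup of G that is extremely closed (for every g, the subgroup generated by H and g H g⁻¹ meets N_G(H) exactly in H). Then the normal closure of H meets N_G(H) exactly in H, and G = N_G(H) O_{p'}(G). -/
theorem result {G : Type*} [Group G] [Finite G] {p : ℕ} [Fact p.Prime] (hp : p ≠ 2) (H : Subgroup G) (hHp : IsPGroup p H) (hHab : IsMulCommutative H) (hcl : Cfsg.IsExtremelyClosed H) : Subgroup.normalClosure (H : Set G) ⊓ Subgroup.normalizer (H : Set G) = H ∧ Subgroup.normalizer (H : Set G) ⊔ Cfsg.pPrimeCore p G = ⊤ := by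
  obtain ⟨R, hR, h1, h2, h3⟩ := H1.exists_normal_fpf hHp (H1.exists_of_isExtremelyClosed hHp hcl) hp
  constructor
  · refine le_antisymm ?_ (le_inf Subgroup.le_normalClosure Subgroup.le_normalizer)
    have h4 : (H ⊔ R).Normal := L0.normal_of_top_le (h3.ge.trans (sup_le
      (le_sup_right.trans Subgroup.le_normalizer)
      (L0.le_normalizer_sup le_rfl Subgroup.le_normalizer_of_normal)))
    refine (inf_le_inf_right _ (Subgroup.normalClosure_le_normal (N := H ⊔ R)
      (le_sup_left : H ≤ H ⊔ R))).trans ?_
    rw [inf_comm, L0.dedekind Subgroup.le_normalizer Subgroup.le_normalizer_of_normal, inf_comm, h2,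
      sup_bot_eq]
  · exact eq_top_iff.2 (h3.ge.trans (sup_le ((H7.le_pPrimeCore h1).trans le_sup_right) le_sup_left))

end Cfsg.Agent.S3016
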