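import Cfsg.Statements.S3017
import Cfsg.Agent.H1.XClosed

set_option autoImplicit false
set_option linter.style.haveILetI false
set_option linter.unusedVariables false
open Cfsg

namespace Cfsg.Agent.S3017

/-- Let G be a finite group and H an abelian 2-subgroup of G that is extremely closed (for every g, the subgroup generated by H and g H g⁻¹ meets N_G(H) exactly in H). Then G = N_G(H) O(G), where O(G) is the largest normal subgroup of odd order. For H of order 2 this is Glauberman's Z*-statement. -/
theorem result {G : Type*} [Group G] [Finite G] (H : Subgroup G) (hH2 : IsPGroup 2 H) (hHab : IsMulCommutative H) (hcl : Cfsg.IsExtremelyClosed H) : Subgroup.normalizer (H : Set G) ⊔ Cfsg.oddCore G = ⊤ := by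
  refine eq_top_iff.2 fun g _ => ?_
  obtain ⟨k, hk, h⟩ := H1.exists_mem_inf_of_cj_le hH2 (H7.coprime_card_pPrimeCore 2 G)
    Subgroup.le_normalizer_of_normal (H1.cj_le_sup_oddCore hH2 (fun g => by
      obtain ⟨Z, h1, h2, -, h3⟩ := H1.exists_of_isExtremelyClosed hH2 hcl g
      exact ⟨Z, h1, h2, h3⟩) g) le_top le_top
  simpa using mul_mem (Subgroup.mem_sup_right (S := Subgroup.normalizer (H : Set G)) hk.1)
    (Subgroup.mem_sup_left h)

end Cfsg.Agent.S3017
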