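import Cfsg.Statements.S3020
import Cfsg.Agent.H8.Frobenius
import Cfsg.Agent.L0.Components
-- import your own Cfsg.Agent.* helpers here

set_option autoImplicit false
open Cfsg

namespace Cfsg.Agent.S3020

open Subgroup Cfsg.L0 Cfsg.H8


/-- Let G be a finite group, p a prime and H an abelian p-subgroup of G that is extremely closed (for every g, the subgroup generated by H and g H g⁻¹ meets N_G(H) exactly in H). Then for every g ∈ G, the subgroup T generated by H and g H g⁻¹ is the product of H with O_{p'}(T), and H meets O_{p'}(T) trivially; that is, O_{p'}(T) is a normal p-complement of H in T. -/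
theorem result {G : Type*} [Group G] [Finite G] {p : ℕ} [Fact p.Prime] (H : Subgroup G) (hHp : IsPGroup p H) (hHab : IsMulCommutative H) (hcl : Cfsg.IsExtremelyClosed H) (g : G) (T : Subgroup G) (hT : T = H ⊔ H.map (MulAut.conj g).toMonoidHom) : H ⊔ (Cfsg.pPrimeCore p ↥T).map T.subtype = T ∧ H ⊓ (Cfsg.pPrimeCore p ↥T).map T.subtype = ⊥ := by
  have h2 : T ⊓ normalizer (H : Set G) = H := hT ▸ hcl g
  have hHT : H ≤ T := hT ▸ le_sup_left
  have hS : IsSyl p H T := IsSyl.of_normalizer (by rw [h2]; exact IsSyl.self hHp)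
  have hc : H ≤ centralizer (H : Set G) := le_centralizer_iff_isMulCommutative.2 hHab
  have hN : NPC p T := burnside_npc hS (by rw [h2]; exact hc)
  have hN' : NPC p (⊤ : Subgroup T) := npc_top_iff'.2 hN
  have hcop : (Nat.card ((pPrimeCore p T).map T.subtype)).Coprime p := by
    rw [H7.card_map_subtype]; exact coprime_card_pPrimeCore p
  refine ⟨le_antisymm (sup_le hHT (map_subtype_le _)) ?_, ?_⟩
  · have h3 : pResidualOf p T ≤ (pPrimeCore p T).map T.subtype := map_mono hN'.pResidual_le_pPrimeCore
    refine le_trans ?_ (sup_le_sup_left h3 H)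
    rw [sup_comm]
    exact hS.le_sup_of_relIndex (relIndex_eq_pow_of_forall (H7.le_normalizer_pResidualOf p T)
      fun x hx => by
        obtain ⟨k, hk⟩ := H7.exists_pow_mem_pResidual (p := p) (⟨x, hx⟩ : T)
        exact ⟨k, ⟨_, hk, rfl⟩⟩)
  · exact inf_eq_bot_of_coprime' (coprime_card_of_isPGroup hHp hcop).symm

end Cfsg.Agent.S3020
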