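import Cfsg.Statements.S3022
import Cfsg.Agent.H7.LC5

set_option autoImplicit false
open Cfsg

namespace Cfsg.Agent.S3022

open Subgroup Cfsg.H7
open Cfsg.L0 (SN)
open scoped commutatorElement

/-- Let G be a finite group all of whose non-abelian simple sections are known simple groups, such that a Sylow 2-subgroup of G lies in exactly one maximal subgroup of G and C_G(O₂(G)) ≤ O₂(G). Let S be a Sylow 2-subgroup of G and A a group of automorphisms of S of odd order. Then some nontrivial A-invariant subgroup of S is normal in G. -/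
theorem result {G : Type*} [Group G] [Finite G] (hK : Cfsg.IsKGroup G) (hirr : ∀ S : Sylow 2 G, ∃! M : Subgroup G, IsCoatom M ∧ (S : Subgroup G) ≤ M) (hchar : Subgroup.centralizer (Cfsg.pCore 2 G : Set G) ≤ Cfsg.pCore 2 G) (S : Sylow 2 G) (A : Subgroup (MulAut ↥(S : Subgroup G))) (hA : Odd (Nat.card A)) : ∃ U : Subgroup G, U ≠ ⊥ ∧ U.Normal ∧ U ≤ (S : Subgroup G) ∧ ∀ a ∈ A, ∀ x : ↥(S : Subgroup G), (x : G) ∈ U → ((a x : ↥(S : Subgroup G)) : G) ∈ U := by
  by_contra hn
  obtain ⟨M, ⟨hM, hSM⟩, -⟩ := id (hirr S)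
  have um := uniqMax_of_coatom (hirr S) hM hSM
  have key : ∀ U : Subgroup G, U ≠ ⊥ → U ≤ S → (∀ a ∈ A, ∀ x : S, (x : G) ∈ U → (a x : G) ∈ U) →
      (S : Subgroup G) ≤ normalizer (U : Set G) → normalizer (U : Set G) ≤ M :=
    fun U h1 h2 h3 h4 => (um.eq_or_le h4 le_top).resolve_left fun e =>
      hn ⟨U, h1, normal_of_le_normalizer_top e.ge, h2, h3⟩
  have key' : ∀ U : Subgroup G, U ≠ ⊥ → U ≤ S → (U.subgroupOf S).Characteristic →
      normalizer (U : Set G) ≤ M := fun U h1 h2 h3 => key U h1 h2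
    (fun a _ x hx => characteristic_iff_le_comap.mp h3 a hx)
    (le_normalizer.trans (norm_le_of_char h2 h3))
  have S0 : (S : Subgroup G) ≠ ⊥ := fun e => hM.1 (top_le_iff.mp (by
    have h1 := le_bot_iff.mp ((pCore_le_sylow S).trans e.le)
    rw [h1, centralizer_bot'] at hchar
    exact hchar.trans bot_le))
  have H : Hyp 2 (S : Subgroup G) M := ⟨isSylowIn_top S, hchar, (centralizer_le_normalizer _).trans
    (key' _ (omegaOneCenter_ne_bot S.isPGroup' S0) (omegaOneCenter_le _ _) (char_ΩZ _ _)),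
    fun C h1 h2 h3 => key' C h2 (h1.trans (H9.B_le _ _)) (char_trans h1 (H9.B_le _ _) h3
      (char_B _ _)), hM.1⟩
  obtain ⟨N, -, m, hN, U, u1, u2, u3⟩ := H.exists_mb le_top (mt top_le_iff.mp hM.1)
  set B := baumannSubgroupOf 2 (S : Subgroup G) with hB
  have t := m.tz
  have hBS : B ≤ S := H9.B_le _ _
  have c : ∀ s ∈ (S : Subgroup G), cj s (H9.Zp 2 N) ≤ centralizer (H9.Zp 2 N : Set G) := by
    obtain ⟨F, _, _, _, Z, Z₀, C, X, m⟩ := m
    rw [← m.hZ] at u1 ⊢
    have h1 : Z ≤ Z₀ ⊔ U := (m.le_sup u2 fun e => u3 ((le_inf (u1.trans inf_le_left) le_rfl).trans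
      (e.trans m.Z₀_le))).trans (sup_le_sup_left inf_le_right _)
    have h2 : Z₀ ≤ centralizer (B : Set G) := m.Z₀_le.trans (centralizer_anti m.syl.le)
    intro s hs
    have h3 := cj_eq_of_mem_normalizer (H9.le_normalizer_B 2 _ hs)
    refine le_trans ?_ (centralizer_anti h1)
    rw [centralizer_sup]
    refine le_inf (((cj_mono m.Z_le_B).trans h3.le).trans (le_centralizer_iff.mp h2))
      ((cj_mono h1).trans ?_)
    rw [cj_sup]
    refine sup_le (((cj_le_centralizer_cj s h2).trans_eq (by rw [h3])).trans (centralizer_anti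
      ((u1.trans inf_le_left).trans m.Z_le_B))) (((cj_mono (u1.trans inf_le_right)).trans
      (cj_eq_of_normal _ _).le).trans ((ea_le_centralizer (ea_omegaOneCenter _ _)).trans
      (centralizer_anti (u1.trans inf_le_right))))
  haveI : Finite (S ⋊[A.subtype] A) := Finite.of_equiv _ SemidirectProduct.equivProd.symm
  obtain ⟨X, _, _, i, j, hi, hj, h1, -⟩ := H9.exists_finite_completion (S : Subgroup G).subtype
    (SemidirectProduct.inl : S →* S ⋊[A.subtype] A) (subtype_injective _)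
    SemidirectProduct.inl_injective
  have k : ∀ (a : A) (s : S), j (SemidirectProduct.inr a) * i s *
      (j (SemidirectProduct.inr a))⁻¹ = i (a.1 s) := fun a s => by
    have := SemidirectProduct.inl_aut (φ := A.subtype) a s
    rw [show i s = _ from h1 s, show i (a.1 s) = _ from h1 (a.1 s), ← map_inv, ← map_mul, ← map_mul,
      ← map_inv, ← this]
    rfl
  have m' := (isMB_map_iff hi).mpr m
  have eZ : H9.Zp 2 (N.map i) = (H9.Zp 2 N).map i := by
    rw [H9.Zp, ← map_pCoreOf_of_injective hi, ← map_ΩZ hi]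
  have nS : ∀ d, j d ∈ normalizer ((S : Subgroup G).map i : Set X) := fun d => by
    rw [← SemidirectProduct.inl_left_mul_inr_right d, map_mul, ← h1]
    refine mul_mem (le_normalizer (mem_map_of_mem i d.left.2)) (mem_normalizer_of_conj_mem ?_)
    rintro _ ⟨x, hx, rfl⟩
    exact k d.right ⟨x, hx⟩ ▸ mem_map_of_mem i (d.right.1 ⟨x, hx⟩).2
  have nB : ∀ d, j d ∈ normalizer (B.map i : Set X) := fun d => by
    rw [hB, map_B hi]
    exact H9.normalizer_le_normalizer_B _ _ (nS d)
  have c' : ∀ d, cj (j d) ((H9.Zp 2 N).map i) ≤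
      (B ⊓ centralizer (H9.Zp 2 N : Set G)).map i := fun d => by
    rw [map_inf_cent hi]
    refine le_inf (cj_le_of_le (nB d) (map_mono t.le)) ?_
    rw [← eZ]
    refine m'.odd (nB d) hA ?_
    have h2 : (d ^ Nat.card A).right = 1 := by
      rw [← SemidirectProduct.rightHom_eq_right, map_pow, pow_card_eq_one']
    rw [← map_pow, ← SemidirectProduct.inl_left_mul_inr_right (d ^ _), h2, map_one, mul_one, ← h1,
      eZ, ← map_cj, map_cent_iff hi]
    exact c _ (d ^ Nat.card A).left.2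
  set W := ⨆ d, cj (j d) ((H9.Zp 2 N).map i) with hW
  have w1 : W.comap i ≤ B ⊓ centralizer (H9.Zp 2 N : Set G) :=
    (comap_mono (iSup_le c')).trans (comap_map_eq_self_of_injective hi _).le
  have w2 : H9.Zp 2 N ≤ W.comap i := map_le_iff_le_comap.mp (by
    simpa using le_iSup (fun d => cj (j d) ((H9.Zp 2 N).map i)) 1)
  have w3 : ∀ d, ∀ x ∈ W, j d * x * (j d)⁻¹ ∈ W := fun d => cj_le_iff'.mp (by
    rw [hW, cj_iSup]
    exact iSup_le fun e => by
      rw [← cj_mul, ← map_mul]
      exact le_iSup (fun d => cj (j d) ((H9.Zp 2 N).map i)) _)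
  refine hN ((le_normalizer_of_commutator_le w1 (t.cE.trans w2)).trans (key _
    (ne_bot_of_le ((u1.trans inf_le_left).trans w2) fun e => u3 (e ▸ bot_le))
    (w1.trans (inf_le_left.trans hBS)) (fun a ha x hx => ?_) fun s hs =>
      mem_normalizer_of_conj_mem fun x hx => ?_))
  · exact mem_comap.mpr (k ⟨a, ha⟩ x ▸ w3 _ _ hx)
  · have := w3 (SemidirectProduct.inl ⟨s, hs⟩) _ hx
    rw [← h1] at this
    simpa using this

end Cfsg.Agent.S3022
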