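import Cfsg.Statements.S3025
import Cfsg.Agent.L0.Components
import Cfsg.Agent.H9.RankOne
-- import your own Cfsg.Agent.* helpers here

set_option autoImplicit false
open Cfsg

namespace Cfsg.Agent.S3025

open Subgroup Cfsg.L0


/-- Let F be a finite group and H a nontrivial subgroup of F that is contained in every nontrivial subgroup of F which H normalizes. Then F has a nontrivial normal subgroup N contained in every nontrivial normal subgroup of F (a unique minimal normal subgroup), N is simple, and one of the following holds: C_F(N) = 1; or H = N has prime order p, C_F(N) is cyclic of order a power of p, and F/C_F(N) is cyclic of order dividing p − 1; or H = N has order 2, N is central in F, and F is a generalized quaternion group. -/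
theorem result {F : Type*} [Group F] [Finite F] (H : Subgroup F) (hH : H ≠ ⊥)
    (hmin : ∀ R : Subgroup F, R ≠ ⊥ → H ≤ Subgroup.normalizer (R : Set F) → H ≤ R) :
    ∃ N : Subgroup F, N.Normal ∧ N ≠ ⊥ ∧ (∀ M : Subgroup F, M.Normal → M ≠ ⊥ → N ≤ M) ∧ IsSimpleGroup ↥N ∧
      (Subgroup.centralizer (N : Set F) = ⊥ ∨
       (H = N ∧ (Nat.card N).Prime ∧ IsCyclic ↥(Subgroup.centralizer (N : Set F)) ∧
          (∃ k : ℕ, 1 ≤ k ∧ Nat.card ↥(Subgroup.centralizer (N : Set F)) = Nat.card N ^ k) ∧
          (∃ g : F, Subgroup.centralizer (N : Set F) ⊔ Subgroup.zpowers g = ⊤) ∧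
          (Subgroup.centralizer (N : Set F)).index ∣ Nat.card N - 1) ∨
       (H = N ∧ Nat.card N = 2 ∧ Subgroup.centralizer (N : Set F) = ⊤ ∧
          ∃ k : ℕ, 1 ≤ k ∧ Nonempty (F ≃* QuaternionGroup (2 ^ k)))) := by
  obtain ⟨N, -, hN⟩ := exists_minNormalIn (N := (⊤ : Subgroup F)) (K := ⊤)
    (fun e => hH (le_bot_iff.1 (e ▸ le_top))) le_rfl le_normalizer
  have hNn : N.Normal := normal_of_top_le hN.2.2.1
  have hHN : H ≤ N := hmin N hN.1 le_normalizer_of_normal
  have huniq : ∀ M : Subgroup F, M.Normal → M ≠ ⊥ → N ≤ M := fun M hM hM1 =>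
    inf_eq_left.1 ((hN.2.2.2 (N ⊓ M) inf_le_left le_normalizer_of_normal).resolve_left fun e =>
      hH (le_bot_iff.1 (e ▸ le_inf hHN (hmin M hM1 le_normalizer_of_normal))))
  have hsimple : IsSimpleGroup N := by
    have : Nontrivial N := (nontrivial_iff_ne_bot N).2 hN.1
    refine ⟨fun L hL => ?_⟩
    by_cases hb : L = ⊥
    · exact Or.inl hb
    right
    set L' := L.map N.subtype with hL'
    have h1 : N ≤ normalizer (L' : Set F) := by
      have := le_normalizer_map (H := L) N.subtype
      rwa [normalizer_eq_top_iff.2 hL, ← MonoidHom.range_eq_map, range_subtype] at this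
    have h2 : L' ≠ ⊥ := fun e => hb ((Subgroup.map_eq_bot_iff_of_injective _ N.subtype_injective).1 e)
    have h3 : H ≤ L'.normalCore := by
      intro x hx g
      have h4 : H ≤ cj g⁻¹ L' := hmin _ (fun e => h2 (cj_eq_bot_iff.1 e)) (hHN.trans (by
        rw [← cj_normalizer, ← cj_eq_of_normal g⁻¹ N]; exact cj_mono _ h1))
      simpa using mem_cj.1 (h4 hx)
    have h5 := (huniq _ inferInstance fun e => hH (le_bot_iff.1 (e ▸ h3))).trans L'.normalCore_le
    rw [eq_top_iff]
    intro x _
    obtain ⟨y, hy, e⟩ := h5 x.2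
    rwa [← Subtype.ext e]
  refine ⟨N, hNn, hN.1, huniq, hsimple, ?_⟩
  by_cases hC : centralizer (N : Set F) = ⊥
  · exact Or.inl hC
  right
  set C := centralizer (N : Set F) with hCdef
  have hNC : N ≤ C := huniq C inferInstance hC
  have hcomm : IsMulCommutative N := le_centralizer_iff_isMulCommutative.1 hNC
  let _ : CommGroup N := { mul_comm := hcomm.is_comm.comm }
  have hp : (Nat.card N).Prime := IsSimpleGroup.prime_card
  have hcyc : IsCyclic N := IsSimpleGroup.isCyclic
  have : Fact (Nat.card N).Prime := ⟨hp⟩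
  have hHe : H = N := by
    have := (Nat.dvd_prime hp).1 (card_dvd_of_le hHN)
    rcases this with e | e
    · exact absurd (card_eq_one.1 e) hH
    · exact eq_of_le_of_card_ge hHN e.ge
  have hall : ∀ x ∈ C, x ≠ 1 → N ≤ zpowers x := fun x hx hx1 => by
    rw [← hHe]
    refine hmin _ (by simpa using hx1) (le_trans ?_ (centralizer_le_normalizer _))
    rw [hHe]; exact le_centralizer_iff.1 (zpowers_le.2 hx)
  set p := Nat.card N with hpdef
  have hCp : IsPGroup p C := isPGroup_of_forall_coprime fun x hx hc => by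
    by_contra hx1
    have := card_dvd_of_le (hall x hx hx1)
    rw [Nat.card_zpowers] at this
    exact hp.one_lt.ne' (hc.symm.eq_one_of_dvd this)
  have hU : H9.UniqueOrderP p C := by
    have key : ∀ x : C, x ≠ 1 → x ^ p = 1 → zpowers (x : F) = N := fun x hx hxp =>
      (eq_of_le_of_card_ge (hall x x.2 fun e => hx (Subtype.ext e)) (by
        rw [Nat.card_zpowers]
        exact Nat.le_of_dvd hp.pos (orderOf_dvd_of_pow_eq_one (congrArg Subtype.val hxp)))).symm
    intro x y hx hxp hy
    by_cases hy1 : y = 1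
    · rw [hy1]; exact one_mem _
    have : (y : F) ∈ zpowers (x : F) := by rw [key x hx hxp, ← key y hy1 hy]; exact mem_zpowers _
    obtain ⟨k, hk⟩ := this
    exact ⟨k, Subtype.ext (by simpa using hk)⟩
  have hker : (MulAut.conjNormal : F →* MulAut N).ker = C := by
    ext x
    rw [MonoidHom.mem_ker, hCdef, mem_centralizer_iff]
    constructor
    · intro h y hy
      have := congrArg Subtype.val (DFunLike.congr_fun h ⟨y, hy⟩)
      simp only [MulAut.conjNormal_apply, MulAut.one_apply] at this
      exact (mul_inv_eq_iff_eq_mul.1 this).symm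
    · intro h
      ext ⟨y, hy⟩
      simp [← h y hy]
  have hidx : C.index ∣ p - 1 := by
    rw [← hker, index_ker, ← Nat.totient_prime hp, ← IsCyclic.card_mulAut]
    exact card_subgroup_dvd_card _
  rcases hU.isCyclic_or_quaternion hCp with h | ⟨h2, n, hn, ⟨e⟩⟩
  · left
    refine ⟨hHe, hp, h, ?_, ?_, hidx⟩
    · obtain ⟨k, hk⟩ := IsPGroup.iff_card.1 hCp
      refine ⟨k, Nat.pos_of_ne_zero ?_, hk⟩
      rintro rfl
      exact hC (card_eq_one.1 hk)
    · have h1 : IsCyclic (ZMod p)ˣ := ZMod.isCyclic_units_prime hp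
      have h2 : IsCyclic (MulAut N) := isCyclic_of_surjective _ (IsCyclic.mulAutMulEquiv N).symm.surjective
      obtain ⟨⟨_, g, rfl⟩, hg⟩ := IsCyclic.exists_generator (α := (MulAut.conjNormal : F →* MulAut N).range)
      refine ⟨g, eq_top_iff.2 fun x _ => ?_⟩
      obtain ⟨k, hk⟩ := hg ⟨_, x, rfl⟩
      have hk' : MulAut.conjNormal (g ^ k) = (MulAut.conjNormal x : MulAut N) := by
        rw [map_zpow]; exact congrArg Subtype.val hk
      have : x * (g ^ k)⁻¹ ∈ C := by
        rw [← hker, MonoidHom.mem_ker, map_mul, map_inv, hk', mul_inv_cancel]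
      simpa using mul_mem_sup this (zpow_mem (mem_zpowers g) k)
  · right
    have hT : C = ⊤ := index_eq_one.1 (by rw [h2] at hidx; simpa using hidx)
    exact ⟨hHe, h2, hT, n, hn, ⟨(topEquiv.symm.trans (MulEquiv.subgroupCongr hT.symm)).trans e⟩⟩

end Cfsg.Agent.S3025
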