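import Cfsg.Statements.S3027
import Cfsg.Agent.L0.Components
-- import your own Cfsg.Agent.* helpers here

set_option autoImplicit false
open Cfsg

namespace Cfsg.Agent.S3027

open Subgroup Cfsg.L0

theorem comm_sup {G : Type*} [Group G] {D : Subgroup G} [D.Normal]
    (hperf : ⁅(⊤ : Subgroup G), (⊤ : Subgroup G)⁆ ⊔ D = ⊤) {X Y : Subgroup G}
    (hX : X ⊔ D = ⊤) (hY : Y ⊔ D = ⊤) : ⁅X, Y⁆ ⊔ D = ⊤ := by
  have key : ∀ Z : Subgroup G, Z ⊔ D = ⊤ ↔ Z.map (QuotientGroup.mk' D) = ⊤ := by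
    intro Z
    constructor
    · intro h
      have := congrArg (Subgroup.map (QuotientGroup.mk' D)) h
      rwa [Subgroup.map_sup, QuotientGroup.map_mk'_self, sup_bot_eq,
        map_top_of_surjective _ (QuotientGroup.mk'_surjective D)] at this
    · intro h
      have := congrArg (Subgroup.comap (QuotientGroup.mk' D)) h
      rwa [comap_map_eq, QuotientGroup.ker_mk', comap_top] at this
  rw [key] at *
  rw [map_commutator, map_top_of_surjective _ (QuotientGroup.mk'_surjective D)] at hperf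
  rw [map_commutator, hX, hY, hperf]

theorem inf_sup1 {G : Type*} [Group G] {D : Subgroup G} [D.Normal]
    (hperf : ⁅(⊤ : Subgroup G), (⊤ : Subgroup G)⁆ ⊔ D = ⊤) {X L Y : Subgroup G} (h : SN X L)
    (hX : X ⊔ D = ⊤) (hY : Y ⊔ D = ⊤) (hYL : Y ≤ L) (hn : L ≤ normalizer (Y : Set G)) :
    (X ⊓ Y) ⊔ D = ⊤ := by
  induction h generalizing Y with
  | refl => rwa [inf_eq_right.2 hYL]
  | @step K L h0 h1 h2 ih =>
    have hK : K ⊔ D = ⊤ := top_le_iff.1 (hX.ge.trans (sup_le_sup_right h0.le D))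
    have h3 : (K ⊓ Y) ⊔ D = ⊤ := top_le_iff.1 ((comm_sup hperf hK hY).ge.trans (sup_le_sup_right
      (commutator_le_inf_of_normalizes (h1.trans hn) (hYL.trans h2)) D))
    have := ih h3 inf_le_left (le_normalizer_inf le_normalizer (h1.trans hn))
    rwa [← inf_assoc, inf_eq_left.2 h0.le] at this

theorem inf_sup2 {G : Type*} [Group G] {D : Subgroup G} [D.Normal]
    (hperf : ⁅(⊤ : Subgroup G), (⊤ : Subgroup G)⁆ ⊔ D = ⊤) {X L Y : Subgroup G} (h : SN Y L)
    (hX : X ⊔ D = ⊤) (hY : Y ⊔ D = ⊤) (hXL : SN X L) :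
    (X ⊓ Y) ⊔ D = ⊤ := by
  induction h generalizing X with
  | refl => rwa [inf_eq_left.2 hXL.le]
  | @step K L h0 h1 h2 ih =>
    have hK : K ⊔ D = ⊤ := top_le_iff.1 (hY.ge.trans (sup_le_sup_right h0.le D))
    have h3 := inf_sup1 hperf hXL hX hK h1 h2
    have h4 : SN (X ⊓ K) K := by
      have := hXL.inf_right K
      rwa [inf_eq_right.2 h1] at this
    have := ih h3 h4
    rwa [inf_assoc, inf_eq_right.2 h0.le] at this


/-- Let G be a finite group and D a normal subgroup of G such that G/D is perfect (that is, G = G′D). Then among the subnormal subgroups B of G with BD = G there is a least one, and it is normal in G. -/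
theorem result {G : Type*} [Group G] [Finite G] (D : Subgroup G) [D.Normal] (hperf : ⁅(⊤ : Subgroup G), (⊤ : Subgroup G)⁆ ⊔ D = ⊤) :
    ∃ B : Subgroup G, B.Normal ∧ B ⊔ D = ⊤ ∧ ∀ B' : Subgroup G, B'.IsSubnormal → B' ⊔ D = ⊤ → B ≤ B' := by
  obtain ⟨B, hB, hmin⟩ := Set.Finite.exists_minimal (s := {B : Subgroup G | SN B ⊤ ∧ B ⊔ D = ⊤})
    (Set.toFinite _) ⟨⊤, SN.refl, top_sup_eq _⟩
  have key : ∀ B' : Subgroup G, SN B' ⊤ → B' ⊔ D = ⊤ → B ≤ B' := fun B' h1 h2 =>
    (hmin ⟨hB.1.inf h1, inf_sup2 hperf h1 hB.2 h2 hB.1⟩ inf_le_left).trans inf_le_right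
  refine ⟨B, normal_of_top_le fun g _ => ?_, hB.2, fun B' h1 h2 => key B' (sn_top_iff.2 h1) h2⟩
  refine mem_normalizer_of_cj_le ((cj_le_iff g).2 (key _ (hB.1.cj_of_mem (le_normalizer (mem_top _))) ?_))
  rw [← cj_eq_of_normal g⁻¹ D, ← cj_sup, hB.2, cj_top]

end Cfsg.Agent.S3027
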