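import Cfsg.Statements.S3032
import Cfsg.Agent.H1.Tate

set_option autoImplicit false
set_option linter.style.haveILetI false
set_option linter.unusedVariables false
open Cfsg

namespace Cfsg.Agent.S3032

open Subgroup Cfsg.H1
open scoped commutatorElement Pointwise

universe u

variable {G : Type*} [Group G]

/-- all subgroups of some fixed order are strongly closed -/
def SCd (P : Subgroup G) : Prop :=
  ∃ d : ℕ, 1 < d ∧ d < Nat.card P ∧ d ∣ Nat.card P ∧
    ∀ F : Subgroup G, F ≤ P → (Nat.card F = d ∨ (d = 2 ∧ Nat.card F = 4)) → IsStronglyClosed F P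

theorem SCd.subgroupOf {P E : Subgroup G} (h : SCd P) (hE : P ≤ E) : SCd (P.subgroupOf E) := by
  obtain ⟨d, h1, h2, h3, h4⟩ := h
  rw [← card_subgroupOf_of_le hE] at h2 h3
  refine ⟨d, h1, h2, h3, fun F hF hFd => ⟨hF, fun x hx g hg => ?_⟩⟩
  obtain ⟨y, hy, e⟩ := (h4 _ (map_le_iff_le_comap.mpr hF) (by rwa [card_map_subtype])).2 x
    ⟨x, hx, rfl⟩ g hg
  rwa [← show y = g * x * g⁻¹ from Subtype.ext e]

theorem SCd.map [Finite G] {p : ℕ} [hp : Fact p.Prime] {P N : Subgroup G} [N.Normal] (h : SCd P)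
    (hP : IsPGroup p P) (hN : ¬ p ∣ Nat.card N) : SCd (P.map (QuotientGroup.mk' N)) := by
  obtain ⟨d, h1, h2, h3, h4⟩ := h
  have hd : N ⊓ P = ⊥ := by
    rw [inf_comm]
    exact H7.inf_eq_bot_of_isPGroup_of_coprime hP ((Nat.Prime.coprime_iff_not_dvd hp.out).mpr hN).symm
  have hc : ∀ F : Subgroup G, F ≤ P → Nat.card (F.map (QuotientGroup.mk' N)) = Nat.card F :=
    fun F hF => by
      have := card_map_mk'_mul N F
      rwa [le_bot_iff.mp ((inf_le_inf_left N hF).trans hd.le), card_bot, one_mul] at this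
  rw [← hc P le_rfl] at h2 h3
  refine ⟨d, h1, h2, h3, fun F hF hFd => ⟨hF, fun x hx g hg => ?_⟩⟩
  have e : (P ⊓ F.comap (QuotientGroup.mk' N)).map (QuotientGroup.mk' N) = F := by
    refine le_antisymm (map_le_iff_le_comap.mpr inf_le_right) fun y hy => ?_
    obtain ⟨x, hx, rfl⟩ := hF hy
    exact ⟨x, ⟨hx, hy⟩, rfl⟩
  have h5 := h4 _ inf_le_left (by rwa [← hc _ inf_le_left, e])
  obtain ⟨x, hxP, rfl⟩ := hF hx
  obtain ⟨g, rfl⟩ := QuotientGroup.mk'_surjective N g
  rw [← map_inv, ← map_mul, ← map_mul] at hg ⊢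
  have h6 : H8.IsSyl p P (P ⊔ N) := ⟨le_sup_left, hP, fun h => hN (h.trans (by
    have := (perm_of_le_normalizer (X := P) (Y := N)
      le_normalizer_of_normal).fac_subgroupOf.index_dvd_card
    rwa [card_subgroupOf_of_le le_sup_right] at this))⟩
  rw [← mem_comap, comap_map_mk'] at hg
  obtain ⟨k, hk, hk'⟩ := h6.exists_conj_mem hg (by
    obtain ⟨k, hk⟩ := H8.isPGroup_iff_forall.mp hP x hxP
    exact ⟨k, by rw [conj_pow, hk, mul_one, mul_inv_cancel]⟩)
  obtain ⟨a, ha, n, hn, rfl⟩ := mem_sup_normal_right.mp hk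
  have h7 := h5.2 x ⟨hxP, hx⟩ (n * g) (by
    simpa [mul_assoc] using P.mul_mem (P.mul_mem (P.inv_mem ha) hk') ha)
  have h8 := mem_comap.mp h7.2
  simpa [(QuotientGroup.eq_one_iff n).mpr hn] using h8

theorem npc_of_hyp [Finite G] {p : ℕ} [hp : Fact p.Prime] {P E : Subgroup G}
    (hmin : ∀ q : ℕ, q.Prime → q ∣ Nat.card E → p ≤ q) (hP : H8.IsSyl p P E)
    (h : ¬ IsCyclic P → SCd P) : H8.NPC p E := by
  refine H8.npc_top_iff'.mp ?_
  by_cases hc : IsCyclic P
  · haveI : IsCyclic (P.subgroupOf E) := (subgroupOfEquivOfLe hP.le).isCyclic.mpr hc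
    exact npc_of_isCyclic hmin hP.subgroupOf_top
  · obtain ⟨d, h1, h2, h3, h4⟩ := (h hc).subgroupOf hP.le
    exact npc_of_stronglyClosed hmin hP.subgroupOf_top h1 h2 h3 h4

theorem tower [Finite G] {p : ℕ} [hp : Fact p.Prime] {P : Subgroup G} (E : Subgroup G)
    (h : ∀ (q : ℕ) [Fact q.Prime] (Q : Subgroup G), H8.IsSyl q Q E → ¬ IsCyclic Q → SCd Q)
    (hmax : ∀ q : ℕ, q.Prime → q ∣ Nat.card E → q ≤ p) (hP : H8.IsSyl p P E) :
    normalizer (E : Set G) ≤ normalizer (P : Set G) := by
  induction E using WellFoundedLT.induction with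
  | ind E ih =>
    by_cases hE : IsPGroup p E
    · rw [hP.eq_of_le hE hP.le le_rfl]
    have h0 : Nat.card E ≠ 1 := fun e => hE (IsPGroup.of_card (n := 0) e)
    have hq := Nat.minFac_prime h0
    haveI := Fact.mk hq
    have hqp : (Nat.card E).minFac ≠ p := fun e => hE (isPiSubgroup_singleton_iff.mp
      fun r hr hd => le_antisymm (hmax r hr hd) (e ▸ Nat.minFac_le_of_dvd hr.two_le hd))
    obtain ⟨Q, hQ⟩ := H8.exists_isSyl (p := (Nat.card E).minFac) E
    have h1 := npc_of_hyp (fun r hr hd => Nat.minFac_le_of_dvd hr.two_le hd) hQ (h _ Q hQ)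
    have h2 := isPiHallOf_pResidualOf h1
    refine (H7.normalizer_le_normalizer_pResidualOf _ E).trans (ih _
      (h2.1.lt_of_ne (h1.pResidualOf_ne (Nat.minFac_dvd _))) (fun r hr R hR hc => ?_)
      (fun r hr hd => hmax r hr (hd.trans (card_dvd_of_le h2.1))) (hP.mono ?_ h2.1))
    · by_cases hrq : r = (Nat.card E).minFac
      · exfalso
        rw [hR.eq_bot fun hd => h2.2.1 r hr.out hd hrq] at hc
        exact hc inferInstance
      · exact h r R (hR.trans h2.1 (h2.2.2 r hr.out hrq)) hc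
    · exact H7.le_pResidualOf_of_coprime ((Nat.Prime.coprime_iff_not_dvd hq).mpr
        (not_dvd_card_of_isPGroup_of_ne hqp hP.isPGroup)).symm hP.le

theorem super_of_pow_mem {G : Type u} [Group G] [Finite G] {p : ℕ} [hp : Fact p.Prime]
    {P : Subgroup G} [P.Normal] (hP : IsPGroup p P) (hG : IsSupersolvable (G ⧸ P))
    (h : ∀ x ∈ Xp p G, ∃ k, x ^ p ^ k ∈ centralizer (P : Set G)) : IsSupersolvable G := by
  induction hn : Nat.card G using Nat.strong_induction_on generalizing G with
  | _ n ih =>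
    subst hn
    by_cases h0 : P = ⊥
    · subst h0
      exact isSupersolvable_of_mulEquiv hG QuotientGroup.quotientBot
    obtain ⟨N, hN, hNP⟩ := exists_isMinNormal_le ‹P.Normal› h0
    haveI := hN.normal
    have h1 := Xp_le_iff.mp (hN.le_centralizer_of_pow_mem (hP.to_le hNP) (X := Xp p G)
      fun x hx => (h x hx).imp fun k hk => centralizer_le hNP hk)
    haveI := isCyclic_of_card_prime (H := N)
      (hN.card_eq_prime (hP.to_le hNP) h1.1 h1.2 ▸ hp.out)
    haveI := normal_map_mk' N ‹P.Normal›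
    refine isSupersolvable_of_quotient_isCyclic N (ih _ (card_quotient_lt hN.ne_bot)
      (hP.map (QuotientGroup.mk' N)) (isSupersolvable_of_mulEquiv hG
        (QuotientGroup.quotientQuotientEquivQuotient N P hNP).symm) (fun x hx => ?_) rfl)
    rw [← map_Xp p (QuotientGroup.mk'_surjective N)] at hx
    obtain ⟨x, hx, rfl⟩ := hx
    obtain ⟨k, hk⟩ := h x hx
    exact ⟨k, map_centralizer_le_centralizer_image _ _ ⟨_, hk, map_pow _ _ _⟩⟩

theorem main {G : Type u} [Group G] [Finite G] (E : Subgroup G) [E.Normal]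
    (hG : IsSupersolvable (G ⧸ E))
    (h : ∀ (q : ℕ) [Fact q.Prime] (Q : Subgroup G), H8.IsSyl q Q E → ¬ IsCyclic Q → SCd Q) :
    IsSupersolvable G := by
  induction hn : Nat.card G using Nat.strong_induction_on generalizing G with
  | _ n ih =>
    subst hn
    by_cases h0 : E = ⊥
    · subst h0
      exact isSupersolvable_of_mulEquiv hG QuotientGroup.quotientBot
    haveI := (nontrivial_iff_ne_bot E).mpr h0
    obtain ⟨p, hp, hd, hmax⟩ := exists_max_prime E
    haveI := Fact.mk hp
    obtain ⟨P, hP⟩ := H8.exists_isSyl (p := p) E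
    haveI : P.Normal := normalizer_eq_top_iff.mp (top_le_iff.mp
      (le_normalizer_of_normal.trans (tower E h hmax hP)))
    haveI := normal_map_mk' P ‹E.Normal›
    have h1 := ih _ (card_quotient_lt (hP.ne_bot hd)) (E.map (QuotientGroup.mk' P))
      (isSupersolvable_of_mulEquiv hG
        (QuotientGroup.quotientQuotientEquivQuotient P E hP.le).symm) (fun q hq Q hQ hc => by
          obtain ⟨R, hR, rfl⟩ := hQ.exists_map_eq
          by_cases hqp : q = p
          · subst hqp
            exfalso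
            rw [(map_mk'_eq_bot_iff P R).mpr
              (hP.le_of_le_normalizer hR.isPGroup hR.le le_normalizer_of_normal)] at hc
            exact hc inferInstance
          · exact (h q R hR fun _ => hc (isCyclic_of_surjective _
              (MonoidHom.subgroupMap_surjective _ R))).map hR.isPGroup
              (not_dvd_card_of_isPGroup_of_ne hqp hP.isPGroup)) rfl
    by_cases hc : IsCyclic P
    · exact isSupersolvable_of_quotient_isCyclic P h1
    obtain ⟨d, h2, h3, h4, h5⟩ := h p P hP hc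
    refine super_of_pow_mem hP.isPGroup h1 fun x hx => ?_
    obtain ⟨k, hk⟩ := H8.exists_pow_coprime p x
    exact ⟨k, mem_centralizer_of_card_normal hP.isPGroup h2 h3 h4 (fun F hF hFd =>
      ⟨fun y hy g => (h5 F hF hFd).2 y hy g (Normal.conj_mem ‹_› y (hF hy) g)⟩) (pow_mem hx _) hk⟩

/-- Let G be a finite group and E a normal subgroup with G/E supersolvable. Suppose that for every prime p and every non-cyclic Sylow p-subgroup P of E there is a subgroup D of P with 1 < |D| < |P| such that every subgroup F of P of order |D|, and also every subgroup F of P of order 4 when |D| = 2, satisfies g F g⁻¹ ∩ N_G(F) ≤ F for all g ∈ G. Then G is supersolvable. -/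
theorem result {G : Type*} [Group G] [Finite G] (E : Subgroup G) [E.Normal] (hGE : Cfsg.IsSupersolvable (G ⧸ E))
    (h : ∀ (p : ℕ), p.Prime → ∀ P : Subgroup G, P ≤ E → IsPGroup p P → ¬ p ∣ P.relIndex E → ¬ IsCyclic ↥P →
      ∃ D : Subgroup G, D ≤ P ∧ 1 < Nat.card D ∧ Nat.card D < Nat.card P ∧
        ∀ F : Subgroup G, F ≤ P → (Nat.card F = Nat.card D ∨ (Nat.card D = 2 ∧ Nat.card F = 4)) →
          ∀ g : G, F.map (MulAut.conj g).toMonoidHom ⊓ Subgroup.normalizer (F : Set G) ≤ F) :
    Cfsg.IsSupersolvable G := by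
  refine main E hGE fun q hq Q hQ hc => ?_
  obtain ⟨D, hD, h1, h2, h3⟩ := h q hq.out Q hQ.le hQ.isPGroup hQ.not_dvd hc
  exact ⟨_, h1, h2, card_dvd_of_le hD, fun F hF hFd =>
    isStronglyClosed_of_inf_normalizer_le hQ.isPGroup hF (h3 F hF hFd)⟩

end Cfsg.Agent.S3032
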