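import Cfsg.Statements.S3035
import Cfsg.Agent.H4.Dih8c

set_option autoImplicit false
open Cfsg

namespace Cfsg.Agent.S3035

/-- Let G be a finite group with an involution z whose centralizer is dihedral of order 8. Then G = C_G(z) O(G) with O(G) the largest normal subgroup of odd order, or G is isomorphic to the symmetric group of degree 4, the symmetric group of degree 5, the group SL₃(2), or the alternating group of degree 6. -/
theorem result {G : Type*} [Group G] [Finite G] (z : G) (hz : orderOf z = 2)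
    (hC : Nonempty (↥(Subgroup.centralizer ({z} : Set G)) ≃* DihedralGroup 4)) :
    Subgroup.centralizer ({z} : Set G) ⊔ Cfsg.oddCore G = ⊤ ∨ Nonempty (G ≃* Equiv.Perm (Fin 4)) ∨ Nonempty (G ≃* Equiv.Perm (Fin 5)) ∨
      Nonempty (G ≃* Matrix.SpecialLinearGroup (Fin 3) (ZMod 2)) ∨ Nonempty (G ≃* ↥(alternatingGroup (Fin 6))) := by
  obtain ⟨e⟩ := hC
  obtain ⟨f, h, rfl⟩ := H4.exists_d8 hz e
  by_cases hb : IsConj (f (.r 2)) (f (.sr 0)) <;> by_cases hc : IsConj (f (.r 2)) (f (.sr 1))
  · exact Or.inr (Or.inr (Or.inr (h.case_one_class hb hc)))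
  · rcases h.case_two_classes hb hc with h1 | h1
    · exact Or.inr (Or.inl h1)
    · exact Or.inr (Or.inr (Or.inl h1))
  · rcases h.swap.case_two_classes hc hb with h1 | h1
    · exact Or.inr (Or.inl h1)
    · exact Or.inr (Or.inr (Or.inl h1))
  · left
    rw [eq_top_iff, h.cen_eq]
    intro g hg
    obtain ⟨a, ha, b, hb', rfl⟩ := h.isSyl.exists_mul_of_forall (N := Cfsg.oddCore G)
      Subgroup.le_normalizer_of_normal
      (fun x _ => (h.case_isolated hb hc).exists_pow_mem_pPrimeCore x) hg
    exact mul_mem (Subgroup.mem_sup_right ha) (Subgroup.mem_sup_left hb')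

end Cfsg.Agent.S3035
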