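import Cfsg.Statements.S3049
import Cfsg.Agent.H8.Up
import Cfsg.Agent.L0.Components

set_option autoImplicit false
open Cfsg

namespace Cfsg.Agent.S3049

open Subgroup Cfsg.L0 Cfsg.H8
open scoped commutatorElement


/-- Let G be a finite group and p an odd prime with O_{p'}(G) = 1. Suppose that G has p-rank at most 2 (no elementary abelian subgroup of order p³) and that some element x of order p is isolated in G (no G-conjugate of x other than x commutes with x) and not central. Then the generalized Fitting subgroup F*(G) is a non-abelian simple group. Since O_{p'}(G) = 1, such an x is not central modulo O_{p'}(G): the hypotheses describe a counterexample to the Z*_p statement in p-rank at most 2. -/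
theorem result {G : Type*} [Group G] [Finite G] {p : ℕ} [Fact p.Prime] (hp : p ≠ 2) (hcore : Cfsg.pPrimeCore p G = ⊥)
    (hrank : Cfsg.PRankLE p 2 G) (x : G) (hx : orderOf x = p) (hiso : Cfsg.IsIsolated x) (hnc : x ∉ Subgroup.center G) :
    IsSimpleGroup ↥(Cfsg.generalizedFittingSubgroup G) ∧ ¬ IsMulCommutative ↥(Cfsg.generalizedFittingSubgroup G) := by
  have hxp : ∃ k, x ^ p ^ k = 1 := ⟨1, by rw [pow_one, ← hx, pow_orderOf_eq_one]⟩
  have hxp1 : x ^ p = 1 := by rw [← hx, pow_orderOf_eq_one]
  have hF : fittingSubgroup G ≤ pCore p G := by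
    simpa [hcore] using fitting_le_pCore_sup_pPrimeCore (G := G) p
  obtain ⟨P, hP, hxP⟩ := exists_isSyl_ge (H := ⊤) (H7.isPGroup_zpowers hxp) le_top
  have hxP : x ∈ P := hxP (mem_zpowers x)
  have hPx : P ≤ centralizer {x} := iso_le_centralizer hiso hP.isPGroup hxP
  have hOP : pCore p G ≤ P := hP.le_of_normalizes (H7.isPGroup_pCore _ _) le_top le_normalizer_of_normal
  have hxO : x ∉ pCore p G := fun h => hnc (mem_center_iff.2 fun g => mem_centralizer_singleton_iff.1
    (iso_normalizer_le hiso (H7.isPGroup_pCore _ _) h (le_normalizer_of_normal (mem_top g))))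
  have hdvd : ∀ {K : Subgroup G}, IsComponent K → p ∣ Nat.card K := fun {K} hK => by
    by_contra h
    exact (IsComponent.qs hK).ne_bot (le_bot_iff.1 (hcore ▸ le_pPrimeCore_of_isSubnormal hK.1
      ((Nat.Prime.coprime_iff_not_dvd Fact.out).2 h).symm))
  have hnpc : ∀ {K : Subgroup G}, IsComponent K → ¬ NPC p K := fun {K} hK h =>
    h.not_dvd_of_perfect (IsComponent.qs hK).perfect (hdvd hK)
  have hPK : ∀ {K : Subgroup G}, IsComponent K → IsSyl p (P ⊓ K) K := fun hK =>
    hP.inf_sn (sn_top_iff.2 hK.1)
  obtain ⟨K, hK, hKx⟩ : ∃ K : Subgroup G, IsComponent K ∧ x ∉ centralizer (K : Set G) := by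
    by_contra h
    push Not at h
    refine hxO (hF (centralizer_fstar_le_fitting G ?_))
    rw [generalizedFittingSubgroup, H7.centralizer_sup]
    refine mem_inf.2 ⟨?_, fun y hy => mem_centralizer_singleton_iff.1 (hPx (hOP (hF hy)))⟩
    rw [← zpowers_le, le_centralizer_iff]
    exact sSup_le fun K hK => le_centralizer_iff.1 (zpowers_le.2 (h K hK))
  have hxK : x ∈ normalizer (K : Set G) := by
    rcases component_eq_or_comm (isComponent_cj hK x) hK with h | h
    · exact cj_eq_iff.1 h
    · refine absurd (burnside_npc (hPK hK) (inf_le_left.trans (le_centralizer_iff.1 ?_))) (hnpc hK)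
      refine le_trans (fun y hy => mem_cj.2 ?_) (commutator_eq_bot_iff_le_centralizer.1 h)
      rw [mul_assoc, mem_centralizer_singleton_iff.1 (hPx hy.1), inv_mul_cancel_left]
      exact hy.2
  have key : ∀ Y : Subgroup G, Y ≤ P → Y ≤ centralizer (K : Set G) → Y = ⊥ := fun Y hYP hYK => by
    by_contra hY
    obtain ⟨y, hy, hyo⟩ := exists_orderOf_eq_of_dvd_card (dvd_card_of_ne_bot (hP.isPGroup.to_le hYP) hY)
    have hyp : y ^ p = 1 := by rw [← hyo, pow_orderOf_eq_one]
    have hxy : Commute y x := mem_centralizer_singleton_iff.1 (hPx (hYP hy))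
    have hc : K ⊔ zpowers x ⊔ zpowers y ≤ centralizer (zpowers y : Set G) := by
      rw [le_centralizer_iff, zpowers_le, H7.centralizer_sup, H7.centralizer_sup]
      refine mem_inf.2 ⟨mem_inf.2 ⟨hYK hy, ?_⟩, ?_⟩ <;> rw [zpowers_eq_closure, centralizer_closure,
        mem_centralizer_singleton_iff]
      exact hxy
    refine hnpc hK ((npc_of_isolated hp (H := K ⊔ zpowers x ⊔ zpowers y) (Z := zpowers y)
      (mem_sup_left (mem_sup_right (mem_zpowers x))) hxp hiso hc le_sup_right
      (isPGroup_zpowers (k := 1) (by rwa [pow_one])) fun w hw hwp hxw => ?_).mono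
      (le_sup_left.trans le_sup_left))
    · by_cases hwy : Commute w y
      · have hE := sup_zpowers_ea hxy hyp hxp1
        have h1 := ea_sup_zpowers (y := w) hE (by
          rw [H7.centralizer_sup]
          refine mem_inf.2 ⟨?_, ?_⟩ <;> rw [zpowers_eq_closure, centralizer_closure,
            mem_centralizer_singleton_iff]
          exacts [hwy, hxw.symm]) hwp
        refine mem_of_card_sup_zpowers_le ((hrank _ h1.1 h1.2).trans (le_of_eq ?_))
        have h2 := card_sup_mul_card_inf (H := zpowers y) (N := zpowers x)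
          (zpowers_le.2 (centralizer_le_normalizer _ (by
            rw [zpowers_eq_closure, centralizer_closure, mem_centralizer_singleton_iff]; exact hxy)))
        have h3 : zpowers y ⊓ zpowers x = ⊥ := by
          have : Fact (Nat.card (zpowers x)).Prime := ⟨by rw [Nat.card_zpowers, hx]; exact Fact.out⟩
          rcases (zpowers y).subgroupOf (zpowers x) |>.eq_bot_or_eq_top_of_prime_card with h | h
          · rwa [subgroupOf_eq_bot, disjoint_iff] at h
          · exact absurd (zpowers_le.2 (hYK hy) (subgroupOf_eq_top.1 h (mem_zpowers x))) hKx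
        rw [h3, card_bot, mul_one, Nat.card_zpowers, Nat.card_zpowers, hx, hyo] at h2
        rw [h2, sq]
      · exact absurd (hc hw y (mem_zpowers y)).symm hwy
  have hO : pCore p G = ⊥ := key _ hOP (commutator_eq_bot_iff_le_centralizer.1
    (component_comm_of_isSolvable hK (Normal.isSubnormal inferInstance)
      (H9.isSolvable_of_isPGroup (H7.isPGroup_pCore _ _))))
  have hFb : fittingSubgroup G = ⊥ := le_bot_iff.1 (hO ▸ hF)
  have hE : generalizedFittingSubgroup G = K := by
    rw [generalizedFittingSubgroup, hFb, sup_bot_eq]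
    refine le_antisymm (sSup_le fun L hL => ?_) (component_le_layer hK)
    rcases component_eq_or_comm hL hK with h | h
    · exact h.le
    · exact absurd (key _ inf_le_left (inf_le_right.trans (commutator_eq_bot_iff_le_centralizer.1 h)))
        ((hPK hL).ne_bot (hdvd hL))
  rw [hE]
  exact ⟨(IsComponent.qs hK).isSimpleGroup (le_bot_iff.1 (hFb ▸ inf_centralizer_le_fitting hK.1)),
    (IsComponent.qs hK).not_isMulCommutative⟩

end Cfsg.Agent.S3049
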