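import Cfsg.Statements.S3038
import Cfsg.Agent.H4.RK3
import Cfsg.Agent.S3049

set_option autoImplicit false
open Cfsg

namespace Cfsg.Agent.S3038

open Subgroup Cfsg.L0 Cfsg.H8 Cfsg.FT Cfsg.RK2

/-- Let G be a finite group and p an odd prime with O_{p'}(G) = 1. Suppose that G has p-rank at most 2 and that some element x of order p is isolated in G and not central. Then F*(G) is a non-abelian simple group, and for every Sylow p-subgroup P of F*(G), either no conjugate of x lies in P and P is cyclic, or some conjugate of x lies in P and either P is extraspecial of order p³ and exponent p, or p = 3 and P has order 3^{2k+1} for some k ≥ 2 and is of maximal class (nilpotency class 2k). Since O_{p'}(G) = 1, such an x is not central modulo O_{p'}(G): the hypotheses describe a counterexample to the Z*_p statement in p-rank at most 2, and the conclusion records the structure it would have. -/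
theorem result {G : Type*} [Group G] [Finite G] {p : ℕ} [Fact p.Prime] (hp : p ≠ 2) (hcore : Cfsg.pPrimeCore p G = ⊥)
    (hrank : Cfsg.PRankLE p 2 G) (x : G) (hx : orderOf x = p) (hiso : Cfsg.IsIsolated x) (hnc : x ∉ Subgroup.center G) :
    IsSimpleGroup ↥(Cfsg.generalizedFittingSubgroup G) ∧ ¬ IsMulCommutative ↥(Cfsg.generalizedFittingSubgroup G) ∧
    ∀ P : Sylow p ↥(Cfsg.generalizedFittingSubgroup G),
      ((∀ g : G, g * x * g⁻¹ ∉ ((P : Subgroup ↥(Cfsg.generalizedFittingSubgroup G)).map (Cfsg.generalizedFittingSubgroup G).subtype)) ∧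
          IsCyclic ↥(P : Subgroup ↥(Cfsg.generalizedFittingSubgroup G))) ∨
      ((∃ g : G, g * x * g⁻¹ ∈ ((P : Subgroup ↥(Cfsg.generalizedFittingSubgroup G)).map (Cfsg.generalizedFittingSubgroup G).subtype)) ∧
        ((Cfsg.IsExtraspecial p ↥(P : Subgroup ↥(Cfsg.generalizedFittingSubgroup G)) ∧
            Nat.card (P : Subgroup ↥(Cfsg.generalizedFittingSubgroup G)) = p ^ 3 ∧
            ∀ y ∈ (P : Subgroup ↥(Cfsg.generalizedFittingSubgroup G)), y ^ p = 1) ∨
         (p = 3 ∧ ∃ k : ℕ, 2 ≤ k ∧ Nat.card (P : Subgroup ↥(Cfsg.generalizedFittingSubgroup G)) = 3 ^ (2 * k + 1) ∧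
            ∃ _ : Group.IsNilpotent ↥(P : Subgroup ↥(Cfsg.generalizedFittingSubgroup G)),
              Group.nilpotencyClass ↥(P : Subgroup ↥(Cfsg.generalizedFittingSubgroup G)) = 2 * k))) := by
  obtain ⟨hs, hc⟩ := S3049.result hp hcore hrank x hx hiso hnc
  refine ⟨hs, hc, fun P => ?_⟩
  generalize generalizedFittingSubgroup G = K at hs hc P
  have hpp : p.Prime := Fact.out
  have ho : Odd p := hpp.odd_of_ne_two hp
  have hc1 : ∀ g : G, g * x * g⁻¹ ≠ 1 := fun g h => hnc (by rw [conj_eq_one_iff.1 h]; exact one_mem _)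
  have hcp : ∀ g : G, (g * x * g⁻¹) ^ p = 1 := fun g => by
    rw [conj_pow, ← hx, pow_orderOf_eq_one]; simp
  by_cases h : ∃ g : G, g * x * g⁻¹ ∈ (P : Subgroup K).map K.subtype
  · refine Or.inr ⟨h, ?_⟩
    obtain ⟨g, y, hy, e⟩ := h
    have hK : _root_.commutator K = ⊤ :=
      (hs.eq_bot_or_eq_top_of_normal _ inferInstance).resolve_left fun e =>
        hc ((commutator_eq_bot_iff K).1 e)
    have hr : PRankLE p 2 K := fun A h1 h2 => by
      have h3 := (Elem.map ⟨abel_iff.2 h1, h2⟩ K.subtype)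
      rw [Nat.card_congr (equivMapOfInjective A _ K.subtype_injective).toEquiv]
      exact hrank _ (abel_iff.1 h3.abel) h3.2
    have e' : (y : G) = g * x * g⁻¹ := e
    rcases core hpp ho hK (isSyl_sylow P) hr hy (fun h => hc1 g (by rw [← e', h]; rfl))
      (Subtype.ext (by rw [coe_pow, e', hcp g]; rfl))
      (isIsolated_subgroup (e' ▸ isIsolated_conj hiso g) y.2) with ⟨h1, h2, h3⟩ | ⟨h1, k, h2, h3, h4, h5⟩
    · exact Or.inl ⟨isES hpp h1 h2 h3, h2, h3⟩
    · have := nil_of_pgroup hpp P.isPGroup'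
      exact Or.inr ⟨h1, k, h2, h3, this, class_eq h4 h5⟩
  · push Not at h
    refine Or.inl ⟨h, ?_⟩
    have hP := (isSyl_map_subtype P).isPGroup
    obtain ⟨S, hS, hPS⟩ := exists_isSyl_ge (H := ⊤) hP le_top
    obtain ⟨g, -, hg⟩ := hS.exists_conj_mem (mem_top x) ⟨1, by rw [pow_one, ← hx, pow_orderOf_eq_one]⟩
    have h1 := iso_le_centralizer (isIsolated_conj hiso g) hS.isPGroup hg
    have h2 : Cyc ((P : Subgroup K).map K.subtype) := cyc_of_rk hpp ho hP (by
      by_contra h2
      obtain ⟨F, hF⟩ := exists_el (k := 2) hpp (not_le.1 h2)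
      have h3 := (hF.mono' hPS).sup_one hpp (el_zpowers hpp hg (hcp g) (hc1 g))
        (by rw [cent_zpowers]; exact (hF.le.trans hPS).trans h1)
        fun h3 => h g (hF.le (h3 (mem_zpowers _)))
      have h4 := hrank _ (abel_iff.1 h3.abel) h3.elem.2
      rw [h3.card, Nat.pow_le_pow_iff_right hpp.one_lt] at h4
      omega)
    exact (equivMapOfInjective _ _ K.subtype_injective).isCyclic.2 h2

end Cfsg.Agent.S3038
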