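import Cfsg.Statements.S3043
import Cfsg.Agent.GW.L2

set_option autoImplicit false
open Cfsg

namespace Cfsg.Agent.S3043

/-- Let M be a nontrivial subgroup of a finite group G meeting each of its other conjugates trivially, with N_G(M) = M · C_{N_G(M)}(z) for some involution z ∈ N_G(M), and with C_G(x) of odd order for every nontrivial x ∈ M. Then one of the following holds: M is normal in G; the number of involutions of G is at most |G : M|; G is isomorphic to PGL₂(F) or to PSL₂(F) for a finite field F with |F| = |M|, M is an elementary abelian p-group for the characteristic p of F, and |F| ≡ 1 (mod 4) in the PSL₂ case; G is isomorphic to PSL₂(F) with |F| = 2^e, e > 1, and M is cyclic of order 2^e + 1; or for some d ≥ 1, G has an elementary abelian normal subgroup of order 2^{2d} complemented by N_G(M), and N_G(M) is dihedral of order 2(2^d + 1). -/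
theorem result {G : Type*} [Group G] [Finite G] (M : Subgroup G) (hM1 : M ≠ ⊥)
    (hTI : ∀ g : G, M ⊓ M.map (MulAut.conj g).toMonoidHom ≠ ⊥ → M.map (MulAut.conj g).toMonoidHom = M)
    (z : G) (hz : orderOf z = 2) (hzN : z ∈ Subgroup.normalizer (M : Set G))
    (hfac : M ⊔ (Subgroup.normalizer (M : Set G) ⊓ Subgroup.centralizer ({z} : Set G)) = Subgroup.normalizer (M : Set G))
    (hodd : ∀ x ∈ M, x ≠ 1 → Odd (Nat.card ↥(Subgroup.centralizer ({x} : Set G)))) :
    M.Normal ∨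
    Nat.card {g : G // orderOf g = 2} ≤ M.index ∨
    (∃ (F : Type) (_ : Field F) (_ : Fintype F) (p : ℕ) (_ : Fact p.Prime) (_ : CharP F p), Fintype.card F = Nat.card M ∧ Cfsg.IsElementaryAbelian p M ∧
        (Nonempty (G ≃* (GL (Fin 2) F ⧸ Subgroup.center (GL (Fin 2) F))) ∨
         (Fintype.card F % 4 = 1 ∧ Nonempty (G ≃* Matrix.ProjectiveSpecialLinearGroup (Fin 2) F)))) ∨
    (∃ (F : Type) (_ : Field F) (_ : Fintype F) (e : ℕ), 1 < e ∧ Fintype.card F = 2 ^ e ∧ IsCyclic ↥M ∧ Nat.card M = 2 ^ e + 1 ∧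
        Nonempty (G ≃* Matrix.ProjectiveSpecialLinearGroup (Fin 2) F)) ∨
    (∃ (d : ℕ) (E : Subgroup G), 1 ≤ d ∧ E.Normal ∧ Cfsg.IsElementaryAbelian 2 E ∧ Nat.card E = 2 ^ (2 * d) ∧
        E ⊓ Subgroup.normalizer (M : Set G) = ⊥ ∧ E ⊔ Subgroup.normalizer (M : Set G) = ⊤ ∧
        Nonempty (↥(Subgroup.normalizer (M : Set G)) ≃* DihedralGroup (2 ^ d + 1))) := by
  open Subgroup FT GW in
  let e : Shrink.{0} G ≃* G := Shrink.mulEquiv.{0}
  have : Finite (Shrink.{0} G) := Finite.of_equiv G e.symm.toEquiv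
  let M' := M.comap e.toMonoidHom
  have mM : ∀ x, x ∈ M' ↔ e x ∈ M := fun _ => Iff.rfl
  have nM : 𝒩 M' = (𝒩 M).comap e.toMonoidHom :=
    (comap_normalizer_eq_of_surjective M e.surjective).symm
  have mN : ∀ x, x ∈ 𝒩 M' ↔ e x ∈ 𝒩 M := fun x => by rw [nM]; rfl
  have eqv : ∀ A : Subgroup (Shrink.{0} G), A ≃* A.map e.toMonoidHom := fun A =>
    A.equivMapOfInjective _ e.injective
  have mc : ∀ A : Subgroup G, (A.comap e.toMonoidHom).map e.toMonoidHom = A := fun A =>
    map_comap_eq_self_of_surjective e.surjective A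
  have cM : ♯M' = ♯M := by rw [Nat.card_congr (eqv M').toEquiv, mc]
  have L : LG0 M' (e.symm z) :=
    { ne := fun h => hM1 (by rw [← mc M]; exact (map_eq_bot_iff_of_injective _ e.injective).2 h)
      ti := fun g x hx x1 h => (mN g).2 (mem_norm_of_cj_le (hTI (e g) (ne_bot_of_mem
        (x := e (g * x * g⁻¹)) ⟨h, e x, hx, by simp⟩ (by simpa using x1))).le)
      zz := by rw [← map_mul, ← pow_two, ← hz, pow_orderOf_eq_one, map_one]
      z1 := fun h => by simp [e.symm.map_eq_one_iff.1 h] at hz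
      zn := (mN _).2 (by simpa using hzN)
      fac := fun g hg => by
        obtain ⟨a, ha, c, hc, h⟩ := (mem_sup_l inf_le_left).1 (hfac.ge ((mN g).1 hg))
        exact ⟨e.symm a, by simpa [mM] using ha, e.symm c, by
          rw [← map_mul, mem_cent1.1 hc.2, map_mul], by rw [← map_mul, h, e.symm_apply_apply]⟩
      fpf := fun w hw x hx h => or_iff_not_imp_right.2 fun x1 =>
        BS.eq_one_of_sq_of_odd (e.orderOf_eq w ▸ Odd.of_dvd_nat (hodd (e x) hx (by simpa using x1))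
          (orderOf_dvd (x := e w) (mem_cent1.2 (by rw [← map_mul, ← h, map_mul])))) hw }
  rcases L.large with h | h | ⟨F, _, _, p, _, _, h1, h2, h3⟩ | ⟨F, _, _, n, h1, h2, h3, h4, ⟨f⟩⟩ |
    ⟨d, E, h1, h2, h3, h4, h5, h6, ⟨f⟩⟩
  · exact Or.inl (mc M ▸ h.map _ e.surjective)
  · refine Or.inr (Or.inl ?_)
    rwa [index_comap_of_surjective _ e.surjective, Nat.card_congr (e.toEquiv.subtypeEquiv
      (q := fun g => orderOf g = 2) fun g => by simp)] at h
  · exact Or.inr (Or.inr (Or.inl ⟨F, _, _, p, ‹_›, ‹_›, h1.trans cM,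
      elem_iff.1 (mc M ▸ h2.map _), h3.imp (fun ⟨f⟩ => ⟨e.symm.trans f⟩)
        fun ⟨h, ⟨f⟩⟩ => ⟨h, ⟨e.symm.trans f⟩⟩⟩))
  · exact Or.inr (Or.inr (Or.inr (Or.inl ⟨F, _, _, n, h1, h2, mc M ▸ h3.map _, cM.symm.trans h4,
      ⟨e.symm.trans f⟩⟩)))
  · refine Or.inr (Or.inr (Or.inr (Or.inr ⟨d, E.map e.toMonoidHom, h1, h2.map _ e.surjective,
      elem_iff.1 (h3.map _), (Nat.card_congr (eqv E).toEquiv).symm.trans h4, ?_, ?_,
      ⟨(MulEquiv.subgroupCongr (by rw [nM, mc])).trans ((eqv _).symm.trans f)⟩⟩)))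
    · rw [← mc (𝒩 M), ← nM, ← map_inf _ _ _ e.injective, h5, Subgroup.map_bot]
    · rw [← mc (𝒩 M), ← nM, ← Subgroup.map_sup, h6, map_top_of_surjective _ e.surjective]

end Cfsg.Agent.S3043
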