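import Cfsg.Statements.S3044
import Cfsg.Agent.H7.Isol

set_option autoImplicit false
open Cfsg

namespace Cfsg.Agent.S3044

open Subgroup Cfsg.H7
open Cfsg.L0 (SN)
open scoped commutatorElement

/-- Let G be a finite group, p a prime, S a Sylow p-subgroup of G and P a p-minimal subgroup of G containing S (S is not normal in P and lies in exactly one maximal subgroup of P). Let L be the subgroup generated by N_G(S) and all p-minimal subgroups of G containing S other than P, and suppose P is isolated: O_p(L) is not contained in O_p(P). Put Y for the normal closure of O^p(P) in G. Then G = YL; P is again isolated in the subgroup YS (the subgroup L₀ generated by N_{YS}(S) and the p-minimal subgroups of YS containing S other than P has O_p(L₀) not contained in O_p(P)); and either Y = O^p(P), or p divides |Y/O_p(Y)|, Y/O_p(Y) is generated by its components (a central product of quasisimple groups), and S permutes these components transitively by conjugation. -/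
theorem result {G : Type*} [Group G] [Finite G] {p : ℕ} [Fact p.Prime] (S : Sylow p G) (P : Subgroup G) (hSP : (S : Subgroup G) ≤ P) (hPmin : Cfsg.IsPMinimal p ↥P)
    (L Y : Subgroup G)
    (hL : L = Subgroup.normalizer ((S : Subgroup G) : Set G) ⊔ ⨆ P' : {P' : Subgroup G // (S : Subgroup G) ≤ P' ∧ Cfsg.IsPMinimal p ↥P' ∧ P' ≠ P}, (P' : Subgroup G))
    (hiso : ¬ (Cfsg.pCore p ↥L).map L.subtype ≤ (Cfsg.pCore p ↥P).map P.subtype)
    (hY : Y = Subgroup.normalClosure (((Cfsg.pResidual p ↥P).map P.subtype : Subgroup G) : Set G)) :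
    Y ⊔ L = ⊤ ∧
    ¬ (Cfsg.pCore p ↥((Subgroup.normalizer ((S : Subgroup G) : Set G) ⊓ (Y ⊔ (S : Subgroup G))) ⊔
          ⨆ P' : {P' : Subgroup G // (S : Subgroup G) ≤ P' ∧ P' ≤ Y ⊔ (S : Subgroup G) ∧ Cfsg.IsPMinimal p ↥P' ∧ P' ≠ P}, (P' : Subgroup G))).map
        (Subgroup.subtype _) ≤ (Cfsg.pCore p ↥P).map P.subtype ∧
    ((Cfsg.pResidual p ↥P).map P.subtype = Y ∨
     ∃ _ : (Cfsg.pCore p ↥Y).Normal,
       p ∣ Nat.card (↥Y ⧸ Cfsg.pCore p ↥Y) ∧ Cfsg.layer (↥Y ⧸ Cfsg.pCore p ↥Y) = ⊤ ∧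
       ∀ K₁ K₂ : Subgroup (↥Y ⧸ Cfsg.pCore p ↥Y), Cfsg.IsComponent K₁ → Cfsg.IsComponent K₂ →
         ∃ s ∈ (S : Subgroup G), ((K₂.comap (QuotientGroup.mk' (Cfsg.pCore p ↥Y))).map Y.subtype) = (((K₁.comap (QuotientGroup.mk' (Cfsg.pCore p ↥Y))).map Y.subtype)).map (MulAut.conj s).toMonoidHom) := by
  have h := iso_of_isolated S hSP hPmin hL hiso
  rw [pResidualOf_def] at hY ⊢
  haveI hn : Y.Normal := hY ▸ normalClosure_normal
  have hRY : pResidualOf p P ≤ Y := hY ▸ le_normalClosure
  refine ⟨top_unique (h.gen.ge.trans (sup_le_sup_right hRY _)), fun h1 => hiso (le_trans ?_ h1), ?_⟩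
  · refine pCoreOf_le_pCoreOf_of_le (sup_le (inf_le_left.trans (hL ▸ le_sup_left))
      (iSup_le fun X => ?_)) (h.QS'.trans ((le_inf le_normalizer le_sup_right).trans le_sup_left))
    rw [hL]
    exact le_sup_of_le_right (le_iSup_of_le ⟨X, X.2.1, X.2.2.2⟩ le_rfl)
  have hs := QuotientGroup.mk'_surjective (pCore p G)
  have hO := pCore_quotient_pCore p G
  have hY' : Y.map (QuotientGroup.mk' (pCore p G)) =
      normalClosure ((pResidualOf p P).map (QuotientGroup.mk' (pCore p G)) : Set _) := by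
    rw [hY, map_normalClosure _ _ hs]; rfl
  by_cases hc : p ∣ Nat.card (Y.map (QuotientGroup.mk' (pCore p G)))
  swap
  · exact Or.inl (h.eq_of_map_eq hY
      (h.quot.of_coprime hO hY' ((Fact.out : p.Prime).coprime_iff_not_dvd.mpr hc).symm).1)
  obtain ⟨φ, h1, h2, h3⟩ := exists_quot_embedding p Y
  haveI : (Y.map (QuotientGroup.mk' (pCore p G))).Normal := hn.map _ hs
  have h4 : ∀ K : Subgroup (Y ⧸ pCore p Y), IsComponent K → IsComponent (K.map φ) ∧
      K.map φ ≤ normalClosure ((pResidualOf p P).map (QuotientGroup.mk' (pCore p G)) : Set _) :=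
    fun K hK => by
      have h5 := (L0.isComponent_iff.mp hK).1.map φ
      rw [h3] at h5
      exact ⟨L0.isComponent_iff.mpr ⟨h5.trans (SN.of_normal le_top le_normalizer_of_normal),
        (L0.IsComponent.qs hK).map_of_injective h1⟩, h5.le.trans hY'.le⟩
  have h5 : ∀ K : Subgroup (Y ⧸ pCore p Y), (K.comap (QuotientGroup.mk' _)).map Y.subtype =
      Y ⊓ (K.map φ).comap (QuotientGroup.mk' _) := fun K => by
    rw [inf_comm, ← subgroupOf_map_subtype, subgroupOf, comap_comap, ← h2, ← comap_comap,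
      comap_map_eq_self_of_injective h1]
  refine Or.inr ⟨inferInstance, ?_, ?_, fun K₁ K₂ h6 h7 => ?_⟩
  · rwa [← h3, card_map_of_injective h1, card_top] at hc
  · apply map_injective h1
    refine le_antisymm (map_mono le_top) (h3.le.trans ((h.quot.of_dvd hO hY' hc).2.trans
      (sSup_le fun K hK => ?_)))
    have h6 : (K.comap φ).map φ = K := map_comap_eq_self (by
      rw [MonoidHom.range_eq_map, h3]; exact hK.2)
    refine h6.ge.trans (map_mono (L0.component_le_layer ⟨?_, ?_⟩))
    · have h7 := (L0.sn_of_isSubnormal hK.1.1 le_top).comap φ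
      rwa [comap_top, L0.sn_top_iff] at h7
    · rw [L0.isQuasisimple_congr (equivMapOfInjective _ φ h1), h6]; exact hK.1.2
  · obtain ⟨_, ⟨s, hs, rfl⟩, h8⟩ := h.quot.trans_components hO (h4 K₁ h6).1 (h4 K₁ h6).2
      (h4 K₂ h7).1 (h4 K₂ h7).2
    refine ⟨s, hs, ?_⟩
    rw [map_conj_eq_cj, h5, h5, cj_inf, cj_eq_of_normal, cj_comap, h8]

end Cfsg.Agent.S3044
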