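import Cfsg.Statements.S3045
import Cfsg.Agent.H7.Isol

set_option autoImplicit false
open Cfsg

namespace Cfsg.Agent.S3045

open Subgroup Cfsg.H7
open Cfsg.L0 (SN)
open scoped commutatorElement

/-- Let G be a finite group, p a prime, S a Sylow p-subgroup of G and P a p-minimal subgroup of G containing S. Let L be the subgroup generated by N_G(S) and all p-minimal subgroups of G containing S other than P, and suppose O_p(L) is not contained in O_p(P). Put Y for the normal closure of O^p(P) in G. Then O^p(P) is contained in the preimage in G of F*(G/O_p(G)); and if Y is solvable, then Y = O^p(P) and Y/O_p(Y) is a t-group of nilpotency class at most 2 for some prime t ≠ p. -/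
theorem result {G : Type*} [Group G] [Finite G] {p : ℕ} [Fact p.Prime] (S : Sylow p G) (P : Subgroup G) (hSP : (S : Subgroup G) ≤ P) (hPmin : Cfsg.IsPMinimal p ↥P)
    (L Y : Subgroup G)
    (hL : L = Subgroup.normalizer ((S : Subgroup G) : Set G) ⊔ ⨆ P' : {P' : Subgroup G // (S : Subgroup G) ≤ P' ∧ Cfsg.IsPMinimal p ↥P' ∧ P' ≠ P}, (P' : Subgroup G))
    (hiso : ¬ (Cfsg.pCore p ↥L).map L.subtype ≤ (Cfsg.pCore p ↥P).map P.subtype)
    (hY : Y = Subgroup.normalClosure (((Cfsg.pResidual p ↥P).map P.subtype : Subgroup G) : Set G)) [hn : (Cfsg.pCore p G).Normal] :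
    (Cfsg.pResidual p ↥P).map P.subtype ≤ (Cfsg.generalizedFittingSubgroup (G ⧸ Cfsg.pCore p G)).comap (QuotientGroup.mk' (Cfsg.pCore p G)) ∧
    (Group.IsSolvable ↥Y → (Cfsg.pResidual p ↥P).map P.subtype = Y ∧
       ∃ _ : (Cfsg.pCore p ↥Y).Normal, ∃ t : ℕ, t.Prime ∧ t ≠ p ∧ IsPGroup t (↥Y ⧸ Cfsg.pCore p ↥Y) ∧
         ∃ _ : Group.IsNilpotent (↥Y ⧸ Cfsg.pCore p ↥Y), Group.nilpotencyClass (↥Y ⧸ Cfsg.pCore p ↥Y) ≤ 2) := by
  have h := iso_of_isolated S hSP hPmin hL hiso
  rw [pResidualOf_def] at hY ⊢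
  haveI hn : Y.Normal := hY ▸ normalClosure_normal
  have hs := QuotientGroup.mk'_surjective (pCore p G)
  have hO := pCore_quotient_pCore p G
  have hY' : Y.map (QuotientGroup.mk' (pCore p G)) =
      normalClosure ((pResidualOf p P).map (QuotientGroup.mk' (pCore p G)) : Set _) := by
    rw [hY, map_normalClosure _ _ hs]; rfl
  refine ⟨map_le_iff_le_comap.mp (h.quot.le_fstar hO), fun hsol => ?_⟩
  have hc : ¬ p ∣ Nat.card (Y.map (QuotientGroup.mk' (pCore p G))) := fun hc =>
    (h.quot.of_dvd hO hY' hc).1 (L0.isSolvable_map _ hsol)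
  obtain ⟨h1, h2, t, h3, h4, h5⟩ :=
    h.quot.of_coprime hO hY' ((Fact.out : p.Prime).coprime_iff_not_dvd.mpr hc).symm
  obtain ⟨φ, h6, h7, h8⟩ := exists_quot_embedding p Y
  have h9 : (⊤ : Subgroup (Y ⧸ pCore p Y)).lowerCentralSeries 2 = ⊥ := by
    apply map_injective h6
    rw [Subgroup.map_bot, ← h2, ← h8, ← map_commutator, ← map_commutator]; rfl
  haveI := Subgroup.nilpotent_iff_lowerCentralSeries.mpr ⟨2, h9⟩
  refine ⟨h.eq_of_map_eq hY h1, inferInstance, t, h3, h4, ?_, this,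
    Subgroup.lowerCentralSeries_eq_bot_iff_nilpotencyClass_le.mp h9⟩
  rw [← h8] at h5
  exact isPGroup_top_iff.mp (h5.of_equiv (equivMapOfInjective _ φ h6).symm)

end Cfsg.Agent.S3045
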