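import Cfsg.Statements.S3048
import Cfsg.Agent.L0.Dihedral
import Cfsg.Agent.H7.Residual
import Cfsg.Agent.H8.Syl
import Cfsg.Agent.S3012
import Cfsg.Agent.S3013
-- import your own Cfsg.Agent.* helpers here

set_option autoImplicit false
universe u
open Cfsg

namespace Cfsg.Agent.S3048

open Subgroup Cfsg.L0

/-- The Sidki condition for `W` relative to a subgroup `H`. -/
def SIn {G : Type*} [Group G] (W H : Subgroup G) : Prop :=
  ∀ h ∈ H, ∀ v ∈ W, Odd (orderOf h) → v * h * v⁻¹ = h⁻¹ → ∃ w ∈ W, w ≠ 1 ∧ w * h = h * w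

theorem SIn.mono {G : Type*} [Group G] {W H K : Subgroup G} (h : SIn W H) (hK : K ≤ H) : SIn W K :=
  fun x hx => h x (hK hx)

theorem sIn_iff {G : Type*} [Group G] {W H : Subgroup G} (hW : W ≤ H) :
    SIn W H ↔ IsSidkiPair (W.subgroupOf H) := by
  constructor
  · rintro hS ⟨h, hh⟩ ⟨v, hv⟩ hvW ho hi
    obtain ⟨w, hw, hw1, hw2⟩ := hS h hh v hvW (by rwa [← orderOf_coe] at ho) (congrArg Subtype.val hi)
    exact ⟨⟨w, hW hw⟩, hw, fun e => hw1 (congrArg Subtype.val e), Subtype.ext hw2⟩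
  · intro hS h hh v hv ho hi
    obtain ⟨w, hw, hw1, hw2⟩ := hS ⟨h, hh⟩ ⟨v, hW hv⟩ hv (by rwa [← orderOf_coe]) (Subtype.ext hi)
    exact ⟨w, hw, fun e => hw1 (Subtype.ext e), congrArg Subtype.val hw2⟩

theorem mem_of_sq {G : Type*} [Group G] {K : Subgroup G} {h : G} (ho : Odd (orderOf h))
    (h2 : h ^ 2 ∈ K) : h ∈ K :=
  H8.mem_of_pow_mem (Nat.coprime_two_left.2 ho) h2 (by rw [pow_orderOf_eq_one]; exact one_mem _)


/-- Minimal counterexample reduction for the Sidki pair problem. Let G be a finite group and V a nontrivial elementary abelian 2-subgroup satisfying the Sidki pair condition with V ∩ O₂(G) = 1. Suppose that for every finite group H of smaller order, every nontrivial elementary abelian 2-subgroup W of H satisfying the Sidki pair condition meets O₂(H) nontrivially, and that the same holds in G for every such subgroup W of order smaller than that of V. Then the generalized Fitting subgroup F*(G) is a non-abelian simple group and G = V F*(G).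 -/
theorem result {G : Type u} [Group G] [Finite G] (V : Subgroup G) (hV : Cfsg.IsElementaryAbelian 2 V) (hV1 : V ≠ ⊥) (hS : Cfsg.IsSidkiPair V) (hVO : V ⊓ Cfsg.pCore 2 G = ⊥) (hminG : ∀ (H : Type u) [Group H] [Finite H] (W : Subgroup H), Nat.card H < Nat.card G → Cfsg.IsElementaryAbelian 2 W → W ≠ ⊥ → Cfsg.IsSidkiPair W → W ⊓ Cfsg.pCore 2 H ≠ ⊥) (hminV : ∀ W : Subgroup G, Nat.card W < Nat.card V → Cfsg.IsElementaryAbelian 2 W → W ≠ ⊥ → Cfsg.IsSidkiPair W → W ⊓ Cfsg.pCore 2 G ≠ ⊥) : IsSimpleGroup ↥(Cfsg.generalizedFittingSubgroup G) ∧ ¬ IsMulCommutative ↥(Cfsg.generalizedFittingSubgroup G) ∧ V ⊔ Cfsg.generalizedFittingSubgroup G = ⊤ := by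
  have : Fact (Nat.Prime 2) := ⟨Nat.prime_two⟩
  have hcomm : ∀ a ∈ V, ∀ b ∈ V, a * b = b * a := fun a ha b hb => by
    have := hV.1
    exact congrArg Subtype.val (mul_comm' (⟨a, ha⟩ : V) ⟨b, hb⟩)
  have hsq : ∀ v ∈ V, v * v = 1 := fun v hv => by rw [← pow_two]; exact hV.2 v hv
  have hVc : V ≤ centralizer (V : Set G) := H7.ea_le_centralizer hV
  have hSV : SIn V ⊤ := fun h _ v hv => hS h v hv
  have quot : ∀ (K : Subgroup G) [K.Normal], K ≠ ⊥ → V ⊓ K = ⊥ →
      ∃ v ∈ V, v ≠ 1 ∧ (v : G ⧸ K) ∈ pCore 2 (G ⧸ K) := by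
    intro K _ hK hVK
    have h1 : V.map (QuotientGroup.mk' K) ≠ ⊥ := fun e => hV1 (by
      rw [Subgroup.map_eq_bot_iff, QuotientGroup.ker_mk'] at e
      rw [← hVK, inf_eq_left.2 e])
    obtain ⟨⟨_, ⟨v, hv, rfl⟩, h2⟩, h3⟩ := ne_bot_iff_exists_ne_one.1
      (hminG _ _ (card_quotient_lt hK) (H7.ea_map hV _) h1 (S3012.result V K hV hV1 hS hVK))
    exact ⟨v, hv, fun e => h3 (Subtype.ext (by simp [e])), h2⟩
  have hO : pCore 2 G = ⊥ := by
    by_contra h
    obtain ⟨v, hv, hv1, h2⟩ := quot _ h hVO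
    rw [H7.pCore_quotient_pCore, mem_bot, QuotientGroup.eq_one_iff] at h2
    exact hv1 (mem_bot.1 (hVO ▸ (⟨hv, h2⟩ : v ∈ V ⊓ pCore 2 G)))
  have cent : ∀ K W : Subgroup G, K.IsSubnormal → W ≤ V → W ≠ ⊥ → W ≤ normalizer (K : Set G) →
      (W ⊔ K ≠ ⊤ ∨ W ≠ V) → SIn W (W ⊔ K) → ∃ w ∈ W, w ≠ 1 ∧ w ∈ centralizer (K : Set G) := by
    intro K W hK hWV hW1 hWK hne hSW
    have hW := H7.ea_mono hV hWV
    by_cases ht : W ⊔ K = ⊤
    · rw [ht] at hSW
      exact absurd (by rw [hO, inf_bot_eq]) (hminV W (card_lt_card_of_lt (lt_of_le_of_ne hWV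
        (hne.resolve_left (not_not.2 ht)))) hW hW1 fun h v hv => hSW h (mem_top h) v hv)
    set H := W ⊔ K with hH
    obtain ⟨⟨⟨w, hwH⟩, hw, h2⟩, h3⟩ := ne_bot_iff_exists_ne_one.1
      (hminG H (W.subgroupOf H) (card_lt_of_ne_top ht) (H7.ea_subgroupOf hW H)
        (fun e => hW1 (by rw [← map_subgroupOf_eq_of_le (le_sup_left : W ≤ H), e, Subgroup.map_bot]))
        ((sIn_iff le_sup_left).1 hSW))
    refine ⟨w, hw, fun e => h3 (Subtype.ext (Subtype.ext e)), ?_⟩
    set O := pCoreOf 2 H with hOd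
    have h4 : H ≤ normalizer (O : Set G) := H7.le_normalizer_pCoreOf 2 H
    have h5 : O ⊓ K ≤ pCore 2 G := le_pCore_of_isSubnormal ((SN.of_normal inf_le_right
      (le_normalizer_inf (le_sup_right.trans h4) le_normalizer)).isSubnormal hK)
      (H7.isPGroup_pCoreOf 2 H).to_inf_left
    have h6 := (commutator_le_inf_of_normalizes ((H7.pCoreOf_le 2 H).trans (sup_le hWK le_normalizer))
      (le_sup_right.trans h4)).trans h5
    rw [hO, le_bot_iff] at h6
    exact commutator_eq_bot_iff_le_centralizer.1 h6 ⟨_, h2, rfl⟩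
  have hfull : ∀ N : Subgroup G, N.Normal → N ≠ ⊥ → V ⊔ N = ⊤ := by
    intro N hN hN1
    by_contra ht
    set C := centralizer (N : Set G) with hC
    obtain ⟨w, hw, hw1, hwC⟩ := cent N V hN.isSubnormal le_rfl hV1 le_normalizer_of_normal
      (Or.inl ht) (hSV.mono le_top)
    have h0 : V ⊓ C ≠ ⊥ := fun e => hw1 (mem_bot.1 (e ▸ (⟨hw, hwC⟩ : w ∈ V ⊓ C)))
    have hS0 : IsSidkiPair (V ⊓ C) := by
      intro h v hv ho hi
      by_cases h1 : h = 1
      · exact ⟨w, ⟨hw, hwC⟩, hw1, by simp [h1]⟩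
      have hhC : h ∈ C := mem_of_sq ho (by
        have := mul_mem (Normal.conj_mem inferInstance v hv.2 h) (inv_mem hv.2)
        have e : h * v * h⁻¹ * v⁻¹ = h * (v * h * v⁻¹)⁻¹ := by group
        rwa [e, hi, inv_inv, ← pow_two] at this)
      obtain ⟨h2, h3⟩ := S3013.result V hV hV1 hS v h hv.1 ho hi _ rfl
      set D := centralizer ({v} : Set G) ⊓ centralizer ({h} : Set G) with hD
      have hND : N ≤ D := fun x hx => ⟨mem_centralizer_singleton_iff.2 (hv.2 x hx),
        mem_centralizer_singleton_iff.2 (hhC x hx)⟩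
      obtain ⟨u, hu, hu1, huC⟩ := cent N (D ⊓ V) hN.isSubnormal inf_le_right h2 le_normalizer_of_normal
        (Or.inr fun e => h1 (eq_one_of_inverts_of_commute ho hi
          (mem_centralizer_singleton_iff.1 (e.ge hv.1).1.2)))
        (((sIn_iff inf_le_left).2 h3).mono (sup_le inf_le_left hND))
      exact ⟨u, ⟨hu.2, huC⟩, hu1, mem_centralizer_singleton_iff.1 hu.1.2⟩
    have hVC : V ≤ C := by
      by_contra hn
      exact hminV _ (card_lt_card_of_lt (inf_lt_left.2 hn)) (H7.ea_mono hV inf_le_left) h0 hS0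
        (by rw [hO, inf_bot_eq])
    have hCt : C = ⊤ := by
      by_contra hn
      obtain ⟨u, hu, hu1, huC⟩ := cent C V (inferInstance : C.Normal).isSubnormal le_rfl hV1
        le_normalizer_of_normal (Or.inl (by rwa [sup_eq_right.2 hVC])) (hSV.mono le_top)
      obtain ⟨x, hx1, hx2, hx3⟩ := exists_inverted_of_not_mem_pCore (hsq u hu) (by rw [hO]; exact hu1)
      have hxC : x ∈ C := mem_of_sq hx2 (by
        have := mul_mem (Normal.conj_mem inferInstance u (hVC hu) x) (inv_mem (hVC hu))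
        have e : x * u * x⁻¹ * u⁻¹ = x * (u * x * u⁻¹)⁻¹ := by group
        rwa [e, hx3, inv_inv, ← pow_two] at this)
      exact hx1 (eq_one_of_inverts_of_commute hx2 hx3 (huC x hxC).symm)
    have hcen : ∀ x ∈ N, ∀ y : G, x * y = y * x := fun x hx y => (hCt ▸ mem_top y : y ∈ C) x hx
    have hVN : V ⊓ N = ⊥ := by
      rw [eq_bot_iff, ← hO]
      exact le_pCore_of_normal ⟨fun x hx g => by rwa [← hcen x hx.2 g, mul_inv_cancel_right]⟩
        (H7.ea_isPGroup hV).to_inf_left
    obtain ⟨v, hv, hv1, h2⟩ := quot N hN1 hVN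
    obtain ⟨x, hx1, hx2, hx3⟩ := exists_inverted_of_not_mem_pCore (hsq v hv) (by rw [hO]; exact hv1)
    have h3 : (x : G ⧸ N) ^ 2 ∈ pCore 2 (G ⧸ N) := by
      have := mul_mem (Normal.conj_mem inferInstance _ h2 (x : G ⧸ N)) (inv_mem h2)
      have e : x * v * x⁻¹ * v⁻¹ = x * (v * x * v⁻¹)⁻¹ := by group
      rw [hx3, inv_inv, ← pow_two] at e
      rw [← QuotientGroup.mk_pow, ← e]; exact this
    have h4 : Odd (orderOf (x : G ⧸ N)) := Odd.of_dvd_nat hx2 (orderOf_map_dvd (QuotientGroup.mk' N) x)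
    have h5 := H8.eq_one_of_pElt_of_coprime (H8.isPGroup_iff_forall.1 (isPGroup_pCore 2 _) _
      (mem_of_sq h4 h3)) (Nat.coprime_two_right.2 h4)
    exact hx1 (eq_one_of_inverts_of_commute hx2 hx3 (hcen x ((QuotientGroup.eq_one_iff x).1 h5) v).symm)
  have hodd : ∀ K : Subgroup G, K.IsSubnormal → K ≠ ⊥ → ∃ y ∈ K, y ≠ 1 ∧ Odd (orderOf y) := by
    intro K hK hK1
    by_contra hn
    push Not at hn
    refine hK1 (le_bot_iff.1 (hO ▸ le_pCore_of_isSubnormal hK (isPGroup_of_forall_coprime ?_)))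
    intro x hx hc
    by_contra h1
    exact hn x hx h1 (Nat.coprime_two_right.1 hc)
  have hmin : ∀ N : Subgroup G, MinNormalIn N ⊤ → ⁅N, N⁆ ≠ ⊥ := by
    intro N hN hc
    have hNn : N.Normal := normal_of_top_le hN.2.2.1
    have hNc := commutator_eq_bot_iff_le_centralizer.1 hc
    obtain ⟨x, hx, hx1, hxo⟩ := hodd N hNn.isSubnormal hN.1
    have hinv : ∀ v ∈ V, v ≠ 1 → v * x * v⁻¹ = x⁻¹ := by
      intro v hv hv1
      refine inverts_of_fpf (K := N) (le_normalizer_of_normal (mem_top v))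
        (fun u _ => by rw [hsq v hv]; simp) (fun u hu e => ?_) x hx
      have h1 : (⊤ : Subgroup G) ≤ normalizer ((N ⊓ centralizer {v} : Subgroup G) : Set G) := by
        rw [← hfull N hNn hN.1]
        refine sup_le (le_normalizer_inf le_normalizer_of_normal (le_trans (fun y hy =>
          mem_centralizer_singleton_iff.2 (hcomm y hy v hv)) le_normalizer)) ?_
        exact (hNc.trans (centralizer_le inf_le_left)).trans (centralizer_le_normalizer _)
      rcases hN.2.2.2 _ inf_le_left h1 with h | h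
      · exact mem_bot.1 (h ▸ ⟨hu, mem_centralizer_singleton_iff.2 e.symm⟩)
      · exfalso
        have h2 : (⊤ : Subgroup G) ≤ centralizer {v} := by
          rw [← hfull N hNn hN.1]
          exact sup_le (fun y hy => mem_centralizer_singleton_iff.2 (hcomm y hy v hv))
            (h.ge.trans inf_le_right)
        obtain ⟨y, hy1, hy2, hy3⟩ := exists_inverted_of_not_mem_pCore (hsq v hv) (by rw [hO]; exact hv1)
        exact hy1 (eq_one_of_inverts_of_commute hy2 hy3
          (mem_centralizer_singleton_iff.1 (h2 (mem_top y))).symm)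
    obtain ⟨⟨a, ha⟩, ha1⟩ := ne_bot_iff_exists_ne_one.1 hV1
    obtain ⟨w, hw, hw1, hw2⟩ := hS x a ha hxo (hinv a ha fun e => ha1 (Subtype.ext e))
    exact hx1 (eq_one_of_inverts_of_commute hxo (hinv w hw hw1) hw2)
  have hF : fittingSubgroup G = ⊥ := by
    by_contra h
    obtain ⟨M, hM1, hM⟩ := exists_minNormalIn (K := ⊤) h le_top le_normalizer_of_normal
    rcases hM.comm_or_exists_component with e | ⟨K, -, -, -, e, -⟩
    · exact hmin M hM e
    · exact hM.1 (by rwa [inf_eq_left.2 hM1] at e)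
  obtain ⟨N, -, hN⟩ := exists_minNormalIn (N := (⊤ : Subgroup G)) (K := ⊤)
    (fun e => hV1 (le_bot_iff.1 (e ▸ le_top))) le_rfl le_normalizer
  have hNn : N.Normal := normal_of_top_le hN.2.2.1
  obtain ⟨K, hK, hKs, hKN, -, hNK⟩ := hN.comm_or_exists_component.resolve_left (hmin N hN)
  have hqs := IsComponent.qs hK
  have hVN := hfull N hNn hN.1
  have hCN : centralizer (N : Set G) = ⊥ := by
    by_contra h
    have h1 := hfull _ inferInstance h
    have h2 : ⁅K, K⁆ ≤ centralizer (N : Set G) := by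
      have := commutator_mono (le_top : K ≤ ⊤) (le_top : K ≤ ⊤)
      rw [← h1] at this
      refine this.trans ?_
      refine le_trans ?_ (QuotientGroup.ker_mk' (centralizer (N : Set G))).le
      rw [← Subgroup.map_eq_bot_iff, map_commutator,
        Subgroup.map_sup, QuotientGroup.map_mk'_self, sup_bot_eq, ← map_commutator,
        commutator_eq_bot_iff_le_centralizer.2 hVc, Subgroup.map_bot]
    rw [hqs.perfect] at h2
    exact hqs.comm_ne_bot (commutator_eq_bot_iff_le_centralizer.2 (h2.trans (centralizer_le hKN)))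
  have hE : layer G = N := by
    refine le_antisymm (sSup_le fun L hL => (component_le_or_comm hL hNn.isSubnormal).resolve_right
      fun e => (IsComponent.qs hL).ne_bot (le_bot_iff.1 (hCN ▸
        commutator_eq_bot_iff_le_centralizer.1 (comm_bot_symm e)))) ?_
    rw [hNK]; refine sSup_le ?_
    rintro _ ⟨g, rfl⟩; exact component_le_layer (isComponent_cj hK g)
  have hFs : generalizedFittingSubgroup G = N := by
    rw [generalizedFittingSubgroup, hE, hF, sup_bot_eq]
  have hNK' : N ≤ normalizer (K : Set G) := hE ▸ layer_le_normalizer hK.1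
  have hZ : ∀ y ∈ K, y ∈ centralizer (K : Set G) → y = 1 := fun y h1 h2 =>
    mem_bot.1 (hF ▸ inf_centralizer_le_fitting hK.1 ⟨h1, h2⟩)
  have hcK : ∀ u : G, u ∉ normalizer (K : Set G) → ∀ y ∈ K, u * y * u⁻¹ ∈ centralizer (K : Set G) :=
    fun u hu y hy => commutator_eq_bot_iff_le_centralizer.1 (comm_bot_symm
      ((component_eq_or_comm hK (isComponent_cj hK u)).resolve_left fun e => hu (cj_eq_iff.1 e.symm)))
      (conj_mem_cj hy)
  have hVK : V ≤ normalizer (K : Set G) := by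
    by_contra hn
    set B := V ⊓ normalizer (K : Set G) with hB
    by_cases hB1 : B = ⊥
    · have hout : ∀ u ∈ V, u ≠ 1 → u ∉ normalizer (K : Set G) := fun u hu hu1 h =>
        hu1 (mem_bot.1 (hB1 ▸ (⟨hu, h⟩ : u ∈ B)))
      obtain ⟨y, hy, hy1, hyo⟩ := hodd K hK.1 hqs.ne_bot
      obtain ⟨⟨u, hu⟩, hu1⟩ := ne_bot_iff_exists_ne_one.1 hV1
      have hu1' : u ≠ 1 := fun e => hu1 (Subtype.ext e)
      have c1 := hcK u (hout u hu hu1') y⁻¹ (inv_mem hy)
      have c2 : Commute y (u * y⁻¹ * u⁻¹) := c1 y hy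
      have hxo : Odd (orderOf (y * (u * y⁻¹ * u⁻¹))) := by
        refine Odd.of_dvd_nat (hyo.mul ?_) c2.orderOf_mul_dvd_mul_orderOf
        have : orderOf (u * y⁻¹ * u⁻¹) = orderOf y⁻¹ := (MulAut.conj u).orderOf_eq _
        rwa [this, orderOf_inv]
      have hxi : u * (y * (u * y⁻¹ * u⁻¹)) * u⁻¹ = (y * (u * y⁻¹ * u⁻¹))⁻¹ := by
        calc u * (y * (u * y⁻¹ * u⁻¹)) * u⁻¹ = u * y * u⁻¹ * ((u * u) * y⁻¹ * (u * u)⁻¹) := by group
          _ = _ := by rw [hsq u hu]; group
      obtain ⟨w, hw, hw1, hw2⟩ := hS _ u hu hxo hxi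
      apply hy1
      apply hZ y hy
      by_cases hwu : w = u
      · subst hwu
        have := eq_one_of_inverts_of_commute hxo hxi hw2
        rw [eq_inv_of_mul_eq_one_left this]; exact inv_mem c1
      · have hwu1 : w * u ≠ 1 := fun e => hwu (mul_right_cancel (e.trans (hsq u hu).symm))
        have c3 := hcK w (hout w hw hw1) y hy
        have c4 := hcK _ (hout _ (mul_mem hw hu) hwu1) y⁻¹ (inv_mem hy)
        have := mul_mem (mul_mem c3 c4) (inv_mem c1)
        convert this using 1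
        calc y = w * (y * (u * y⁻¹ * u⁻¹)) * w⁻¹ * (u * y⁻¹ * u⁻¹)⁻¹ := by rw [hw2]; group
          _ = _ := by group
    · obtain ⟨b, hb, hb1, hbC⟩ := cent K B hK.1 inf_le_left hB1 inf_le_right
        (Or.inr fun e => hn (e.ge.trans inf_le_right)) (by
          intro h hh v hv ho hi
          by_cases h1 : h = 1
          · obtain ⟨⟨a, ha⟩, ha1⟩ := ne_bot_iff_exists_ne_one.1 hB1
            exact ⟨a, ha, fun e => ha1 (Subtype.ext e), by simp [h1]⟩
          have hhK : h ∈ K := by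
            obtain ⟨c, hc, k, hk, rfl⟩ := (mem_sup_of_le_normalizer inf_le_right).1 hh
            refine mem_of_sq ho ?_
            have := mul_mem ((mem_normalizer_iff.1 hc.2 k).1 hk) hk
            rwa [inv_eq_of_mul_eq_one_right (hsq c hc.1), mul_assoc, ← pow_two] at this
          obtain ⟨w, hw, hw1, hw2⟩ := hS h v hv.1 ho hi
          refine ⟨w, ⟨hw, ?_⟩, hw1, hw2⟩
          by_contra hwn
          have := hcK w hwn h hhK
          rw [hw2, mul_inv_cancel_right] at this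
          exact h1 (hZ h hhK this))
      apply hb1
      rw [← mem_bot, ← hCN, ← zpowers_le, le_centralizer_iff, hNK]
      refine sSup_le ?_
      rintro _ ⟨g, rfl⟩
      obtain ⟨v, hv, n, hn', rfl⟩ := mem_sup_of_normal_right.1 (hVN ▸ mem_top g : g ∈ V ⊔ N)
      rw [cj_mul, cj_eq_iff.2 (hNK' hn'), le_centralizer_iff, ← cj_centralizer, zpowers_le, mem_cj,
        mul_assoc, hcomm b hb.1 v hv, inv_mul_cancel_left]
      exact hbC
  have hKe : K = N := (hN.2.2.2 K hKN (hVN ▸ sup_le hVK hNK')).resolve_left hqs.ne_bot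
  rw [hFs, ← hKe]
  exact ⟨hKs, hqs.not_isMulCommutative, hKe ▸ hVN⟩

end Cfsg.Agent.S3048
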