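import Cfsg.Statements.S3050
import Cfsg.Agent.H3.Higman

set_option autoImplicit false
open Cfsg

namespace Cfsg.Agent.S3050

/-- Let G be a finite group with a normal 2-subgroup Q such that G/Q is isomorphic to SL(2, 2ⁿ) with n ≥ 2, and suppose some element of G of order 3 fixes no nonidentity element of Q under conjugation. Then Q is elementary abelian and is the direct product of normal subgroups of G on each of which G acts as SL(2, 2ⁿ) acts on its natural two-dimensional module (a Galois twist of the natural action allowed). -/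
theorem result {G : Type*} [Group G] [Finite G]
    (Q : Subgroup G) [Q.Normal] (hQ : IsPGroup 2 ↥Q) (n : ℕ) (hn : 2 ≤ n)
    (K : Type*) [Field K] [Fintype K] (hK : Fintype.card K = 2 ^ n)
    (e : G ⧸ Q ≃* Matrix.SpecialLinearGroup (Fin 2) K)
    (x : G) (hx : orderOf x = 3) (hfpf : ∀ q ∈ Q, x * q * x⁻¹ = q → q = 1) :
    Cfsg.IsElementaryAbelian 2 Q ∧
      ∃ (k : ℕ) (V : Fin k → Subgroup G), (∀ i, V i ≤ Q ∧ (V i).Normal ∧
        Cfsg.ActsAsSL2OnSection K ⊤ ⊤ (V i) ⊥) ∧ iSupIndep V ∧ ⨆ i, V i = Q := by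
  have := charP_of_card_eq_prime_pow (p := 2) hK
  have h4 : 4 ≤ Nat.card K := by
    rw [Nat.card_eq_fintype_card, hK]; exact Nat.pow_le_pow_right two_pos hn
  let π := e.toMonoidHom.comp (QuotientGroup.mk' Q)
  have hs : Function.Surjective π := e.surjective.comp (QuotientGroup.mk'_surjective Q)
  have hk : ∀ g, π g = 1 ↔ g ∈ Q := fun g => e.map_eq_one_iff.trans (QuotientGroup.eq_one_iff g)
  have h : ∀ g, H3.tr (π g) = 1 → g ^ 3 = 1 := fun g => H3.QM.pow_three_of_fpf hs hk hx hfpf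
  have h1 := Subgroup.commutator_eq_bot_iff_le_centralizer.1 (H3.QM.commutator_eq_bot hs hk h h4 hQ)
  obtain ⟨W, _, _, _, r, hr⟩ := H3.QM.exists_rep_of_hom (V := Q) (L := ⊤) (N := Q)
    (π.comp (Subgroup.subtype _)) (fun g => (hs g).imp' (fun l => ⟨l, trivial⟩) fun _ => id)
    (fun l => hk l) h1 (by simp [Subgroup.normalizer_eq_top]) (by simp [Subgroup.normalizer_eq_top]) h1
  obtain ⟨t, t0, t1⟩ := H3.QM.exists_ne_zero_one h4
  obtain ⟨a1, a2, a3⟩ := H3.QM.higman_mod (W := W) (F := K) (fun g hg v => r.e_inj (by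
      obtain ⟨l, rfl⟩ := r.surj g
      rw [r.e_add, r.e_add, ← map_inv, r.e_smul, r.e_smul, r.e_zero]
      simpa using H3.QM.mul_conj_conj hs hk h (g := l) (by rwa [hr] at hg) (r.e_mem v)))
    (fun v hv => r.e_inj ((H3.QM.eq_one_of_pow_three hQ (r.e_mem v)
      (by rw [← r.e_nsmul, hv, r.e_zero])).trans r.e_zero.symm))
    (t := Units.mk0 t t0) fun hc => t1 (congrArg Units.val hc)
  obtain ⟨k, Ψ, b1, b2, b3⟩ := a2.exists_decomp a3
  refine ⟨H7.isElementaryAbelian_iff.2 ⟨h1, fun y hy => ?_⟩, k, fun i => r.uv (Ψ i).range, fun i =>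
    have := H3.QM.actsAs_of_hom r (b1 i).1 (b1 i).2
    ⟨r.uv_le _, Subgroup.normalizer_eq_top_iff.1 (eq_top_iff.2 this.1), this⟩, fun i => ?_,
    by rw [← r.uv_iSup, b3, r.uv_top]⟩
  · obtain ⟨w, rfl⟩ := r.exists_e hy
    rw [← r.e_nsmul, a1, r.e_zero]
  · simp only [← r.uv_iSup, disjoint_iff, ← r.uv_inf, (b2 i).eq_bot, r.uv_bot]

end Cfsg.Agent.S3050
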