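import Cfsg.Statements.S3053
import Cfsg.Agent.H4.ES3

set_option autoImplicit false
open Cfsg

namespace Cfsg.Agent.S3053

/-- Let p be an odd prime and G a finite group with a Sylow p-subgroup P that is extraspecial of order p³ and exponent p². Then the centre of P is strongly closed in P with respect to G: a G-conjugate of an element of Z(P) that lies in P already lies in Z(P). In particular a nontrivial central element of P is conjugate in G to no noncentral element of P. -/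
theorem result {G : Type*} [Group G] [Finite G]
    {p : ℕ} [Fact p.Prime] (hp : p ≠ 2) (P : Sylow p G) (hE : Cfsg.IsExtraspecial p ↥P)
    (hcard : Nat.card P = p ^ 3) (hexp : Monoid.exponent ↥P = p ^ 2) :
    Cfsg.IsStronglyClosed ((Subgroup.center ↥P).map (P : Subgroup G).subtype) (P : Subgroup G) := by
  refine ⟨Subgroup.map_subtype_le _, ?_⟩
  rintro _ ⟨z, hz, rfl⟩ g hg
  by_contra hc
  let y : P := ⟨_, hg⟩
  have hy : y ∉ Subgroup.center P := fun h => hc ⟨y, h, rfl⟩
  have hz1 : z ≠ 1 := by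
    rintro rfl
    exact hc (by simp)
  have hzc : ∀ x ∈ (P : Subgroup G), x * z = z * x := fun x hx =>
    congrArg Subtype.val (Subgroup.mem_center_iff.mp hz ⟨x, hx⟩)
  have hZ : ∀ c ∈ Subgroup.center P, ∃ k : ℤ, z ^ k = c := fun c hc => by
    obtain ⟨k, hk⟩ := mem_zpowers_of_prime_card hE.2 (g := ⟨z, hz⟩)
      (fun e => hz1 (congrArg Subtype.val e)) (g' := ⟨c, hc⟩)
    exact ⟨k, congrArg Subtype.val hk⟩
  have hyp : y ^ p = 1 := by
    apply Subtype.ext
    change (g * (z : G) * g⁻¹) ^ p = 1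
    rw [conj_pow, ← Subgroup.coe_pow, L0.es_pow_center hE hz]
    simp
  obtain ⟨h, hh, hhP⟩ := H4.es_exists_swap P z.2 hzc y.2 (g := g) rfl
  let y' : P := ⟨_, hhP⟩
  have hy' : y' ∉ Subgroup.center P := fun h' => by
    have hy1 : y' ≠ 1 := fun e => hz1 (Subtype.ext (by
      have : h⁻¹ * z * h = 1 := congrArg Subtype.val e
      calc (z : G) = h * (h⁻¹ * z * h) * h⁻¹ := by group
        _ = 1 := by rw [this]; simp))
    obtain ⟨k, hk⟩ := mem_zpowers_of_prime_card hE.2 (g := ⟨y', h'⟩)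
      (fun e => hy1 (congrArg Subtype.val e)) (g' := ⟨z, hz⟩)
    have h1 : (h⁻¹ * z * h) ^ k = z := congrArg (fun x : Subgroup.center P => ((x : P) : G)) hk
    apply hy
    have h4 : (y : G) = z ^ k := by
      rw [← hh]
      conv_lhs => rw [← h1]
      rw [← conj_zpow]
      congr 1
      group
    rw [show y = z ^ k from Subtype.ext h4]
    exact zpow_mem hz k
  obtain ⟨x, hx⟩ := H4.es_exists_conj hE hy hz
  obtain ⟨x0, hx0⟩ := H4.es_exists_conj hE hy' (inv_mem hz)
  have e1 : (x : G) * y * (x : G)⁻¹ = y * z := congrArg Subtype.val hx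
  have e2 : (x : G) * z * (x : G)⁻¹ = z := by rw [hzc _ x.2]; group
  set x' : G := h * x0 * h⁻¹ with hx'
  have e3 : x' * z * x'⁻¹ = z * (y : G)⁻¹ := by
    have : (x0 : G) * (h⁻¹ * z * h) * (x0 : G)⁻¹ = h⁻¹ * z * h * (z : G)⁻¹ :=
      congrArg Subtype.val hx0
    calc _ = h * (x0 * (h⁻¹ * z * h) * (x0 : G)⁻¹) * h⁻¹ := by rw [hx']; group
      _ = _ := by rw [this, ← hh]; group
  have e4 : x' * y * x'⁻¹ = y := by
    rw [← hh]
    calc _ = h * (x0 * z * (x0 : G)⁻¹) * h⁻¹ := by rw [hx']; group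
      _ = _ := by rw [hzc _ x0.2]; group
  have hyz : (y : G) * z = z * y := hzc _ y.2
  let c : G ≃* G := MulAut.conj (x : G) * MulAut.conj x' * MulAut.conj (x : G)
  rw [← MulAut.conj_apply] at e1 e2 e3 e4
  have c1 : c y = z := by
    simp only [c, MulAut.mul_apply]
    rw [e1, map_mul, e3, e4, ← mul_assoc, hyz, mul_inv_cancel_right, e2]
  have c2 : c z = (y : G)⁻¹ := by
    simp only [c, MulAut.mul_apply]
    rw [e2, e3, map_mul, map_inv, e1, e2, mul_inv_rev, mul_inv_cancel_left]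
  set n : G := (x * x' * x) ^ 2 with hn
  have hcn : ∀ u, n * u * n⁻¹ = c (c u) := fun u => by
    simp only [c, MulAut.mul_apply, MulAut.conj_apply, hn, pow_two]
    group
  have n1 : n * z * n⁻¹ = (z : G)⁻¹ := by rw [hcn, c2, map_inv, c1]
  have n2 : n * y * n⁻¹ = (y : G)⁻¹ := by rw [hcn, c1, c2]
  let K : Subgroup G :=
    { carrier := {k | k * z * k⁻¹ = z ∧ ∃ i : ℤ, k * y * k⁻¹ = z ^ i * y}
      one_mem' := ⟨by simp, 0, by simp⟩
      mul_mem' := by
        rintro a b ⟨ha, i, hi⟩ ⟨hb, j, hj⟩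
        refine ⟨?_, j + i, ?_⟩
        · calc _ = a * (b * z * b⁻¹) * a⁻¹ := by group
            _ = _ := by rw [hb, ha]
        · calc _ = a * (b * y * b⁻¹) * a⁻¹ := by group
            _ = _ := by rw [hj, ← conj_mul, ← conj_zpow, ha, hi]; group
      inv_mem' := by
        rintro a ⟨ha, i, hi⟩
        have ha' : a⁻¹ * z * a⁻¹⁻¹ = z := by
          conv_lhs => rw [← ha]
          group
        refine ⟨ha', -i, ?_⟩
        have : (y : G) = (a⁻¹ * z * a⁻¹⁻¹) ^ i * (a⁻¹ * y * a⁻¹⁻¹) := by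
          rw [conj_zpow, conj_mul, ← hi]; group
        rw [ha'] at this
        rw [zpow_neg, eq_inv_mul_iff_mul_eq, ← this] }
  have hPK : (P : Subgroup G) ≤ K := fun u hu => by
    refine ⟨by rw [hzc u hu]; group, ?_⟩
    obtain ⟨i, hi⟩ := hZ _ (L0.comm_mem_center (L0.es_le hE) ⟨u, hu⟩ y)
    have : (z : G) ^ i = u * y * u⁻¹ * (y : G)⁻¹ := congrArg Subtype.val hi
    exact ⟨i, by rw [this]; group⟩
  have hnK : n ∈ Subgroup.normalizer (K : Set G) := H8.mem_normalizer_of_forall (by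
    rintro k ⟨hk, i, hi⟩
    have n1' : n⁻¹ * z * n = (z : G)⁻¹ := by
      have : (z : G) = n * (z : G)⁻¹ * n⁻¹ := by rw [conj_inv.symm, n1, inv_inv]
      conv_lhs => rw [this]
      group
    have n2' : n⁻¹ * y * n = (y : G)⁻¹ := by
      have : (y : G) = n * (y : G)⁻¹ * n⁻¹ := by rw [conj_inv.symm, n2, inv_inv]
      conv_lhs => rw [this]
      group
    refine ⟨?_, i, ?_⟩
    · calc _ = n * (k * (n⁻¹ * z * n) * k⁻¹) * n⁻¹ := by group
        _ = _ := by rw [n1', conj_inv.symm, hk, conj_inv.symm, n1, inv_inv]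
    · calc _ = n * (k * (n⁻¹ * y * n) * k⁻¹) * n⁻¹ := by group
        _ = _ := by
          rw [n2', conj_inv.symm, hi, conj_inv.symm, ← conj_mul, ← conj_zpow, n1, n2]
          have : Commute ((z : G) ^ i) y := (Commute.zpow_left hyz.symm _)
          rw [this.eq]
          group)
  obtain ⟨k, ⟨hk, i, hi⟩, m, hm, hkm⟩ := (H8.isSyl_sylow_of_le P hPK).frattini (inv_mem hnK)
  have hm' : m⁻¹ = n * k := by
    rw [← inv_inv n, hkm]; group
  let σ : P →* P := ((P : Subgroup G).normalizerMonoidHom ⟨m⁻¹, inv_mem hm⟩).toMonoidHom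
  have hσ : ∀ u : P, (σ u : G) = MulAut.conj n (k * u * k⁻¹) := fun u => by
    change m⁻¹ * u * m⁻¹⁻¹ = _
    rw [hm', MulAut.conj_apply]; group
  rw [← MulAut.conj_apply] at n1 n2
  have hσz : σ z = z⁻¹ := Subtype.ext (by rw [hσ, hk, n1]; rfl)
  have key := H4.es3_pow_eq_one hp hE hcard σ (fun c hc => by
    obtain ⟨j, rfl⟩ := hZ c hc
    rw [map_zpow, hσz, inv_zpow]) hy hyp (by
    have : σ y * y = z⁻¹ ^ i := Subtype.ext (by
      rw [Subgroup.coe_mul, hσ, hi, map_mul, map_zpow, n1, n2]; simp)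
    rw [this]
    exact zpow_mem (inv_mem hz) i)
  have h1 := Monoid.exponent_dvd_of_forall_pow_eq_one key
  rw [hexp] at h1
  have h3 := Nat.le_of_dvd (Fact.out : p.Prime).pos h1
  have h4 := (Fact.out : p.Prime).two_le
  nlinarith

end Cfsg.Agent.S3053
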