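import Cfsg.Statements.S3054
import Cfsg.Agent.H1.ESLines

set_option autoImplicit false
set_option linter.style.haveILetI false
set_option linter.unusedVariables false
open Cfsg

namespace Cfsg.Agent.S3054

/-- Let p be an odd prime and G a finite group with a Sylow p-subgroup P that is extraspecial of order p³ and exponent p. Suppose P contains three distinct subgroups A of order p² (each is elementary abelian of rank 2) such that every automorphism of A of order p is induced by conjugation by an element of G; equivalently the automorphism group induced on A by its normalizer contains the special linear group of A. Then p ≤ 13. -/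
theorem result {G : Type*} [Group G] [Finite G]
    {p : ℕ} [Fact p.Prime] (hp : p ≠ 2) (P : Sylow p G) (hE : Cfsg.IsExtraspecial p ↥P)
    (hcard : Nat.card P = p ^ 3) (hexp : Monoid.exponent ↥P = p)
    (A : Fin 3 → Subgroup G) (hA : Function.Injective A) (hAP : ∀ i, A i ≤ (P : Subgroup G))
    (hAcard : ∀ i, Nat.card ↥(A i) = p ^ 2)
    (hSL : ∀ i, ∀ φ : MulAut ↥(A i), orderOf φ = p → ∃ g : G, ∀ a : ↥(A i), (φ a : G) = g * (a : G) * g⁻¹) :
    p ≤ 13 := by
  obtain ⟨z, h⟩ := H1.exists_es3 hE hcard hexp
  obtain ⟨D⟩ := h.exists_coord_top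
  choose a ha ha' e hg using fun i => H1.goodPlane_of_aut h (hAP i) (hAcard i) (hSL i)
  by_contra hn
  have := (h.bound (H8.isSyl_sylow P) D a ha ha' hg fun i j hw => hA ?_).2 fun k hk hd => ?_
  · simp at this
  · have h0 : D.π (a j) ≠ 0 := by rw [Ne, D.eq_zero _ (ha j)]; exact ha' j
    obtain ⟨c, hc⟩ := (H3.wedge_eq_zero_iff h0).1 hw
    rw [← ZMod.natCast_zmod_val c, Nat.cast_smul_eq_nsmul, ← D.map_pow (ha j), eq_comm,
      D.eq_iff (ha i) (pow_mem (ha j) _)] at hc
    refine Subgroup.eq_of_le_of_card_ge ?_ (by rw [hAcard, hAcard])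
    rw [← e i, ← e j]
    refine sup_le le_sup_left (Subgroup.zpowers_le.2 ?_)
    have := Subgroup.mul_mem _ (Subgroup.mem_sup_left hc : _ ∈ _ ⊔ Subgroup.zpowers (a j))
      (Subgroup.mem_sup_right (pow_mem (Subgroup.mem_zpowers (a j)) c.val))
    simpa using this
  · have hpp : p.Prime := Fact.out
    by_contra hk6
    have h1 := Nat.le_of_dvd (by omega) hd
    have h2 : p ≤ 16 := by omega
    have h3 : 14 ≤ p := by omega
    interval_cases p <;> norm_num at hpp

end Cfsg.Agent.S3054
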