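import Cfsg.Statements.S3055
import Cfsg.Agent.H1.ESLines

set_option autoImplicit false
set_option linter.style.haveILetI false
set_option linter.unusedVariables false
open Cfsg

namespace Cfsg.Agent.S3055

/-- Let p be an odd prime and G a finite group with a Sylow p-subgroup P that is extraspecial of order p³ and exponent p. If all nonidentity elements of P are conjugate in G, then p ≤ 7. -/
theorem result {G : Type*} [Group G] [Finite G]
    {p : ℕ} [Fact p.Prime] (hp : p ≠ 2) (P : Sylow p G) (hE : Cfsg.IsExtraspecial p ↥P)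
    (hcard : Nat.card P = p ^ 3) (hexp : Monoid.exponent ↥P = p)
    (hconj : ∀ x y : ↥P, x ≠ 1 → y ≠ 1 → ∃ g : G, g * (x : G) * g⁻¹ = (y : G)) :
    p ≤ 7 := by
  obtain ⟨z, h⟩ := H1.exists_es3 hE hcard hexp
  obtain ⟨D⟩ := h.exists_coord_top
  have hpp : p.Prime := Fact.out
  choose a ha e using fun c : ZMod p => D.surj ![1, c]
  have ha' : ∀ c, a c ∉ Subgroup.zpowers z := fun c hc => by
    have := (D.eq_zero _ (ha c)).2 hc
    rw [e] at this
    simpa using congrFun this 0
  have hg : ∀ c, H1.GoodPlane p z (a c) := fun c => by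
    obtain ⟨g, hg⟩ := hconj ⟨z, h.mem⟩ ⟨a c, ha c⟩ (fun e => h.ne (congrArg Subtype.val e))
      fun e => ha' c (by rw [show a c = 1 from congrArg Subtype.val e]; exact one_mem _)
    obtain ⟨k, h1, h2⟩ := H4.es_exists_swap P h.mem h.cent (ha c) hg
    exact H1.goodPlane_of_swap h (ha c) (ha' c) h1 h2
  have := h.bound (H8.isSyl_sylow P) D a ha ha' hg fun i j hw => by
    rw [e, e] at hw
    simp only [H3.wedge] at hw
    simpa [sub_eq_zero, eq_comm] using hw
  rw [ZMod.card] at this
  by_contra hn
  by_cases h13 : 13 ≤ p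
  · have := this.1 fun k hk hd => by
      have h1 := Nat.le_of_dvd (by omega) hd
      omega
    omega
  · have h11 : p = 11 := by
      have h2 : p ≤ 12 := by omega
      have h3 : 8 ≤ p := by omega
      interval_cases p <;> first | rfl | norm_num at hpp
    have := this.2 fun k hk hd => by
      rw [h11] at hd
      omega
    omega

end Cfsg.Agent.S3055
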