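import Cfsg.Statements.S3057
import Cfsg.Agent.H9.RankOne

set_option autoImplicit false
open Cfsg

namespace Cfsg.Agent.S3057

/-- Let p be a prime and G a finite p-solvable group of order divisible by p, with Sylow p-subgroup P. Then the Sylow p-subgroups of G fail to be chain-connected through nontrivial intersections (equivalently, G has a strongly p-embedded subgroup) if and only if O_p(G) = 1 and P is cyclic or, for p = 2, generalized quaternion. -/
theorem result {G : Type*} [Group G] [Finite G]
    (p : ℕ) [Fact p.Prime] (hdiv : p ∣ Nat.card G) (hsol : Cfsg.IsPSolvable p G) (P : Sylow p G) :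
    ¬ Cfsg.IsSylowChainConnected p G ↔
      Cfsg.pCore p G = ⊥ ∧ (IsCyclic ↥P ∨ (p = 2 ∧ ∃ n : ℕ, Nonempty (↥P ≃* QuaternionGroup (2 ^ n)))) := by
  rw [H9.not_chainConnected_iff]
  have hP := H7.isSylowIn_top P
  constructor
  · rintro ⟨X, h⟩
    refine ⟨h.pCore_eq_bot, ?_⟩
    rcases H9.uniqueOrderP_or_exists P.isPGroup' with h1 | ⟨A, hA, hea, hc⟩
    · exact (h1.isCyclic_or_quaternion P.isPGroup').imp id fun ⟨h2, n, _, h3⟩ => ⟨h2, n, h3⟩
    exfalso
    obtain ⟨T, hT, hTX, -⟩ := h.exists_sylow
    obtain ⟨g, -, rfl⟩ := hP.exists_cj hT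
    have hn : ∀ (K N : Subgroup G) [N.Normal], K ≤ Subgroup.normalizer (N : Set G) := by
      intro K N _
      rw [Subgroup.normalizer_eq_top]; exact le_top
    obtain ⟨n, H, h0, h1, hm, hN, hi⟩ := hsol
    have key : ∀ i : Fin (n + 1), ¬ p ∣ Nat.card (H i) := by
      intro i
      induction i using Fin.induction with
      | zero => rw [h0, Subgroup.card_bot]; exact (Fact.out : p.Prime).not_dvd_one
      | succ i ih =>
        have hle : H i.castSucc ≤ H i.succ := hm Fin.castSucc_lt_succ.le
        have := hN i.castSucc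
        have := hN i.succ
        rcases hi i with ⟨m, hm⟩ | hm
        · refine h.not_dvd_of_le ?_ (hn _ _)
          have hD : H i.castSucc ≤ X :=
            H9.generation_elementaryAbelian (H7.ea_cj hea g) (by rw [H7.card_cj, hc]) (hn _ _) ih
              fun a ha h1 => (inf_le_inf_right _ le_top).trans (h.centralizer_le
                (hTX (H7.cj_mono hA ha)) h1
                (H7.isPGroup_iff_mem.mp (H7.ea_isPGroup (H7.ea_cj hea g)) a ha))
          refine ((hT.inf_of_normal le_top (hn _ (H i.succ))).le_sup_of_pow_mem (hn _ _)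
            fun x hx => ⟨m, ?_⟩).trans (sup_le (inf_le_left.trans hTX) hD)
          rw [← hm]
          exact Subgroup.pow_relIndex_mem _ hx
        · rw [← H7.relIndex_mul_card_of_le hle]
          exact (Fact.out : p.Prime).prime.not_dvd_mul
            ((Nat.Prime.coprime_iff_not_dvd Fact.out).mp hm.symm) ih
    exact key (Fin.last n) (by rwa [h1, Subgroup.card_top])
  · rintro ⟨hO, hT⟩
    have h : H9.UniqueOrderP p (P : Subgroup G) := by
      rcases hT with h | ⟨-, n, ⟨e⟩⟩
      · exact H9.uniqueOrderP_of_isCyclic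
      · exact (H9.uniqueOrderP_of_quaternion P.isPGroup' e).2
    exact ⟨_, H9.spe_normalizer_omegaOne hP (hP.ne_bot (by rwa [Subgroup.card_top])) h
      (by rwa [H7.pCoreOf_top])⟩

end Cfsg.Agent.S3057
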