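import Cfsg.Statements.S3058
import Cfsg.Agent.H9.SPE

set_option autoImplicit false
open Cfsg

namespace Cfsg.Agent.S3058

/-- Let p be a prime and G a finite group whose Sylow p-subgroups are not chain-connected through nontrivial intersections (so G has a strongly p-embedded subgroup). If N and M are normal subgroups of G whose orders are both divisible by p, then the order of N ∩ M is divisible by p. Consequently, among the normal subgroups of G whose order is divisible by p there is a smallest one (the intersection of all of them). -/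
theorem result {G : Type*} [Group G] [Finite G]
    (p : ℕ) [Fact p.Prime] (hG : ¬ Cfsg.IsSylowChainConnected p G)
    (N M : Subgroup G) [N.Normal] [M.Normal] (hN : p ∣ Nat.card N) (hM : p ∣ Nat.card M) :
    p ∣ Nat.card ↥(N ⊓ M) := by
  obtain ⟨X, h⟩ := H9.exists_spe_of_not_chainConnected hG
  by_contra hd
  have hn : ∀ (K N : Subgroup G) [N.Normal], K ≤ Subgroup.normalizer (N : Set G) := by
    intro K N _
    rw [Subgroup.normalizer_eq_top]; exact le_top
  obtain ⟨T, hT, hTX, -⟩ := h.exists_sylow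
  have key : ∀ (N : Subgroup G) [N.Normal], p ∣ Nat.card N → ∃ z ∈ T ⊓ N, z ≠ 1 ∧
      z ∈ Subgroup.centralizer (T : Set G) ∧ z ^ p = 1 := by
    intro N _ hN
    have h1 := hT.inf_of_normal le_top (hn ⊤ N)
    exact H7.exists_central_elem h1.isPGroup hT.isPGroup
      (H7.le_normalizer_inf Subgroup.le_normalizer (hn _ N)) (h1.ne_bot hN)
  obtain ⟨a, ha, ha1, hac, hap⟩ := key N hN
  obtain ⟨b, hb, hb1, hbc, hbp⟩ := key M hM
  have hea := H7.ea_omegaOneCenter p T
  have hcop : (Nat.card ↥(N ⊓ M)).Coprime p :=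
    ((Nat.Prime.coprime_iff_not_dvd Fact.out).mpr hd).symm
  have hD : N ⊓ M ≤ X := by
    refine H9.generation_elementaryAbelian hea ?_ (hn _ _) hd fun x hx hx1 =>
      (inf_le_inf_right _ le_top).trans (h.centralizer_le
        (hTX (H7.omegaOneCenter_le p T hx)) hx1 (H7.isPGroup_iff_mem.mp (H7.ea_isPGroup hea) x hx))
    have h1 : Subgroup.zpowers a ⊔ Subgroup.zpowers b ≤ Cfsg.omegaOneCenter p T :=
      sup_le (Subgroup.zpowers_le.mpr (H7.mem_omegaOneCenter_iff.mpr ⟨ha.1, hac, hap⟩))
        (Subgroup.zpowers_le.mpr (H7.mem_omegaOneCenter_iff.mpr ⟨hb.1, hbc, hbp⟩))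
    refine le_trans (le_of_eq ?_) (Subgroup.card_le_of_le h1)
    have h2 := H7.card_sup_mul_card_inf (H := Subgroup.zpowers a) (N := Subgroup.zpowers b)
      (H7.le_normalizer_of_le_centralizer ((Subgroup.zpowers_le.mpr hac).trans
        (H7.centralizer_anti (Subgroup.zpowers_le.mpr hb.1))))
    have h3 : Subgroup.zpowers a ⊓ Subgroup.zpowers b = ⊥ := by
      refine le_bot_iff.mp (le_trans (le_inf inf_le_left (inf_le_inf
        (Subgroup.zpowers_le.mpr ha.2) (Subgroup.zpowers_le.mpr hb.2)))
        (H7.inf_eq_bot_of_isPGroup_of_coprime (H7.isPGroup_zpowers ⟨1, by simpa using hap⟩)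
          hcop).le)
    rw [h3, Subgroup.card_bot, mul_one, Nat.card_zpowers, Nat.card_zpowers,
      orderOf_eq_prime hap ha1, orderOf_eq_prime hbp hb1] at h2
    rw [h2, sq]
  have hz : IsPGroup p (Subgroup.zpowers a) := H7.isPGroup_zpowers ⟨1, by simpa using hap⟩
  have hS := (H7.isSylowIn_self hz).sup_coprime hcop (hn _ _)
  refine h.not_dvd_of_le (N := M) (fun g hg => ?_) (hn _ _) hM
  have hgn : g ∈ Subgroup.normalizer ((Subgroup.zpowers a ⊔ (N ⊓ M) : Subgroup G) : Set G) := by
    refine H7.le_normalizer_of_commutator_le (K := N) (A := M)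
      (sup_le (Subgroup.zpowers_le.mpr ha.2) inf_le_left)
      ((Subgroup.commutator_le_inf N M).trans le_sup_right) hg
  obtain ⟨n, hn', c, hc, rfl⟩ := hS.frattini_elem hgn
  have hax : Subgroup.zpowers a ≤ X := Subgroup.zpowers_le.mpr (hTX ha.1)
  exact X.mul_mem (sup_le hax hD hn')
    (h.norm _ hax hz (by simpa using ha1) ⟨Subgroup.mem_top c, hc⟩)

end Cfsg.Agent.S3058
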