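import Cfsg.Statements.S3062
import Cfsg.Agent.H4.DStar

set_option autoImplicit false
open Cfsg

namespace Cfsg.Agent.S3062

/-- Let S be a finite p-group, J(S) the subgroup generated by the abelian subgroups of S of largest order and Z(J(S)) its centre. Then Z(S) ≤ D*(S) ≤ Z(J(S)), and every maximal normal abelian subgroup of S contains D*(S). -/
theorem result {S : Type*} [Group S] [Finite S] {p : ℕ} [Fact p.Prime]
    (hS : IsPGroup p S) :
    Subgroup.center S ≤ Cfsg.dStar S ∧
    Cfsg.dStar S ≤ Cfsg.thompsonSubgroupA S ⊓ Subgroup.centralizer (Cfsg.thompsonSubgroupA S : Set S) ∧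
    ∀ A : Subgroup S, A.Normal → IsMulCommutative A →
      (∀ B : Subgroup S, B.Normal → IsMulCommutative B → A ≤ B → B = A) → Cfsg.dStar S ≤ A := by
  have hT := H7.isPGroup_top_iff.mpr hS
  have h := H4.ds_dSt hT
  have h1 : thompsonSubgroupA S ≤ Subgroup.centralizer (H4.DSt (⊤ : Subgroup S) : Set S) :=
    sSup_le fun A hA => H4.dSt_le_maxAb hT (H8.maxAb_top_iff_A.mpr hA)
  have h2 := H7.normal_of_le_normalizer_top
    (Subgroup.le_normalizer.trans (H4.normalizer_le_normalizer_dSt (⊤ : Subgroup S)))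
  rw [← H4.dSt_top]
  refine ⟨le_sSup ⟨le_top, Subgroup.center_le_centralizer _, fun x _ _ y hy =>
    (Subgroup.mem_center_iff.mp hy x).symm⟩, le_inf ?_ (Subgroup.le_centralizer_iff.mp h1),
    fun A hA hc hmax => ?_⟩
  · obtain ⟨A, hA⟩ := H4.exists_maxAb (G := S)
    exact (Subgroup.le_centralizer_iff.mp ((le_sSup hA).trans h1)).trans
      ((H4.centralizer_eq_of_maxAb hA).le.trans (le_sSup hA))
  · rw [H4.isMulCommutative_iff_le] at hc
    exact le_sup_right.trans (hmax _ inferInstance (H4.isMulCommutative_iff_le.mpr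
      (H4.sup_le_centralizer_sup hc h.2.1 (H4.dSt_le_centralizer hT le_top hc
        Subgroup.le_normalizer_of_normal))) le_sup_left).le

end Cfsg.Agent.S3062
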