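import Cfsg.Statements.S3064
import Cfsg.Agent.H8.Up
import Cfsg.Agent.H5.Burnside

set_option autoImplicit false
open Cfsg

namespace Cfsg.Agent.S3064

open Subgroup Cfsg.L0 Cfsg.H8
open scoped commutatorElement


/-- Let S be a Sylow p-subgroup of the finite group G and x an element of S such that (i) x is the only G-conjugate of x lying in S, and (ii) x centralizes every subgroup of order prime to p that it normalizes. Then x lies in the centre of G. -/
theorem result {G : Type*} [Group G] [Finite G] {p : ℕ} [Fact p.Prime]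
    (S : Sylow p G) (x : G) (hx : x ∈ S)
    (hU : ∀ g : G, g⁻¹ * x * g ∈ S → g⁻¹ * x * g = x)
    (hb : ∀ H : Subgroup G, (Nat.card H).Coprime p → (∀ h ∈ H, x * h * x⁻¹ ∈ H) → ∀ h ∈ H, x * h = h * x) :
    x ∈ Subgroup.center G := by
  have hiso : IsIsolated x := isIsolated_of_weaklyClosed (isSyl_sylow S) hx fun g hg => by
    simpa using hU g⁻¹ (by rwa [inv_inv])
  have hxp : ∃ k, x ^ p ^ k = 1 := isPGroup_iff_forall.1 S.isPGroup' x hx
  suffices ∀ (n : ℕ) (H : Subgroup G), Nat.card H = n → x ∈ H → H ≤ centralizer {x} from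
    mem_center_iff.2 fun g => mem_centralizer_singleton_iff.1 (this _ ⊤ rfl (mem_top x) (mem_top g))
  intro n
  induction n using Nat.strong_induction_on with | _ n IH => ?_
  intro H hn hxH
  set f := QuotientGroup.mk' (center H) with hf
  have hfs : Function.Surjective f := QuotientGroup.mk'_surjective _
  have hZ : up f ⊥ = H ⊓ centralizer (H : Set G) := by
    rw [up, MonoidHom.comap_bot, hf, QuotientGroup.ker_mk', H7.map_center_subtype]
  set C := H ⊓ centralizer {x} with hC
  have hZC : up f ⊥ ≤ C := hZ ▸ inf_le_inf_left _ (centralizer_le (by simpa using hxH))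
  have hup : up f (down f C) = C := up_down_of_le f inf_le_left hZC
  obtain ⟨N, hN, -, hcard, hcomp⟩ := H5.exists_frobenius_kernel (H := down f C) fun g hg h hh hgh => by
    obtain ⟨g, rfl⟩ := hfs g
    obtain ⟨h, hh, rfl⟩ := hh
    rw [← map_inv, ← map_mul, ← map_mul, ← coe_mem_up, hup] at hgh
    by_contra hne
    have h1 : H ⊓ centralizer {(h : G)} < H := inf_lt_left.2 fun hle => hne (by
      rw [← mem_bot, ← coe_mem_up, hZ]
      exact ⟨h.2, fun y hy => mem_centralizer_singleton_iff.1 (hle hy)⟩)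
    have h2 := IH _ (hn ▸ card_lt_of_lt h1) (H ⊓ centralizer {(h : G)}) rfl
      ⟨hxH, mem_centralizer_singleton_iff.2 (mem_centralizer_singleton_iff.1 hh.2).symm⟩
    have h3 : (g : G)⁻¹ * x * (g : G)⁻¹⁻¹ ∈ centralizer {x} := h2 ⟨H.mul_mem (H.mul_mem (H.inv_mem g.2) hxH)
      (H.inv_mem (H.inv_mem g.2)), mem_centralizer_singleton_iff.2 (by
        have := mem_centralizer_singleton_iff.1 hgh.2
        simp only [coe_mul, coe_inv] at this
        rw [inv_inv]
        calc (g : G)⁻¹ * x * g * h = (g : G)⁻¹ * (x * (g * h * (g : G)⁻¹)) * g := by group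
          _ = _ := by rw [← this]; group)⟩
    have h4 := hiso _ (mem_centralizer_singleton_iff.1 h3).symm
    refine hg (mem_down_of_mem ⟨g.2, mem_centralizer_singleton_iff.2 ?_⟩)
    conv_lhs => rw [← h4]
    group
  have hidx : ¬ p ∣ Nat.card N := by
    obtain ⟨P, hP, hxP⟩ := exists_isSyl_ge (H7.isPGroup_zpowers hxp) (zpowers_le.2 hxH)
    have h1 := (hP.down f le_rfl).not_dvd_of_le (down_mono f (le_inf hP.le
      (iso_le_centralizer hiso hP.isPGroup (hxP (mem_zpowers x)))))
    rwa [down_top hfs, relIndex_top_right, ← hcard] at h1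
  obtain ⟨Q, hQ⟩ := exists_isSyl p (up f N)
  have hQZ : Q ≤ up f ⊥ := by
    rw [← down_eq_bot_iff (hQ.le.trans (up_le _ _))]
    have := hQ.down f (up_le _ _)
    rw [down_up hfs] at this
    exact this.eq_bot hidx
  have hnpc : NPC p (up f N) := burnside_npc hQ (inf_le_left.trans ((up_le _ _).trans
    (le_centralizer_iff.1 (hQZ.trans (hZ.le.trans inf_le_right)))))
  have hK : up f N ≤ C := by
    intro y hy
    obtain ⟨a, ha, b, hb', rfl⟩ := hQ.exists_mul_of_forall (H7.le_normalizer_pResidualOf p _)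
      (fun _ hx => H7.exists_pow_mem_pResidualOf hx) hy
    refine mul_mem ⟨up_le _ _ (H7.pResidualOf_le _ _ ha), ?_⟩ (hZC (hQZ hb'))
    exact mem_centralizer_singleton_iff.2 (hb _ hnpc (fun h hh => conj_mem_of_mem_normalizer
      (H7.le_normalizer_pResidualOf' p (le_normalizer_up f N) hxH) hh) a ha).symm
  have h1 : N ≤ down f C := by rwa [← up_le_up_iff hfs, hup]
  have h2 := hcomp.sup_eq_top
  rw [sup_eq_right.2 h1] at h2
  rw [h2, up_top] at hup
  exact hup.le.trans inf_le_right

end Cfsg.Agent.S3064
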