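import Cfsg.Statements.S3067
import Cfsg.Agent.H5.CopInv

set_option autoImplicit false
open Cfsg

namespace Cfsg.Agent.S3067

/-- Let G be a finite non-abelian simple group, τ an involution of G, and α a nontrivial automorphism of G whose order is coprime to the order of G. Then α moves some element of the centralizer of τ: α does not fix C_G(τ) elementwise. -/
theorem result {G : Type*} [Group G] [Finite G] [IsSimpleGroup G]
    (hG : ¬ IsMulCommutative G) (τ : G) (hτ : orderOf τ = 2) (α : MulAut G) (hα : α ≠ 1)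
    (hcop : (orderOf α).Coprime (Nat.card G)) :
    ∃ c ∈ Subgroup.centralizer ({τ} : Set G), α c ≠ c := by
  by_contra hcon
  push Not at hcon
  have hinj : Function.Injective (MulAut.conj : G →* MulAut G) := by
    rw [← MonoidHom.ker_eq_bot_iff]
    rcases (MulAut.conj : G →* MulAut G).normal_ker.eq_bot_or_eq_top with h | h
    · exact h
    · refine absurd ⟨⟨fun a b => ?_⟩⟩ hG
      have : a ∈ (MulAut.conj : G →* MulAut G).ker := h ▸ Subgroup.mem_top a
      have h2 := congrArg (fun f : MulAut G => f b) (MonoidHom.mem_ker.1 this)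
      simp only [MulAut.conj_apply, MulAut.one_apply] at h2
      exact mul_inv_eq_iff_eq_mul.1 h2
  have hconj : ∀ (β : MulAut G) (g : G), β * MulAut.conj g * β⁻¹ = MulAut.conj (β g) := fun β g => by
    ext x; simp
  let K : Subgroup (MulAut G) := (MulAut.conj : G →* MulAut G).range
  have hK : K.Normal := ⟨by rintro _ ⟨g, rfl⟩ β; exact ⟨β g, (hconj β g).symm⟩⟩
  have hcomm : ∀ g : G, α g = g → MulAut.conj g * α = α * MulAut.conj g := fun g hg => by
    have := hconj α g
    rw [hg] at this
    exact (mul_inv_eq_iff_eq_mul.1 this).symm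
  have hcomm' : ∀ (β : MulAut G) (g : G), MulAut.conj g * β = β * MulAut.conj g → β g = g := fun β g hg => by
    apply hinj
    rw [← hconj, ← hg]; group
  have hH : H5.CopInv.Hyp K α (MulAut.conj τ) :=
    { cop := by
        rw [Nat.card_congr (MonoidHom.ofInjective hinj).toEquiv.symm]; exact hcop
      mem := ⟨τ, rfl⟩
      ord := by rw [orderOf_injective _ hinj, hτ]
      le := by
        rintro _ ⟨⟨c, rfl⟩, hc⟩
        have hc' := Subgroup.mem_centralizer_singleton_iff.1 hc
        rw [← map_mul, ← map_mul] at hc'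
        exact Subgroup.mem_centralizer_singleton_iff.2
          (hcomm c (hcon c (Subgroup.mem_centralizer_singleton_iff.2 (hinj hc')))) }
  have hZ : τ ∉ Subgroup.center G := by
    intro hz
    rcases (inferInstance : (Subgroup.center G).Normal).eq_bot_or_eq_top with h | h
    · rw [h, Subgroup.mem_bot] at hz
      rw [hz, orderOf_one] at hτ
      exact absurd hτ (by decide)
    · exact hG ⟨⟨fun a b => ((Subgroup.mem_center_iff.1 (h ▸ Subgroup.mem_top a)) b).symm⟩⟩
  obtain ⟨g, hg1, hg2⟩ := H5.exists_commute_conj_ne hτ hZ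
  have e : MulAut.conj g * MulAut.conj τ * (MulAut.conj g)⁻¹ = MulAut.conj (g * τ * g⁻¹) := by
    simp only [map_mul, map_inv]
  -- the subgroup of elements fixed by all conjugates of `α`
  let N : Subgroup G :=
    { carrier := {y | ∀ k : G, α (k⁻¹ * y * k) = k⁻¹ * y * k}
      one_mem' := by intro k; simp
      mul_mem' := by
        intro a b ha hb k
        have : k⁻¹ * (a * b) * k = (k⁻¹ * a * k) * (k⁻¹ * b * k) := by group
        rw [this, map_mul, ha k, hb k]
      inv_mem' := by
        intro a ha k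
        have : k⁻¹ * a⁻¹ * k = (k⁻¹ * a * k)⁻¹ := by group
        rw [this, map_inv, ha k] }
  have hN : N.Normal := ⟨fun a ha h k => by
    have : k⁻¹ * (h * a * h⁻¹) * k = (h⁻¹ * k)⁻¹ * a * (h⁻¹ * k) := by group
    rw [this]; exact ha _⟩
  have hmem : τ⁻¹ * (g * τ * g⁻¹) ∈ N := by
    intro k
    have := hH.main (g := MulAut.conj g) ⟨g, rfl⟩ (by
      rw [e]
      exact hcomm _ (hcon _ (Subgroup.mem_centralizer_singleton_iff.2 hg1.eq.symm)))
      (k := MulAut.conj k) ⟨k, rfl⟩
    rw [e] at this
    apply hcomm'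
    simp only [map_mul, map_inv] at this ⊢
    set T := MulAut.conj τ
    set U := MulAut.conj g * T * (MulAut.conj g)⁻¹
    set κ := MulAut.conj k
    calc κ⁻¹ * (T⁻¹ * U) * κ * α = κ⁻¹ * T⁻¹ * (U * (κ * α * κ⁻¹) * U⁻¹) * U * κ := by group
      _ = _ := by rw [← this]; group
  rcases hN.eq_bot_or_eq_top with h | h
  · rw [h, Subgroup.mem_bot] at hmem
    exact hg2 (inv_mul_eq_one.1 hmem).symm
  · apply hα
    ext y
    have : y ∈ N := h ▸ Subgroup.mem_top y
    simpa using this 1

end Cfsg.Agent.S3067
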