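import Cfsg.Statements.S3069
import Cfsg.Agent.L0.KTr

set_option autoImplicit false
open Cfsg

namespace Cfsg.Agent.S3069

/-- Let p ≥ 7 be a prime and S a nontrivial Sylow p-subgroup of the finite group G. If N_G(S)/C_G(S) is a p-group (every element of N_G(S) of order prime to p centralizes S), then O^p(G) < G, i.e. G has a nontrivial p-factor group. -/
theorem result {G : Type*} [Group G] [Finite G] {p : ℕ} [Fact p.Prime]
    (hp : 7 ≤ p) (S : Sylow p G) (hS : (S : Subgroup G) ≠ ⊥)
    (hN : ∀ g ∈ Subgroup.normalizer ((S : Subgroup G) : Set G), (orderOf g).Coprime p →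
      g ∈ Subgroup.centralizer ((S : Subgroup G) : Set G)) :
    Cfsg.pResidual p G ≠ ⊤ := by
  intro h
  refine KT.not_le_commutator hp _ G S ⊤ rfl (H8.isSyl_sylow S) hS (fun g _ => hN g) fun x hx => ?_
  have key : ∀ y : G, (orderOf (Abelianization.of y)).Coprime p := by
    intro y
    have hy : y ∈ Cfsg.pResidual p G := h ▸ Subgroup.mem_top y
    induction hy using Subgroup.closure_induction with
    | mem y hy => exact Nat.Coprime.coprime_dvd_left (orderOf_map_dvd _ y) hy
    | one => simp
    | mul a b _ _ ha hb =>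
      rw [map_mul]
      exact Nat.Coprime.coprime_dvd_left (Commute.all _ _).orderOf_mul_dvd_mul_orderOf
        (Nat.Coprime.mul_left ha hb)
    | inv a _ ha => rwa [map_inv, orderOf_inv]
  obtain ⟨k, hk⟩ := S.isPGroup' ⟨x, hx⟩
  have h1 : Abelianization.of x ^ p ^ k = 1 := by
    rw [← map_pow, show x ^ p ^ k = 1 from congrArg Subtype.val hk, map_one]
  have h2 := Nat.eq_one_of_dvd_coprimes ((key x).pow_right k) dvd_rfl (orderOf_dvd_of_pow_eq_one h1)
  have h3 : x ∈ (Abelianization.of : G →* _).ker := orderOf_eq_one_iff.1 h2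
  rwa [Abelianization.ker_of] at h3

end Cfsg.Agent.S3069
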