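import Cfsg.Statements.S3070
import Cfsg.Agent.H8.JNpc

set_option autoImplicit false
open Cfsg

namespace Cfsg.Agent.S3070

open Subgroup Cfsg.L0 Cfsg.H8
open scoped commutatorElement


/-- Let p ≥ 5 be a prime, S a Sylow p-subgroup of the finite group G and J(S) the subgroup generated by the abelian subgroups of S of largest order. Then G has a normal p-complement if and only if N_G(J(S))/C_G(J(S)) is a p-group (every element of N_G(J(S)) of order prime to p centralizes J(S)). -/
theorem result {G : Type*} [Group G] [Finite G] {p : ℕ} [Fact p.Prime]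
    (hp : 5 ≤ p) (S : Sylow p G) :
    Cfsg.HasNormalPComplement p G ↔
      ∀ g ∈ Subgroup.normalizer (Cfsg.thompsonSubgroupAOf (S : Subgroup G) : Set G), (orderOf g).Coprime p →
        g ∈ Subgroup.centralizer (Cfsg.thompsonSubgroupAOf (S : Subgroup G) : Set G) := by
  rw [thompsonSubgroupAOf_eq, ← npc_top_iff]
  have hP := isSyl_sylow S
  have hJ : IsPGroup p (JT 0 (S : Subgroup G)) := hP.isPGroup.to_le (JT_le 0 _)
  constructor
  · intro h g hg hc
    exact h.mem_centralizer hJ le_top (mem_top g) hg hc
  · intro h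
    refine npc_of_npc_JT hp hP ?_
    rw [top_inf_eq]
    refine npc_of_actsP (actsP_of_coprime le_rfl h) ?_
    have h2 : (S : Subgroup G) ⊓ centralizer (JT 0 (S : Subgroup G) : Set G) ≤
        ZJ 0 (S : Subgroup G) := le_ZJ inf_le_left inf_le_right fun b _ => pow_zero b
    have h3 : IsSyl p (S : Subgroup G) (⊤ ⊓ normalizer (JT 0 (S : Subgroup G) : Set G)) :=
      hP.mono (le_inf le_top (le_normalizer.trans (normalizer_le_normalizer_JT 0 _))) le_top
    have h1 := npc_centralizer_of_centric h3 (h2.trans (ZJ_le_JT 0 _))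
    rwa [top_inf_eq] at h1

end Cfsg.Agent.S3070
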