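import Cfsg.Statements.S3071
import Cfsg.Agent.H8.Stable

set_option autoImplicit false
open Cfsg

namespace Cfsg.Agent.S3071

open Subgroup Cfsg.L0 Cfsg.H8
open scoped commutatorElement


/-- Let p be an odd prime and S a Sylow p-subgroup of the finite group G such that, for every subgroup P with Z(S) ≤ P ≤ S, the normalizer N_G(P) has no section isomorphic to SL₂(p). Let J(S) be the subgroup generated by the abelian subgroups of S of largest order. Then two elements of S are conjugate in G if and only if they are conjugate in N_G(Z(J(S))). -/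
theorem result {G : Type*} [Group G] [Finite G] {p : ℕ} [Fact p.Prime]
    (hp : p ≠ 2) (S : Sylow p G)
    (hfree : ∀ P : Subgroup G, (S : Subgroup G) ⊓ Subgroup.centralizer ((S : Subgroup G) : Set G) ≤ P → P ≤ S →
      ¬ ∃ (H K : Subgroup G) (hK : (K.subgroupOf H).Normal), H ≤ Subgroup.normalizer (P : Set G) ∧
        Nonempty ((H ⧸ K.subgroupOf H) ≃* Matrix.SpecialLinearGroup (Fin 2) (ZMod p))) :
    ∀ x ∈ S, ∀ y ∈ S, (∃ g : G, g * x * g⁻¹ = y) ↔
      ∃ n ∈ Subgroup.normalizer (Cfsg.centerThompsonAOf (S : Subgroup G) : Set G), n * x * n⁻¹ = y := by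
  have h1 := ctrl_ZJ_of_local' (e := 0) (isSyl_sylow S) (sc_self _) fun V hV ⟨h, _, h1, h2⟩ hsyl => by
    rw [omegaOne_zero] at h1
    refine (ctrl_ZJ_of_qd_free hp (dvd_zero p) hsyl (sc_inf (sc_self _) inf_le_left) fun h3 => ?_).mono
      (inf_le_inf_right _ inf_le_left) le_rfl le_rfl
    rw [top_inf_eq, ← involves_cj h, cj_normalizer] at h3
    obtain ⟨K, f, h4, hf⟩ := involves_subgroup_iff.1 (involves_trans involves_SL2_qd h3)
    have e : (f.ker.map K.subtype).subgroupOf K = f.ker :=
      comap_map_eq_self_of_injective K.subtype_injective _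
    have : ((f.ker.map K.subtype).subgroupOf K).Normal := by rw [e]; infer_instance
    exact hfree _ h1 h2 ⟨K, f.ker.map K.subtype, this, h4,
      ⟨(QuotientGroup.quotientMulEquivOfEq e).trans (QuotientGroup.quotientKerEquivOfSurjective f hf)⟩⟩
  rw [top_inf_eq] at h1
  rw [centerThompsonAOf_eq]
  refine fun x hx y hy => ⟨?_, fun ⟨n, _, h⟩ => ⟨n, h⟩⟩
  rintro ⟨g, rfl⟩
  obtain ⟨m, hm, e⟩ := h1 (zpowers x) (zpowers_le.2 hx) g (mem_top g) (by rwa [cj_zpowers, zpowers_le])
  exact ⟨m, hm, (e x (mem_zpowers x)).symm⟩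

end Cfsg.Agent.S3071
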