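import Cfsg.Statements.S3072
import Cfsg.Agent.H8.Essential

set_option autoImplicit false
open Cfsg

namespace Cfsg.Agent.S3072

open Subgroup Cfsg.L0 Cfsg.H8
open scoped commutatorElement


variable {G : Type*} [Group G] {p : ℕ}

structure Good (p : ℕ) (P H X : Subgroup G) (x : G) : Prop where
  ess : Essential p P ⊤ H
  h1 : H ≤ X
  h2 : X ≤ normalizer (H : Set G)
  h3 : normalizer (H : Set G) ≤ normalizer (X : Set G)
  h4 : p ∣ H.relIndex X
  h5 : ∀ Y, H ≤ Y → Y ≤ normalizer (H : Set G) → normalizer (H : Set G) ≤ normalizer (Y : Set G) →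
    p ∣ H.relIndex Y → X ≤ Y
  h6 : x ∈ pResidualOf p X

theorem Good.conj [Finite G] [Fact p.Prime] {P H X : Subgroup G} {x y : G} (h : Good p P H X x)
    (hy : y ∈ normalizer (P : Set G)) : Good p P (cj y H) (cj y X) (y * x * y⁻¹) := by
  refine ⟨?_, cj_mono y h.h1, ?_, ?_, ?_, fun Y h1 h2 h3 h4 => ?_, ?_⟩
  · have := h.ess.cj y
    rwa [cj_eq_iff.2 hy, cj_top] at this
  · rw [← cj_normalizer]; exact cj_mono y h.h2
  · rw [← cj_normalizer, ← cj_normalizer]; exact cj_mono y h.h3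
  · rw [relIndex_cj]; exact h.h4
  · rw [cj_le_iff]
    refine h.h5 _ ((cj_le_iff y).1 h1) ?_ ?_ ?_
    · rwa [← cj_le_cj_iff y, cj_cj_inv, cj_normalizer]
    · rwa [← cj_normalizer, ← cj_le_iff, cj_normalizer]
    · rwa [← relIndex_cj y, cj_cj_inv]
  · have := conj_mem_cj (g := y) h.h6
    rwa [show cj y (pResidualOf p X) = pResidualOf p (cj y X) from H7.cj_pResidualOf y X] at this

def Ch (p : ℕ) (P U : Subgroup G) (a b : G) : Prop :=
  Relation.ReflTransGen (fun a b => (fun a x => ∃ H X, Good p P H X x ∧ cj a⁻¹ U ≤ H) a (a⁻¹ * b)) a b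

def R (p : ℕ) (P U : Subgroup G) (g : G) : Prop :=
  ∃ c ∈ centralizer (U : Set G), ∃ y ∈ normalizer (P : Set G), ∃ z, Ch p P U 1 z ∧ g⁻¹ = c * z * y

theorem main [Finite G] [Fact p.Prime] {P : Subgroup G} (hP : IsSyl p P ⊤) :
    ∀ U, U ≤ P → ∀ g ∈ (⊤ : Subgroup G), cj g U ≤ P → R p P U g := by
  have hcomp : ∀ U g h, R p P U g → R p P (cj g U) h → R p P U (h * g) := by
    rintro U g h ⟨c, hc, y, hy, z, hz, e⟩ ⟨c', hc', y', hy', z', hz', e'⟩
    have hc2 : g⁻¹ * c' * g ∈ centralizer (U : Set G) := by rwa [← mem_cj, cj_centralizer]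
    have e3 : cj g U = cj (z * y)⁻¹ U := by
      rw [← inv_inv g, e, mul_assoc, mul_inv_rev, cj_mul,
        cj_eq_iff.2 (centralizer_le_normalizer _ (inv_mem hc))]
    refine ⟨g⁻¹ * c' * g * c, mul_mem hc2 hc, y * y', mul_mem hy hy', z * y * z' * y⁻¹, ?_, ?_⟩
    · refine Relation.ReflTransGen.trans hz ?_
      have := rtg_lift (s := fun a b => (fun a x => ∃ H X, Good p P H X x ∧ cj a⁻¹ U ≤ H) a (a⁻¹ * b))
        (fun a => z * y * a * y⁻¹) ?_ hz'
      · simpa using this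
      rintro a b ⟨H, X, h1, h2⟩
      refine ⟨cj y H, cj y X, by simpa [mul_assoc] using h1.conj hy, ?_⟩
      have := cj_mono y h2
      rw [e3, ← cj_mul, ← cj_mul] at this
      simpa [mul_assoc] using this
    · rw [mul_inv_rev, e', ← inv_inv g, e]; group
  have hres : ∀ U V g, V ≤ U → R p P U g → R p P V g := by
    rintro U V g h ⟨c, hc, y, hy, z, hz, e⟩
    refine ⟨c, H7.centralizer_anti h hc, y, hy, z, rtg_mono ?_ hz, e⟩
    rintro a b ⟨H, X, h1, h2⟩
    exact ⟨H, X, h1, (cj_mono _ h).trans h2⟩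
  refine alperin_essential hP (R p P) (fun U g h _ _ _ _ _ => hcomp U g h)
    (fun U V g h _ _ _ => hres U V g h)
    (fun U _ c _ hc => ⟨c⁻¹, inv_mem hc, 1, one_mem _, 1, .refl, by simp⟩)
    (fun g _ hg => ⟨1, one_mem _, g⁻¹, inv_mem hg, 1, .refl, by simp⟩) fun U hU IH g _ hg => ?_
  obtain ⟨L, hL⟩ := hU.spe
  have hsyl := hU.syl
  rw [top_inf_eq] at hL hsyl
  obtain ⟨X, h1, h2, h3, h4, h5⟩ := hL.exists_smallest le_rfl
  have hQ := hsyl.inf h2 (hsyl.le.trans h3)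
  set Q := P ⊓ normalizer (U : Set G) ⊓ X
  have hUQ : U < Q := lt_of_le_of_ne (le_inf (le_inf hU.le le_normalizer) h1) fun e =>
    hQ.not_dvd (e ▸ h4)
  obtain ⟨k, hk, n, hn, rfl⟩ := hQ.frattini (h3 hg)
  obtain ⟨a, ha, b, hb, rfl⟩ := hQ.exists_mul_of_forall (H7.le_normalizer_pResidualOf p X)
    (fun _ hx => H7.exists_pow_mem_pResidualOf hx) hk
  have hQP : Q ≤ P := inf_le_left.trans inf_le_left
  have hbn : b * n ∈ normalizer (Q : Set G) := mul_mem (le_normalizer hb) hn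
  have hbn' : b * n ∈ normalizer (U : Set G) := by
    rwa [mul_assoc, mul_mem_cancel_left (h2 (H7.pResidualOf_le p X ha))] at hg
  rw [mul_assoc]
  refine hcomp U _ _ (hres Q U _ hUQ.le (IH Q hQP (card_lt_of_lt hUQ) _ (mem_top _)
    ((cj_eq_iff.2 hbn).le.trans hQP))) ?_
  rw [cj_eq_iff.2 hbn']
  exact ⟨1, one_mem _, 1, one_mem _, a⁻¹, .single ⟨U, X, ⟨hU, h1, h2, h3, h4, h5, by simpa using ha⟩,
    by rw [inv_one, cj_one]⟩, by simp⟩

/-- A strong form of the Alperin–Goldschmidt fusion Theorem. Let P be a Sylow p-subgroup of the finite group G, A a subset of P containing a nonidentity element, and g an element with g⁻¹Ag ⊆ P. Then g = c·x₁⋯xₙ·y with c ∈ C_G(A), y ∈ N_G(P) and, for each i, an element xᵢ and a subgroup Hᵢ ≤ P such that: N_P(Hᵢ) is a Sylow p-subgroup of N_G(Hᵢ); C_P(Hᵢ) ≤ Hᵢ; O_{p',p}(N_G(Hᵢ)) = Hᵢ·C_G(Hᵢ); the Sylow p-subgroups of N_G(Hᵢ)/Hᵢ are not chain-connected through nontrivial intersections (the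 quotient has a strongly p-embedded subgroup); xᵢ lies in O^p(Xᵢ), where Xᵢ/Hᵢ is the smallest normal subgroup of N_G(Hᵢ)/Hᵢ of order divisible by p; and (x₁⋯xᵢ₋₁)⁻¹A(x₁⋯xᵢ₋₁) ⊆ Hᵢ. -/
theorem result {G : Type*} [Group G] [Finite G] {p : ℕ} [Fact p.Prime]
    (P : Sylow p G) (A : Set G) (hA : A ⊆ (P : Set G)) (hA1 : ∃ a ∈ A, a ≠ 1)
    (g : G) (hAg : (fun a => g⁻¹ * a * g) '' A ⊆ (P : Set G)) :
    ∃ (n : ℕ) (H X : Fin n → Subgroup G) (x : Fin n → G) (c y : G),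
      c ∈ Subgroup.centralizer A ∧ y ∈ Subgroup.normalizer ((P : Subgroup G) : Set G) ∧
      g = c * (List.ofFn x).prod * y ∧
      ∀ i : Fin n,
        H i ≤ (P : Subgroup G) ∧
        ¬ p ∣ ((P : Subgroup G) ⊓ Subgroup.normalizer (H i : Set G)).relIndex (Subgroup.normalizer (H i : Set G)) ∧
        (P : Subgroup G) ⊓ Subgroup.centralizer (H i : Set G) ≤ H i ∧
        (Cfsg.pPrimePCore p ↥(Subgroup.normalizer (H i : Set G))).map (Subgroup.normalizer (H i : Set G)).subtype =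
          H i ⊔ Subgroup.centralizer (H i : Set G) ∧
        ¬ Cfsg.IsSylowChainConnected p
            (↥(Subgroup.normalizer (H i : Set G)) ⧸ (H i).subgroupOf (Subgroup.normalizer (H i : Set G))) ∧
        (H i ≤ X i ∧ X i ≤ Subgroup.normalizer (H i : Set G) ∧
          ((X i).subgroupOf (Subgroup.normalizer (H i : Set G))).Normal ∧ p ∣ (H i).relIndex (X i) ∧
          ∀ Y : Subgroup G, H i ≤ Y → Y ≤ Subgroup.normalizer (H i : Set G) →
            (Y.subgroupOf (Subgroup.normalizer (H i : Set G))).Normal → p ∣ (H i).relIndex Y → X i ≤ Y) ∧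
        x i ∈ (Cfsg.pResidual p ↥(X i)).map (X i).subtype ∧
        (fun a => (((List.ofFn x).take i.val).prod)⁻¹ * a * ((List.ofFn x).take i.val).prod) '' A ⊆ (H i : Set G) := by
  obtain ⟨c, hc, y, hy, z, hz, e⟩ := main (isSyl_sylow P) (closure A) ((closure_le _).2 hA) g⁻¹
    (mem_top _) (by
      rw [cj_le_iff, closure_le]
      intro a ha
      rw [inv_inv]
      exact mem_cj.2 (hAg ⟨a, ha, rfl⟩))
  obtain ⟨n, x, rfl, h⟩ := (rtg_iff_prod (Q := fun a x => ∃ H X, Good p (P : Subgroup G) H X x ∧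
    cj a⁻¹ (closure A) ≤ H)).1 hz
  choose H X h1 h2 using h
  refine ⟨n, H, X, x, c, y, by rwa [centralizer_closure] at hc, hy, by simpa using e, fun i => ?_⟩
  obtain ⟨hE, h3, h4, h5, h6, h7, h8⟩ := h1 i
  obtain ⟨L, hL⟩ := hE.spe
  have hsyl := hE.syl
  have h9 := hE.rad.opMod_eq hE.le le_top hsyl
  rw [top_inf_eq] at hL hsyl h9
  rw [top_inf_eq] at h9
  refine ⟨hE.le, hsyl.not_dvd, hE.rad.centric le_top, (map_pPrimePCore _ _).trans h9,
    hL.not_chainConnected, ⟨h3, h4, normal_subgroupOf_of_le_normalizer h5, h6,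
      fun Y h10 h11 h12 => h7 Y h10 h11 ((normal_subgroupOf_iff_le_normalizer h11).1 h12)⟩, h8, ?_⟩
  rintro _ ⟨a, ha, rfl⟩
  simpa using h2 i (conj_mem_cj (subset_closure ha))

end Cfsg.Agent.S3072
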