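import Cfsg.Statements.S3073
import Cfsg.Agent.H8.CharK

set_option autoImplicit false
universe u
open Cfsg

namespace Cfsg.Agent.S3073

open Subgroup Cfsg.L0 Cfsg.H8
open scoped commutatorElement


/-- For an odd prime p, every finite p-group S has a characteristic subgroup K with C_S(K) ≤ K such that, whenever S is (isomorphic to) a Sylow p-subgroup of a finite group G, G has a normal p-complement if and only if N_G(K)/C_G(K) is a p-group, i.e. every element of N_G(K) of order prime to p centralizes K (K transported into G along the isomorphism). -/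
theorem result (p : ℕ) [Fact p.Prime] (hp : p ≠ 2)
    (S : Type u) [Group S] [Finite S] (hS : IsPGroup p S) :
    ∃ K : Subgroup S, K.Characteristic ∧ Subgroup.centralizer (K : Set S) ≤ K ∧
      ∀ (G : Type u) [Group G] [Finite G] (P : Sylow p G) (e : ↥(P : Subgroup G) ≃* S),
        Cfsg.HasNormalPComplement p G ↔
          ∀ g ∈ Subgroup.normalizer (((K.comap (e : ↥(P : Subgroup G) →* S)).map (P : Subgroup G).subtype : Subgroup G) : Set G),
            (orderOf g).Coprime p →
              g ∈ Subgroup.centralizer (((K.comap (e : ↥(P : Subgroup G) →* S)).map (P : Subgroup G).subtype : Subgroup G) : Set G) := by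
  obtain ⟨K, h1, h2, h3⟩ := exists_decidesNPC hp _ S rfl hS
  refine ⟨K, h1, h2, fun G _ _ P e => ?_⟩
  have hK : (K.comap (e : ↥(P : Subgroup G) →* S)).map (P : Subgroup G).subtype =
      K.map ((P : Subgroup G).subtype.comp (e.symm : S →* ↥(P : Subgroup G))) := by
    rw [← map_map, map_equiv_eq_comap_symm]
    rfl
  have hr : ((P : Subgroup G).subtype.comp (e.symm : S →* ↥(P : Subgroup G))).range = P := by
    ext g
    constructor
    · rintro ⟨s, rfl⟩
      exact (e.symm s).2
    · intro hg
      exact ⟨e ⟨g, hg⟩, by simp⟩
  rw [hK, ← npc_top_iff]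
  constructor
  · intro h g hg hc
    exact h.mem_centralizer ((hS.to_subgroup K).map _) le_top (mem_top g) hg hc
  · intro h
    refine h3 G _ ((P : Subgroup G).subtype_injective.comp e.symm.injective) ?_
      (actsP_of_coprime le_rfl h)
    rw [hr]
    exact isSyl_sylow P

end Cfsg.Agent.S3073
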