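import Cfsg.Statements.S3074
import Cfsg.Agent.H8.Qd

set_option autoImplicit false
open Cfsg

namespace Cfsg.Agent.S3074

open Subgroup Cfsg.L0 Cfsg.H8
open scoped commutatorElement

theorem aux (p : ℕ) [Fact p.Prime] (hp : p ≠ 2) (P : Sylow p (qdOver (ZMod p))) :
    IsExtraspecial p P ∧ Nat.card P = p ^ 3 ∧ Monoid.exponent P = p := by
  have hS := isSyl_sylow P
  obtain ⟨g, -, hg⟩ := isSyl_heisGrp.exists_cj_eq hS
  let e : heisGrp (ZMod p) ≃* P := (cjEquiv g _).trans (MulEquiv.subgroupCongr hg)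
  have hc : Nat.card P = p ^ 3 := by
    rw [← Nat.card_congr e.toEquiv, card_heisGrp, ZMod.card]
  have hn : ¬ ∀ x y : P, x * y = y * x := fun h => by
    have := h (e ⟨heis 1 0 0, heis_mem _ _ _⟩) (e ⟨heis 0 1 0, heis_mem _ _ _⟩)
    rw [← map_mul, ← map_mul, e.apply_eq_iff_eq, Subtype.ext_iff] at this
    simp [heis_mul, heis_inj] at this
  refine ⟨isExtraspecial_of_card_cube hc hn, hc, ?_⟩
  have : Nontrivial P := by
    by_contra h
    have := not_nontrivial_iff_subsingleton.1 h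
    exact hn fun _ _ => Subsingleton.elim _ _
  refine (Monoid.exponent_eq_prime_iff Fact.out).2 fun x hx => orderOf_eq_prime ?_ hx
  obtain ⟨⟨x, hx1⟩, rfl⟩ := e.surjective x
  obtain ⟨a, b, c, rfl⟩ := mem_heisGrp.1 hx1
  rw [← map_pow, e.map_eq_one_iff]
  exact Subtype.ext (heis_pow_char hp a b c)

/-- Let p be an odd prime. A Sylow p-subgroup of Qd(p), the split extension of an elementary abelian group of order p² by SL₂(p) acting naturally, is extraspecial of order p³ and exponent p. -/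
theorem result (p : ℕ) [Fact p.Prime] (hp : p ≠ 2) (P : Sylow p ↥(Cfsg.qd p)) :
    Cfsg.IsExtraspecial p ↥P ∧ Nat.card P = p ^ 3 ∧ Monoid.exponent ↥P = p := by
  exact aux p hp P

end Cfsg.Agent.S3074
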