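import Cfsg.Statements.S3075
import Cfsg.Agent.H8.Qd
import Cfsg.Agent.H9.Coprime
import Cfsg.Agent.H7.Comm

set_option autoImplicit false
open Cfsg

namespace Cfsg.Agent.S3075

open Subgroup Cfsg.L0 Cfsg.H8
open scoped commutatorElement

theorem le_centralizer_of_card {N : Type*} [Group N] [Finite N] {p : ℕ} [hp : Fact p.Prime]
    {C P : Subgroup N} (hP : IsPGroup p P) (hC : Nat.card C = p) (hn : P ≤ normalizer (C : Set N)) :
    C ≤ centralizer (P : Set N) := by
  have h1 := H7.inf_centralizer_ne_bot hP (IsPGroup.of_card (n := 1) (by rw [hC, pow_one])) hn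
    (fun e => hp.out.one_lt.ne' (by rw [← hC, e, card_bot]))
  have h2 := card_dvd_of_le (inf_le_left : C ⊓ centralizer (P : Set N) ≤ C)
  rw [hC] at h2
  rcases (Nat.dvd_prime hp.out).1 h2 with e | e
  · exact absurd (card_eq_one.1 e) h1
  · exact inf_eq_left.1 (eq_of_le_of_card_ge inf_le_left (by rw [hC, e]))

/-- Let p be an odd prime and N a finite group with a normal elementary abelian subgroup A of order p² that is its own centralizer in N, such that N/A is isomorphic to SL₂(p) (over any field F with p elements). Then N splits over A: some subgroup U of N satisfies A ∩ U = 1 and AU = N. -/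
theorem result {N : Type*} [Group N] [Finite N] {p : ℕ} [Fact p.Prime] (hp : p ≠ 2)
    (A : Subgroup N) [A.Normal] (hAcomm : IsMulCommutative A) (hAcard : Nat.card A = p ^ 2) (hAexp : Monoid.exponent ↥A = p)
    (hAself : Subgroup.centralizer (A : Set N) = A)
    {F : Type*} [Field F] [Fintype F] (hF : Fintype.card F = p) (e : N ⧸ A ≃* Matrix.SpecialLinearGroup (Fin 2) F) :
    ∃ U : Subgroup N, A ⊓ U = ⊥ ∧ A ⊔ U = ⊤ := by
  have hp' : p.Prime := Fact.out
  have : CharP F p := charP_of_card_eq_prime hF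
  have h2 : (2 : F) ≠ 0 := fun h => hp ((Nat.prime_dvd_prime_iff_eq hp' Nat.prime_two).1
    ((CharP.cast_eq_zero_iff F p 2).1 h))
  set f : N →* Matrix.SpecialLinearGroup (Fin 2) F := e.toMonoidHom.comp (QuotientGroup.mk' A) with hf
  have hfs : Function.Surjective f := e.surjective.comp (QuotientGroup.mk'_surjective A)
  have hk : ∀ x, f x = 1 ↔ x ∈ A := fun x => by simp [hf]
  have hAp : IsPGroup p A := IsPGroup.of_card hAcard
  set Z := (center _).comap f with hZ
  obtain ⟨T, hT⟩ := exists_isSyl 2 Z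
  have hZT : Z ≤ A ⊔ T := fun g hg => by
    obtain ⟨a, ha, b, hb, rfl⟩ := hT.exists_mul_of_forall (N := A) le_normalizer_of_normal
      (fun x hx => ⟨1, (hk _).1 (by rcases H3.mem_center_SL2.1 hx with h | h <;> simp [h])⟩) hg
    exact mul_mem (mem_sup_left ha) (mem_sup_right hb)
  obtain ⟨k, hk2⟩ := IsPGroup.iff_card.1 hT.isPGroup
  have hcop : (Nat.card T).Coprime (Nat.card A) := by
    rw [hk2, hAcard]
    exact ((Nat.coprime_primes Nat.prime_two hp').2 hp.symm).pow _ _
  have hAT : A ⊓ T = ⊥ := disjoint_iff.1 (Subgroup.disjoint_of_coprime_natCard hcop.symm)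
  have hU : A ⊔ normalizer (T : Set N) = ⊤ := eq_top_iff.2 fun g _ => by
    obtain ⟨z, hz, n, hn, rfl⟩ := hT.frattini (le_normalizer_of_normal (mem_top g))
    exact mul_mem (sup_le_sup_left le_normalizer _ (hZT hz)) (mem_sup_right hn)
  refine ⟨normalizer (T : Set N), ?_, hU⟩
  have hC : A ⊓ normalizer (T : Set N) ≤ A ⊓ centralizer (T : Set N) := le_inf inf_le_left
    (H7.le_centralizer_of_commutator_le_bot (hAT ▸ le_inf
      ((commutator_mono le_top inf_le_left).trans (commutator_le_right _ _))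
      (H7.commutator_le_left_of_le_normalizer inf_le_right)))
  by_contra hne
  have hAA : A ≤ centralizer (A : Set N) := hAself.ge
  have h3 := (H9.coprimeAct_of_isMulCommutative (A := T) (K := A) le_normalizer_of_normal
    hcop).commutator_sup_centralizer
  have h4 := H9.commutator_inf_centralizer_eq_bot (A := T) (K := A) le_normalizer_of_normal hcop
  have hDA : ⁅A, T⁆ ≤ A := commutator_le_left _ _
  have hn : ∀ {X : Subgroup N}, X ≤ A → normalizer (T : Set N) ≤ normalizer (X : Set N) →
      ⊤ ≤ normalizer (X : Set N) := fun h1 h2 => hU.ge.trans (sup_le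
    ((hAA.trans (H7.centralizer_anti h1)).trans (centralizer_le_normalizer _)) h2)
  have hnD := hn hDA (le_normalizer_commutator le_normalizer_of_normal le_rfl)
  have hnC := hn (X := A ⊓ centralizer (T : Set N)) inf_le_left
    (le_normalizer_inf le_normalizer_of_normal (le_normalizer_centralizer le_rfl))
  have h5 := card_sup_mul_card_inf (H := ⁅A, T⁆) (le_top.trans hnC)
  rw [h3, ← inf_assoc, inf_eq_left.2 hDA, h4, card_bot, mul_one, hAcard] at h5
  have hD1 : Nat.card ↥⁅A, T⁆ ≠ 1 := fun h => by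
    rw [card_eq_one, H7.commutator_eq_bot_iff', hAself] at h
    obtain ⟨x, hx⟩ := hfs (-1)
    have := sup_le le_rfl h (hZT (show x ∈ Z from H3.mem_center_SL2.2 (Or.inr hx)))
    exact H3.neg_one_ne_one_SL2 h2 (hx.symm.trans ((hk x).2 this))
  have hC1 : Nat.card ↥(A ⊓ centralizer (T : Set N)) ≠ 1 := fun h =>
    hne (le_bot_iff.1 (hC.trans (card_eq_one.1 h).le))
  obtain ⟨i, hi, e1⟩ := (Nat.dvd_prime_pow hp').1 (Dvd.intro _ h5.symm)
  obtain ⟨j, hj, e2⟩ := (Nat.dvd_prime_pow hp').1 (Dvd.intro_left _ h5.symm)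
  rw [e1, e2, ← pow_add, Nat.pow_right_inj hp'.one_lt] at h5
  have hi0 : i ≠ 0 := by rintro rfl; exact hD1 e1
  have hj0 : j ≠ 0 := by rintro rfl; exact hC1 e2
  obtain rfl : i = 1 := by omega
  obtain rfl : j = 1 := by omega
  obtain ⟨P, hP⟩ := exists_isSyl p (⊤ : Subgroup N)
  have h6 : P ≤ A := by
    rw [← hAself, le_centralizer_iff, ← h3]
    exact sup_le (le_centralizer_of_card hP.isPGroup (e1.trans (pow_one p)) (le_top.trans hnD))
      (le_centralizer_of_card hP.isPGroup (e2.trans (pow_one p)) (le_top.trans hnC))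
  refine hP.not_dvd_of_le h6 ?_
  rw [relIndex_top_right, index_eq_card, Nat.card_congr e.toEquiv, H3.card_SL2, hF]
  exact dvd_mul_right _ _

end Cfsg.Agent.S3075
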