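import Cfsg.Statements.S3076
import Cfsg.Agent.H8.OpMod

set_option autoImplicit false
open Cfsg

namespace Cfsg.Agent.S3076

open Subgroup Cfsg.L0 Cfsg.H8
open scoped commutatorElement


/-- Let P be a Sylow p-subgroup of the finite group G and H ≤ P a subgroup with N_P(H) a Sylow p-subgroup of N_G(H). Let N be the preimage in N_G(H) of O_p(N_G(H)/C_G(H)). Then H is a Sylow p-subgroup of N if and only if C_P(H) ≤ H and O_{p',p}(N_G(H)) = H·C_G(H). -/
theorem result {G : Type*} [Group G] [Finite G] {p : ℕ} [Fact p.Prime]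
    (P : Sylow p G) (H : Subgroup G) (hHP : H ≤ (P : Subgroup G))
    (hSyl : ¬ p ∣ ((P : Subgroup G) ⊓ Subgroup.normalizer (H : Set G)).relIndex (Subgroup.normalizer (H : Set G)))
    [hC : ((Subgroup.centralizer (H : Set G)).subgroupOf (Subgroup.normalizer (H : Set G))).Normal] :
    (H ≤ ((Cfsg.pCore p (↥(Subgroup.normalizer (H : Set G)) ⧸
              (Subgroup.centralizer (H : Set G)).subgroupOf (Subgroup.normalizer (H : Set G)))).comap
            (QuotientGroup.mk' _)).map (Subgroup.normalizer (H : Set G)).subtype ∧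
      ¬ p ∣ H.relIndex (((Cfsg.pCore p (↥(Subgroup.normalizer (H : Set G)) ⧸
              (Subgroup.centralizer (H : Set G)).subgroupOf (Subgroup.normalizer (H : Set G)))).comap
            (QuotientGroup.mk' _)).map (Subgroup.normalizer (H : Set G)).subtype)) ↔
    ((P : Subgroup G) ⊓ Subgroup.centralizer (H : Set G) ≤ H ∧
      (Cfsg.pPrimePCore p ↥(Subgroup.normalizer (H : Set G))).map (Subgroup.normalizer (H : Set G)).subtype =
        H ⊔ Subgroup.centralizer (H : Set G)) := by
  rw [← opMod_eq_map, map_pPrimePCore]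
  set N := normalizer (H : Set G) with hN
  set C := centralizer (H : Set G) with hC'
  have hH : IsPGroup p H := P.isPGroup'.to_le hHP
  have hQ : IsSyl p ((P : Subgroup G) ⊓ N) N := ⟨inf_le_right, P.isPGroup'.to_inf_left, hSyl⟩
  have hNC : N ≤ normalizer (C : Set G) := le_normalizer_centralizer le_rfl
  have hCN : C ≤ N := centralizer_le_normalizer _
  have hHD : H ≤ opMod p N C := le_opMod_of_isPGroup le_normalizer le_rfl hH
  have hCD : C ≤ opMod p N C := le_trans (le_inf hCN le_rfl) (inf_le_opMod hNC)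
  have hQD := hQ.inf (opMod_le p N C) (hQ.le.trans (self_le_normalizer_opMod hNC))
  have hOC : H7.pPrimeCoreOf p N ≤ C := pPrimeCoreOf_le_centralizer hH le_normalizer le_rfl
  have hED : opMod p N (H7.pPrimeCoreOf p N) ≤ opMod p N C := opMod_mono_right hOC
  constructor
  · rintro ⟨-, h2⟩
    have h3 : (P : Subgroup G) ⊓ N ⊓ opMod p N C = H := IsSyl.eq_of_le ⟨hHD, hH, h2⟩ hQD.isPGroup
      (le_inf (le_inf hHP le_normalizer) hHD) inf_le_right
    have h4 : (P : Subgroup G) ⊓ C ≤ H := h3 ▸ le_inf (inf_le_inf_left _ hCN) (inf_le_right.trans hCD)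
    refine ⟨h4, le_antisymm (hED.trans ?_) (sup_le (le_opMod_of_isPGroup le_normalizer le_rfl hH) ?_)⟩
    · have := hQ.opMod_le_sup hNC
      rwa [h3, sup_comm] at this
    · have := npc_centralizer_of_centric (H := ⊤) (U := H) (Q := (P : Subgroup G) ⊓ N)
        (by rwa [top_inf_eq]) ((inf_le_inf_right _ inf_le_left).trans h4)
      rw [top_inf_eq] at this
      exact this.le_opMod hCN hNC
  · rintro ⟨h1, h2⟩
    refine ⟨hHD, ?_⟩
    have h3 : opMod p N C ≤ H ⊔ C := by
      rw [← h2]
      refine le_opMod (opMod_le _ _ _) (self_le_normalizer_opMod hNC) fun x hx => ?_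
      obtain ⟨k, hk⟩ := pow_mem_of_mem_opMod hNC hx
      obtain ⟨l, hl⟩ := pow_mem_of_mem_opMod (p := p) (H7.le_normalizer_pPrimeCoreOf p N)
        (h2.ge (mem_sup_right hk))
      exact ⟨k + l, by rwa [pow_add, pow_mul]⟩
    have h4 : (P : Subgroup G) ⊓ N ⊓ opMod p N C = H := by
      refine le_antisymm ?_ (le_inf (le_inf hHP le_normalizer) hHD)
      rintro x ⟨⟨hx, -⟩, hxD⟩
      obtain ⟨a, ha, c, hc, rfl⟩ := (mem_sup_of_le_normalizer_right (le_normalizer.trans hNC)).1 (h3 hxD)
      exact mul_mem ha (h1 ⟨(mul_mem_cancel_left (hHP ha)).1 hx, hc⟩)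
    rw [h4] at hQD
    exact hQD.not_dvd

end Cfsg.Agent.S3076
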