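import Cfsg.Statements.S3080
import Cfsg.Agent.H8.Control

set_option autoImplicit false
open Cfsg

namespace Cfsg.Agent.S3080

open Subgroup Cfsg.L0 Cfsg.H8
open scoped commutatorElement


/-- Let p be an odd prime, G a finite group that is p-stable in the normalizer form, P a Sylow p-subgroup such that N_G(U) is p-constrained for every nontrivial subgroup U of P, and D a subgroup of P strongly closed in P with respect to G. Then N_G(Z(J(D))) controls strong G-fusion in P (for every subset A of P and every g ∈ G with gAg⁻¹ ⊆ P, some element of that normalizer acts on A exactly as g does; J(D) is generated by the abelian subgroups of D of largest order), and so does N_G(Ω₁(Z(J_e(D)))) (J_e(D) generated by the elementary abelian subgroups of largest order). -/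
theorem result {G : Type*} [Group G] [Finite G] {p : ℕ} [Fact p.Prime] (hp : p ≠ 2) (P : Sylow p G) (D : Subgroup G) (hD : Cfsg.IsStronglyClosed D (P : Subgroup G)) (hst : Cfsg.IsNormalizerPStable p G) (hc : ∀ U : Subgroup G, U ≤ (P : Subgroup G) → U ≠ ⊥ → Cfsg.IsPConstrained p ↥(Subgroup.normalizer (U : Set G))) : (∀ A : Set G, A ⊆ (P : Subgroup G) → Cfsg.ControlsStrongFusionOf (Subgroup.normalizer ((Cfsg.centerThompsonAOf D) : Set G)) (P : Subgroup G) A) ∧ (∀ A : Set G, A ⊆ (P : Subgroup G) → Cfsg.ControlsStrongFusionOf (Subgroup.normalizer ((Cfsg.omegaOne p (Cfsg.centerThompsonOf p D)) : Set G)) (P : Subgroup G) A) := by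
  rw [centerThompsonAOf_eq, omegaOne_centerThompsonOf_eq, ← ctrl_top_iff, ← ctrl_top_iff]
  have key : ∀ e, p ∣ e → Ctrl (normalizer (ZJ e D : Set G)) ⊤ P := fun e he => by
    refine (ctrl_ZJ_of_local (isSyl_sylow P) hD he fun V hV hb hsyl => ?_).mono inf_le_right le_rfl le_rfl
    refine (ctrl_ZJ_of_constrained hp hsyl (sc_inf hD inf_le_left) e
      (stableIn_of_isNormalizerPStable hst _) (IsPConstrained.le_opMod ?_ hsyl)).mono
      (inf_le_inf_right _ inf_le_left) le_rfl le_rfl
    rw [top_inf_eq]
    exact hc V hV hb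
  exact ⟨key 0 (dvd_zero p), key p dvd_rfl⟩

end Cfsg.Agent.S3080
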