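import Cfsg.Statements.S3081
import Cfsg.Agent.H8.Stable

set_option autoImplicit false
open Cfsg

namespace Cfsg.Agent.S3081

open Subgroup Cfsg.L0 Cfsg.H8
open scoped commutatorElement


/-- Let p be an odd prime, G a finite group in which Qd(p) (the natural semidirect product of an elementary abelian group of order p² by SL₂(p)) is not involved, P a Sylow p-subgroup and D a subgroup of P strongly closed in P with respect to G. Then N_G(Z(J(D))) controls strong G-fusion in P (for every subset A of P and every g ∈ G with gAg⁻¹ ⊆ P, some element of that normalizer acts on A exactly as g does; J(D) is generated by the abelian subgroups of D of largest order), and so does N_G(Ω₁(Z(J_e(D)))) (J_e(D) generated by the elementary abelian subgroups of largest order). -/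
theorem result {G : Type*} [Group G] [Finite G] {p : ℕ} [Fact p.Prime] (hp : p ≠ 2) (P : Sylow p G) (D : Subgroup G) (hD : Cfsg.IsStronglyClosed D (P : Subgroup G)) (hqd : ¬ Cfsg.Involves ↥(Cfsg.qd p) G) : (∀ A : Set G, A ⊆ (P : Subgroup G) → Cfsg.ControlsStrongFusionOf (Subgroup.normalizer ((Cfsg.centerThompsonAOf D) : Set G)) (P : Subgroup G) A) ∧ (∀ A : Set G, A ⊆ (P : Subgroup G) → Cfsg.ControlsStrongFusionOf (Subgroup.normalizer ((Cfsg.omegaOne p (Cfsg.centerThompsonOf p D)) : Set G)) (P : Subgroup G) A) := by
  rw [centerThompsonAOf_eq, omegaOne_centerThompsonOf_eq, ← ctrl_top_iff, ← ctrl_top_iff]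
  have h1 := fun e (he : p ∣ e) => ctrl_ZJ_of_qd_free hp he (isSyl_sylow P) hD
    fun h => hqd (involves_top_iff.1 h)
  simp only [top_inf_eq] at h1
  exact ⟨h1 0 (dvd_zero p), h1 p dvd_rfl⟩

end Cfsg.Agent.S3081
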