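import Cfsg.Statements.S3087
import Cfsg.Agent.H7.Basic

set_option autoImplicit false
open Cfsg

namespace Cfsg.Agent.S3087

/-- Let p be a prime, G a finite group acting linearly on a finite vector space V over the field with p elements, W a G-invariant subspace, and A a subgroup of G with |A|·|C_V(A)| ≥ |B|·|C_V(B)| for every subgroup B of A. Then |A|·|C_W(A)| ≥ |B|·|C_W(B)| for every subgroup B of A that contains C_A(W); that is, the image of A in the group induced on W satisfies the same maximality condition. -/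
theorem result {G V : Type*} [Group G] [Finite G] [AddCommGroup V] [Finite V] (p : ℕ) [Fact p.Prime] [Module (ZMod p) V]
    (ρ : Representation (ZMod p) G V) (W : Submodule (ZMod p) V) (hW : ∀ g : G, ∀ w ∈ W, ρ g w ∈ W)
    (A : Subgroup G)
    (hP : ∀ B : Subgroup G, B ≤ A →
      Nat.card ↥B * Nat.card {v : V // ∀ b ∈ B, ρ b v = v} ≤ Nat.card ↥A * Nat.card {v : V // ∀ a ∈ A, ρ a v = v})
    (B : Subgroup G) (hBA : B ≤ A) (hCB : ∀ a ∈ A, (∀ w ∈ W, ρ a w = w) → a ∈ B) :
    Nat.card ↥B * Nat.card {w : W // ∀ b ∈ B, ρ b w = w} ≤ Nat.card ↥A * Nat.card {w : W // ∀ a ∈ A, ρ a w = w} := by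
  let C : Subgroup G → Subgroup (Multiplicative V) := fun B =>
    { carrier := {v | ∀ b ∈ B, ρ b v.toAdd = v.toAdd}
      one_mem' := fun b _ => by simp
      mul_mem' := fun {x y} hx hy b hb => by simp [hx b hb, hy b hb]
      inv_mem' := fun {x} hx b hb => by simp [hx b hb] }
  let W' : Subgroup (Multiplicative V) := W.toAddSubgroup.toSubgroup
  have e1 : ∀ B : Subgroup G, Nat.card {v : V // ∀ b ∈ B, ρ b v = v} = Nat.card (C B) :=
    fun B => rfl
  have e2 : ∀ B : Subgroup G, Nat.card {w : W // ∀ b ∈ B, ρ b w = w} = Nat.card ↥(W' ⊓ C B) :=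
    fun B => Nat.card_congr (Equiv.subtypeSubtypeEquivSubtypeInter (fun v : V => v ∈ W)
      (fun v => ∀ b ∈ B, ρ b v = v))
  have h1 := hP B hBA
  rw [e1, e1] at h1
  rw [e2, e2]
  have hle : C A ≤ C B := fun v hv b hb => hv b (hBA hb)
  have h2 := H7.card_sup_mul_card_inf (H := C A) (N := W' ⊓ C B)
    (by rw [Subgroup.normalizer_eq_top]; exact le_top)
  have h3 : Nat.card ↥(C A ⊔ (W' ⊓ C B)) ≤ Nat.card (C B) :=
    Subgroup.card_le_of_le (sup_le hle inf_le_right)
  rw [← inf_assoc, inf_right_comm, inf_eq_left.mpr hle, inf_comm (C A)] at h2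
  refine Nat.le_of_mul_le_mul_left ?_ (Nat.card_pos (α := C A))
  calc _ = Nat.card B * (Nat.card (C A) * Nat.card ↥(W' ⊓ C B)) := by ring
    _ ≤ Nat.card B * (Nat.card (C B) * Nat.card ↥(W' ⊓ C A)) := by
      rw [← h2]; gcongr
    _ ≤ Nat.card A * Nat.card (C A) * Nat.card ↥(W' ⊓ C A) := by
      rw [← mul_assoc]; gcongr
    _ = _ := by ring

end Cfsg.Agent.S3087
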